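import Mathlib
import Cfsg.Agent.Lib.Helper1.Hall2
import Cfsg.Agent.Lib.Helper24.Fitting
import Cfsg.Agent.Lib.Helper21.Basic
import Cfsg.Agent.Lib.Helper21.Subnormal
import Cfsg.Agent.Lib.Helper21.Nilp
import Cfsg.Agent.Lib.Helper21.SylowRel

set_option autoImplicit false

namespace Cfsg.Agent.Lib.Helper21

open scoped commutatorElement

section FittingK

variable {N : Type*} [Group N]

/-- A normal nilpotent subgroup lies in any subgroup containing all its normal `p`-subgroups. -/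
theorem le_of_normal_pSubgroups_le [Finite N] (D : Subgroup N) [D.Normal]
    (hD : Group.IsNilpotent D) (R : Subgroup N)
    (h : ∀ p : ℕ, p.Prime → ∀ W : Subgroup N, W.Normal → W ≤ D → IsPGroup p W → W ≤ R) :
    D ≤ R := by
  rw [← Subgroup.relIndex_eq_one]
  by_contra hne
  obtain ⟨p, hp, hdvd⟩ := Nat.exists_prime_and_dvd hne
  haveI := Fact.mk hp
  obtain ⟨W, hWn, hWD, hWp, hWi⟩ := Helper24.exists_normal_sylow_of_nilpotent D hD p
  have hWR : W ≤ R := h p hp W hWn hWD hWp
  exact hWi (hdvd.trans (Subgroup.relIndex_dvd_of_le_left D hWR))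

/-- Normal subgroups that are a `p`-group and a `q`-group for `p ≠ q` commute elementwise. -/
theorem commute_of_normal_pGroups {p q : ℕ} [Fact p.Prime] [Fact q.Prime] (hpq : p ≠ q)
    {A B : Subgroup N} [A.Normal] [B.Normal] (hA : IsPGroup p A) (hB : IsPGroup q B)
    {a b : N} (ha : a ∈ A) (hb : b ∈ B) : a * b = b * a := by
  have hdis := IsPGroup.disjoint_of_ne p q hpq A B hA hB
  have h1 : a * b * a⁻¹ * b⁻¹ ∈ A := by
    have : a * b * a⁻¹ * b⁻¹ = a * (b * a⁻¹ * b⁻¹) := by group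
    rw [this]
    exact A.mul_mem ha (Subgroup.Normal.conj_mem inferInstance _ (A.inv_mem ha) b)
  have h2 : a * b * a⁻¹ * b⁻¹ ∈ B :=
    B.mul_mem (Subgroup.Normal.conj_mem inferInstance _ hb a) (B.inv_mem hb)
  have h3 : a * b * a⁻¹ * b⁻¹ ∈ A ⊓ B := ⟨h1, h2⟩
  rw [disjoint_iff.mp hdis, Subgroup.mem_bot] at h3
  calc a * b = (a * b * a⁻¹ * b⁻¹) * (b * a) := by group
    _ = b * a := by rw [h3, one_mul]

/-- Core step: a normal subgroup `M` which is a `q`-group modulo the Fitting subgroup and whose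
`q`-elements centralize `O_p` for all `p ≠ q` lies in the Fitting subgroup. -/
theorem le_fitting_core [Finite N] (M : Subgroup N) [M.Normal] {q : ℕ} [Fact q.Prime]
    (h1 : ∀ m ∈ M, ∃ j : ℕ, m ^ (q ^ j) ∈ Cfsg.fittingSubgroup N)
    (h2 : ∀ p : ℕ, p.Prime → p ≠ q → ∀ x ∈ M, (∃ j : ℕ, x ^ (q ^ j) = 1) →
      ∀ y ∈ Cfsg.pCore p N, x * y = y * x) :
    M ≤ Cfsg.fittingSubgroup N := by
  classical
  have hq : q.Prime := Fact.out
  haveI hFn : (Cfsg.fittingSubgroup N).Normal := fittingSubgroup_normal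
  have hFnil : Group.IsNilpotent (Cfsg.fittingSubgroup N) := fittingSubgroup_isNilpotent
  have hDnil : Group.IsNilpotent ↥(M ⊓ Cfsg.fittingSubgroup N) := by
    haveI := hFnil
    have e := Subgroup.subgroupOfEquivOfLe
      (inf_le_right : M ⊓ Cfsg.fittingSubgroup N ≤ Cfsg.fittingSubgroup N)
    exact (Group.isNilpotent_congr e).mp inferInstance
  obtain ⟨Q₀⟩ : Nonempty (Sylow q M) := inferInstance
  obtain ⟨hQM, hQp, hQidx⟩ := isSylOf_map_subtype Q₀
  have hOq : IsPGroup q (Cfsg.pCore q N) := pCore_isPGroup q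
  have hTM : (Cfsg.pCore q N ⊓ M) ⊔ (Q₀ : Subgroup M).map M.subtype ≤ M := sup_le inf_le_right hQM
  have hTq : IsPGroup q ↥((Cfsg.pCore q N ⊓ M) ⊔ (Q₀ : Subgroup M).map M.subtype) := by
    apply IsPGroup.to_sup_of_normal_left' (hOq.to_le inf_le_left) hQp
    rw [Subgroup.normalizer_eq_top]
    exact le_top
  have hQel : ∀ x ∈ (Q₀ : Subgroup M).map M.subtype, ∃ j : ℕ, x ^ (q ^ j) = 1 := by
    intro x hx
    obtain ⟨j, hj⟩ := hQp ⟨x, hx⟩
    exact ⟨j, by simpa using congrArg Subtype.val hj⟩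
  have hDT : M ⊓ Cfsg.fittingSubgroup N ≤ Subgroup.normalizer
      ((((Cfsg.pCore q N ⊓ M) ⊔ (Q₀ : Subgroup M).map M.subtype : Subgroup N)) : Set N) := by
    apply le_of_normal_pSubgroups_le (M ⊓ Cfsg.fittingSubgroup N) hDnil
    intro p hp W hWn hWD hWp
    haveI := Fact.mk hp
    haveI := hWn
    by_cases hpq : p = q
    · subst hpq
      have hWO : W ≤ Cfsg.pCore p N := le_sSup ⟨hWn, hWp⟩
      exact (le_inf hWO (hWD.trans inf_le_left)).trans (le_sup_left.trans Subgroup.le_normalizer)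
    · have hWOp : W ≤ Cfsg.pCore p N := le_sSup ⟨hWn, hWp⟩
      have hcent : (Cfsg.pCore q N ⊓ M) ⊔ (Q₀ : Subgroup M).map M.subtype ≤
          Subgroup.centralizer (W : Set N) := by
        apply sup_le
        · intro y hy
          rw [Subgroup.mem_centralizer_iff]
          intro w hw
          exact commute_of_normal_pGroups hpq hWp hOq hw hy.1
        · intro x hx
          rw [Subgroup.mem_centralizer_iff]
          intro w hw
          exact (h2 p hp hpq x (hQM hx) (hQel x hx) w (hWOp hw)).symm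
      exact (Subgroup.le_centralizer_iff.mp hcent).trans (Subgroup.centralizer_le_normalizer _)
  have hMDQ : M ≤ (M ⊓ Cfsg.fittingSubgroup N) ⊔ (Q₀ : Subgroup M).map M.subtype := by
    rw [← Subgroup.relIndex_eq_one]
    have d1 : ((M ⊓ Cfsg.fittingSubgroup N) ⊔ (Q₀ : Subgroup M).map M.subtype).relIndex M ∣
        ((Q₀ : Subgroup M).map M.subtype).relIndex M :=
      Subgroup.relIndex_dvd_of_le_left M le_sup_right
    have d2 : ((M ⊓ Cfsg.fittingSubgroup N) ⊔ (Q₀ : Subgroup M).map M.subtype).relIndex M ∣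
        (M ⊓ Cfsg.fittingSubgroup N).relIndex M :=
      Subgroup.relIndex_dvd_of_le_left M le_sup_left
    have hpow : ∃ i, (M ⊓ Cfsg.fittingSubgroup N).relIndex M = q ^ i := by
      haveI : ((M ⊓ Cfsg.fittingSubgroup N).subgroupOf M).Normal :=
        Subgroup.Normal.subgroupOf inferInstance M
      have hpg : IsPGroup q (↥M ⧸ (M ⊓ Cfsg.fittingSubgroup N).subgroupOf M) := by
        intro x
        obtain ⟨m, rfl⟩ := QuotientGroup.mk_surjective x
        obtain ⟨j, hj⟩ := h1 m m.2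
        refine ⟨j, ?_⟩
        rw [← QuotientGroup.mk_pow, QuotientGroup.eq_one_iff, Subgroup.mem_subgroupOf]
        exact ⟨M.pow_mem m.2 _, hj⟩
      obtain ⟨i, hi⟩ := IsPGroup.iff_card.mp hpg
      exact ⟨i, by rw [Subgroup.relIndex, Subgroup.index_eq_card]; exact hi⟩
    obtain ⟨i, hi⟩ := hpow
    rw [hi] at d2
    obtain ⟨i', -, hi'⟩ := (Nat.dvd_prime_pow hq).mp d2
    rcases i' with _ | i'
    · simpa using hi'
    · exfalso
      apply hQidx
      refine Dvd.dvd.trans ?_ d1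
      rw [hi', pow_succ]
      exact dvd_mul_left q _
  have hMT : M ≤ Subgroup.normalizer
      ((((Cfsg.pCore q N ⊓ M) ⊔ (Q₀ : Subgroup M).map M.subtype : Subgroup N)) : Set N) :=
    hMDQ.trans (sup_le hDT ((le_sup_right : (Q₀ : Subgroup M).map M.subtype ≤ _).trans
      Subgroup.le_normalizer))
  have hTsub : ((Cfsg.pCore q N ⊓ M) ⊔ (Q₀ : Subgroup M).map M.subtype).IsSubnormal :=
    Subgroup.IsSubnormal.step _ M hTM (Subgroup.Normal.isSubnormal inferInstance)
      (Subgroup.normal_subgroupOf_of_le_normalizer hMT)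
  have hTOq := subnormal_pGroup_le_pCore q hTsub hTq
  have hQF : (Q₀ : Subgroup M).map M.subtype ≤ Cfsg.fittingSubgroup N :=
    (le_sup_right.trans hTOq).trans (pCore_le_fittingSubgroup q)
  exact hMDQ.trans (sup_le inf_le_right hQF)

/-- A normal subgroup `K` of a finite solvable group whose `q`-elements centralize `O_p` for all
primes `p ≠ q` lies in the Fitting subgroup. -/
theorem le_fitting_of_coprime_centralize [Finite N] [hsolv : Group.IsSolvable N]
    (K : Subgroup N) [K.Normal]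
    (h : ∀ q p : ℕ, q.Prime → p.Prime → p ≠ q → ∀ x ∈ K, (∃ j : ℕ, x ^ (q ^ j) = 1) →
      ∀ y ∈ Cfsg.pCore p N, x * y = y * x) : K ≤ Cfsg.fittingSubgroup N := by
  classical
  haveI hFn : (Cfsg.fittingSubgroup N).Normal := fittingSubgroup_normal
  by_contra hKF
  have hπ : Function.Surjective (QuotientGroup.mk' (Cfsg.fittingSubgroup N)) :=
    QuotientGroup.mk'_surjective _
  have hKbar_ne : K.map (QuotientGroup.mk' (Cfsg.fittingSubgroup N)) ≠ ⊥ := by
    intro h0
    apply hKF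
    intro k hk
    have h1 : QuotientGroup.mk' (Cfsg.fittingSubgroup N) k ∈
        K.map (QuotientGroup.mk' (Cfsg.fittingSubgroup N)) := Subgroup.mem_map_of_mem _ hk
    rw [h0, Subgroup.mem_bot] at h1
    exact (QuotientGroup.eq_one_iff k).mp h1
  have hKbn : (K.map (QuotientGroup.mk' (Cfsg.fittingSubgroup N))).Normal :=
    Subgroup.Normal.map inferInstance _ hπ
  obtain ⟨q, hq, Lb, hLbK, hLbn, hLbne, hLbq⟩ := Helper1.exists_normal_pgroup_le
    (Nat.card (K.map (QuotientGroup.mk' (Cfsg.fittingSubgroup N))))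
    (K.map (QuotientGroup.mk' (Cfsg.fittingSubgroup N))) le_rfl hKbn hKbar_ne inferInstance
  haveI := Fact.mk hq
  haveI : (Lb.comap (QuotientGroup.mk' (Cfsg.fittingSubgroup N))).Normal := hLbn.comap _
  have hMF : Lb.comap (QuotientGroup.mk' (Cfsg.fittingSubgroup N)) ⊓ K ≤ Cfsg.fittingSubgroup N := by
    apply le_fitting_core _ (q := q)
    · intro m hm
      have hm1 : QuotientGroup.mk' (Cfsg.fittingSubgroup N) m ∈ Lb := hm.1
      obtain ⟨j, hj⟩ := hLbq ⟨_, hm1⟩
      refine ⟨j, ?_⟩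
      have h3 : (QuotientGroup.mk' (Cfsg.fittingSubgroup N) m) ^ (q ^ j) = 1 := by
        simpa using congrArg Subtype.val hj
      rw [← map_pow] at h3
      exact (QuotientGroup.eq_one_iff _).mp h3
    · intro p hp hpq x hx hxq y hy
      exact h q p hq hp hpq x hx.2 hxq y hy
  have hLF : Lb.comap (QuotientGroup.mk' (Cfsg.fittingSubgroup N)) ≤ Cfsg.fittingSubgroup N := by
    intro l hl
    have hl1 : QuotientGroup.mk' (Cfsg.fittingSubgroup N) l ∈ Lb := hl
    obtain ⟨k, hk, hkl⟩ := hLbK hl1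
    have hkL : k ∈ Lb.comap (QuotientGroup.mk' (Cfsg.fittingSubgroup N)) := by
      show QuotientGroup.mk' (Cfsg.fittingSubgroup N) k ∈ Lb
      rw [hkl]; exact hl1
    have h2 : k⁻¹ * l ∈ Cfsg.fittingSubgroup N := QuotientGroup.eq.mp hkl
    have e : l = k * (k⁻¹ * l) := by group
    rw [e]
    exact Subgroup.mul_mem _ (hMF ⟨hkL, hk⟩) h2
  apply hLbne
  rw [← Subgroup.map_comap_eq_self_of_surjective hπ Lb, eq_bot_iff]
  rintro _ ⟨l, hl, rfl⟩
  rw [Subgroup.mem_bot]
  exact (QuotientGroup.eq_one_iff l).mpr (hLF hl)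

end FittingK

end Cfsg.Agent.Lib.Helper21
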