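import Mathlib

namespace Cfsg.Agent.Lib.Helper21

open scoped commutatorElement

/-- permutations preserving every orbit of `P`. -/
def seY {Ω : Type} (P : Subgroup (Equiv.Perm Ω)) : Subgroup (Equiv.Perm Ω) where
  carrier := {σ | ∀ ω : Ω, σ ω ∈ MulAction.orbit P ω}
  one_mem' := fun ω => MulAction.mem_orbit_self ω
  mul_mem' := by
    intro a b ha hb ω
    have h1 := ha (b ω)
    have h2 := hb ω
    rw [MulAction.orbit_eq_iff.mpr h2] at h1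
    exact h1
  inv_mem' := by
    intro a ha ω
    have h1 := ha (a⁻¹ ω)
    have h0 : a (a⁻¹ ω) = ω := a.apply_symm_apply ω
    rw [h0] at h1
    exact MulAction.orbit_eq_iff.mp (MulAction.orbit_eq_iff.mpr h1).symm

lemma se_mem_Y {Ω : Type} (P : Subgroup (Equiv.Perm Ω)) (σ : Equiv.Perm Ω) :
    σ ∈ seY P ↔ ∀ ω : Ω, σ ω ∈ MulAction.orbit P ω := Iff.rfl

/-- orbit-full `p`-subgroups: maximal among the `p`-subgroups preserving the orbits. -/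
def seF (p : ℕ) {Ω : Type} (P : Subgroup (Equiv.Perm Ω)) : Prop :=
  ∀ R : Subgroup (Equiv.Perm Ω), IsPGroup p R → P ≤ R → R ≤ seY P → R ≤ P

lemma se_le_Y {Ω : Type} (P : Subgroup (Equiv.Perm Ω)) : P ≤ seY P := by
  intro g hg ω
  exact ⟨⟨g, hg⟩, rfl⟩

lemma se_pow_mul {G : Type*} [Group G] (H : Subgroup G) (a b : G) (ha : a ∈ H) (hb : b ∈ H)
    (k : ℕ) (hak : a ^ k ∈ ⁅H, H⁆) (hbk : b ^ k ∈ ⁅H, H⁆) : (a * b) ^ k ∈ ⁅H, H⁆ := by
  have key : ∀ z : H, Abelianization.of z = 1 ↔ (z : G) ∈ ⁅H, H⁆ := by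
    intro z
    rw [← MonoidHom.mem_ker, Abelianization.ker_of, ← Subgroup.map_subtype_commutator H]
    constructor
    · intro h; exact ⟨z, h, rfl⟩
    · rintro ⟨w, hw, hwz⟩
      have : w = z := Subtype.ext hwz
      rwa [← this]
  have h1 : Abelianization.of (⟨a, ha⟩ : H) ^ k = 1 := by
    rw [← map_pow]
    exact (key (⟨a, ha⟩ ^ k)).mpr (by rw [Subgroup.coe_pow]; exact hak)
  have h2 : Abelianization.of (⟨b, hb⟩ : H) ^ k = 1 := by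
    rw [← map_pow]
    exact (key (⟨b, hb⟩ ^ k)).mpr (by rw [Subgroup.coe_pow]; exact hbk)
  have h3 : Abelianization.of ((⟨a, ha⟩ : H) * ⟨b, hb⟩) ^ k = 1 := by
    rw [map_mul, mul_pow, h1, h2, mul_one]
  rw [← map_pow] at h3
  have h4 := (key _).mp h3
  rw [Subgroup.coe_pow] at h4
  exact h4

lemma se_comm_mul {G : Type*} [Group G] (u v a c : G) (h1 : Commute a v) (h2 : Commute a c)
    (h3 : Commute c u) : ⁅u * a, v * c⁆ = ⁅u, v⁆ := by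
  have e1 : a * (v * c) * a⁻¹ = v * c := by
    rw [(h1.mul_right h2).eq, mul_inv_cancel_right]
  have e2 : c * u⁻¹ * c⁻¹ = u⁻¹ := by
    rw [(h3.inv_right).eq, mul_inv_cancel_right]
  rw [commutatorElement_def, commutatorElement_def]
  calc u * a * (v * c) * (u * a)⁻¹ * (v * c)⁻¹
      = u * (a * (v * c) * a⁻¹) * u⁻¹ * (v * c)⁻¹ := by group
    _ = u * (v * c) * u⁻¹ * (v * c)⁻¹ := by rw [e1]
    _ = u * v * (c * u⁻¹ * c⁻¹) * v⁻¹ := by group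
    _ = u * v * u⁻¹ * v⁻¹ := by rw [e2]

lemma se_mixed {Ω : Type} [Fintype Ω] [DecidableEq Ω] (P E : Subgroup (Equiv.Perm Ω))
    (hE : E ≤ P) (b : Equiv.Perm Ω) (hb : b ∈ P) (hsb : Equiv.Perm.sign b = -1)
    (hcomm : ∀ u ∈ E, Commute b u) :
    ⁅E, E⁆ ≤ ⁅P ⊓ alternatingGroup Ω, P ⊓ alternatingGroup Ω⁆ := by
  have key : ∀ u ∈ E, ∃ a : Equiv.Perm Ω, (a = 1 ∨ a = b) ∧ u * a ∈ P ⊓ alternatingGroup Ω := by
    intro u hu
    rcases Int.units_eq_one_or (Equiv.Perm.sign u) with h | h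
    · exact ⟨1, Or.inl rfl, by rw [mul_one]; exact ⟨hE hu, Equiv.Perm.mem_alternatingGroup.mpr h⟩⟩
    · refine ⟨b, Or.inr rfl, ⟨P.mul_mem (hE hu) hb, Equiv.Perm.mem_alternatingGroup.mpr ?_⟩⟩
      rw [map_mul, h, hsb]; simp
  rw [Subgroup.commutator_le]
  intro u hu v hv
  obtain ⟨a, ha, hua⟩ := key u hu
  obtain ⟨c, hc, hvc⟩ := key v hv
  have h1 : Commute a v := by
    rcases ha with h | h
    · rw [h]; exact Commute.one_left v
    · rw [h]; exact hcomm v hv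
  have h2 : Commute a c := by
    rcases ha with h | h
    · rw [h]; exact Commute.one_left c
    · rcases hc with h' | h'
      · rw [h']; exact Commute.one_right _
      · rw [h, h']
  have h3 : Commute c u := by
    rcases hc with h | h
    · rw [h]; exact Commute.one_left u
    · rw [h]; exact hcomm u hu
  rw [← se_comm_mul u v a c h1 h2 h3]
  exact Subgroup.commutator_mem_commutator hua hvc

lemma se_commute {Ω : Type} (q q' : Ω → Prop) [DecidablePred q] [DecidablePred q']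
    (hqq : ∀ y, q' y ↔ ¬ q y) (s : Equiv.Perm {y // q y}) (t : Equiv.Perm {y // q' y}) :
    Commute (Equiv.Perm.ofSubtype s) (Equiv.Perm.ofSubtype t) := by
  show Equiv.Perm.ofSubtype s * Equiv.Perm.ofSubtype t
    = Equiv.Perm.ofSubtype t * Equiv.Perm.ofSubtype s
  apply Equiv.ext; intro y
  show Equiv.Perm.ofSubtype s (Equiv.Perm.ofSubtype t y)
    = Equiv.Perm.ofSubtype t (Equiv.Perm.ofSubtype s y)
  by_cases hy : q y
  · have hy' : ¬ q' y := fun h => (hqq y).mp h hy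
    rw [Equiv.Perm.ofSubtype_apply_of_not_mem t hy']
    have e : Equiv.Perm.ofSubtype s y = ((s ⟨y, hy⟩ : {y // q y}) : Ω) :=
      Equiv.Perm.ofSubtype_apply_of_mem s hy
    rw [e]
    have h3 : ¬ q' ((s ⟨y, hy⟩ : {y // q y}) : Ω) := fun h => (hqq _).mp h (s ⟨y, hy⟩).2
    rw [Equiv.Perm.ofSubtype_apply_of_not_mem t h3]
  · have hy' : q' y := (hqq y).mpr hy
    rw [Equiv.Perm.ofSubtype_apply_of_not_mem s hy]
    have e : Equiv.Perm.ofSubtype t y = ((t ⟨y, hy'⟩ : {y // q' y}) : Ω) :=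
      Equiv.Perm.ofSubtype_apply_of_mem t hy'
    rw [e]
    have h3 : ¬ q ((t ⟨y, hy'⟩ : {y // q' y}) : Ω) := (hqq _).mp (t ⟨y, hy'⟩).2
    rw [Equiv.Perm.ofSubtype_apply_of_not_mem s h3]

lemma se_decomp {Ω : Type} (q q' : Ω → Prop) [DecidablePred q] [DecidablePred q']
    (hqq : ∀ y, q' y ↔ ¬ q y) (P : Subgroup (Equiv.Perm Ω))
    (r₁ : P →* Equiv.Perm {y // q y})
    (hr₁ : ∀ g : P, ∀ y : {y // q y}, ((r₁ g y : {y // q y}) : Ω) = (g : Equiv.Perm Ω) y)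
    (r₂ : P →* Equiv.Perm {y // q' y})
    (hr₂ : ∀ g : P, ∀ y : {y // q' y}, ((r₂ g y : {y // q' y}) : Ω) = (g : Equiv.Perm Ω) y)
    (g : P) :
    (g : Equiv.Perm Ω) = Equiv.Perm.ofSubtype (r₁ g) * Equiv.Perm.ofSubtype (r₂ g) := by
  apply Equiv.ext; intro y
  show (g : Equiv.Perm Ω) y = Equiv.Perm.ofSubtype (r₁ g) (Equiv.Perm.ofSubtype (r₂ g) y)
  by_cases hy : q y
  · have hy' : ¬ q' y := fun h => (hqq y).mp h hy
    rw [Equiv.Perm.ofSubtype_apply_of_not_mem _ hy', Equiv.Perm.ofSubtype_apply_of_mem _ hy, hr₁]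
  · have hy' : q' y := (hqq y).mpr hy
    rw [Equiv.Perm.ofSubtype_apply_of_mem _ hy', hr₂]
    have h3 : ¬ q ((g : Equiv.Perm Ω) y) := by
      have h4 := (r₂ g ⟨y, hy'⟩).2
      rw [hr₂] at h4
      exact (hqq _).mp h4
    rw [Equiv.Perm.ofSubtype_apply_of_not_mem _ h3]

lemma se_restrict (p : ℕ) [Fact p.Prime] {Ω : Type} [Finite Ω] (P : Subgroup (Equiv.Perm Ω))
    (hF : seF p P) (hP : IsPGroup p P) (q q' : Ω → Prop) [DecidablePred q] [DecidablePred q']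
    (hqq : ∀ y, q' y ↔ ¬ q y)
    (r₁ : P →* Equiv.Perm {y // q y})
    (hr₁ : ∀ g : P, ∀ y : {y // q y}, ((r₁ g y : {y // q y}) : Ω) = (g : Equiv.Perm Ω) y)
    (r₂ : P →* Equiv.Perm {y // q' y})
    (hr₂ : ∀ g : P, ∀ y : {y // q' y}, ((r₂ g y : {y // q' y}) : Ω) = (g : Equiv.Perm Ω) y)
    (R₁ : Subgroup (Equiv.Perm {y // q y})) (hR₁ : IsPGroup p R₁) (h1 : r₁.range ≤ R₁)
    (h2 : R₁ ≤ seY r₁.range) : ∀ σ ∈ R₁, Equiv.Perm.ofSubtype σ ∈ P := by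
  intro σ hσ
  obtain ⟨E₁, hE₁⟩ : ∃ E₁ : Subgroup (Equiv.Perm Ω), E₁ = R₁.map Equiv.Perm.ofSubtype :=
    ⟨_, rfl⟩
  obtain ⟨E₂, hE₂⟩ : ∃ E₂ : Subgroup (Equiv.Perm Ω), E₂ = r₂.range.map Equiv.Perm.ofSubtype :=
    ⟨_, rfl⟩
  have hE₁p : IsPGroup p E₁ := by rw [hE₁]; exact hR₁.map _
  have hE₂p : IsPGroup p E₂ := by
    rw [hE₂]
    exact (hP.of_surjective r₂.rangeRestrict r₂.rangeRestrict_surjective).map _
  have hcomm : ∀ a ∈ E₁, ∀ b ∈ E₂, a * b = b * a := by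
    intro a ha b hb
    rw [hE₁] at ha; rw [hE₂] at hb
    obtain ⟨s, hs, rfl⟩ := ha
    obtain ⟨t, ht, rfl⟩ := hb
    exact (se_commute q q' hqq s t).eq
  have hRp : IsPGroup p ↥(E₁ ⊔ E₂) := by
    apply IsPGroup.to_sup_of_normal_right' hE₁p hE₂p
    intro a ha
    exact Subgroup.centralizer_le_normalizer _
      (Subgroup.mem_centralizer_iff.mpr (fun b hb => (hcomm a ha b hb).symm))
  have hPR : P ≤ E₁ ⊔ E₂ := by
    intro g hg
    have e : g = Equiv.Perm.ofSubtype (r₁ ⟨g, hg⟩) * Equiv.Perm.ofSubtype (r₂ ⟨g, hg⟩) :=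
      se_decomp q q' hqq P r₁ hr₁ r₂ hr₂ ⟨g, hg⟩
    rw [e]
    exact Subgroup.mul_mem _
      (Subgroup.mem_sup_left (by rw [hE₁]; exact ⟨_, h1 ⟨_, rfl⟩, rfl⟩))
      (Subgroup.mem_sup_right (by rw [hE₂]; exact ⟨_, ⟨_, rfl⟩, rfl⟩))
  have hRY : E₁ ⊔ E₂ ≤ seY P := by
    apply sup_le
    · rw [hE₁]
      rintro _ ⟨s, hs, rfl⟩ y
      by_cases hy : q y
      · obtain ⟨⟨τ, ⟨g, rfl⟩⟩, hτ⟩ := h2 hs ⟨y, hy⟩
        show Equiv.Perm.ofSubtype s y ∈ MulAction.orbit P y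
        rw [Equiv.Perm.ofSubtype_apply_of_mem _ hy]
        refine ⟨g, ?_⟩
        have e := congrArg Subtype.val hτ
        rw [← e]
        show (g : Equiv.Perm Ω) y = ((r₁ g ⟨y, hy⟩ : {y // q y}) : Ω)
        rw [hr₁]
      · show Equiv.Perm.ofSubtype s y ∈ MulAction.orbit P y
        rw [Equiv.Perm.ofSubtype_apply_of_not_mem _ hy]
        exact MulAction.mem_orbit_self y
    · rw [hE₂]
      rintro _ ⟨_, ⟨g, rfl⟩, rfl⟩ y
      by_cases hy : q' y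
      · show Equiv.Perm.ofSubtype (r₂ g) y ∈ MulAction.orbit P y
        rw [Equiv.Perm.ofSubtype_apply_of_mem _ hy, hr₂]
        exact ⟨g, rfl⟩
      · show Equiv.Perm.ofSubtype (r₂ g) y ∈ MulAction.orbit P y
        rw [Equiv.Perm.ofSubtype_apply_of_not_mem _ hy]
        exact MulAction.mem_orbit_self y
  have hR := hF (E₁ ⊔ E₂) hRp hPR hRY
  exact hR (Subgroup.mem_sup_left (by rw [hE₁]; exact ⟨σ, hσ, rfl⟩))

lemma se_restrict_mem (p : ℕ) [Fact p.Prime] {Ω : Type} [Finite Ω]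
    (P : Subgroup (Equiv.Perm Ω))
    (hF : seF p P) (hP : IsPGroup p P) (q q' : Ω → Prop) [DecidablePred q] [DecidablePred q']
    (hqq : ∀ y, q' y ↔ ¬ q y)
    (r₁ : P →* Equiv.Perm {y // q y})
    (hr₁ : ∀ g : P, ∀ y : {y // q y}, ((r₁ g y : {y // q y}) : Ω) = (g : Equiv.Perm Ω) y)
    (r₂ : P →* Equiv.Perm {y // q' y})
    (hr₂ : ∀ g : P, ∀ y : {y // q' y}, ((r₂ g y : {y // q' y}) : Ω) = (g : Equiv.Perm Ω) y)
    (g : P) : Equiv.Perm.ofSubtype (r₁ g) ∈ P :=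
  se_restrict p P hF hP q q' hqq r₁ hr₁ r₂ hr₂ r₁.range
    (hP.of_surjective r₁.rangeRestrict r₁.rangeRestrict_surjective) le_rfl (se_le_Y _) _ ⟨g, rfl⟩

lemma se_restrict_F (p : ℕ) [Fact p.Prime] {Ω : Type} [Finite Ω]
    (P : Subgroup (Equiv.Perm Ω))
    (hF : seF p P) (hP : IsPGroup p P) (q q' : Ω → Prop) [DecidablePred q] [DecidablePred q']
    (hqq : ∀ y, q' y ↔ ¬ q y)
    (r₁ : P →* Equiv.Perm {y // q y})
    (hr₁ : ∀ g : P, ∀ y : {y // q y}, ((r₁ g y : {y // q y}) : Ω) = (g : Equiv.Perm Ω) y)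
    (r₂ : P →* Equiv.Perm {y // q' y})
    (hr₂ : ∀ g : P, ∀ y : {y // q' y}, ((r₂ g y : {y // q' y}) : Ω) = (g : Equiv.Perm Ω) y) :
    seF p r₁.range := by
  intro R₁ hR₁ h1 h2 σ hσ
  have h3 := se_restrict p P hF hP q q' hqq r₁ hr₁ r₂ hr₂ R₁ hR₁ h1 h2 σ hσ
  refine ⟨⟨_, h3⟩, ?_⟩
  apply Equiv.ext; intro y
  apply Subtype.ext
  rw [hr₁]
  exact Equiv.Perm.ofSubtype_apply_coe σ y

lemma se_setup {Ω : Type} (P : Subgroup (Equiv.Perm Ω)) (ω : Ω) :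
    ∃ (q : Ω → Prop) (r₁ : P →* Equiv.Perm {y // q y}) (r₂ : P →* Equiv.Perm {y // ¬ q y}),
      (∀ y, q y ↔ y ∈ MulAction.orbit P ω) ∧
      (∀ g : P, ∀ y : {y // q y}, ((r₁ g y : {y // q y}) : Ω) = (g : Equiv.Perm Ω) y) ∧
      (∀ g : P, ∀ y : {y // ¬ q y}, ((r₂ g y : {y // ¬ q y}) : Ω) = (g : Equiv.Perm Ω) y) := by
  obtain ⟨q, hq⟩ : ∃ q : Ω → Prop, q = fun y => y ∈ MulAction.orbit P ω := ⟨_, rfl⟩
  have hqdef : ∀ y, q y ↔ y ∈ MulAction.orbit P ω := by intro y; rw [hq]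
  have hqinv : ∀ g : P, ∀ y, q ((g : Equiv.Perm Ω) y) ↔ q y := by
    intro g y
    rw [hq]
    show (g • y) ∈ MulAction.orbit P ω ↔ y ∈ MulAction.orbit P ω
    rw [← MulAction.orbit_eq_iff, MulAction.orbit_smul, MulAction.orbit_eq_iff]
  exact ⟨q,
    { toFun := fun g => (g : Equiv.Perm Ω).subtypePerm (hqinv g)
      map_one' := by ext y; rfl
      map_mul' := by intro g h; ext y; rfl },
    { toFun := fun g => (g : Equiv.Perm Ω).subtypePerm (fun y => not_congr (hqinv g y))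
      map_one' := by ext y; rfl
      map_mul' := by intro g h; ext y; rfl }, hqdef, fun g y => rfl, fun g y => rfl⟩

lemma se_intr_T (p : ℕ) [Fact p.Prime] {Ω : Type} [Finite Ω] (P : Subgroup (Equiv.Perm Ω))
    (hF : seF p P) (hP : IsPGroup p P) (q q' : Ω → Prop) [DecidablePred q] [DecidablePred q']
    (hqq : ∀ y, q' y ↔ ¬ q y)
    (r₁ : P →* Equiv.Perm {y // q y})
    (hr₁ : ∀ g : P, ∀ y : {y // q y}, ((r₁ g y : {y // q y}) : Ω) = (g : Equiv.Perm Ω) y)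
    (r₂ : P →* Equiv.Perm {y // q' y})
    (hr₂ : ∀ g : P, ∀ y : {y // q' y}, ((r₂ g y : {y // q' y}) : Ω) = (g : Equiv.Perm Ω) y)
    (ih₁ : ∀ x ∈ r₁.range, x ^ p ∈ ⁅r₁.range, r₁.range⁆)
    (ih₂ : ∀ x ∈ r₂.range, x ^ p ∈ ⁅r₂.range, r₂.range⁆) :
    ∀ x ∈ P, x ^ p ∈ ⁅P, P⁆ := by
  intro x hx
  have hqq' : ∀ y, q y ↔ ¬ q' y := fun y => by rw [hqq y, not_not]
  have hm₁ : ∀ g : P, Equiv.Perm.ofSubtype (r₁ g) ∈ P :=
    se_restrict_mem p P hF hP q q' hqq r₁ hr₁ r₂ hr₂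
  have hm₂ : ∀ g : P, Equiv.Perm.ofSubtype (r₂ g) ∈ P :=
    se_restrict_mem p P hF hP q' q hqq' r₂ hr₂ r₁ hr₁
  have e := se_decomp q q' hqq P r₁ hr₁ r₂ hr₂ ⟨x, hx⟩
  have hc := se_commute q q' hqq (r₁ ⟨x, hx⟩) (r₂ ⟨x, hx⟩)
  have e' : x ^ p = Equiv.Perm.ofSubtype (r₁ ⟨x, hx⟩) ^ p
      * Equiv.Perm.ofSubtype (r₂ ⟨x, hx⟩) ^ p := by
    rw [← hc.mul_pow]; exact congrArg (· ^ p) e
  rw [e']
  apply Subgroup.mul_mem
  · rw [← map_pow]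
    have h1 := ih₁ (r₁ ⟨x, hx⟩) ⟨_, rfl⟩
    have h2 : Equiv.Perm.ofSubtype (r₁ ⟨x, hx⟩ ^ p)
        ∈ (⁅r₁.range, r₁.range⁆).map Equiv.Perm.ofSubtype := ⟨_, h1, rfl⟩
    rw [Subgroup.map_commutator] at h2
    have h3 : r₁.range.map Equiv.Perm.ofSubtype ≤ P := by
      rintro _ ⟨_, ⟨g, rfl⟩, rfl⟩; exact hm₁ g
    exact Subgroup.commutator_mono h3 h3 h2
  · rw [← map_pow]
    have h1 := ih₂ (r₂ ⟨x, hx⟩) ⟨_, rfl⟩
    have h2 : Equiv.Perm.ofSubtype (r₂ ⟨x, hx⟩ ^ p)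
        ∈ (⁅r₂.range, r₂.range⁆).map Equiv.Perm.ofSubtype := ⟨_, h1, rfl⟩
    rw [Subgroup.map_commutator] at h2
    have h3 : r₂.range.map Equiv.Perm.ofSubtype ≤ P := by
      rintro _ ⟨_, ⟨g, rfl⟩, rfl⟩; exact hm₂ g
    exact Subgroup.commutator_mono h3 h3 h2

end Cfsg.Agent.Lib.Helper21
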