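import Mathlib
import Cfsg.Agent.Lib.Helper21.SylElem1

namespace Cfsg.Agent.Lib.Helper21

open scoped commutatorElement
open scoped Pointwise

/-- structure of a transitive orbit-full `p`-group: a normal subgroup `M'` of index `p` which is
again orbit-full, and a splitting of every element outside `M'`. -/
lemma se_trans (p : ℕ) [Fact p.Prime] {Ω : Type} [Finite Ω] (P : Subgroup (Equiv.Perm Ω))
    (hP : IsPGroup p P) (hF : seF p P) (ω : Ω) (htrans : ∀ y : Ω, y ∈ MulAction.orbit P ω)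
    (hnt : 1 < Nat.card Ω) :
    ∃ M' : Subgroup (Equiv.Perm Ω), M' ≤ P ∧ seF p M' ∧
      (∀ y : Ω, Nat.card (MulAction.orbit M' y) < Nat.card Ω) ∧
      (∀ x ∈ P, x ∉ M' → ∃ v c : Equiv.Perm Ω, v ∈ P ∧ c ∈ M' ∧ x = v * c ∧ v ^ p = 1 ∧
        ∀ z, v z ≠ z) := by
  classical
  have hp : p.Prime := Fact.out
  obtain ⟨St, hSt⟩ : ∃ St : Subgroup P, St = MulAction.stabilizer P ω := ⟨_, rfl⟩
  have horbN : Nat.card (MulAction.orbit P ω) = Nat.card Ω :=
    Nat.card_congr (Equiv.subtypeUnivEquiv htrans)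
  have hStidx : St.index = Nat.card Ω := by
    rw [hSt, MulAction.index_stabilizer, ← Nat.card_coe_set_eq, horbN]
  obtain ⟨e, he⟩ := IsPGroup.iff_card.mp hP
  obtain ⟨s, hs⟩ := IsPGroup.iff_card.mp (hP.to_subgroup St)
  have hse : s < e := by
    have h3 := Subgroup.card_mul_index St
    rw [hs, hStidx, he] at h3
    by_contra hcon
    have h4 : p ^ e ≤ p ^ s := Nat.pow_le_pow_right hp.pos (by omega)
    have h5 : p ^ s * 2 ≤ p ^ s * Nat.card Ω := Nat.mul_le_mul_left _ hnt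
    have h6 : 0 < p ^ s := pow_pos hp.pos s
    omega
  obtain ⟨M₀, hM₀card, hStM⟩ := Sylow.exists_subgroup_card_pow_prime_le p (n := s) (m := e - 1)
    (by rw [he]; exact pow_dvd_pow p (by omega)) St hs (by omega)
  have hMidx : M₀.index = p := by
    have h3 := Subgroup.card_mul_index M₀
    rw [hM₀card, he] at h3
    have h2 : p ^ e = p ^ (e - 1) * p := by rw [← pow_succ]; congr 1; omega
    rw [h2] at h3
    exact Nat.eq_of_mul_eq_mul_left (pow_pos hp.pos _) h3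
  haveI hMn : M₀.Normal := by
    apply Subgroup.normal_of_index_eq_minFac_card
    rw [hMidx, he, hp.pow_minFac (by omega)]
  obtain ⟨M', hM'⟩ : ∃ M' : Subgroup (Equiv.Perm Ω), M' = M₀.map P.subtype := ⟨_, rfl⟩
  have hM'P : M' ≤ P := by rw [hM']; exact Subgroup.map_subtype_le M₀
  have hM'p : IsPGroup p M' := hP.to_le hM'P
  have hM'mem : ∀ σ : Equiv.Perm Ω, σ ∈ M' ↔ ∃ m : P, m ∈ M₀ ∧ (m : Equiv.Perm Ω) = σ := by
    intro σ; rw [hM']; rfl
  have hM'mem2 : ∀ g : P, (g : Equiv.Perm Ω) ∈ M' ↔ g ∈ M₀ := by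
    intro g
    rw [hM'mem]
    constructor
    · rintro ⟨m, hm, hmg⟩
      have : m = g := Subtype.ext hmg
      rwa [← this]
    · intro h; exact ⟨g, h, rfl⟩
  have hK1 : ∀ g : P, ∀ y : Ω, (g : Equiv.Perm Ω) y = y → g ∈ M₀ := by
    intro g y hgy
    obtain ⟨h, hh⟩ := MulAction.mem_orbit_iff.mp (htrans y)
    have hh' : (h : Equiv.Perm Ω) ω = y := hh
    have h1 : h⁻¹ * g * h ∈ St := by
      rw [hSt, MulAction.mem_stabilizer_iff]
      show ((h : Equiv.Perm Ω))⁻¹ ((g : Equiv.Perm Ω) ((h : Equiv.Perm Ω) ω)) = ω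
      rw [hh', hgy, ← hh']
      exact (h : Equiv.Perm Ω).symm_apply_apply ω
    have h2 := hMn.conj_mem _ (hStM h1) h
    have h3 : h * (h⁻¹ * g * h) * h⁻¹ = g := by group
    rwa [h3] at h2
  have hK2 : ∀ g : P, ∀ y : Ω, (g : Equiv.Perm Ω) y ∈ MulAction.orbit M' y → g ∈ M₀ := by
    intro g y hgy
    obtain ⟨⟨σ, hσ⟩, hσy⟩ := MulAction.mem_orbit_iff.mp hgy
    obtain ⟨m, hm, rfl⟩ := (hM'mem σ).mp hσ
    have hσy' : (m : Equiv.Perm Ω) y = (g : Equiv.Perm Ω) y := hσy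
    have h1 : m⁻¹ * g ∈ M₀ := by
      apply hK1 _ y
      show ((m : Equiv.Perm Ω))⁻¹ ((g : Equiv.Perm Ω) y) = y
      rw [← hσy']
      exact (m : Equiv.Perm Ω).symm_apply_apply y
    have h2 := M₀.mul_mem hm h1
    rwa [mul_inv_cancel_left] at h2
  have horbM : ∀ y : Ω, Nat.card (MulAction.orbit M' y) < Nat.card Ω := by
    intro y
    by_contra hcon
    have hbij : Function.Bijective (fun x : MulAction.orbit M' y => (x : Ω)) :=
      Function.Injective.bijective_of_nat_card_le Subtype.val_injective (by omega)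
    have hall : ∀ z : Ω, z ∈ MulAction.orbit M' y := by
      intro z
      obtain ⟨x, hx⟩ := hbij.2 z
      rw [← hx]; exact x.2
    have htop : M₀ = ⊤ := by
      rw [eq_top_iff]; intro g _
      exact hK2 g y (hall _)
    rw [htop, Subgroup.index_top] at hMidx
    exact hp.one_lt.ne hMidx
  have hYtop : seY P = ⊤ := by
    rw [eq_top_iff]; intro σ _ y
    have h1 := htrans (σ y)
    have h2 := htrans y
    rw [← MulAction.orbit_eq_iff.mpr h2] at h1
    exact h1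
  have hPmax : ∀ R : Subgroup (Equiv.Perm Ω), IsPGroup p R → P ≤ R → R ≤ P := by
    intro R hR hPR
    exact hF R hR hPR (by rw [hYtop]; exact le_top)
  have hconjY : ∀ g ∈ P, ∀ σ ∈ seY M', g * σ * g⁻¹ ∈ seY M' := by
    intro g hg σ hσ y
    obtain ⟨⟨τ, hτ⟩, hτy⟩ := MulAction.mem_orbit_iff.mp (hσ (g⁻¹ y))
    have hτy' : τ (g⁻¹ y) = σ (g⁻¹ y) := hτy
    show g (σ (g⁻¹ y)) ∈ MulAction.orbit M' y
    rw [← hτy']
    have h1 : g * τ * g⁻¹ ∈ M' := by
      obtain ⟨m, hm, rfl⟩ := (hM'mem τ).mp hτ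
      exact (hM'mem _).mpr ⟨⟨g, hg⟩ * m * ⟨g, hg⟩⁻¹, hMn.conj_mem m hm ⟨g, hg⟩, rfl⟩
    exact ⟨⟨g * τ * g⁻¹, h1⟩, rfl⟩
  have hPYM : ∀ g ∈ P, g ∈ seY M' → g ∈ M' := by
    intro g hg hgY
    exact (hM'mem2 ⟨g, hg⟩).mpr (hK2 ⟨g, hg⟩ ω (hgY ω))
  have hFM : seF p M' := by
    intro R hR hMR hRY
    obtain ⟨F₀, hF₀⟩ : ∃ F₀ : Subgroup (Equiv.Perm Ω),
        F₀ = Subgroup.normalizer ((seY M' : Subgroup (Equiv.Perm Ω)) : Set (Equiv.Perm Ω)) :=
      ⟨_, rfl⟩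
    have hPF : P ≤ F₀ := by
      intro g hg
      rw [hF₀, Subgroup.mem_normalizer_iff]
      intro σ
      constructor
      · exact hconjY g hg σ
      · intro h
        have h2 := hconjY g⁻¹ (P.inv_mem hg) _ h
        have h3 : g⁻¹ * (g * σ * g⁻¹) * g⁻¹⁻¹ = σ := by group
        rwa [h3] at h2
    have hRF : R ≤ F₀ := by
      rw [hF₀]; exact hRY.trans Subgroup.le_normalizer
    obtain ⟨S₁, hS₁⟩ := (hP.comap_subtype (K := F₀)).exists_le_sylow
    obtain ⟨S₂, hS₂⟩ := (hR.comap_subtype (K := F₀)).exists_le_sylow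
    have hS₁P : ∀ x : F₀, x ∈ (S₁ : Subgroup F₀) → (x : Equiv.Perm Ω) ∈ P := by
      intro x hx
      have h1 : P ≤ (S₁ : Subgroup F₀).map F₀.subtype := by
        intro g hg
        exact ⟨⟨g, hPF hg⟩, hS₁ (Subgroup.mem_subgroupOf.mpr hg), rfl⟩
      exact hPmax _ (S₁.isPGroup'.map _) h1 ⟨x, hx, rfl⟩
    obtain ⟨γ, hγ⟩ := MulAction.exists_smul_eq F₀ S₁ S₂
    have hγ' : γ⁻¹ • S₂ = S₁ := by rw [← hγ, inv_smul_smul]
    have hconj : ∀ r ∈ R, (γ : Equiv.Perm Ω)⁻¹ * r * γ ∈ M' := by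
      intro r hr
      have h1 : (⟨r, hRF hr⟩ : F₀) ∈ (S₂ : Subgroup F₀) :=
        hS₂ (Subgroup.mem_subgroupOf.mpr hr)
      have h2 : MulAut.conj γ⁻¹ • (⟨r, hRF hr⟩ : F₀) ∈ MulAut.conj γ⁻¹ • (S₂ : Subgroup F₀) :=
        Subgroup.smul_mem_pointwise_smul _ _ _ h1
      rw [← Sylow.coe_subgroup_smul, hγ'] at h2
      have h3 := hS₁P _ h2
      have h4 : ((MulAut.conj γ⁻¹ • (⟨r, hRF hr⟩ : F₀) : F₀) : Equiv.Perm Ω)
          = (γ : Equiv.Perm Ω)⁻¹ * r * γ := by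
        simp [MulAut.smul_def, MulAut.conj_apply]
      rw [h4] at h3
      apply hPYM _ h3
      have h5 : (γ : Equiv.Perm Ω)⁻¹
          ∈ Subgroup.normalizer ((seY M' : Subgroup (Equiv.Perm Ω)) : Set (Equiv.Perm Ω)) := by
        rw [← hF₀]; exact F₀.inv_mem γ.2
      have h6 := (Subgroup.mem_normalizer_iff.mp h5 r).mp (hRY hr)
      rwa [inv_inv] at h6
    have hle : Nat.card R ≤ Nat.card M' :=
      Nat.card_le_card_of_injective
        (fun r : R => (⟨(γ : Equiv.Perm Ω)⁻¹ * r * γ, hconj r r.2⟩ : M'))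
        (by
          intro r1 r2 h12
          have h3 : (γ : Equiv.Perm Ω)⁻¹ * r1 * γ = (γ : Equiv.Perm Ω)⁻¹ * r2 * γ :=
            congrArg (fun z : M' => (z : Equiv.Perm Ω)) h12
          apply Subtype.ext
          exact mul_left_cancel (mul_right_cancel h3))
    exact (Subgroup.eq_of_le_of_card_ge hMR hle).ge
  refine ⟨M', hM'P, hFM, horbM, ?_⟩
  intro x hx hxM
  obtain ⟨q, r₁, r₂, hq, hr₁, hr₂⟩ := se_setup M' ω
  have hxpM : x ^ p ∈ M' := by
    have h1 : (⟨x, hx⟩ : P) ^ p ∈ M₀ := by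
      have h2 := Subgroup.pow_index_mem M₀ (⟨x, hx⟩ : P)
      rwa [hMidx] at h2
    have h3 := (hM'mem2 (⟨x, hx⟩ ^ p)).mpr h1
    rwa [Subgroup.coe_pow] at h3
  obtain ⟨c, hc⟩ : ∃ c : Equiv.Perm Ω, c = Equiv.Perm.ofSubtype (r₁ ⟨x ^ p, hxpM⟩) := ⟨_, rfl⟩
  have hcM : c ∈ M' := by
    rw [hc]
    exact se_restrict_mem p M' hFM hM'p q (fun y => ¬ q y) (fun y => Iff.rfl) r₁ hr₁ r₂ hr₂ _
  have hc1 : ∀ y, q y → c y = (x ^ p) y := by
    intro y hy
    rw [hc, Equiv.Perm.ofSubtype_apply_of_mem _ hy, hr₁]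
  have hc2 : ∀ y, ¬ q y → c y = y := by
    intro y hy
    rw [hc, Equiv.Perm.ofSubtype_apply_of_not_mem _ hy]
  have hc2' : ∀ y, ¬ q y → c⁻¹ y = y := by
    intro y hy
    have h1 := hc2 y hy
    have h2 : c⁻¹ (c y) = y := c.symm_apply_apply y
    rwa [h1] at h2
  have hqM : ∀ m ∈ M', ∀ y, q (m y) ↔ q y := by
    intro m hm y
    rw [hq, hq]
    show ((⟨m, hm⟩ : M') • y) ∈ MulAction.orbit M' ω ↔ y ∈ MulAction.orbit M' ω
    rw [← MulAction.orbit_eq_iff, MulAction.orbit_smul, MulAction.orbit_eq_iff]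
  have hqP : ∀ g ∈ P, ∀ y, q y → q (g y) → g ∈ M' := by
    intro g hg y hy hgy
    apply (hM'mem2 ⟨g, hg⟩).mpr
    apply hK2 ⟨g, hg⟩ y
    rw [hq] at hy hgy
    show g y ∈ MulAction.orbit M' y
    rw [MulAction.orbit_eq_iff.mpr hy]
    exact hgy
  have hcardq : Nat.card (P ⧸ M₀) = p := by rw [← Subgroup.index_eq_card]; exact hMidx
  have hxk : ∀ k, 0 < k → k < p → x ^ k ∉ M' := by
    intro k hk0 hkp hxk
    have h1 : (⟨x, hx⟩ : P) ^ k ∈ M₀ := by
      apply (hM'mem2 _).mp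
      rw [Subgroup.coe_pow]; exact hxk
    have h2 : ((⟨x, hx⟩ : P) : P ⧸ M₀) ^ k = 1 := by
      rw [← QuotientGroup.mk_pow]
      exact (QuotientGroup.eq_one_iff _).mpr h1
    have h3 : ((⟨x, hx⟩ : P) : P ⧸ M₀) ≠ 1 := by
      intro h
      exact hxM ((hM'mem2 ⟨x, hx⟩).mpr ((QuotientGroup.eq_one_iff _).mp h))
    have h4 : orderOf ((⟨x, hx⟩ : P) : P ⧸ M₀) ∣ p := by
      rw [← hcardq]; exact orderOf_dvd_natCard _
    have h5 : orderOf ((⟨x, hx⟩ : P) : P ⧸ M₀) = p := by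
      rcases (Nat.dvd_prime hp).mp h4 with h | h
      · exact absurd (orderOf_eq_one_iff.mp h) h3
      · exact h
    have h6 := orderOf_dvd_of_pow_eq_one h2
    rw [h5] at h6
    exact absurd (Nat.le_of_dvd hk0 h6) (by omega)
  obtain ⟨v, hv⟩ : ∃ v : Equiv.Perm Ω, v = x * c⁻¹ := ⟨_, rfl⟩
  have hvP : v ∈ P := by rw [hv]; exact P.mul_mem hx (P.inv_mem (hM'P hcM))
  have hvM : v ∉ M' := by
    intro h
    apply hxM
    have h2 := M'.mul_mem h hcM
    rwa [hv, inv_mul_cancel_right] at h2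
  have hxvc : x = v * c := by rw [hv, inv_mul_cancel_right]
  have hvk : ∀ k, k < p → ∀ z, q z → (v ^ (k + 1)) z = (x ^ (k + 1)) (c⁻¹ z) := by
    intro k
    induction k with
    | zero =>
      intro _ z hz
      rw [zero_add, pow_one, pow_one, hv]; rfl
    | succ k ihk =>
      intro hkp z hz
      rw [pow_succ' v (k + 1), pow_succ' x (k + 1)]
      show v ((v ^ (k + 1)) z) = x ((x ^ (k + 1)) (c⁻¹ z))
      rw [ihk (by omega) z hz, hv]
      show x (c⁻¹ ((x ^ (k + 1)) (c⁻¹ z))) = x ((x ^ (k + 1)) (c⁻¹ z))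
      congr 1
      apply hc2'
      intro hcon
      have hqc : q (c⁻¹ z) := (hqM c⁻¹ (M'.inv_mem hcM) z).mpr hz
      exact hxk (k + 1) (by omega) (by omega) (hqP _ (P.pow_mem hx _) _ hqc hcon)
  have hp1 : p - 1 + 1 = p := by have := hp.two_le; omega
  have hvp_q : ∀ z, q z → (v ^ p) z = z := by
    intro z hz
    have h1 := hvk (p - 1) (by have := hp.two_le; omega) z hz
    rw [hp1] at h1
    rw [h1]
    have hqc : q (c⁻¹ z) := (hqM c⁻¹ (M'.inv_mem hcM) z).mpr hz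
    rw [← hc1 _ hqc]
    exact c.apply_symm_apply z
  have hvq : ((⟨v, hvP⟩ : P) : P ⧸ M₀) ≠ 1 := by
    intro h
    exact hvM ((hM'mem2 ⟨v, hvP⟩).mpr ((QuotientGroup.eq_one_iff _).mp h))
  have hvp : v ^ p = 1 := by
    apply Equiv.ext; intro z
    obtain ⟨g, hg⟩ := MulAction.mem_orbit_iff.mp (htrans z)
    have hmem : ((g : P) : P ⧸ M₀) ∈ Submonoid.powers (((⟨v, hvP⟩ : P) : P ⧸ M₀)) :=
      mem_powers_of_prime_card hcardq hvq
    obtain ⟨k, hk⟩ := (Submonoid.mem_powers_iff _ _).mp hmem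
    have hk' : (((⟨v, hvP⟩ : P) ^ k : P) : P ⧸ M₀) = ((g : P) : P ⧸ M₀) := by
      rw [QuotientGroup.mk_pow]; exact hk
    have hm : ((⟨v, hvP⟩ : P) ^ k)⁻¹ * g ∈ M₀ := QuotientGroup.eq.mp hk'
    obtain ⟨z₀, hz₀⟩ : ∃ z₀ : Ω,
        z₀ = ((((⟨v, hvP⟩ : P) ^ k)⁻¹ * g : P) : Equiv.Perm Ω) ω := ⟨_, rfl⟩
    have hqz₀ : q z₀ := by
      rw [hq, hz₀]
      exact ⟨⟨_, (hM'mem2 _).mpr hm⟩, rfl⟩
    have hzz : z = (v ^ k) z₀ := by
      rw [hz₀, ← hg]
      show (g : Equiv.Perm Ω) ω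
        = (v ^ k) (((v ^ k)⁻¹ : Equiv.Perm Ω) ((g : Equiv.Perm Ω) ω))
      exact ((v ^ k).apply_symm_apply _).symm
    rw [hzz]
    have h1 : v ^ p * v ^ k = v ^ k * v ^ p := by rw [← pow_add, ← pow_add, add_comm]
    have h2 : (v ^ p) ((v ^ k) z₀) = (v ^ k) ((v ^ p) z₀) :=
      congrArg (fun σ : Equiv.Perm Ω => σ z₀) h1
    rw [h2, hvp_q z₀ hqz₀]; rfl
  have hfpf : ∀ z, v z ≠ z := by
    intro z hz
    exact hvM ((hM'mem2 ⟨v, hvP⟩).mpr (hK1 ⟨v, hvP⟩ z hz))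
  exact ⟨v, c, hvP, hcM, hxvc, hvp, hfpf⟩

/-- in an orbit-full `p`-group of permutations, `p`-th powers lie in the commutator subgroup. -/
theorem se_T (p : ℕ) [Fact p.Prime] : ∀ (N : ℕ) (Ω : Type) [Finite Ω], Nat.card Ω = N →
    ∀ (P : Subgroup (Equiv.Perm Ω)), IsPGroup p P → seF p P → ∀ x ∈ P, x ^ p ∈ ⁅P, P⁆ := by
  intro N
  induction N using Nat.strong_induction_on with
  | _ N ih =>
  intro Ω _ hcard
  classical
  have hp : p.Prime := Fact.out
  have hintr : ∀ (P : Subgroup (Equiv.Perm Ω)), IsPGroup p P → seF p P →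
      ∀ ω : Ω, Nat.card (MulAction.orbit P ω) < N → ∀ x ∈ P, x ^ p ∈ ⁅P, P⁆ := by
    intro P hP hF ω hlt
    obtain ⟨q, r₁, r₂, hq, hr₁, hr₂⟩ := se_setup P ω
    have hab : Nat.card {y // q y} + Nat.card {y // ¬ q y} = N := by
      rw [← hcard, ← Nat.card_sum]
      exact Nat.card_congr (Equiv.sumCompl q)
    have hqcard : Nat.card {y // q y} = Nat.card (MulAction.orbit P ω) :=
      Nat.card_congr (Equiv.subtypeEquivRight hq)
    have hωq : q ω := (hq ω).mpr (MulAction.mem_orbit_self ω)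
    have ha1 : 1 ≤ Nat.card {y // q y} := by
      haveI : Nonempty {y // q y} := ⟨⟨ω, hωq⟩⟩
      exact Nat.card_pos
    apply se_intr_T p P hF hP q (fun y => ¬ q y) (fun y => Iff.rfl) r₁ hr₁ r₂ hr₂
    · exact ih (Nat.card {y // q y}) (by omega) {y // q y} rfl r₁.range
        (hP.of_surjective r₁.rangeRestrict r₁.rangeRestrict_surjective)
        (se_restrict_F p P hF hP q (fun y => ¬ q y) (fun y => Iff.rfl) r₁ hr₁ r₂ hr₂)
    · exact ih (Nat.card {y // ¬ q y}) (by omega) {y // ¬ q y} rfl r₂.range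
        (hP.of_surjective r₂.rangeRestrict r₂.rangeRestrict_surjective)
        (se_restrict_F p P hF hP (fun y => ¬ q y) q (fun y => not_not.symm) r₂ hr₂ r₁ hr₁)
  intro P hP hF x hx
  by_cases htr : ∃ ω : Ω, Nat.card (MulAction.orbit P ω) < N
  · obtain ⟨ω, hω⟩ := htr
    exact hintr P hP hF ω hω x hx
  rcases isEmpty_or_nonempty Ω with hE | ⟨⟨ω⟩⟩
  · have h1 : x = 1 := by apply Equiv.ext; intro y; exact isEmptyElim y
    rw [h1, one_pow]; exact Subgroup.one_mem _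
  have hNle : N ≤ Nat.card (MulAction.orbit P ω) := by
    by_contra hcon; exact htr ⟨ω, by omega⟩
  have htrans : ∀ y : Ω, y ∈ MulAction.orbit P ω := by
    have hbij : Function.Bijective (fun x : MulAction.orbit P ω => (x : Ω)) :=
      Function.Injective.bijective_of_nat_card_le Subtype.val_injective
        (by rw [hcard]; exact hNle)
    intro y
    obtain ⟨x, hx⟩ := hbij.2 y
    rw [← hx]; exact x.2
  rcases Nat.lt_or_ge 1 N with hN1 | hN1
  · obtain ⟨M', hM'P, hFM, horbM, hsplit⟩ :=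
      se_trans p P hP hF ω htrans (by rw [hcard]; exact hN1)
    have hM'p : IsPGroup p M' := hP.to_le hM'P
    have hM'T : ∀ y ∈ M', y ^ p ∈ ⁅P, P⁆ := by
      intro y hy
      exact Subgroup.commutator_mono hM'P hM'P
        (hintr M' hM'p hFM ω (by rw [← hcard]; exact horbM ω) y hy)
    by_cases hxM : x ∈ M'
    · exact hM'T x hxM
    · obtain ⟨v, c, hvP, hcM, hxvc, hvp, -⟩ := hsplit x hx hxM
      rw [hxvc]
      apply se_pow_mul P v c hvP (hM'P hcM) p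
      · rw [hvp]; exact Subgroup.one_mem _
      · exact hM'T c hcM
  · have hsub : Subsingleton Ω := by
      haveI : Nonempty Ω := ⟨ω⟩
      have h0 : 0 < Nat.card Ω := Nat.card_pos
      have h1 : Nat.card Ω = 1 := by omega
      exact (Nat.card_eq_one_iff_unique.mp h1).1
    have h1 : x = 1 := by apply Equiv.ext; intro y; exact Subsingleton.elim _ _
    rw [h1, one_pow]; exact Subgroup.one_mem _

end Cfsg.Agent.Lib.Helper21
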