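import Mathlib
import Cfsg.Agent.Lib.Helper21.SylElem1
import Cfsg.Agent.Lib.Helper21.SylElem2

namespace Cfsg.Agent.Lib.Helper21

open scoped commutatorElement

open Classical in
/-- the alternating group, with classical instances. -/
noncomputable def seAlt (Ω : Type) [Finite Ω] : Subgroup (Equiv.Perm Ω) :=
  @alternatingGroup Ω (Fintype.ofFinite Ω) (Classical.decEq Ω)

lemma se_alt_eq (Ω : Type) [Fintype Ω] [DecidableEq Ω] : seAlt Ω = alternatingGroup Ω := by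
  unfold seAlt
  congr
  · exact Subsingleton.elim _ _
  · exact Subsingleton.elim _ _

lemma se_mem_alt (Ω : Type) [Fintype Ω] [DecidableEq Ω] (σ : Equiv.Perm Ω) :
    σ ∈ seAlt Ω ↔ Equiv.Perm.sign σ = 1 := by
  rw [se_alt_eq]
  exact Equiv.Perm.mem_alternatingGroup

lemma se_final {G : Type*} [Group G] (H : Subgroup G) (x : H) (k : ℕ)
    (h : (x : G) ^ k ∈ ⁅H, H⁆) : x ^ k ∈ commutator H := by
  rw [← Subgroup.map_subtype_commutator H] at h
  obtain ⟨w, hw, hwx⟩ := h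
  have h1 : w = x ^ k := by
    apply Subtype.ext
    rw [Subgroup.coe_pow]; exact hwx
  rw [← h1]; exact hw

lemma se_sign_fpf {Ω : Type} [Fintype Ω] [DecidableEq Ω] (v : Equiv.Perm Ω) (hv2 : v ^ 2 = 1)
    (hfpf : ∀ z, v z ≠ z) (m : ℕ) (hcard : Fintype.card Ω = 4 * m) :
    Equiv.Perm.sign v = 1 := by
  rcases isEmpty_or_nonempty Ω with hE | ⟨⟨z⟩⟩
  · have h1 : v = 1 := by apply Equiv.ext; intro y; exact isEmptyElim y
    rw [h1, map_one]
  have hv1 : v ≠ 1 := by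
    intro h; apply hfpf z; rw [h]; rfl
  haveI : Fact (Nat.Prime 2) := ⟨Nat.prime_two⟩
  have hord : orderOf v = 2 := orderOf_eq_prime hv2 hv1
  obtain ⟨n, hn⟩ := Equiv.Perm.cycleType_prime_order (σ := v) (by rw [hord]; exact Nat.prime_two)
  rw [hord] at hn
  have hsupp : v.support = Finset.univ := by
    ext y; simp [Equiv.Perm.mem_support, hfpf y]
  have hsum := Equiv.Perm.sum_cycleType v
  rw [hn, hsupp, Finset.card_univ, hcard, Multiset.sum_replicate, smul_eq_mul] at hsum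
  rw [Equiv.Perm.sign_of_cycleType, hn, Multiset.sum_replicate, Multiset.card_replicate,
    smul_eq_mul]
  have h2 : n + 1 = 2 * m := by omega
  rw [h2]
  have h3 : 2 * m * 2 + 2 * m = 2 * (3 * m) := by ring
  rw [h3, pow_mul]
  simp

lemma se_intr_TA {Ω : Type} [Finite Ω] (P : Subgroup (Equiv.Perm Ω))
    (hF : seF 2 P) (hP : IsPGroup 2 P) (q q' : Ω → Prop) [DecidablePred q] [DecidablePred q']
    (hqq : ∀ y, q' y ↔ ¬ q y)
    (r₁ : P →* Equiv.Perm {y // q y})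
    (hr₁ : ∀ g : P, ∀ y : {y // q y}, ((r₁ g y : {y // q y}) : Ω) = (g : Equiv.Perm Ω) y)
    (r₂ : P →* Equiv.Perm {y // q' y})
    (hr₂ : ∀ g : P, ∀ y : {y // q' y}, ((r₂ g y : {y // q' y}) : Ω) = (g : Equiv.Perm Ω) y)
    (ih₁ : ∀ x ∈ r₁.range, x ^ 2 ∈ ⁅r₁.range, r₁.range⁆)
    (ih₂ : ∀ x ∈ r₂.range, x ^ 2 ∈ ⁅r₂.range, r₂.range⁆)
    (iha₁ : ∀ x ∈ r₁.range ⊓ seAlt {y // q y},
      x ^ 2 ∈ ⁅r₁.range ⊓ seAlt {y // q y}, r₁.range ⊓ seAlt {y // q y}⁆)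
    (iha₂ : ∀ x ∈ r₂.range ⊓ seAlt {y // q' y},
      x ^ 2 ∈ ⁅r₂.range ⊓ seAlt {y // q' y}, r₂.range ⊓ seAlt {y // q' y}⁆) :
    ∀ x ∈ P ⊓ seAlt Ω, x ^ 2 ∈ ⁅P ⊓ seAlt Ω, P ⊓ seAlt Ω⁆ := by
  classical
  haveI : Fact (Nat.Prime 2) := ⟨Nat.prime_two⟩
  haveI : Fintype Ω := Fintype.ofFinite Ω
  intro x hx
  obtain ⟨hxP, hxA⟩ := hx
  have hqq' : ∀ y, q y ↔ ¬ q' y := fun y => by rw [hqq y, not_not]
  have hm₁ : ∀ g : P, Equiv.Perm.ofSubtype (r₁ g) ∈ P :=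
    se_restrict_mem 2 P hF hP q q' hqq r₁ hr₁ r₂ hr₂
  have hm₂ : ∀ g : P, Equiv.Perm.ofSubtype (r₂ g) ∈ P :=
    se_restrict_mem 2 P hF hP q' q hqq' r₂ hr₂ r₁ hr₁
  have e : x = Equiv.Perm.ofSubtype (r₁ ⟨x, hxP⟩) * Equiv.Perm.ofSubtype (r₂ ⟨x, hxP⟩) :=
    se_decomp q q' hqq P r₁ hr₁ r₂ hr₂ ⟨x, hxP⟩
  have hc := se_commute q q' hqq (r₁ ⟨x, hxP⟩) (r₂ ⟨x, hxP⟩)
  have e' : x ^ 2 = Equiv.Perm.ofSubtype (r₁ ⟨x, hxP⟩) ^ 2
      * Equiv.Perm.ofSubtype (r₂ ⟨x, hxP⟩) ^ 2 := by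
    rw [← hc.mul_pow]; exact congrArg (· ^ 2) e
  have hsx : Equiv.Perm.sign x = 1 := (se_mem_alt Ω x).mp hxA
  have hs12 : Equiv.Perm.sign (r₁ ⟨x, hxP⟩) * Equiv.Perm.sign (r₂ ⟨x, hxP⟩) = 1 := by
    have h1 := congrArg Equiv.Perm.sign e
    rw [map_mul, Equiv.Perm.sign_ofSubtype, Equiv.Perm.sign_ofSubtype, hsx] at h1
    exact h1.symm
  rw [e']
  rcases Int.units_eq_one_or (Equiv.Perm.sign (r₁ ⟨x, hxP⟩)) with hs1 | hs1
  · have hs2 : Equiv.Perm.sign (r₂ ⟨x, hxP⟩) = 1 := by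
      rw [hs1, one_mul] at hs12; exact hs12
    apply Subgroup.mul_mem
    · rw [← map_pow]
      have h1 := iha₁ (r₁ ⟨x, hxP⟩) ⟨⟨_, rfl⟩, (se_mem_alt _ _).mpr hs1⟩
      have h2 : Equiv.Perm.ofSubtype (r₁ ⟨x, hxP⟩ ^ 2)
          ∈ (⁅r₁.range ⊓ seAlt {y // q y}, r₁.range ⊓ seAlt {y // q y}⁆).map
            Equiv.Perm.ofSubtype := ⟨_, h1, rfl⟩
      rw [Subgroup.map_commutator] at h2
      have h3 : (r₁.range ⊓ seAlt {y // q y}).map Equiv.Perm.ofSubtype ≤ P ⊓ seAlt Ω := by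
        rintro _ ⟨σ, ⟨⟨g, rfl⟩, hσA⟩, rfl⟩
        refine ⟨hm₁ g, (se_mem_alt _ _).mpr ?_⟩
        rw [Equiv.Perm.sign_ofSubtype]
        exact (se_mem_alt _ _).mp hσA
      exact Subgroup.commutator_mono h3 h3 h2
    · rw [← map_pow]
      have h1 := iha₂ (r₂ ⟨x, hxP⟩) ⟨⟨_, rfl⟩, (se_mem_alt _ _).mpr hs2⟩
      have h2 : Equiv.Perm.ofSubtype (r₂ ⟨x, hxP⟩ ^ 2)
          ∈ (⁅r₂.range ⊓ seAlt {y // q' y}, r₂.range ⊓ seAlt {y // q' y}⁆).map
            Equiv.Perm.ofSubtype := ⟨_, h1, rfl⟩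
      rw [Subgroup.map_commutator] at h2
      have h3 : (r₂.range ⊓ seAlt {y // q' y}).map Equiv.Perm.ofSubtype ≤ P ⊓ seAlt Ω := by
        rintro _ ⟨σ, ⟨⟨g, rfl⟩, hσA⟩, rfl⟩
        refine ⟨hm₂ g, (se_mem_alt _ _).mpr ?_⟩
        rw [Equiv.Perm.sign_ofSubtype]
        exact (se_mem_alt _ _).mp hσA
      exact Subgroup.commutator_mono h3 h3 h2
  · have hs2 : Equiv.Perm.sign (r₂ ⟨x, hxP⟩) = -1 := by
      rw [hs1] at hs12
      have h := congrArg (fun t : ℤˣ => (-1 : ℤˣ) * t) hs12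
      simpa using h
    apply Subgroup.mul_mem
    · rw [← map_pow]
      have h1 := ih₁ (r₁ ⟨x, hxP⟩) ⟨_, rfl⟩
      have h2 : Equiv.Perm.ofSubtype (r₁ ⟨x, hxP⟩ ^ 2)
          ∈ (⁅r₁.range, r₁.range⁆).map Equiv.Perm.ofSubtype := ⟨_, h1, rfl⟩
      rw [Subgroup.map_commutator] at h2
      have h3 : r₁.range.map Equiv.Perm.ofSubtype ≤ P := by
        rintro _ ⟨_, ⟨g, rfl⟩, rfl⟩; exact hm₁ g
      have h4 := se_mixed P (r₁.range.map Equiv.Perm.ofSubtype) h3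
        (Equiv.Perm.ofSubtype (r₂ ⟨x, hxP⟩)) (hm₂ _)
        (by rw [Equiv.Perm.sign_ofSubtype]; exact hs2)
        (by
          rintro _ ⟨s, hs, rfl⟩
          exact (se_commute q q' hqq s (r₂ ⟨x, hxP⟩)).symm)
      rw [se_alt_eq]
      exact h4 h2
    · rw [← map_pow]
      have h1 := ih₂ (r₂ ⟨x, hxP⟩) ⟨_, rfl⟩
      have h2 : Equiv.Perm.ofSubtype (r₂ ⟨x, hxP⟩ ^ 2)
          ∈ (⁅r₂.range, r₂.range⁆).map Equiv.Perm.ofSubtype := ⟨_, h1, rfl⟩
      rw [Subgroup.map_commutator] at h2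
      have h3 : r₂.range.map Equiv.Perm.ofSubtype ≤ P := by
        rintro _ ⟨_, ⟨g, rfl⟩, rfl⟩; exact hm₂ g
      have h4 := se_mixed P (r₂.range.map Equiv.Perm.ofSubtype) h3
        (Equiv.Perm.ofSubtype (r₁ ⟨x, hxP⟩)) (hm₁ _)
        (by rw [Equiv.Perm.sign_ofSubtype]; exact hs1)
        (by
          rintro _ ⟨s, hs, rfl⟩
          exact se_commute q q' hqq (r₁ ⟨x, hxP⟩) s)
      rw [se_alt_eq]
      exact h4 h2

/-- in an orbit-full `2`-group of permutations, squares of even elements lie in the commutator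
subgroup of the even part. -/
theorem se_TA : ∀ (N : ℕ) (Ω : Type) [Finite Ω], Nat.card Ω = N →
    ∀ (P : Subgroup (Equiv.Perm Ω)), IsPGroup 2 P → seF 2 P →
    ∀ x ∈ P ⊓ seAlt Ω, x ^ 2 ∈ ⁅P ⊓ seAlt Ω, P ⊓ seAlt Ω⁆ := by
  haveI : Fact (Nat.Prime 2) := ⟨Nat.prime_two⟩
  intro N
  induction N using Nat.strong_induction_on with
  | _ N ih =>
  intro Ω _ hcard
  classical
  haveI : Fintype Ω := Fintype.ofFinite Ω
  have hintr : ∀ (P : Subgroup (Equiv.Perm Ω)), IsPGroup 2 P → seF 2 P →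
      ∀ ω : Ω, Nat.card (MulAction.orbit P ω) < N →
      ∀ x ∈ P ⊓ seAlt Ω, x ^ 2 ∈ ⁅P ⊓ seAlt Ω, P ⊓ seAlt Ω⁆ := by
    intro P hP hF ω hlt
    obtain ⟨q, r₁, r₂, hq, hr₁, hr₂⟩ := se_setup P ω
    have hab : Nat.card {y // q y} + Nat.card {y // ¬ q y} = N := by
      rw [← hcard, ← Nat.card_sum]
      exact Nat.card_congr (Equiv.sumCompl q)
    have hqcard : Nat.card {y // q y} = Nat.card (MulAction.orbit P ω) :=
      Nat.card_congr (Equiv.subtypeEquivRight hq)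
    have hωq : q ω := (hq ω).mpr (MulAction.mem_orbit_self ω)
    have ha1 : 1 ≤ Nat.card {y // q y} := by
      haveI : Nonempty {y // q y} := ⟨⟨ω, hωq⟩⟩
      exact Nat.card_pos
    have hF₁ := se_restrict_F 2 P hF hP q (fun y => ¬ q y) (fun y => Iff.rfl) r₁ hr₁ r₂ hr₂
    have hF₂ := se_restrict_F 2 P hF hP (fun y => ¬ q y) q (fun y => not_not.symm) r₂ hr₂ r₁ hr₁
    have hP₁ := hP.of_surjective r₁.rangeRestrict r₁.rangeRestrict_surjective
    have hP₂ := hP.of_surjective r₂.rangeRestrict r₂.rangeRestrict_surjective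
    apply se_intr_TA P hF hP q (fun y => ¬ q y) (fun y => Iff.rfl) r₁ hr₁ r₂ hr₂
    · exact se_T 2 _ {y // q y} rfl r₁.range hP₁ hF₁
    · exact se_T 2 _ {y // ¬ q y} rfl r₂.range hP₂ hF₂
    · exact ih (Nat.card {y // q y}) (by omega) {y // q y} rfl r₁.range hP₁ hF₁
    · exact ih (Nat.card {y // ¬ q y}) (by omega) {y // ¬ q y} rfl r₂.range hP₂ hF₂
  intro P hP hF x hx
  by_cases htr : ∃ ω : Ω, Nat.card (MulAction.orbit P ω) < N
  · obtain ⟨ω, hω⟩ := htr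
    exact hintr P hP hF ω hω x hx
  rcases isEmpty_or_nonempty Ω with hE | ⟨⟨ω⟩⟩
  · have h1 : x = 1 := by apply Equiv.ext; intro y; exact isEmptyElim y
    rw [h1, one_pow]; exact Subgroup.one_mem _
  have hNle : N ≤ Nat.card (MulAction.orbit P ω) := by
    by_contra hcon; exact htr ⟨ω, by omega⟩
  have htrans : ∀ y : Ω, y ∈ MulAction.orbit P ω := by
    have hbij : Function.Bijective (fun x : MulAction.orbit P ω => (x : Ω)) :=
      Function.Injective.bijective_of_nat_card_le Subtype.val_injective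
        (by rw [hcard]; exact hNle)
    intro y
    obtain ⟨x, hx⟩ := hbij.2 y
    rw [← hx]; exact x.2
  obtain ⟨hxP, hxA⟩ := hx
  rcases Nat.lt_or_ge 1 N with hN1 | hN1
  · obtain ⟨M', hM'P, hFM, horbM, hsplit⟩ :=
      se_trans 2 P hP hF ω htrans (by rw [hcard]; exact hN1)
    have hM'p : IsPGroup 2 M' := hP.to_le hM'P
    have hM'T : ∀ y ∈ M' ⊓ seAlt Ω, y ^ 2 ∈ ⁅P ⊓ seAlt Ω, P ⊓ seAlt Ω⁆ := by
      intro y hy
      have hle : M' ⊓ seAlt Ω ≤ P ⊓ seAlt Ω := inf_le_inf_right _ hM'P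
      exact Subgroup.commutator_mono hle hle
        (hintr M' hM'p hFM ω (by rw [← hcard]; exact horbM ω) y hy)
    by_cases hxM : x ∈ M'
    · exact hM'T x ⟨hxM, hxA⟩
    · obtain ⟨v, c, hvP, hcM, hxvc, hvp, hfpf⟩ := hsplit x hxP hxM
      obtain ⟨j, hj⟩ := hP.card_orbit ω
      have horbN : Nat.card (MulAction.orbit P ω) = N := by
        rw [← hcard]; exact Nat.card_congr (Equiv.subtypeUnivEquiv htrans)
      rw [horbN] at hj
      rcases j with _ | _ | j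
      · rw [pow_zero] at hj; omega
      · have hx1 : x = 1 := by
          haveI : Nontrivial Ω := by
            apply (Finite.one_lt_card_iff_nontrivial).mp
            rw [hcard]; exact hN1
          have h1 := two_mul_nat_card_alternatingGroup (α := Ω)
          rw [Nat.card_perm, hcard, hj] at h1
          have h3 : Nat.factorial (2 ^ (0 + 1)) = 2 := by decide
          have h2 : Nat.card (alternatingGroup Ω) = 1 := by omega
          have hsub : Subsingleton (alternatingGroup Ω) := (Nat.card_eq_one_iff_unique.mp h2).1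
          have hxA' : x ∈ alternatingGroup Ω := by rw [← se_alt_eq]; exact hxA
          have h4 := Subsingleton.elim (⟨x, hxA'⟩ : alternatingGroup Ω) 1
          exact congrArg Subtype.val h4
        rw [hx1, one_pow]; exact Subgroup.one_mem _
      · have hsv : Equiv.Perm.sign v = 1 := se_sign_fpf v hvp hfpf (2 ^ j)
          (by rw [← Nat.card_eq_fintype_card, hcard, hj]; ring)
        have hvA : v ∈ seAlt Ω := (se_mem_alt Ω v).mpr hsv
        have hcA : c ∈ seAlt Ω := by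
          have h1 : c = v⁻¹ * x := by rw [hxvc, inv_mul_cancel_left]
          rw [h1]; exact Subgroup.mul_mem _ (Subgroup.inv_mem _ hvA) hxA
        rw [hxvc]
        apply se_pow_mul (P ⊓ seAlt Ω) v c ⟨hvP, hvA⟩ ⟨hM'P hcM, hcA⟩ 2
        · rw [hvp]; exact Subgroup.one_mem _
        · exact hM'T c ⟨hcM, hcA⟩
  · have hsub : Subsingleton Ω := by
      haveI : Nonempty Ω := ⟨ω⟩
      have h0 : 0 < Nat.card Ω := Nat.card_pos
      have h1 : Nat.card Ω = 1 := by omega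
      exact (Nat.card_eq_one_iff_unique.mp h1).1
    have h1 : x = 1 := by apply Equiv.ext; intro y; exact Subsingleton.elim _ _
    rw [h1, one_pow]; exact Subgroup.one_mem _

end Cfsg.Agent.Lib.Helper21
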