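import Mathlib
import Cfsg.Agent.Lib.Helper21.Subnormal
import Cfsg.Agent.Lib.Helper21.Nilp

set_option autoImplicit false

namespace Cfsg.Agent.Lib.Helper21

section CharSub

variable {G : Type*} [Group G]

theorem fittingSubgroup_characteristic [Finite G] : (Cfsg.fittingSubgroup G).Characteristic := by
  rw [Subgroup.characteristic_iff_map_le]
  intro φ
  apply le_sSup
  refine ⟨Subgroup.Normal.map fittingSubgroup_normal φ.toMonoidHom φ.surjective, ?_⟩
  have h : Group.IsNilpotent (Cfsg.fittingSubgroup G) := fittingSubgroup_isNilpotent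
  exact (Group.isNilpotent_congr
    (Subgroup.equivMapOfInjective (Cfsg.fittingSubgroup G) φ.toMonoidHom φ.injective)).mp h

theorem pCore_characteristic [Finite G] (p : ℕ) [Fact p.Prime] :
    (Cfsg.pCore p G).Characteristic := by
  rw [Subgroup.characteristic_iff_map_le]
  intro φ
  apply le_sSup
  exact ⟨Subgroup.Normal.map (pCore_normal p) φ.toMonoidHom φ.surjective,
    (pCore_isPGroup p).map _⟩

/-- The Fitting subgroup of a normal subgroup, viewed in the ambient group, is normal. -/
theorem map_fittingSubgroup_normal [Finite G] (N : Subgroup G) [N.Normal] :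
    ((Cfsg.fittingSubgroup ↥N).map N.subtype).Normal := by
  haveI : (Cfsg.fittingSubgroup ↥N).Characteristic := fittingSubgroup_characteristic
  exact ConjAct.normal_of_characteristic_of_normal

theorem map_pCore_normal [Finite G] (p : ℕ) [Fact p.Prime] (N : Subgroup G) [N.Normal] :
    ((Cfsg.pCore p ↥N).map N.subtype).Normal := by
  haveI : (Cfsg.pCore p ↥N).Characteristic := pCore_characteristic p
  exact ConjAct.normal_of_characteristic_of_normal

theorem map_fittingSubgroup_isNilpotent [Finite G] (N : Subgroup G) :
    Group.IsNilpotent ↥((Cfsg.fittingSubgroup ↥N).map N.subtype) := by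
  have h : Group.IsNilpotent (Cfsg.fittingSubgroup ↥N) := fittingSubgroup_isNilpotent
  exact (Group.isNilpotent_congr
    (Subgroup.equivMapOfInjective (Cfsg.fittingSubgroup ↥N) N.subtype N.subtype_injective)).mp h

end CharSub

end Cfsg.Agent.Lib.Helper21
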