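import Mathlib
import Cfsg.Agent.Lib.Helper21.Basic

set_option autoImplicit false

namespace Cfsg.Agent.Lib.Helper21

section AutOrb1

open Polynomial

variable {p : ℕ} [hp : Fact p.Prime] {V : Type*} [AddCommGroup V] [Module (ZMod p) V]

/-- Transport of polynomial evaluation along a twisted-equivariant map. -/
theorem twist_aeval (T : Module.End (ZMod p) V) (β : V ≃ₗ[ZMod p] V) (k : ℕ)
    (h : ∀ x, β (T x) = (T ^ k) (β x)) (g : (ZMod p)[X]) (x : V) :
    β (aeval T g x) = aeval (T ^ k) g (β x) := by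
  have hpow : ∀ (n : ℕ) (x : V), β ((T ^ n) x) = ((T ^ k) ^ n) (β x) := by
    intro n
    induction n with
    | zero => intro x; simp
    | succ n ih =>
      intro x
      rw [pow_succ, pow_succ, Module.End.mul_apply, Module.End.mul_apply, ih, h]
  induction g using Polynomial.induction_on' with
  | add g1 g2 h1 h2 => simp only [map_add, LinearMap.add_apply, h1, h2]
  | monomial n a =>
    rw [aeval_monomial, aeval_monomial, Module.End.mul_apply, Module.End.mul_apply,
      Module.algebraMap_end_apply, Module.algebraMap_end_apply, map_smul, hpow]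

/-- The module-theoretic core: a twisted-transitive family of automorphisms forces `p` to be a
primitive root modulo `q`. -/
theorem prim_root_of_module {q : ℕ} [hq : Fact q.Prime] (hpq : p ≠ q) [Finite V] [Nontrivial V]
    (T : Module.End (ZMod p) V)
    (hT : aeval T (cyclotomic q (ZMod p)) = 0)
    (S : Set (V ≃ₗ[ZMod p] V))
    (hS1 : ∀ β ∈ S, ∃ k : ℕ, ∀ x, β (T x) = (T ^ k) (β x))
    (hS2 : ∀ v w : V, v ≠ 0 → w ≠ 0 → ∃ β ∈ S, β v = w)
    (hS3 : ∀ k : ℕ, ¬ q ∣ k → ∃ β ∈ S, ∀ x, β (T x) = (T ^ k) (β x)) :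
    orderOf (p : ZMod q) = q - 1 := by
  classical
  obtain ⟨U, hU⟩ : ∃ U : V → Set V,
      ∀ v, U v = Set.range (fun g : (ZMod p)[X] => aeval T g v) := ⟨_, fun _ => rfl⟩
  have hmem : ∀ v x, x ∈ U v ↔ ∃ g : (ZMod p)[X], aeval T g v = x := by
    intro v x; rw [hU]; exact Set.mem_range
  have F1 : ∀ v, v ∈ U v := fun v => (hmem v v).mpr ⟨1, by simp⟩
  have F2 : ∀ u v, u ∈ U v → U u ⊆ U v := by
    intro u v hu x hx
    obtain ⟨h, rfl⟩ := (hmem v u).mp hu
    obtain ⟨g, rfl⟩ := (hmem _ x).mp hx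
    exact (hmem v _).mpr ⟨g * h, by rw [map_mul, Module.End.mul_apply]⟩
  have hfin : ∀ v, (U v).Finite := fun v => Set.toFinite _
  have FA : ∀ v w : V, v ≠ 0 → w ≠ 0 → (U v).ncard ≤ (U w).ncard := by
    intro v w hv hw
    obtain ⟨β, hβ, hβv⟩ := hS2 v w hv hw
    obtain ⟨k, hk⟩ := hS1 β hβ
    have hsub : (fun x => β x) '' (U v) ⊆ U w := by
      rintro _ ⟨x, hx, rfl⟩
      obtain ⟨g, rfl⟩ := (hmem v x).mp hx
      refine (hmem w _).mpr ⟨g.comp (X ^ k), ?_⟩
      show aeval T (g.comp (X ^ k)) w = β (aeval T g v)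
      rw [aeval_comp, aeval_X_pow, twist_aeval T β k hk, hβv]
    calc (U v).ncard = ((fun x => β x) '' (U v)).ncard :=
          (Set.ncard_image_of_injective _ β.injective).symm
      _ ≤ (U w).ncard := Set.ncard_le_ncard hsub (hfin w)
  have FAeq : ∀ v w : V, v ≠ 0 → w ≠ 0 → (U v).ncard = (U w).ncard :=
    fun v w hv hw => le_antisymm (FA v w hv hw) (FA w v hw hv)
  have FB : ∀ u v : V, u ≠ 0 → v ≠ 0 → u ∈ U v → U u = U v := by
    intro u v hu hv huv
    exact Set.eq_of_subset_of_ncard_le (F2 u v huv) (FAeq v u hv hu).le (hfin v)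
  have Fsub : ∀ v x y, x ∈ U v → y ∈ U v → x - y ∈ U v := by
    intro v x y hx hy
    obtain ⟨g1, rfl⟩ := (hmem v x).mp hx
    obtain ⟨g2, rfl⟩ := (hmem v y).mp hy
    exact (hmem v _).mpr ⟨g1 - g2, by rw [map_sub, LinearMap.sub_apply]⟩
  have Fneg : ∀ v x, x ∈ U v → -x ∈ U v := by
    intro v x hx
    obtain ⟨g1, rfl⟩ := (hmem v x).mp hx
    exact (hmem v _).mpr ⟨-g1, by rw [map_neg, LinearMap.neg_apply]⟩
  have hint : IsIntegral (ZMod p) T := ⟨cyclotomic q (ZMod p), cyclotomic.monic q (ZMod p), hT⟩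
  obtain ⟨f, hf, hfm⟩ := WfDvdMonoid.exists_irreducible_factor (minpoly.not_isUnit (ZMod p) T)
    (minpoly.ne_zero hint)
  have hdvd_of : ∀ g : (ZMod p)[X], aeval T g = 0 → f ∣ g :=
    fun g hg => hfm.trans (minpoly.dvd (ZMod p) T hg)
  have hv0 : ∃ v0 : V, v0 ≠ 0 ∧ aeval T f v0 = 0 := by
    by_contra hcon
    push Not at hcon
    obtain ⟨g, hg⟩ := hfm
    have h1 : aeval T g = 0 := by
      apply LinearMap.ext
      intro x
      by_contra hx
      have h2 := hcon (aeval T g x) hx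
      apply h2
      rw [← Module.End.mul_apply, ← map_mul, ← hg, minpoly.aeval]
      rfl
    have h3 : minpoly (ZMod p) T ∣ g := minpoly.dvd (ZMod p) T h1
    obtain ⟨c, hc⟩ := h3
    have h4 : minpoly (ZMod p) T * 1 = minpoly (ZMod p) T * (f * c) := by
      nth_rewrite 1 [hg]
      rw [hc]
      ring
    have h5 := mul_left_cancel₀ (minpoly.ne_zero hint) h4
    exact hf.not_isUnit (isUnit_iff_exists_inv.mpr ⟨c, h5.symm⟩)
  obtain ⟨v0, hv0ne, hv0f⟩ := hv0
  have hcomm : ∀ (g h : (ZMod p)[X]) (x : V),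
      aeval T g (aeval T h x) = aeval T h (aeval T g x) := by
    intro g h x
    rw [← Module.End.mul_apply, ← Module.End.mul_apply, ← map_mul, ← map_mul, mul_comm]
  have hU0 : ∀ u ∈ U v0, aeval T f u = 0 := by
    intro u hu
    obtain ⟨g, rfl⟩ := (hmem v0 u).mp hu
    rw [hcomm, hv0f, map_zero]
  have hfT : aeval T f = 0 := by
    apply LinearMap.ext
    intro w
    show aeval T f w = 0
    by_cases hw0 : w = 0
    · rw [hw0, map_zero]
    by_cases hwU : w ∈ U v0
    · exact hU0 w hwU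
    by_contra hx
    have hz : v0 + w ≠ 0 := by
      intro h
      apply hwU
      have h1 : w = -v0 := eq_neg_of_add_eq_zero_right h
      rw [h1]; exact Fneg v0 v0 (F1 v0)
    have hxz : aeval T f w ∈ U (v0 + w) := (hmem _ _).mpr ⟨f, by rw [map_add, hv0f, zero_add]⟩
    have hxw : aeval T f w ∈ U w := (hmem _ _).mpr ⟨f, rfl⟩
    have e1 := FB _ _ hx hz hxz
    have e2 := FB _ _ hx hw0 hxw
    have hzw : v0 + w ∈ U w := by rw [← e2, e1]; exact F1 _
    have hv0w : v0 ∈ U w := by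
      have h1 := Fsub w _ _ hzw (F1 w)
      simpa using h1
    have e3 := FB v0 w hv0ne hw0 hv0w
    exact hwU (by rw [e3]; exact F1 w)
  have hfTk : ∀ k : ℕ, ¬ q ∣ k → aeval (T ^ k) f = 0 := by
    intro k hk
    obtain ⟨β, hβ, hβk⟩ := hS3 k hk
    apply LinearMap.ext
    intro x
    have h1 := twist_aeval T β k hβk f (β.symm x)
    rw [LinearEquiv.apply_symm_apply, hfT] at h1
    rw [← h1]; simp
  haveI : Fact (Irreducible f) := ⟨hf⟩
  obtain ⟨ζ, hζ⟩ : ∃ ζ : AdjoinRoot f, ζ = AdjoinRoot.root f := ⟨_, rfl⟩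
  have hroot : ∀ g : (ZMod p)[X], aeval T g = 0 → eval₂ (AdjoinRoot.of f) ζ g = 0 := by
    intro g hg
    rw [hζ]
    exact eval₂_eq_zero_of_dvd_of_eval₂_eq_zero _ _ (hdvd_of g hg) (AdjoinRoot.eval₂_root f)
  have hζk : ∀ k : ℕ, ¬ q ∣ k → eval₂ (AdjoinRoot.of f) (ζ ^ k) f = 0 := by
    intro k hk
    have h1 := hroot (f.comp (X ^ k)) (by rw [aeval_comp, aeval_X_pow]; exact hfTk k hk)
    rw [eval₂_comp, eval₂_X_pow] at h1
    exact h1
  have hζq : ζ ^ q = 1 := by
    have h1 := hroot (X ^ q - 1) (by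
      obtain ⟨c, hc⟩ := cyclotomic.dvd_X_pow_sub_one q (ZMod p)
      rw [hc, map_mul, hT, zero_mul])
    rw [eval₂_sub, eval₂_X_pow, eval₂_one] at h1
    exact sub_eq_zero.mp h1
  have hζ1 : ζ ≠ 1 := by
    intro h1
    have h2 := hroot (cyclotomic q (ZMod p)) hT
    rw [cyclotomic_prime, eval₂_finsetSum, h1] at h2
    simp only [eval₂_X_pow, one_pow, Finset.sum_const, Finset.card_range, nsmul_eq_mul,
      mul_one] at h2
    have h3 : (AdjoinRoot.of f) (q : ZMod p) = 0 := by rw [map_natCast]; exact h2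
    have h4 : (q : ZMod p) = 0 := (map_eq_zero (AdjoinRoot.of f)).mp h3
    rw [ZMod.natCast_eq_zero_iff] at h4
    exact hpq ((Nat.prime_dvd_prime_iff_eq hp.out hq.out).mp h4)
  have hordζ : orderOf ζ = q := orderOf_eq_prime hζq hζ1
  have hf0 : f.map (AdjoinRoot.of f) ≠ 0 :=
    (Polynomial.map_ne_zero_iff (AdjoinRoot.of f).injective).mpr hf.ne_zero
  have hZ : ((Finset.range (q - 1)).image (fun i => ζ ^ (i + 1))).val ⊆
      (f.map (AdjoinRoot.of f)).roots := by
    intro x hx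
    rw [Finset.mem_val, Finset.mem_image] at hx
    obtain ⟨i, hi, rfl⟩ := hx
    rw [mem_roots hf0, IsRoot.def, eval_map]
    apply hζk
    intro hdiv
    have h1 := Nat.le_of_dvd (Nat.succ_pos i) hdiv
    have h2 := Finset.mem_range.mp hi
    omega
  have hcardZ : ((Finset.range (q - 1)).image (fun i => ζ ^ (i + 1))).card = q - 1 := by
    rw [Finset.card_image_of_injOn, Finset.card_range]
    intro i hi j hj hij
    simp only [Finset.coe_range, Set.mem_Iio] at hi hj
    have h1 : ζ ^ (i + 1) = ζ ^ (j + 1) := hij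
    have h2 := pow_injOn_Iio_orderOf (x := ζ) (by rw [Set.mem_Iio, hordζ]; omega)
      (by rw [Set.mem_Iio, hordζ]; omega) h1
    omega
  have hdeg := card_le_degree_of_subset_roots hZ
  rw [hcardZ, natDegree_map] at hdeg
  have hcop : p.Coprime q := (Nat.coprime_primes hp.out hq.out).mpr hpq
  have hdeg2 := natDegree_of_dvd_cyclotomic_of_irreducible (K := ZMod p) (p := p) (f := 1)
    (n := q) (by simp [ZMod.card]) hcop (hdvd_of _ hT) hf
  rw [hdeg2] at hdeg
  have hle : orderOf (ZMod.unitOfCoprime (p ^ 1) (hcop.pow_left 1)) ≤ q - 1 := by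
    have h1 := orderOf_le_card_univ (x := ZMod.unitOfCoprime (p ^ 1) (hcop.pow_left 1))
    rw [ZMod.card_units_eq_totient, Nat.totient_prime hq.out] at h1
    exact h1
  have heq : orderOf (ZMod.unitOfCoprime (p ^ 1) (hcop.pow_left 1)) = q - 1 :=
    le_antisymm hle hdeg
  rw [← heq, ← orderOf_units, ZMod.coe_unitOfCoprime, pow_one]

end AutOrb1

end Cfsg.Agent.Lib.Helper21
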