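import Mathlib
import Cfsg.Agent.Lib.Helper21.AutOrb1

set_option autoImplicit false

namespace Cfsg.Agent.Lib.Helper21

section AutOrb2

open Polynomial

/-- The quotient of the polynomial ring by the `q`-th cyclotomic polynomial over `ZMod p`. -/
abbrev CycF (p q : ℕ) : Type := AdjoinRoot (cyclotomic q (ZMod p))

variable {p : ℕ} [hp : Fact p.Prime] {V : Type*} [AddCommGroup V] [Module (ZMod p) V]

theorem cyclotomic_irreducible_of_prim {q : ℕ} [hq : Fact q.Prime] (hpq : p ≠ q)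
    (hprim : orderOf (p : ZMod q) = q - 1) : Irreducible (cyclotomic q (ZMod p)) := by
  have hpq' : ¬ p ∣ q := fun h => hpq ((Nat.prime_dvd_prime_iff_eq hp.out hq.out).mp h)
  apply ZMod.irreducible_of_dvd_cyclotomic_of_natDegree hpq' dvd_rfl
  rw [natDegree_cyclotomic, Nat.totient_prime hq.out, ← hprim, ← orderOf_units,
    ZMod.coe_unitOfCoprime]

theorem exists_pow_eq_of_prim {q : ℕ} [hq : Fact q.Prime] (hpq : p ≠ q)
    (hprim : orderOf (p : ZMod q) = q - 1) (k : ℕ) (hk : ¬ q ∣ k) :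
    ∃ j : ℕ, p ^ j % q = k % q := by
  have hcop : p.Coprime q := (Nat.coprime_primes hp.out hq.out).mpr hpq
  have hkcop : k.Coprime q := (Nat.Coprime.symm ((Nat.Prime.coprime_iff_not_dvd hq.out).mpr hk))
  obtain ⟨u, hu⟩ : ∃ u : (ZMod q)ˣ, u = ZMod.unitOfCoprime p hcop := ⟨_, rfl⟩
  have hord : orderOf u = Nat.card (ZMod q)ˣ := by
    rw [Nat.card_eq_fintype_card, ZMod.card_units_eq_totient, Nat.totient_prime hq.out, ← hprim,
      ← orderOf_units, hu, ZMod.coe_unitOfCoprime]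
  have htop : Subgroup.zpowers u = ⊤ := by
    apply Subgroup.eq_top_of_card_eq
    rw [Nat.card_zpowers, hord]
  have hmem : ZMod.unitOfCoprime k hkcop ∈ Subgroup.zpowers u := by rw [htop]; exact Subgroup.mem_top _
  rw [← mem_powers_iff_mem_zpowers] at hmem
  obtain ⟨j, hj⟩ := hmem
  refine ⟨j, ?_⟩
  have h1 : ((u ^ j : (ZMod q)ˣ) : ZMod q) = ((ZMod.unitOfCoprime k hkcop : (ZMod q)ˣ) : ZMod q) :=
    congrArg Units.val hj
  rw [Units.val_pow_eq_pow_val, hu, ZMod.coe_unitOfCoprime, ZMod.coe_unitOfCoprime,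
    ← Nat.cast_pow, ZMod.natCast_eq_natCast_iff'] at h1
  exact h1

/-- Under the primitive-root hypothesis the module carries enough automorphisms. -/
theorem exists_equiv_of_prim_root {q : ℕ} [hq : Fact q.Prime] (hpq : p ≠ q) [Finite V]
    (T : Module.End (ZMod p) V)
    (hT : aeval T (cyclotomic q (ZMod p)) = 0)
    (hprim : orderOf (p : ZMod q) = q - 1) :
    (∀ v w : V, v ≠ 0 → w ≠ 0 → ∃ F : V ≃+ V, (∀ x, F (T x) = T (F x)) ∧ F v = w) ∧
    (∀ k : ℕ, ¬ q ∣ k → ∃ F : V ≃+ V, ∀ x, F (T x) = (T ^ k) (F x)) := by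
  classical
  have hirr := cyclotomic_irreducible_of_prim hpq hprim
  haveI : Fact (Irreducible (cyclotomic q (ZMod p))) := ⟨hirr⟩
  have hker : ∀ a ∈ (Ideal.span {cyclotomic q (ZMod p)} : Ideal (ZMod p)[X]),
      (aeval T : (ZMod p)[X] →ₐ[ZMod p] Module.End (ZMod p) V).toRingHom a = 0 := by
    intro a ha
    obtain ⟨c, rfl⟩ := Ideal.mem_span_singleton.mp ha
    show aeval T (cyclotomic q (ZMod p) * c) = 0
    rw [map_mul, hT, zero_mul]
  obtain ⟨ρ, hρ⟩ : ∃ ρ : CycF p q →+* Module.End (ZMod p) V,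
      ρ (AdjoinRoot.root (cyclotomic q (ZMod p))) = T :=
    ⟨Ideal.Quotient.lift _ _ hker, by
      show Ideal.Quotient.lift _ _ hker (Ideal.Quotient.mk _ X) = T
      rw [Ideal.Quotient.lift_mk]
      show aeval T X = T
      exact aeval_X T⟩
  letI : Module (CycF p q) V := Module.compHom V ρ
  have hsmul : ∀ (c : CycF p q) (x : V), c • x = ρ c x := fun c x => rfl
  have hTsmul : ∀ x : V, T x = (AdjoinRoot.root (cyclotomic q (ZMod p)) : CycF p q) • x :=
    fun x => by rw [hsmul, hρ]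
  have hTq : T ^ q = 1 := by
    obtain ⟨c, hc⟩ := cyclotomic.dvd_X_pow_sub_one q (ZMod p)
    have h1 : aeval T (X ^ q - 1 : (ZMod p)[X]) = 0 := by rw [hc, map_mul, hT, zero_mul]
    rw [map_sub, aeval_X_pow, map_one] at h1
    exact sub_eq_zero.mp h1
  refine ⟨?_, ?_⟩
  · intro v w hv hw
    obtain ⟨φ1, h1⟩ := Module.Projective.exists_dual_ne_zero (CycF p q) hv
    obtain ⟨φ2, h2⟩ := Module.Projective.exists_dual_ne_zero (CycF p q) hw
    obtain ⟨φ, hφv, hφw⟩ : ∃ φ : Module.Dual (CycF p q) V, φ v ≠ 0 ∧ φ w ≠ 0 := by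
      by_cases h3 : φ1 w = 0
      · by_cases h4 : φ2 v = 0
        · exact ⟨φ1 + φ2, by simp [h4, h1], by simp [h3, h2]⟩
        · exact ⟨φ2, h4, h2⟩
      · exact ⟨φ1, h1, h3⟩
    obtain ⟨F, hF⟩ : ∃ F : V →ₗ[CycF p q] V, ∀ x, F x = x + ((φ v)⁻¹ * φ x) • (w - v) :=
      ⟨LinearMap.id + (LinearMap.toSpanSingleton (CycF p q) V (w - v)).comp ((φ v)⁻¹ • φ),
        fun x => by simp [LinearMap.toSpanSingleton_apply]⟩
    have hinj : Function.Injective F := by
      rw [injective_iff_map_eq_zero]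
      intro x hx
      rw [hF] at hx
      have h3 : φ (x + ((φ v)⁻¹ * φ x) • (w - v)) = 0 := by rw [hx, map_zero]
      rw [map_add, map_smul, map_sub, smul_eq_mul] at h3
      have h4 : φ x * ((φ v)⁻¹ * φ w) = 0 := by
        have e : φ x + (φ v)⁻¹ * φ x * (φ w - φ v) = φ x * ((φ v)⁻¹ * φ w) := by
          field_simp
          ring
        rw [← e]; exact h3
      have h5 : φ x = 0 := by
        rcases mul_eq_zero.mp h4 with h | h
        · exact h
        · exact absurd h (mul_ne_zero (inv_ne_zero hφv) hφw)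
      rw [h5, mul_zero, zero_smul, add_zero] at hx
      exact hx
    have hbij : Function.Bijective F := ⟨hinj, Finite.surjective_of_injective hinj⟩
    refine ⟨AddEquiv.ofBijective F.toAddMonoidHom hbij, fun x => ?_, ?_⟩
    · show F (T x) = T (F x)
      rw [hTsmul, map_smul, ← hTsmul]
    · show F v = w
      rw [hF, inv_mul_cancel₀ hφv, one_smul]
      abel
  · intro k hk
    obtain ⟨j, hj⟩ := exists_pow_eq_of_prim hpq hprim k hk
    have hTk : T ^ k = T ^ (p ^ j) := by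
      rw [pow_eq_pow_mod k hTq, pow_eq_pow_mod (p ^ j) hTq, hj]
    haveI : CharP (CycF p q) p :=
      charP_of_injective_algebraMap (algebraMap (ZMod p) (CycF p q)).injective p
    haveI : ExpChar (CycF p q) p := ExpChar.prime hp.out
    haveI : Module.Finite (ZMod p) (CycF p q) := (cyclotomic.monic q (ZMod p)).finite_adjoinRoot
    haveI : Finite (CycF p q) := Module.finite_of_finite (ZMod p)
    obtain ⟨σ, hσ⟩ : ∃ σ : CycF p q ≃+* CycF p q, ∀ x, σ x = x ^ p ^ j :=
      ⟨iterateFrobeniusEquiv (CycF p q) p j, fun x => iterateFrobeniusEquiv_def (CycF p q) p j x⟩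
    have b := Module.Free.chooseBasis (CycF p q) V
    obtain ⟨F, hF⟩ : ∃ F : V ≃+ V, ∀ x, F x =
        b.repr.symm (Finsupp.mapRange σ (map_zero σ) (b.repr x)) :=
      ⟨b.repr.toAddEquiv.trans ((Finsupp.mapRange.addEquiv σ.toAddEquiv).trans
        b.repr.symm.toAddEquiv), fun x => rfl⟩
    have hFs : ∀ (c : CycF p q) (x : V), F (c • x) = σ c • F x := by
      intro c x
      rw [hF, hF, b.repr.map_smul c x, ← b.repr.symm.map_smul (σ c)]
      refine congrArg b.repr.symm ?_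
      ext i
      simp [Finsupp.mapRange_apply]
    refine ⟨F, fun x => ?_⟩
    rw [hTsmul, hFs, hσ, hTk, hsmul, map_pow, hρ]

end AutOrb2

end Cfsg.Agent.Lib.Helper21
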