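import Mathlib
import Cfsg.Agent.Lib.Helper21.AutOrb2

set_option autoImplicit false

namespace Cfsg.Agent.Lib.Helper21

section AutOrb3

open Polynomial

variable {p q : ℕ} [hp : Fact p.Prime] [hq : Fact q.Prime] {A : Type*} [CommGroup A]

/-- The `ZMod p`-module structure on an abelian group of exponent `p`, written additively. -/
def expModule (hexp : ∀ a : A, a ^ p = 1) : Module (ZMod p) (Additive A) :=
  AddCommGroup.zmodModule (fun x => by
    show Additive.ofMul (Additive.toMul x ^ p) = 0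
    rw [hexp]; rfl)

theorem setup_T (hexp : ∀ a : A, a ^ p = 1) (τ : MulAut A)
    (hτq : τ ^ q = 1) (hfix : ∀ a, τ a = a → a = 1) :
    letI := expModule hexp
    ∃ T : Module.End (ZMod p) (Additive A),
      (∀ (k : ℕ) (x : Additive A), (T ^ k) x = Additive.ofMul ((τ ^ k) (Additive.toMul x))) ∧
      aeval T (cyclotomic q (ZMod p)) = 0 := by
  letI := expModule hexp
  obtain ⟨T, hT⟩ : ∃ T : Module.End (ZMod p) (Additive A),
      ∀ x, T x = Additive.ofMul (τ (Additive.toMul x)) :=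
    ⟨AddMonoidHom.toZModLinearMap p (MonoidHom.toAdditive τ.toMonoidHom), fun x => rfl⟩
  have hTk : ∀ (k : ℕ) (x : Additive A),
      (T ^ k) x = Additive.ofMul ((τ ^ k) (Additive.toMul x)) := by
    intro k
    induction k with
    | zero => intro x; simp
    | succ k ih =>
      intro x
      rw [pow_succ, Module.End.mul_apply, ih, hT, pow_succ, MulAut.mul_apply]
      rfl
  refine ⟨T, hTk, ?_⟩
  rw [cyclotomic_prime, map_sum]
  simp only [aeval_X_pow]
  have hTq : T ^ q = 1 := by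
    apply LinearMap.ext
    intro x
    rw [hTk, hτq]
    rfl
  have h1 : (T - 1) * ∑ i ∈ Finset.range q, T ^ i = 0 := by
    rw [mul_geom_sum, hTq, sub_self]
  apply LinearMap.ext
  intro x
  have h2 : ((T - 1) * ∑ i ∈ Finset.range q, T ^ i) x = 0 := by rw [h1]; rfl
  rw [Module.End.mul_apply, LinearMap.sub_apply, Module.End.one_apply, sub_eq_zero, hT] at h2
  have h3 := hfix (Additive.toMul ((∑ i ∈ Finset.range q, T ^ i) x)) (congrArg Additive.toMul h2)
  exact toMul_eq_one.mp h3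

/-- Group form of the primitive-root lemma. -/
theorem prim_root_of_commGroup (hpq : p ≠ q) [Finite A] [Nontrivial A]
    (hexp : ∀ a : A, a ^ p = 1) (τ : MulAut A)
    (hτq : τ ^ q = 1) (hfix : ∀ a, τ a = a → a = 1)
    (S : Set (MulAut A))
    (hS1 : ∀ β ∈ S, ∃ k : ℕ, ∀ a, β (τ a) = (τ ^ k) (β a))
    (hS2 : ∀ v w : A, v ≠ 1 → w ≠ 1 → ∃ β ∈ S, β v = w)
    (hS3 : ∀ k : ℕ, ¬ q ∣ k → ∃ β ∈ S, ∀ a, β (τ a) = (τ ^ k) (β a)) :
    orderOf (p : ZMod q) = q - 1 := by
  letI := expModule hexp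
  obtain ⟨T, hT1, hT2⟩ := setup_T (q := q) hexp τ hτq hfix
  have hT1' : ∀ x, T x = Additive.ofMul (τ (Additive.toMul x)) := fun x => by
    have h := hT1 1 x
    rwa [pow_one, pow_one] at h
  obtain ⟨conv, hconv⟩ : ∃ conv : MulAut A → (Additive A ≃ₗ[ZMod p] Additive A),
      ∀ β x, conv β x = Additive.ofMul (β (Additive.toMul x)) :=
    ⟨fun β => LinearEquiv.ofBijective
      (AddMonoidHom.toZModLinearMap p (MonoidHom.toAdditive β.toMonoidHom))
      ⟨β.injective, β.surjective⟩, fun β x => rfl⟩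
  apply prim_root_of_module hpq T hT2 (conv '' S)
  · rintro _ ⟨β, hβ, rfl⟩
    obtain ⟨k, hk⟩ := hS1 β hβ
    refine ⟨k, fun x => ?_⟩
    rw [hconv, hconv, hT1', hT1 k]
    simp only [toMul_ofMul]
    rw [hk]
  · intro v w hv hw
    obtain ⟨β, hβ, hβv⟩ := hS2 (Additive.toMul v) (Additive.toMul w)
      (fun h => hv (toMul_eq_one.mp h)) (fun h => hw (toMul_eq_one.mp h))
    refine ⟨conv β, ⟨β, hβ, rfl⟩, ?_⟩
    rw [hconv, hβv]; rfl
  · intro k hk
    obtain ⟨β, hβ, hβk⟩ := hS3 k hk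
    refine ⟨conv β, ⟨β, hβ, rfl⟩, fun x => ?_⟩
    rw [hconv, hconv, hT1', hT1 k]
    simp only [toMul_ofMul]
    rw [hβk]

/-- Group form of the existence of enough automorphisms. -/
theorem exists_aut_of_prim_root (hpq : p ≠ q) [Finite A]
    (hexp : ∀ a : A, a ^ p = 1) (τ : MulAut A)
    (hτq : τ ^ q = 1) (hfix : ∀ a, τ a = a → a = 1)
    (hprim : orderOf (p : ZMod q) = q - 1) :
    (∀ v w : A, v ≠ 1 → w ≠ 1 → ∃ F : MulAut A, (∀ a, F (τ a) = τ (F a)) ∧ F v = w) ∧
    (∀ k : ℕ, ¬ q ∣ k → ∃ F : MulAut A, ∀ a, F (τ a) = (τ ^ k) (F a)) := by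
  letI := expModule hexp
  obtain ⟨T, hT1, hT2⟩ := setup_T (q := q) hexp τ hτq hfix
  have hT1' : ∀ x, T x = Additive.ofMul (τ (Additive.toMul x)) := fun x => by
    have h := hT1 1 x
    rwa [pow_one, pow_one] at h
  obtain ⟨h1, h2⟩ := exists_equiv_of_prim_root hpq T hT2 hprim
  constructor
  · intro v w hv hw
    obtain ⟨F, hF1, hF2⟩ := h1 (Additive.ofMul v) (Additive.ofMul w)
      (fun h => hv (ofMul_eq_zero.mp h)) (fun h => hw (ofMul_eq_zero.mp h))
    refine ⟨MulEquiv.toAdditive.symm F, fun a => ?_, ?_⟩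
    · have h3 := hF1 (Additive.ofMul a)
      rw [hT1', hT1'] at h3
      exact congrArg Additive.toMul h3
    · exact congrArg Additive.toMul hF2
  · intro k hk
    obtain ⟨F, hF⟩ := h2 k hk
    refine ⟨MulEquiv.toAdditive.symm F, fun a => ?_⟩
    have h3 := hF (Additive.ofMul a)
    rw [hT1', hT1 k] at h3
    exact congrArg Additive.toMul h3

end AutOrb3

end Cfsg.Agent.Lib.Helper21
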