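import Mathlib
import Cfsg.Agent.Lib.Helper21.AutOrb3

set_option autoImplicit false

namespace Cfsg.Agent.Lib.Helper21

section AutOrb4

variable {G : Type*} [Group G]

/-- Extending a twisted-equivariant automorphism of a normal complement to the whole group. -/
theorem exists_aut_extension [Finite G] (P Q : Subgroup G) [P.Normal] (hdisj : P ⊓ Q = ⊥)
    (hcard : Nat.card P * Nat.card Q = Nat.card G)
    (y : G) (hQ : Q = Subgroup.zpowers y) (q : ℕ) [hq : Fact q.Prime] (hy : orderOf y = q)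
    (F : MulAut ↥P) (k : ℕ) (hk : ¬ q ∣ k)
    (hF : ∀ a : ↥P, F (MulAut.conjNormal y a) = MulAut.conjNormal (y ^ k) (F a)) :
    ∃ θ : MulAut G, (∀ a : ↥P, θ (a : G) = (F a : G)) ∧ θ y = y ^ k := by
  have hFi : ∀ (i : ℕ) (a : ↥P),
      F (MulAut.conjNormal (y ^ i) a) = MulAut.conjNormal ((y ^ i) ^ k) (F a) := by
    intro i
    induction i with
    | zero => intro a; simp
    | succ i ih =>
      intro a
      rw [pow_succ, map_mul, MulAut.mul_apply, ih, hF,
        ((Commute.refl y).pow_left i).mul_pow k, map_mul, MulAut.mul_apply]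
  have hQmem : ∀ b : ↥Q, ∃ i : ℕ, (b : G) = y ^ i := by
    intro b
    have hb : (b : G) ∈ Subgroup.zpowers y := hQ ▸ b.2
    rw [← mem_powers_iff_mem_zpowers] at hb
    obtain ⟨i, hi⟩ := hb
    exact ⟨i, hi.symm⟩
  obtain ⟨φ, hφ⟩ : ∃ φ : ↥Q →* MulAut ↥P, ∀ b : ↥Q, φ b = MulAut.conjNormal (b : G) :=
    ⟨MulAut.conjNormal.comp Q.subtype, fun b => rfl⟩
  have hlift : ∀ g : ↥Q, P.subtype.comp (φ g).toMonoidHom =
      (MulAut.conj (Q.subtype g)).toMonoidHom.comp P.subtype := by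
    intro g
    refine MonoidHom.ext fun a => ?_
    show ((φ g a : ↥P) : G) = (g : G) * (a : G) * (g : G)⁻¹
    rw [hφ, MulAut.conjNormal_apply]
  obtain ⟨e, he⟩ : ∃ e : ↥P ⋊[φ] ↥Q →* G, ∀ x, e x = (x.left : G) * (x.right : G) :=
    ⟨SemidirectProduct.lift P.subtype Q.subtype hlift, fun x => rfl⟩
  have heinj : Function.Injective e := by
    rw [injective_iff_map_eq_one]
    intro x hx
    rw [he] at hx
    have h1 : (x.left : G) = (x.right : G)⁻¹ := eq_inv_of_mul_eq_one_left hx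
    have h2 : (x.left : G) ∈ P ⊓ Q :=
      Subgroup.mem_inf.mpr ⟨x.left.2, by rw [h1]; exact Q.inv_mem x.right.2⟩
    rw [hdisj, Subgroup.mem_bot] at h2
    have h3 : (x.right : G) = 1 := by
      rw [h2] at h1
      exact inv_eq_one.mp h1.symm
    apply SemidirectProduct.ext
    · exact Subtype.ext h2
    · exact Subtype.ext h3
  have hebij : Function.Bijective e :=
    heinj.bijective_of_nat_card_le (by rw [SemidirectProduct.card, hcard])
  obtain ⟨E, hE⟩ : ∃ E : ↥P ⋊[φ] ↥Q ≃* G, ∀ x, E x = e x :=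
    ⟨MulEquiv.ofBijective e hebij, fun x => rfl⟩
  have hQcomm : ∀ a b : ↥Q, a * b = b * a := by
    intro a b
    obtain ⟨i, hi⟩ := hQmem a
    obtain ⟨j, hj⟩ := hQmem b
    apply Subtype.ext
    show (a : G) * (b : G) = (b : G) * (a : G)
    rw [hi, hj, ← pow_add, ← pow_add, add_comm]
  obtain ⟨fg, hfg⟩ : ∃ fg : ↥Q →* ↥Q, ∀ b, fg b = b ^ k :=
    ⟨{ toFun := fun b => b ^ k
       map_one' := one_pow k
       map_mul' := fun a b => (Commute.mul_pow (hQcomm a b) k) }, fun b => rfl⟩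
  have hmap : ∀ g : ↥Q, F.toMonoidHom.comp (φ g).toMonoidHom =
      (φ (fg g)).toMonoidHom.comp F.toMonoidHom := by
    intro g
    obtain ⟨i, hi⟩ := hQmem g
    refine MonoidHom.ext fun a => ?_
    show F (φ g a) = φ (fg g) (F a)
    rw [hφ, hφ, hfg, Subgroup.coe_pow, hi, hFi]
  obtain ⟨m, hm1, hm2⟩ : ∃ m : ↥P ⋊[φ] ↥Q →* ↥P ⋊[φ] ↥Q,
      (∀ x, (m x).left = F x.left) ∧ (∀ x, (m x).right = fg x.right) :=
    ⟨SemidirectProduct.map F.toMonoidHom fg hmap, fun x => rfl, fun x => rfl⟩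
  have hcardQ : Nat.card ↥Q = q := by rw [hQ, Nat.card_zpowers, hy]
  have hfginj : Function.Injective fg := by
    intro a b hab
    rw [hfg, hfg] at hab
    have h1 : (a * b⁻¹) ^ k = 1 := by
      rw [Commute.mul_pow (hQcomm a b⁻¹) k, hab, inv_pow, mul_inv_cancel]
    have h2 : orderOf (a * b⁻¹) ∣ k := orderOf_dvd_of_pow_eq_one h1
    have h3 : orderOf (a * b⁻¹) ∣ q := by
      rw [← hcardQ]; exact orderOf_dvd_natCard _
    have h4 : orderOf (a * b⁻¹) = 1 := by
      rcases (Nat.dvd_prime hq.out).mp h3 with h | h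
      · exact h
      · rw [h] at h2; exact absurd h2 hk
    exact mul_inv_eq_one.mp (orderOf_eq_one_iff.mp h4)
  have hminj : Function.Injective m := by
    intro x x' hxx
    apply SemidirectProduct.ext
    · apply F.injective
      rw [← hm1, ← hm1, hxx]
    · apply hfginj
      rw [← hm2, ← hm2, hxx]
  obtain ⟨θ0, hθ0⟩ : ∃ θ0 : G →* G, ∀ g, θ0 g = E (m (E.symm g)) :=
    ⟨E.toMonoidHom.comp (m.comp E.symm.toMonoidHom), fun g => rfl⟩
  have hθinj : Function.Injective θ0 := by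
    intro g g' h
    rw [hθ0, hθ0] at h
    exact E.symm.injective (hminj (E.injective h))
  have hθbij : Function.Bijective θ0 := Finite.injective_iff_bijective.mp hθinj
  refine ⟨MulEquiv.ofBijective θ0 hθbij, ?_, ?_⟩
  · intro a
    show θ0 (a : G) = (F a : G)
    rw [hθ0]
    have h1 : E.symm (a : G) = SemidirectProduct.inl a := by
      rw [MulEquiv.symm_apply_eq, hE, he]; simp
    rw [h1, hE, he, hm1, hm2]
    simp [hfg]
  · show θ0 y = y ^ k
    rw [hθ0]
    have hyQ : y ∈ Q := hQ ▸ Subgroup.mem_zpowers y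
    have h1 : E.symm y = SemidirectProduct.inr (⟨y, hyQ⟩ : ↥Q) := by
      rw [MulEquiv.symm_apply_eq, hE, he]; simp
    rw [h1, hE, he, hm1, hm2]
    simp [hfg]

end AutOrb4

end Cfsg.Agent.Lib.Helper21
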