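import Mathlib
import Cfsg.Prelude.Def_Transfer
import Cfsg.Agent.Lib.Helper21.AutOrb4

set_option autoImplicit false

namespace Cfsg.Agent.Lib.Helper21

section AutOrb5

variable {p q : ℕ} [hp : Fact p.Prime] [hq : Fact q.Prime]

theorem exists_twist_eq_comm {A : Type*} [CommGroup A] [Finite A] (σ : MulAut A)
    (hfix : ∀ a, σ a = a → a = 1) (c : A) : ∃ u : A, u * (σ u)⁻¹ = c := by
  obtain ⟨ψ, hψ⟩ : ∃ ψ : A →* A, ∀ u, ψ u = u * (σ u)⁻¹ :=
    ⟨{ toFun := fun u => u * (σ u)⁻¹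
       map_one' := by simp
       map_mul' := fun u v => by rw [map_mul, mul_inv, mul_mul_mul_comm] }, fun u => rfl⟩
  have hinj : Function.Injective ψ := by
    rw [injective_iff_map_eq_one]
    intro u hu
    rw [hψ, mul_inv_eq_one] at hu
    exact hfix u hu.symm
  obtain ⟨u, hu⟩ := (Finite.injective_iff_surjective.mp hinj) c
  exact ⟨u, by rw [← hψ, hu]⟩

theorem exists_twist_eq {A : Type*} [Group A] [Finite A] (hcomm : ∀ a b : A, a * b = b * a)
    (σ : MulAut A) (hfix : ∀ a, σ a = a → a = 1) (c : A) : ∃ u : A, u * (σ u)⁻¹ = c :=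
  @exists_twist_eq_comm A { (inferInstance : Group A) with mul_comm := hcomm } _ σ hfix c

theorem prim_root_of_group (hpq : p ≠ q) {A : Type*} [Group A] [Finite A] [Nontrivial A]
    (hcomm : ∀ a b : A, a * b = b * a)
    (hexp : ∀ a : A, a ^ p = 1) (τ : MulAut A)
    (hτq : τ ^ q = 1) (hfix : ∀ a, τ a = a → a = 1)
    (S : Set (MulAut A))
    (hS1 : ∀ β ∈ S, ∃ k : ℕ, ∀ a, β (τ a) = (τ ^ k) (β a))
    (hS2 : ∀ v w : A, v ≠ 1 → w ≠ 1 → ∃ β ∈ S, β v = w)
    (hS3 : ∀ k : ℕ, ¬ q ∣ k → ∃ β ∈ S, ∀ a, β (τ a) = (τ ^ k) (β a)) :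
    orderOf (p : ZMod q) = q - 1 :=
  @prim_root_of_commGroup p q hp hq A { (inferInstance : Group A) with mul_comm := hcomm } hpq _ _
    hexp τ hτq hfix S hS1 hS2 hS3

theorem exists_aut_of_prim_root_group (hpq : p ≠ q) {A : Type*} [Group A] [Finite A]
    (hcomm : ∀ a b : A, a * b = b * a)
    (hexp : ∀ a : A, a ^ p = 1) (τ : MulAut A)
    (hτq : τ ^ q = 1) (hfix : ∀ a, τ a = a → a = 1)
    (hprim : orderOf (p : ZMod q) = q - 1) :
    (∀ v w : A, v ≠ 1 → w ≠ 1 → ∃ F : MulAut A, (∀ a, F (τ a) = τ (F a)) ∧ F v = w) ∧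
    (∀ k : ℕ, ¬ q ∣ k → ∃ F : MulAut A, ∀ a, F (τ a) = (τ ^ k) (F a)) :=
  @exists_aut_of_prim_root p q hp hq A { (inferInstance : Group A) with mul_comm := hcomm } hpq _
    hexp τ hτq hfix hprim

variable {G : Type*} [Group G]

theorem cls_eq_iff (a b : G) :
    (Quotient.mk (MulAction.orbitRel (MulAut G) G) a =
      Quotient.mk (MulAction.orbitRel (MulAut G) G) b) ↔ ∃ θ : MulAut G, θ b = a := by
  rw [Quotient.eq]
  show MulAction.orbitRel (MulAut G) G a b ↔ _
  rw [MulAction.orbitRel_apply, MulAction.mem_orbit_iff]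
  rfl

theorem card_orbits_three [Finite G] (a b c : G)
    (hab : ¬ ∃ θ : MulAut G, θ b = a) (hac : ¬ ∃ θ : MulAut G, θ c = a)
    (hbc : ¬ ∃ θ : MulAut G, θ c = b)
    (hcov : ∀ g : G, (∃ θ : MulAut G, θ a = g) ∨ (∃ θ : MulAut G, θ b = g) ∨
      (∃ θ : MulAut G, θ c = g)) :
    Nat.card (MulAction.orbitRel.Quotient (MulAut G) G) = 3 := by
  classical
  haveI : Fintype (MulAction.orbitRel.Quotient (MulAut G) G) := Fintype.ofFinite _
  rw [Nat.card_eq_fintype_card, ← Finset.card_univ, Finset.card_eq_three]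
  refine ⟨Quotient.mk _ a, Quotient.mk _ b, Quotient.mk _ c, ?_, ?_, ?_, ?_⟩
  · intro h; exact hab ((cls_eq_iff a b).mp h)
  · intro h; exact hac ((cls_eq_iff a c).mp h)
  · intro h; exact hbc ((cls_eq_iff b c).mp h)
  · ext x
    simp only [Finset.mem_univ, Finset.mem_insert, Finset.mem_singleton, true_iff]
    induction x using Quotient.inductionOn with
    | _ g =>
      rcases hcov g with h | h | h
      · left; exact (cls_eq_iff g a).mpr h
      · right; left; exact (cls_eq_iff g b).mpr h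
      · right; right; exact (cls_eq_iff g c).mpr h

theorem orbits_cover_of_card_three [Finite G]
    (h : Nat.card (MulAction.orbitRel.Quotient (MulAut G) G) = 3) (a b c : G)
    (hab : ¬ ∃ θ : MulAut G, θ b = a) (hac : ¬ ∃ θ : MulAut G, θ c = a)
    (hbc : ¬ ∃ θ : MulAut G, θ c = b) (g : G) :
    (∃ θ : MulAut G, θ a = g) ∨ (∃ θ : MulAut G, θ b = g) ∨ (∃ θ : MulAut G, θ c = g) := by
  classical
  haveI : Fintype (MulAction.orbitRel.Quotient (MulAut G) G) := Fintype.ofFinite _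
  by_contra hcon
  push Not at hcon
  obtain ⟨h1, h2, h3⟩ := hcon
  have hcard : ({Quotient.mk _ g, Quotient.mk _ a, Quotient.mk _ b, Quotient.mk _ c} :
      Finset (MulAction.orbitRel.Quotient (MulAut G) G)).card = 4 := by
    rw [Finset.card_insert_of_notMem, Finset.card_insert_of_notMem,
      Finset.card_insert_of_notMem, Finset.card_singleton]
    · intro hm
      rw [Finset.mem_singleton] at hm
      exact hbc ((cls_eq_iff b c).mp hm)
    · intro hm
      simp only [Finset.mem_insert, Finset.mem_singleton] at hm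
      rcases hm with hm | hm
      · exact hab ((cls_eq_iff a b).mp hm)
      · exact hac ((cls_eq_iff a c).mp hm)
    · intro hm
      simp only [Finset.mem_insert, Finset.mem_singleton] at hm
      rcases hm with hm | hm | hm
      · obtain ⟨θ, hθ⟩ := (cls_eq_iff g a).mp hm
        exact h1 θ hθ
      · obtain ⟨θ, hθ⟩ := (cls_eq_iff g b).mp hm
        exact h2 θ hθ
      · obtain ⟨θ, hθ⟩ := (cls_eq_iff g c).mp hm
        exact h3 θ hθ
  have hle := Finset.card_le_univ ({Quotient.mk _ g, Quotient.mk _ a, Quotient.mk _ b,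
    Quotient.mk _ c} : Finset (MulAction.orbitRel.Quotient (MulAut G) G))
  rw [hcard, ← Nat.card_eq_fintype_card, h] at hle
  omega

/-- The structural description forces exactly three automorphism orbits. -/
theorem three_orbits_of_struct [Finite G] (n : ℕ)
    (hpq : p ≠ q) (hn : 1 ≤ n) (hcard : Nat.card G = p ^ n * q)
    (hSyl : ∀ P : Sylow p G, (P : Subgroup G).Normal ∧
      Cfsg.IsElementaryAbelian p (P : Subgroup G))
    (hprim : orderOf (p : ZMod q) = q - 1)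
    (hfpf : ∀ x y : G, orderOf x = q → orderOf y = p → x * y * x⁻¹ ≠ y) :
    Nat.card (MulAction.orbitRel.Quotient (MulAut G) G) = 3 := by
  classical
  obtain ⟨P0⟩ : Nonempty (Sylow p G) := inferInstance
  obtain ⟨hPn, hPcommI, hPexp⟩ := hSyl P0
  obtain ⟨P, hPdef⟩ : ∃ P : Subgroup G, P = (P0 : Subgroup G) := ⟨_, rfl⟩
  rw [← hPdef] at hPn hPcommI hPexp
  haveI := hPn
  have hPcomm : ∀ a b : ↥P, a * b = b * a := isMulCommutative_iff.mp hPcommI
  have hcop : p.Coprime q := (Nat.coprime_primes hp.out hq.out).mpr hpq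
  have hPcard : Nat.card P = p ^ n := by
    obtain ⟨k, hk⟩ := IsPGroup.iff_card.mp (hPdef ▸ P0.isPGroup')
    have hidx : ¬ p ∣ P.index := hPdef ▸ P0.not_dvd_index
    have hmul : Nat.card P * P.index = p ^ n * q := by
      rw [← hcard]; exact Subgroup.card_mul_index P
    rw [hk] at hmul ⊢
    have h1 : p ^ k ∣ p ^ n :=
      (Nat.Coprime.dvd_mul_right (Nat.Coprime.pow_left k hcop)).mp (Dvd.intro _ hmul)
    have h2 : p ^ n ∣ p ^ k := by
      have hc : (p ^ n).Coprime P.index :=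
        Nat.Coprime.pow_left n ((Nat.Prime.coprime_iff_not_dvd hp.out).mpr hidx)
      exact (Nat.Coprime.dvd_mul_right hc).mp (Dvd.intro _ hmul.symm)
    exact Nat.dvd_antisymm h1 h2
  obtain ⟨y, hy⟩ := exists_prime_orderOf_dvd_card' q (hcard ▸ Dvd.intro_left (p ^ n) rfl)
  obtain ⟨Q, hQ⟩ : ∃ Q : Subgroup G, Q = Subgroup.zpowers y := ⟨_, rfl⟩
  have hQcard : Nat.card Q = q := by rw [hQ, Nat.card_zpowers, hy]
  have hPQcop : (Nat.card P).Coprime (Nat.card Q) := by
    rw [hPcard, hQcard]; exact Nat.Coprime.pow_left n hcop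
  have hdisj : P ⊓ Q = ⊥ := Subgroup.inf_eq_bot_of_coprime hPQcop
  have hPQcard : Nat.card P * Nat.card Q = Nat.card G := by rw [hPcard, hQcard, hcard]
  have hcompl : Subgroup.IsComplement' P Q := Subgroup.isComplement'_of_coprime hPQcard hPQcop
  obtain ⟨τ, hτ⟩ : ∃ τ : MulAut ↥P, τ = MulAut.conjNormal y := ⟨_, rfl⟩
  have hτq : τ ^ q = 1 := by rw [hτ, ← map_pow, ← hy, pow_orderOf_eq_one, map_one]
  have hPord : ∀ a : ↥P, a ≠ 1 → orderOf (a : G) = p := by
    intro a ha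
    apply orderOf_eq_prime (hPexp a a.2)
    intro h; exact ha (Subtype.ext h)
  have hfixi : ∀ i : ℕ, ¬ q ∣ i → ∀ a : ↥P, (τ ^ i) a = a → a = 1 := by
    intro i hi a ha
    by_contra hne
    have h1 : y ^ i * (a : G) * (y ^ i)⁻¹ = a := by
      have h2 := congrArg Subtype.val ha
      rw [hτ, ← map_pow, MulAut.conjNormal_apply] at h2
      exact h2
    have h3 : orderOf (y ^ i) = q := by
      rw [Nat.Coprime.orderOf_pow, hy]
      rw [hy]; exact (Nat.Prime.coprime_iff_not_dvd hq.out).mpr hi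
    exact hfpf (y ^ i) a h3 (hPord a hne) h1
  have hτfix : ∀ a : ↥P, τ a = a → a = 1 := by
    intro a ha
    apply hfixi 1 (fun h => absurd (Nat.dvd_one.mp h) hq.out.one_lt.ne') a
    rw [pow_one]; exact ha
  have hexp : ∀ a : ↥P, a ^ p = 1 := fun a => Subtype.ext (hPexp a a.2)
  obtain ⟨hα, hβ⟩ := exists_aut_of_prim_root_group hpq hPcomm hexp τ hτq hτfix hprim
  have hA : ∀ v w : G, v ∈ P → w ∈ P → v ≠ 1 → w ≠ 1 → ∃ θ : MulAut G, θ v = w := by
    intro v w hv hw hv1 hw1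
    obtain ⟨F, hF1, hF2⟩ := hα ⟨v, hv⟩ ⟨w, hw⟩ (fun h => hv1 (congrArg Subtype.val h))
      (fun h => hw1 (congrArg Subtype.val h))
    obtain ⟨θ, hθ1, hθ2⟩ := exists_aut_extension P Q hdisj hPQcard y hQ q hy F 1
      (fun h => absurd (Nat.dvd_one.mp h) hq.out.one_lt.ne')
      (fun a => by rw [pow_one, ← hτ]; exact hF1 a)
    refine ⟨θ, ?_⟩
    have h4 := hθ1 ⟨v, hv⟩
    rw [hF2] at h4
    exact h4
  have hB : ∀ g : G, g ∉ P → ∃ θ : MulAut G, θ y = g := by
    intro g hg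
    have htop : P ⊔ Q = ⊤ := hcompl.sup_eq_top
    have hgm : g ∈ (↑(P ⊔ Q) : Set G) := by rw [htop]; exact Set.mem_univ g
    rw [Subgroup.normal_mul] at hgm
    obtain ⟨a, ha, b, hb, rfl⟩ := Set.mem_mul.mp hgm
    have hb' : b ∈ Subgroup.zpowers y := hQ ▸ hb
    rw [← mem_powers_iff_mem_zpowers] at hb'
    obtain ⟨i, rfl⟩ := hb'
    have hi : ¬ q ∣ i := by
      intro hdiv
      apply hg
      have h5 : y ^ i = 1 := by
        rw [← hy] at hdiv; exact orderOf_dvd_iff_pow_eq_one.mp hdiv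
      show a * y ^ i ∈ P
      rw [h5, mul_one]; exact ha
    obtain ⟨F, hF⟩ := hβ i hi
    obtain ⟨θ, hθ1, hθ2⟩ := exists_aut_extension P Q hdisj hPQcard y hQ q hy F i hi
      (fun a' => by rw [map_pow, ← hτ]; exact hF a')
    obtain ⟨u, hu⟩ := exists_twist_eq hPcomm (τ ^ i) (hfixi i hi) ⟨a, ha⟩
    have hu' : (u : G) * (y ^ i * (u : G) * (y ^ i)⁻¹)⁻¹ = a := by
      have h6 := congrArg Subtype.val hu
      rw [hτ, ← map_pow] at h6
      exact h6
    refine ⟨MulAut.conj (u : G) * θ, ?_⟩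
    show (u : G) * θ y * (u : G)⁻¹ = a * y ^ i
    rw [hθ2, ← hu']
    group
  obtain ⟨v0, hv0P, hv0⟩ : ∃ v0 : G, v0 ∈ P ∧ v0 ≠ 1 := by
    have h1 : 1 < Nat.card P := by
      rw [hPcard]; exact Nat.one_lt_pow (by omega) hp.out.one_lt
    have h2 : P ≠ ⊥ := (Subgroup.one_lt_card_iff_ne_bot P).mp h1
    obtain ⟨a, ha⟩ := Subgroup.ne_bot_iff_exists_ne_one.mp h2
    exact ⟨a, a.2, fun h => ha (Subtype.ext h)⟩
  have hv0ord : orderOf v0 = p := hPord ⟨v0, hv0P⟩ (fun h => hv0 (congrArg Subtype.val h))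
  apply card_orbits_three 1 v0 y
  · rintro ⟨θ, hθ⟩
    exact hv0 ((map_eq_one_iff θ θ.injective).mp hθ)
  · rintro ⟨θ, hθ⟩
    have h1 : y = 1 := (map_eq_one_iff θ θ.injective).mp hθ
    rw [h1, orderOf_one] at hy
    exact hq.out.one_lt.ne hy
  · rintro ⟨θ, hθ⟩
    have h1 : orderOf (θ y) = orderOf y := orderOf_injective θ.toMonoidHom θ.injective y
    rw [hθ, hv0ord, hy] at h1
    exact hpq h1
  · intro g
    by_cases hg1 : g = 1
    · left; exact ⟨1, by rw [hg1]; rfl⟩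
    by_cases hgP : g ∈ P
    · right; left; exact hA v0 g hv0P hgP hv0 hg1
    · right; right; exact hB g hgP

end AutOrb5

end Cfsg.Agent.Lib.Helper21
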