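import Mathlib
import Cfsg.Prelude.Def_Transfer
import Cfsg.Agent.Lib.Helper21.AutOrb5
import Cfsg.Agent.Lib.Helper2.CharBurnside

set_option autoImplicit false

namespace Cfsg.Agent.Lib.Helper21

section AutOrb6

open scoped commutatorElement

theorem norm_eq_one_of_fpf {A : Type*} [CommGroup A] (s : ℕ) (ρ : MulAut A) (hρ : ρ ^ s = 1)
    (hfix : ∀ a, ρ a = a → a = 1) (v : A) : ∏ k ∈ Finset.range s, (ρ ^ k) v = 1 := by
  apply hfix
  rw [map_prod]
  have h1 : ∀ k, ρ ((ρ ^ k) v) = (ρ ^ (k + 1)) v := by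
    intro k; rw [pow_succ']; rfl
  simp_rw [h1]
  have h2 := Finset.prod_range_succ' (fun k => (ρ ^ k) v) s
  have h3 := Finset.prod_range_succ (fun k => (ρ ^ k) v) s
  rw [h3] at h2
  simp only [hρ, pow_zero, MulAut.one_apply] at h2
  exact (mul_right_cancel h2).symm

theorem pow_eq_one_of_fpf_pair_comm {A : Type*} [CommGroup A] (s : ℕ) (hs : 0 < s)
    (σ τ : MulAut A) (hστ : Commute σ τ)
    (hσ : ∀ j : ℕ, (σ * τ ^ j) ^ s = 1 ∧ ∀ a, (σ * τ ^ j) a = a → a = 1)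
    (hτ : ∀ k : ℕ, 0 < k → k < s → (τ ^ k) ^ s = 1 ∧ ∀ a, (τ ^ k) a = a → a = 1) (v : A) :
    v ^ s = 1 := by
  have h1 : ∏ j ∈ Finset.range s, ∏ k ∈ Finset.range s, ((σ * τ ^ j) ^ k) v = 1 :=
    Finset.prod_eq_one (fun j _ => norm_eq_one_of_fpf s _ (hσ j).1 (hσ j).2 v)
  rw [Finset.prod_comm] at h1
  have h2 : ∀ k ∈ Finset.range s, ∏ j ∈ Finset.range s, ((σ * τ ^ j) ^ k) v =
      if k = 0 then v ^ s else 1 := by
    intro k hk
    split_ifs with h0
    · subst h0; simp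
    · have h3 : ∀ j, ((σ * τ ^ j) ^ k) v = (σ ^ k) (((τ ^ k) ^ j) v) := by
        intro j
        rw [(hστ.pow_right j).mul_pow, ← pow_mul, ← pow_mul, mul_comm j k]; rfl
      simp_rw [h3]
      rw [← map_prod, norm_eq_one_of_fpf s _
        (hτ k (Nat.pos_of_ne_zero h0) (Finset.mem_range.mp hk)).1
        (hτ k (Nat.pos_of_ne_zero h0) (Finset.mem_range.mp hk)).2 v, map_one]
  rw [Finset.prod_congr rfl h2, Finset.prod_ite_eq'] at h1
  rw [if_pos (Finset.mem_range.mpr hs)] at h1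
  exact h1

theorem pow_eq_one_of_fpf_pair {A : Type*} [Group A] (hcomm : ∀ a b : A, a * b = b * a)
    (s : ℕ) (hs : 0 < s)
    (σ τ : MulAut A) (hστ : Commute σ τ)
    (hσ : ∀ j : ℕ, (σ * τ ^ j) ^ s = 1 ∧ ∀ a, (σ * τ ^ j) a = a → a = 1)
    (hτ : ∀ k : ℕ, 0 < k → k < s → (τ ^ k) ^ s = 1 ∧ ∀ a, (τ ^ k) a = a → a = 1) (v : A) :
    v ^ s = 1 :=
  @pow_eq_one_of_fpf_pair_comm A { (inferInstance : Group A) with mul_comm := hcomm } s hs σ τ
    hστ hσ hτ v

variable {G : Type*} [Group G] [Finite G]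

theorem exists_two_prime_divisors (hnpp : ¬ IsPrimePow (Nat.card G)) (hnt : Nat.card G ≠ 1) :
    ∃ p1 p2 : ℕ, p1.Prime ∧ p2.Prime ∧ p1 ≠ p2 ∧ p1 ∣ Nat.card G ∧ p2 ∣ Nat.card G := by
  have hpos : Nat.card G ≠ 0 := Nat.card_pos.ne'
  have hp1 : (Nat.card G).minFac.Prime := Nat.minFac_prime hnt
  by_contra hcon
  push Not at hcon
  have h1 : ∀ {d : ℕ}, d.Prime → d ∣ Nat.card G → d = (Nat.card G).minFac := by
    intro d hd hdvd
    by_contra hne
    exact hcon _ d hp1 hd (Ne.symm hne) (Nat.minFac_dvd _) hdvd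
  have h2 := Nat.eq_prime_pow_of_unique_prime_dvd hpos h1
  have h3 : IsPrimePow ((Nat.card G).minFac ^ (Nat.card G).primeFactorsList.length) :=
    IsPrimePow.pow hp1.isPrimePow (by intro h0; rw [h0, pow_zero] at h2; exact hnt h2)
  rw [← h2] at h3
  exact hnpp h3

theorem orders_of_three_orbits (hnpp : ¬ IsPrimePow (Nat.card G)) (hnt : Nat.card G ≠ 1)
    (h3 : Nat.card (MulAction.orbitRel.Quotient (MulAut G) G) = 3) :
    ∃ p1 p2 : ℕ, p1.Prime ∧ p2.Prime ∧ p1 ≠ p2 ∧ (∃ a : G, orderOf a = p1) ∧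
      (∃ b : G, orderOf b = p2) ∧
      (∀ g : G, g = 1 ∨ orderOf g = p1 ∨ orderOf g = p2) ∧
      (∀ g g' : G, orderOf g = orderOf g' → ∃ θ : MulAut G, θ g = g') := by
  obtain ⟨p1, p2, hp1, hp2, hne, hd1, hd2⟩ := exists_two_prime_divisors hnpp hnt
  haveI := Fact.mk hp1
  haveI := Fact.mk hp2
  obtain ⟨a, ha⟩ := exists_prime_orderOf_dvd_card' p1 hd1
  obtain ⟨b, hb⟩ := exists_prime_orderOf_dvd_card' p2 hd2
  have hord : ∀ (θ : MulAut G) (g : G), orderOf (θ g) = orderOf g :=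
    fun θ g => orderOf_injective θ.toMonoidHom θ.injective g
  have hcov := orbits_cover_of_card_three h3 1 a b
    (by
      rintro ⟨θ, hθ⟩
      have h1 := hord θ a
      rw [hθ, orderOf_one, ha] at h1
      exact hp1.one_lt.ne h1)
    (by
      rintro ⟨θ, hθ⟩
      have h1 := hord θ b
      rw [hθ, orderOf_one, hb] at h1
      exact hp2.one_lt.ne h1)
    (by
      rintro ⟨θ, hθ⟩
      have h1 := hord θ b
      rw [hθ, ha, hb] at h1
      exact hne h1)
  have hall : ∀ g : G, g = 1 ∨ orderOf g = p1 ∨ orderOf g = p2 := by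
    intro g
    rcases hcov g with ⟨θ, h⟩ | ⟨θ, h⟩ | ⟨θ, h⟩
    · left; rw [← h, map_one]
    · right; left; rw [← h, hord, ha]
    · right; right; rw [← h, hord, hb]
  have hk1 : ∀ g : G, orderOf g = p1 → ∃ θ : MulAut G, θ a = g := by
    intro g hg
    rcases hcov g with ⟨θ, h⟩ | ⟨θ, h⟩ | ⟨θ, h⟩
    · exfalso; rw [← h, map_one, orderOf_one] at hg; exact hp1.one_lt.ne hg
    · exact ⟨θ, h⟩
    · exfalso; rw [← h, hord, hb] at hg; exact hne hg.symm
  have hk2 : ∀ g : G, orderOf g = p2 → ∃ θ : MulAut G, θ b = g := by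
    intro g hg
    rcases hcov g with ⟨θ, h⟩ | ⟨θ, h⟩ | ⟨θ, h⟩
    · exfalso; rw [← h, map_one, orderOf_one] at hg; exact hp2.one_lt.ne hg
    · exfalso; rw [← h, hord, ha] at hg; exact hne hg
    · exact ⟨θ, h⟩
  refine ⟨p1, p2, hp1, hp2, hne, ⟨a, ha⟩, ⟨b, hb⟩, hall, ?_⟩
  intro g g' hgg
  rcases hall g with h | h | h
  · have hg'1 : g' = 1 := by
      rw [h, orderOf_one] at hgg; exact orderOf_eq_one_iff.mp hgg.symm
    exact ⟨1, by rw [h, hg'1]; rfl⟩
  · obtain ⟨θ, hθ⟩ := hk1 g h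
    obtain ⟨θ', hθ'⟩ := hk1 g' (hgg ▸ h)
    exact ⟨θ' * θ⁻¹, by rw [← hθ, ← hθ']; simp⟩
  · obtain ⟨θ, hθ⟩ := hk2 g h
    obtain ⟨θ', hθ'⟩ := hk2 g' (hgg ▸ h)
    exact ⟨θ' * θ⁻¹, by rw [← hθ, ← hθ']; simp⟩

omit [Finite G] in
theorem char_mem (K : Subgroup G) [hKc : K.Characteristic] (θ : MulAut G) (g : G)
    (hg : g ∈ K) : θ g ∈ K := by
  have h := hKc.fixed θ
  rw [← h] at hg
  exact hg

theorem exists_char_sub (p1 p2 : ℕ) (hp1 : p1.Prime) (hp2 : p2.Prime) (hne : p1 ≠ p2)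
    (ha : ∃ a : G, orderOf a = p1) (hb : ∃ b : G, orderOf b = p2)
    (hall : ∀ g : G, g = 1 ∨ orderOf g = p1 ∨ orderOf g = p2)
    (htrans : ∀ g g' : G, orderOf g = orderOf g' → ∃ θ : MulAut G, θ g = g') :
    ∃ (r s : ℕ) (K : Subgroup G), r.Prime ∧ s.Prime ∧ r ≠ s ∧
      (∀ g : G, g = 1 ∨ orderOf g = r ∨ orderOf g = s) ∧ K.Characteristic ∧
      (∀ g, g ∈ K ↔ g = 1 ∨ orderOf g = r) ∧ K ≠ ⊥ ∧ K ≠ ⊤ := by
  obtain ⟨a, ha⟩ := ha
  obtain ⟨b, hb⟩ := hb
  have hprimes : ∀ t : ℕ, t.Prime → t ∣ Nat.card G → t = p1 ∨ t = p2 := by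
    intro t ht hdvd
    haveI := Fact.mk ht
    obtain ⟨x, hx⟩ := exists_prime_orderOf_dvd_card' t hdvd
    rcases hall x with h | h | h
    · rw [h, orderOf_one] at hx; exact absurd hx.symm ht.one_lt.ne'
    · left; rw [← hx, h]
    · right; rw [← hx, h]
  haveI hsolv : Group.IsSolvable G :=
    Cfsg.Agent.Lib.Helper2.solvable_of_two_primes p1 p2 hp1 hp2 (Nat.card G) G rfl hprimes
  haveI : Nontrivial G := by
    refine ⟨⟨a, 1, ?_⟩⟩
    intro h
    rw [h, orderOf_one] at ha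
    exact hp1.one_lt.ne ha
  have hK2 : commutator G ≠ ⊤ := (Group.IsSolvable.commutator_lt_top_of_nontrivial G).ne
  have hK1 : commutator G ≠ ⊥ := by
    intro hbot
    have hc : ⁅a, b⁆ ∈ commutator G := by
      rw [commutator_def]
      exact Subgroup.commutator_mem_commutator (Subgroup.mem_top a) (Subgroup.mem_top b)
    rw [hbot, Subgroup.mem_bot, commutatorElement_eq_one_iff_commute] at hc
    have ho := hc.orderOf_mul_eq_mul_orderOf_of_coprime
      (by rw [ha, hb]; exact (Nat.coprime_primes hp1 hp2).mpr hne)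
    rw [ha, hb] at ho
    have := hp1.one_lt
    have := hp2.one_lt
    rcases hall (a * b) with h | h | h
    · rw [h, orderOf_one] at ho; nlinarith
    · rw [h] at ho; nlinarith
    · rw [h] at ho; nlinarith
  haveI hKc : (commutator G).Characteristic := inferInstance
  have hgen : ∀ t t' : ℕ, t.Prime → t'.Prime → t ≠ t' →
      (∀ g : G, g = 1 ∨ orderOf g = t ∨ orderOf g = t') →
      (∃ k ∈ commutator G, orderOf k = t) →
      ∃ (r s : ℕ) (K : Subgroup G), r.Prime ∧ s.Prime ∧ r ≠ s ∧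
        (∀ g : G, g = 1 ∨ orderOf g = r ∨ orderOf g = s) ∧ K.Characteristic ∧
        (∀ g, g ∈ K ↔ g = 1 ∨ orderOf g = r) ∧ K ≠ ⊥ ∧ K ≠ ⊤ := by
    intro t t' ht ht' htt hall' ⟨k, hkK, hk⟩
    refine ⟨t, t', commutator G, ht, ht', htt, hall', hKc, ?_, hK1, hK2⟩
    have hin : ∀ x : G, orderOf x = t → x ∈ commutator G := by
      intro x hx
      obtain ⟨θ, hθ⟩ := htrans k x (hk.trans hx.symm)
      rw [← hθ]
      exact char_mem _ θ k hkK
    intro g
    constructor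
    · intro hg
      rcases hall' g with h | h | h
      · left; exact h
      · right; exact h
      · exfalso
        apply hK2
        rw [eq_top_iff]
        intro x _
        rcases hall' x with h' | h' | h'
        · rw [h']; exact Subgroup.one_mem _
        · exact hin x h'
        · obtain ⟨θ, hθ⟩ := htrans g x (h.trans h'.symm)
          rw [← hθ]
          exact char_mem _ θ g hg
    · rintro (h | h)
      · rw [h]; exact Subgroup.one_mem _
      · exact hin g h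
  obtain ⟨k, hk⟩ := Subgroup.ne_bot_iff_exists_ne_one.mp hK1
  have hk1 : (k : G) ≠ 1 := fun h => hk (Subtype.ext h)
  rcases hall (k : G) with h | h | h
  · exact absurd h hk1
  · exact hgen p1 p2 hp1 hp2 hne hall ⟨k, k.2, h⟩
  · exact hgen p2 p1 hp2 hp1 (Ne.symm hne)
      (fun g => by rcases hall g with h' | h' | h'
                   · exact Or.inl h'
                   · exact Or.inr (Or.inr h')
                   · exact Or.inr (Or.inl h')) ⟨k, k.2, h⟩

end AutOrb6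

end Cfsg.Agent.Lib.Helper21
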