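import Mathlib
import Cfsg.Prelude.Def_Transfer
import Cfsg.Agent.Lib.Helper21.AutOrb6

set_option autoImplicit false

namespace Cfsg.Agent.Lib.Helper21

section AutOrb7

variable {G : Type*} [Group G] [Finite G]

theorem struct_aux (r s : ℕ) (hr : r.Prime) (hs : s.Prime) (hrs : r ≠ s)
    (hall : ∀ g : G, g = 1 ∨ orderOf g = r ∨ orderOf g = s)
    (htrans : ∀ g g' : G, orderOf g = orderOf g' → ∃ θ : MulAut G, θ g = g')
    (K : Subgroup G) [hKc : K.Characteristic] (hKmem : ∀ g, g ∈ K ↔ g = 1 ∨ orderOf g = r)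
    (hK1 : K ≠ ⊥) (hK2 : K ≠ ⊤) :
    ∃ (n : ℕ), 1 ≤ n ∧ Nat.card G = r ^ n * s ∧
      (∀ P : Sylow r G, (P : Subgroup G).Normal ∧
        Cfsg.IsElementaryAbelian r (P : Subgroup G)) ∧
      orderOf (r : ZMod s) = s - 1 ∧
      ∀ x y : G, orderOf x = s → orderOf y = r → x * y * x⁻¹ ≠ y := by
  classical
  haveI : Fact r.Prime := ⟨hr⟩
  haveI : Fact s.Prime := ⟨hs⟩
  haveI hKn : K.Normal := inferInstance
  have hchar : ∀ (θ : MulAut G) (g : G), g ∈ K → θ g ∈ K := fun θ g hg => char_mem K θ g hg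
  have hcoprs : r.Coprime s := (Nat.coprime_primes hr hs).mpr hrs
  have hfpf : ∀ x y : G, orderOf x = s → orderOf y = r → x * y * x⁻¹ ≠ y := by
    intro x y hx hy hxy
    have hc : Commute x y := by
      show x * y = y * x
      calc x * y = x * y * x⁻¹ * x := by group
        _ = y * x := by rw [hxy]
    have ho := hc.orderOf_mul_eq_mul_orderOf_of_coprime (by rw [hx, hy]; exact hcoprs.symm)
    rw [hx, hy] at ho
    have := hr.one_lt
    have := hs.one_lt
    rcases hall (x * y) with h | h | h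
    · rw [h, orderOf_one] at ho; nlinarith
    · rw [h] at ho; nlinarith
    · rw [h] at ho; nlinarith
  have hKexp : ∀ g ∈ K, g ^ r = 1 := by
    intro g hg
    rcases (hKmem g).mp hg with h | h
    · rw [h, one_pow]
    · rw [← h]; exact pow_orderOf_eq_one g
  have hKpg : IsPGroup r K := by
    intro g
    refine ⟨1, ?_⟩
    rw [pow_one]; exact Subtype.ext (hKexp g g.2)
  haveI : Nontrivial ↥K := (Subgroup.nontrivial_iff_ne_bot K).mpr hK1
  have hKord : ∀ a : ↥K, a ≠ 1 → orderOf (a : G) = r := by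
    intro a ha
    rcases (hKmem _).mp a.2 with h | h
    · exact absurd (Subtype.ext h) ha
    · exact h
  have hKcomm : ∀ a b : ↥K, a * b = b * a := by
    haveI hcenter : Nontrivial (Subgroup.center ↥K) := hKpg.center_nontrivial
    obtain ⟨z, hz⟩ := exists_ne (1 : Subgroup.center ↥K)
    have hzc : ∀ k : ↥K, k * (z : ↥K) = (z : ↥K) * k :=
      fun k => (Subgroup.mem_center_iff.mp z.2 k)
    have hzord : orderOf ((z : ↥K) : G) = r := hKord _ (fun h => hz (Subtype.ext h))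
    intro a b
    by_cases ha : a = 1
    · rw [ha, one_mul, mul_one]
    obtain ⟨θ, hθ⟩ := htrans ((z : ↥K) : G) (a : G) (hzord.trans (hKord a ha).symm)
    have hb' : θ⁻¹ (b : G) ∈ K := hchar θ⁻¹ b b.2
    have h1 := hzc ⟨θ⁻¹ (b : G), hb'⟩
    have h2 := congrArg Subtype.val h1
    have h3 := congrArg θ h2
    apply Subtype.ext
    simp only [Subgroup.coe_mul, map_mul, hθ, MulAut.apply_inv_self] at h3 ⊢
    exact h3.symm
  have hSyl : ∀ P : Sylow r G, (P : Subgroup G).Normal ∧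
      Cfsg.IsElementaryAbelian r (P : Subgroup G) := by
    intro P
    have hPK : (P : Subgroup G) = K := by
      have hle : (P : Subgroup G) ≤ K := by
        intro g hg
        rw [hKmem]
        rcases hall g with h | h | h
        · left; exact h
        · right; exact h
        · exfalso
          obtain ⟨k, hk⟩ := (IsPGroup.iff_orderOf.mp P.isPGroup') ⟨g, hg⟩
          rw [Subgroup.orderOf_mk, h] at hk
          have hdvd : s ∣ r ^ k := hk ▸ dvd_rfl
          exact hrs ((Nat.prime_dvd_prime_iff_eq hs hr).mp (hs.dvd_of_dvd_pow hdvd)).symm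
      exact (P.is_maximal' hKpg hle).symm
    rw [hPK]
    exact ⟨hKn, isMulCommutative_iff.mpr hKcomm, hKexp⟩
  have hQpg : IsPGroup s (G ⧸ K) := by
    intro x
    obtain ⟨g, rfl⟩ := QuotientGroup.mk_surjective x
    refine ⟨1, ?_⟩
    rw [pow_one, ← QuotientGroup.mk_pow, QuotientGroup.eq_one_iff]
    rcases hall g with h | h | h
    · rw [h, one_pow]; exact K.one_mem
    · exact K.pow_mem ((hKmem g).mpr (Or.inr h)) s
    · rw [← h, pow_orderOf_eq_one]; exact K.one_mem
  obtain ⟨a, ha⟩ := IsPGroup.iff_card.mp hKpg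
  obtain ⟨b', hb'⟩ := IsPGroup.iff_card.mp hQpg
  have hcop : (Nat.card K).Coprime K.index := by
    rw [ha, Subgroup.index_eq_card, hb']
    exact Nat.Coprime.pow _ _ hcoprs
  obtain ⟨H, hH⟩ := Subgroup.exists_right_complement'_of_coprime hcop
  have hKH : Nat.card K * Nat.card H = Nat.card G := hH.card_mul_card
  have hdisj : K ⊓ H = ⊥ := hH.disjoint.eq_bot
  have hHord : ∀ h : G, h ∈ H → h ≠ 1 → orderOf h = s := by
    intro h hh h1
    rcases hall h with h' | h' | h'
    · exact absurd h' h1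
    · exfalso
      have hm : h ∈ K ⊓ H := ⟨(hKmem h).mpr (Or.inr h'), hh⟩
      rw [hdisj] at hm
      exact h1 (Subgroup.mem_bot.mp hm)
    · exact h'
  have hHne : H ≠ ⊥ := by
    intro hbot
    apply hK2
    rw [← Subgroup.card_eq_iff_eq_top, ← hKH, hbot, Subgroup.card_bot, mul_one]
  have hconj : ∀ z : G, z ∈ H → z ≠ 1 → ((MulAut.conjNormal z : MulAut ↥K) ^ s = 1 ∧
      ∀ a : ↥K, (MulAut.conjNormal z : MulAut ↥K) a = a → a = 1) := by
    intro z hz hz1
    have hzo := hHord z hz hz1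
    constructor
    · rw [← map_pow, ← hzo, pow_orderOf_eq_one, map_one]
    · intro a ha
      by_contra ha1
      have h1 : z * (a : G) * z⁻¹ = a := by
        have h2 := congrArg Subtype.val ha
        rw [MulAut.conjNormal_apply] at h2
        exact h2
      exact hfpf z a hzo (hKord a ha1) h1
  have hHcard : Nat.card H = s := by
    by_contra hHs
    have hHpg : IsPGroup s H := by
      intro h
      refine ⟨1, ?_⟩
      rw [pow_one]
      by_cases h1 : h = 1
      · rw [h1, one_pow]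
      · apply Subtype.ext
        have ho := hHord h h.2 (fun e => h1 (Subtype.ext e))
        rw [Subgroup.coe_pow, ← ho]; exact pow_orderOf_eq_one _
    haveI : Nontrivial ↥H := (Subgroup.nontrivial_iff_ne_bot H).mpr hHne
    obtain ⟨y2, hy2H, hy2ne, hy2c⟩ : ∃ y2 : G, y2 ∈ H ∧ y2 ≠ 1 ∧ ∀ h ∈ H, h * y2 = y2 * h := by
      haveI hcH : Nontrivial (Subgroup.center ↥H) := hHpg.center_nontrivial
      obtain ⟨z, hz⟩ := exists_ne (1 : Subgroup.center ↥H)
      refine ⟨((z : ↥H) : G), (z : ↥H).2, fun e => hz (Subtype.ext (Subtype.ext e)), ?_⟩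
      intro h hh
      have hc := Subgroup.mem_center_iff.mp z.2 ⟨h, hh⟩
      exact congrArg Subtype.val hc
    have hy2ord : orderOf y2 = s := hHord y2 hy2H hy2ne
    obtain ⟨y1, hy1H, hy1⟩ : ∃ y1 ∈ H, y1 ∉ Subgroup.zpowers y2 := by
      by_contra hcon
      push Not at hcon
      have hle : H ≤ Subgroup.zpowers y2 := fun h hh => hcon h hh
      have hge : Subgroup.zpowers y2 ≤ H := by rw [Subgroup.zpowers_le]; exact hy2H
      have heq : H = Subgroup.zpowers y2 := le_antisymm hle hge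
      apply hHs
      rw [heq, Nat.card_zpowers, hy2ord]
    obtain ⟨v, hv⟩ := exists_ne (1 : ↥K)
    have hvs : v ^ s = 1 := by
      apply pow_eq_one_of_fpf_pair hKcomm s hs.pos (MulAut.conjNormal y1) (MulAut.conjNormal y2)
      · show (MulAut.conjNormal y1 : MulAut ↥K) * MulAut.conjNormal y2 =
          MulAut.conjNormal y2 * MulAut.conjNormal y1
        rw [← map_mul, ← map_mul, hy2c y1 hy1H]
      · intro j
        rw [← map_pow, ← map_mul]
        apply hconj _ (H.mul_mem hy1H (H.pow_mem hy2H j))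
        intro h1
        apply hy1
        rw [eq_inv_of_mul_eq_one_left h1]
        exact Subgroup.inv_mem _ (Subgroup.pow_mem _ (Subgroup.mem_zpowers y2) j)
      · intro k hk0 hks
        rw [← map_pow]
        apply hconj _ (H.pow_mem hy2H k)
        intro h1
        have hdvd := orderOf_dvd_of_pow_eq_one h1
        rw [hy2ord] at hdvd
        exact absurd (Nat.le_of_dvd hk0 hdvd) (by omega)
    have hvr := orderOf_dvd_of_pow_eq_one (congrArg Subtype.val hvs)
    rw [hKord v hv] at hvr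
    exact hrs ((Nat.prime_dvd_prime_iff_eq hr hs).mp hvr)
  have ha1 : 1 ≤ a := by
    rcases Nat.eq_zero_or_pos a with h0 | h0
    · exfalso
      rw [h0, pow_zero] at ha
      exact hK1 (Subgroup.card_eq_one.mp ha)
    · exact h0
  have hcard : Nat.card G = r ^ a * s := by rw [← hKH, ha, hHcard]
  obtain ⟨y, hyH, hy1⟩ : ∃ y ∈ H, y ≠ 1 := by
    obtain ⟨y, hy⟩ := Subgroup.ne_bot_iff_exists_ne_one.mp hHne
    exact ⟨y, y.2, fun h => hy (Subtype.ext h)⟩
  have hy : orderOf y = s := hHord y hyH hy1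
  have hHz : H = Subgroup.zpowers y := by
    symm
    apply Subgroup.eq_of_le_of_card_ge
    · rw [Subgroup.zpowers_le]; exact hyH
    · rw [Nat.card_zpowers, hy, hHcard]
  obtain ⟨τ, hτ⟩ : ∃ τ : MulAut ↥K, τ = MulAut.conjNormal y := ⟨_, rfl⟩
  have hτq : τ ^ s = 1 := by rw [hτ]; exact (hconj y hyH hy1).1
  have hτfix : ∀ a : ↥K, τ a = a → a = 1 := by rw [hτ]; exact (hconj y hyH hy1).2
  have hexp : ∀ a : ↥K, a ^ r = 1 := fun a => Subtype.ext (hKexp a a.2)
  have hres : ∀ θ : MulAut G, ∃ β : MulAut ↥K, ∀ a : ↥K, (β a : G) = θ a := by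
    intro θ
    refine ⟨{ toFun := fun a => ⟨θ a, hchar θ a a.2⟩
              invFun := fun a => ⟨θ⁻¹ a, hchar θ⁻¹ a a.2⟩
              left_inv := ?_
              right_inv := ?_
              map_mul' := ?_ }, fun a => rfl⟩
    · intro a; apply Subtype.ext; simp
    · intro a; apply Subtype.ext; simp
    · intro a b; apply Subtype.ext; simp
  have htw : ∀ (θ : MulAut G) (β : MulAut ↥K), (∀ a : ↥K, (β a : G) = θ a) →
      ∀ (u : G) (k : ℕ), u ∈ K → θ y = u * y ^ k → ∀ a : ↥K, β (τ a) = (τ ^ k) (β a) := by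
    intro θ β hβ u k hu hθy a
    apply Subtype.ext
    rw [hβ, hτ, ← map_pow, MulAut.conjNormal_apply, MulAut.conjNormal_apply, hβ, map_mul,
      map_mul, map_inv, hθy]
    have hc : y ^ k * θ (a : G) * (y ^ k)⁻¹ ∈ K := hKn.conj_mem _ (hchar θ a a.2) _
    have h1 := hKcomm ⟨u, hu⟩ ⟨_, hc⟩
    have h2 : u * (y ^ k * θ (a : G) * (y ^ k)⁻¹) = (y ^ k * θ (a : G) * (y ^ k)⁻¹) * u :=
      congrArg Subtype.val h1
    calc u * y ^ k * θ (a : G) * (u * y ^ k)⁻¹
        = u * (y ^ k * θ (a : G) * (y ^ k)⁻¹) * u⁻¹ := by group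
      _ = (y ^ k * θ (a : G) * (y ^ k)⁻¹) * u * u⁻¹ := by rw [h2]
      _ = y ^ k * θ (a : G) * (y ^ k)⁻¹ := by group
  have hprim : orderOf (r : ZMod s) = s - 1 := by
    apply prim_root_of_group hrs hKcomm hexp τ hτq hτfix
      {β : MulAut ↥K | ∃ θ : MulAut G, ∀ a : ↥K, (β a : G) = θ a}
    · rintro β ⟨θ, hβ⟩
      have htop : K ⊔ H = ⊤ := hH.sup_eq_top
      have hgm : θ y ∈ (↑(K ⊔ H) : Set G) := by rw [htop]; exact Set.mem_univ _
      rw [Subgroup.normal_mul] at hgm
      obtain ⟨u, hu, b, hb, hub⟩ := Set.mem_mul.mp hgm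
      have hb2 : b ∈ Subgroup.zpowers y := hHz ▸ hb
      rw [← mem_powers_iff_mem_zpowers] at hb2
      obtain ⟨i, rfl⟩ := hb2
      exact ⟨i, htw θ β hβ u i hu hub.symm⟩
    · intro v w hv hw
      obtain ⟨θ, hθ⟩ := htrans (v : G) (w : G) ((hKord v hv).trans (hKord w hw).symm)
      obtain ⟨β, hβ⟩ := hres θ
      exact ⟨β, ⟨θ, hβ⟩, Subtype.ext (by rw [hβ, hθ])⟩
    · intro k hk
      have hyk : orderOf (y ^ k) = s := by
        rw [Nat.Coprime.orderOf_pow, hy]
        rw [hy]; exact (Nat.Prime.coprime_iff_not_dvd hs).mpr hk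
      obtain ⟨θ, hθ⟩ := htrans y (y ^ k) (hy.trans hyk.symm)
      obtain ⟨β, hβ⟩ := hres θ
      exact ⟨β, ⟨θ, hβ⟩, htw θ β hβ 1 k K.one_mem (by rw [hθ, one_mul])⟩
  exact ⟨a, ha1, hcard, hSyl, hprim, hfpf⟩

theorem struct_of_three_orbits (hnpp : ¬ IsPrimePow (Nat.card G)) (hnt : Nat.card G ≠ 1)
    (h3 : Nat.card (MulAction.orbitRel.Quotient (MulAut G) G) = 3) :
    ∃ (p q n : ℕ) (_ : Fact p.Prime) (_ : Fact q.Prime), p ≠ q ∧ 1 ≤ n ∧
      Nat.card G = p ^ n * q ∧
      (∀ P : Sylow p G, (P : Subgroup G).Normal ∧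
        Cfsg.IsElementaryAbelian p (P : Subgroup G)) ∧
      orderOf (p : ZMod q) = q - 1 ∧
      ∀ x y : G, orderOf x = q → orderOf y = p → x * y * x⁻¹ ≠ y := by
  obtain ⟨p1, p2, hp1, hp2, hne, ha, hb, hall, htrans⟩ := orders_of_three_orbits hnpp hnt h3
  obtain ⟨r, s, K, hr, hs, hrs, hall', hKc, hKmem, hK1, hK2⟩ :=
    exists_char_sub p1 p2 hp1 hp2 hne ha hb hall htrans
  haveI := hKc
  obtain ⟨n, hn, hcard, hSyl, hprim, hfpf⟩ :=
    struct_aux r s hr hs hrs hall' htrans K hKmem hK1 hK2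
  exact ⟨r, s, n, ⟨hr⟩, ⟨hs⟩, hrs, hn, hcard, hSyl, hprim, hfpf⟩

end AutOrb7

end Cfsg.Agent.Lib.Helper21
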