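import Mathlib
import Cfsg.Agent.Lib.Helper21.Basic

set_option autoImplicit false

namespace Cfsg.Agent.Lib.Helper21

section FixProd1

/-- Cardinality splits along the kernel of a homomorphism restricted to a subgroup. -/
theorem card_eq_card_map_mul_card_inf_ker {G G' : Type*} [Group G] [Group G'] (f : G →* G')
    (D : Subgroup G) :
    Nat.card D = Nat.card (D.map f) * Nat.card ↥(D ⊓ f.ker) := by
  have h := Subgroup.card_eq_card_quotient_mul_card_subgroup ((f.comp D.subtype).ker)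
  have e1 : Nat.card (↥D ⧸ (f.comp D.subtype).ker) = Nat.card (D.map f) := by
    rw [Nat.card_congr (QuotientGroup.quotientKerEquivRange (f.comp D.subtype)).toEquiv,
      MonoidHom.range_comp, Subgroup.range_subtype]
  have e2 : Nat.card ((f.comp D.subtype).ker) = Nat.card ↥(D ⊓ f.ker) := by
    have e3 : (f.comp D.subtype).ker = f.ker.subgroupOf D := rfl
    rw [e3, inf_comm, ← Subgroup.subgroupOf_map_subtype,
      Subgroup.card_map_of_injective (Subgroup.subtype_injective D)]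
  rw [h, e1, e2]

variable {V : Type*} [CommGroup V] {P : Type*} [Group P] [MulDistribMulAction P V]

/-- Fixed points of one element. -/
def fixS (x : P) : Subgroup V where
  carrier := {v | x • v = v}
  one_mem' := smul_one x
  mul_mem' := by
    intro a b ha hb
    show x • (a * b) = a * b
    rw [smul_mul', ha, hb]
  inv_mem' := by
    intro a ha
    show x • a⁻¹ = a⁻¹
    rw [smul_inv', ha]

/-- Common fixed points. -/
def fixAll (P : Type*) (V : Type*) [CommGroup V] [Group P] [MulDistribMulAction P V] :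
    Subgroup V where
  carrier := {v | ∀ x : P, x • v = v}
  one_mem' := fun x => smul_one x
  mul_mem' := by
    intro a b ha hb x
    rw [smul_mul', ha x, hb x]
  inv_mem' := by
    intro a ha x
    rw [smul_inv', ha x]

theorem mem_fixS {x : P} {v : V} : v ∈ (fixS x : Subgroup V) ↔ x • v = v := Iff.rfl

theorem mem_fixAll {v : V} : v ∈ fixAll P V ↔ ∀ x : P, x • v = v := Iff.rfl

theorem card_inf_of_decomp [Finite V] {W W₁ W₂ F : Subgroup V} (h1 : W₁ ≤ W) (h2 : W₂ ≤ W)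
    (hdisj : W₁ ⊓ W₂ = ⊥) (hcard : Nat.card W = Nat.card W₁ * Nat.card W₂)
    (hF : ∀ w₁ ∈ W₁, ∀ w₂ ∈ W₂, w₁ * w₂ ∈ F → w₁ ∈ F ∧ w₂ ∈ F) :
    Nat.card ↥(W ⊓ F) = Nat.card ↥(W₁ ⊓ F) * Nat.card ↥(W₂ ⊓ F) := by
  have hsup : W₁ ⊔ W₂ = W := by
    apply Subgroup.eq_of_le_of_card_ge (sup_le h1 h2)
    have := card_sup_mul_card_inf W₁ W₂
    rw [hdisj, Subgroup.card_bot, mul_one] at this
    rw [this, hcard]
  have hinf : (W₁ ⊓ F) ⊓ (W₂ ⊓ F) = ⊥ := by
    rw [eq_bot_iff, ← hdisj]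
    exact inf_le_inf inf_le_left inf_le_left
  have hsup' : (W₁ ⊓ F) ⊔ (W₂ ⊓ F) = W ⊓ F := by
    apply le_antisymm (sup_le (inf_le_inf_right _ h1) (inf_le_inf_right _ h2))
    intro v hv
    obtain ⟨hvW, hvF⟩ := Subgroup.mem_inf.mp hv
    rw [← hsup] at hvW
    obtain ⟨w₁, hw₁, w₂, hw₂, rfl⟩ := Subgroup.mem_sup.mp hvW
    obtain ⟨f1, f2⟩ := hF w₁ hw₁ w₂ hw₂ hvF
    exact Subgroup.mul_mem_sup (Subgroup.mem_inf.mpr ⟨hw₁, f1⟩) (Subgroup.mem_inf.mpr ⟨hw₂, f2⟩)
  have := card_sup_mul_card_inf (W₁ ⊓ F) (W₂ ⊓ F)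
  rw [hinf, Subgroup.card_bot, mul_one, hsup'] at this
  exact this

end FixProd1

end Cfsg.Agent.Lib.Helper21
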