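import Mathlib
import Cfsg.Agent.Lib.Helper21.FixProd1

set_option autoImplicit false

namespace Cfsg.Agent.Lib.Helper21

section FixProd2

variable {V : Type*} [CommGroup V] {P : Type*} [Group P] [MulDistribMulAction P V]

/-- An element central modulo the kernel, of order `p` modulo the kernel. -/
theorem exists_central_mod [Finite P] (p : ℕ) [Fact p.Prime] (hP : IsPGroup p P)
    (K : Subgroup P) [K.Normal] (hK : K ≠ ⊤) :
    ∃ z : P, z ∉ K ∧ z ^ p ∈ K ∧ ∀ y : P, y⁻¹ * z⁻¹ * y * z ∈ K := by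
  have : Nontrivial (P ⧸ K) := by
    rw [← Finite.one_lt_card_iff_nontrivial]
    have h1 : Nat.card (P ⧸ K) = K.index := rfl
    rw [h1]
    exact Subgroup.one_lt_index_of_ne_top hK
  have hQ : IsPGroup p (P ⧸ K) := hP.to_quotient K
  have := hQ.center_nontrivial
  have hdvd : p ∣ Nat.card (Subgroup.center (P ⧸ K)) := by
    obtain ⟨k, hk⟩ := IsPGroup.iff_card.mp (hQ.to_subgroup (Subgroup.center (P ⧸ K)))
    have h1 : 1 < Nat.card (Subgroup.center (P ⧸ K)) := Finite.one_lt_card
    rw [hk] at h1 ⊢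
    apply dvd_pow_self
    rintro rfl
    simp at h1
  obtain ⟨c, hc⟩ := exists_prime_orderOf_dvd_card' p hdvd
  obtain ⟨z, hz⟩ := QuotientGroup.mk_surjective (c : P ⧸ K)
  refine ⟨z, ?_, ?_, ?_⟩
  · intro hzK
    have h1 : (c : P ⧸ K) = 1 := by rw [← hz]; exact (QuotientGroup.eq_one_iff z).mpr hzK
    have h2 : c = 1 := Subtype.ext h1
    rw [h2, orderOf_one] at hc
    exact (Fact.out : p.Prime).one_lt.ne hc
  · rw [← QuotientGroup.eq_one_iff, QuotientGroup.mk_pow, hz]
    have h1 := pow_orderOf_eq_one c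
    rw [hc] at h1
    have h2 := congrArg Subtype.val h1
    simpa using h2
  · intro y
    rw [← QuotientGroup.eq_one_iff]
    simp only [QuotientGroup.mk_mul, QuotientGroup.mk_inv, hz]
    have hcc := Subgroup.mem_center_iff.mp c.2 (y : P ⧸ K)
    rw [mul_assoc, hcc]
    group

theorem pow_smul_comm_of {W : Subgroup V} (hWinv : ∀ (x : P) (w : V), w ∈ W → x • w ∈ W) {z : P}
    (hzy : ∀ (y : P) (w : V), w ∈ W → z • (y • w) = y • (z • w)) (t : ℕ) (y : P) (w : V)
    (hw : w ∈ W) : z ^ t • (y • w) = y • (z ^ t • w) := by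
  induction t generalizing w with
  | zero => simp
  | succ t ih =>
    rw [pow_succ, mul_smul, mul_smul, hzy y w hw, ih (z • w) (hWinv z w hw)]

theorem fix_pow {g : P} {v : V} (h : g • v = v) (t : ℕ) : g ^ t • v = v := by
  induction t with
  | zero => simp
  | succ t ih => rw [pow_succ, mul_smul, h, ih]

theorem fix_zpow {g : P} {v : V} (h : g • v = v) (t : ℤ) : g ^ t • v = v := by
  have hg : g ∈ MulAction.stabilizer P v := h
  exact (MulAction.stabilizer P v).zpow_mem hg t

end FixProd2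

end Cfsg.Agent.Lib.Helper21
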