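import Mathlib
import Cfsg.Agent.Lib.Helper21.FixProd2

set_option autoImplicit false

namespace Cfsg.Agent.Lib.Helper21

section FixProd3

variable {V : Type*} [CommGroup V] {P : Type*} [Group P] [MulDistribMulAction P V]

/-- In the fixed-point-free case the fixed-point subgroups of `x * z^i` are independent. -/
theorem fpf_per_x [Finite V] [Finite P] (p : ℕ) [Fact p.Prime] (hP : IsPGroup p P)
    (hV : (Nat.card V).Coprime p) (W : Subgroup V)
    (hWinv : ∀ (x : P) (w : V), w ∈ W → x • w ∈ W) (z : P)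
    (hzp : ∀ w ∈ W, z ^ p • w = w)
    (hzy : ∀ (y : P) (w : V), w ∈ W → z • (y • w) = y • (z • w))
    (hfpf : W ⊓ fixS z = ⊥) (x : P) :
    ∏ i ∈ Finset.range p, Nat.card ↥(W ⊓ fixS (x * z ^ i)) ≤ Nat.card W := by
  classical
  have key : ∀ (j : Fin p) (d : (i : Fin p) → ↥(W ⊓ fixS (x * z ^ (i : ℕ)))),
      ∏ i, ((d i : V)) = 1 → (d j : V) = 1 := by
    intro j d hd
    obtain ⟨N, hN⟩ : ∃ N : V →* V, ∀ v : V,
        N v = ∏ t ∈ Finset.range (Nat.card P), (x * z ^ (j : ℕ)) ^ t • v :=
      ⟨∏ t ∈ Finset.range (Nat.card P),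
        MulDistribMulAction.toMonoidHom V ((x * z ^ (j : ℕ)) ^ t), fun v => by
          simp [MonoidHom.finsetProd_apply]⟩
    have h1 : N (∏ i, (d i : V)) = ∏ i, N (d i : V) := map_prod N _ _
    rw [hd, map_one] at h1
    have h2 : ∀ i : Fin p, i ≠ j → N (d i : V) = 1 := by
      intro i hij
      obtain ⟨v, hv⟩ : ∃ v : V, v = (d i : V) := ⟨_, rfl⟩
      rw [← hv]
      have hvW : v ∈ W := by rw [hv]; exact (Subgroup.mem_inf.mp (d i).2).1
      have hvfix : (x * z ^ (i : ℕ)) • v = v := by rw [hv]; exact (Subgroup.mem_inf.mp (d i).2).2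
      obtain ⟨τ, hτ⟩ : ∃ τ : P, τ = (z ^ (i : ℕ))⁻¹ * z ^ (j : ℕ) := ⟨_, rfl⟩
      have hg : x * z ^ (j : ℕ) = (x * z ^ (i : ℕ)) * τ := by rw [hτ]; group
      have hτy : ∀ (y : P) (w : V), w ∈ W → τ • (y • w) = y • (τ • w) := by
        intro y w hw
        rw [hτ, mul_smul, mul_smul, pow_smul_comm_of hWinv hzy (j : ℕ) y w hw, inv_smul_eq_iff,
          pow_smul_comm_of hWinv hzy (i : ℕ) y _ (hWinv _ _ (hWinv _ w hw)), smul_inv_smul]
      have hB : ∀ (t : ℕ) (w : V), w ∈ W → (x * z ^ (i : ℕ)) • w = w →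
          (x * z ^ (j : ℕ)) ^ t • w = τ ^ t • w := by
        intro t
        induction t with
        | zero => intro w _ _; simp
        | succ t ih =>
          intro w hw hfix
          have h5 : (x * z ^ (j : ℕ)) • w = τ • w := by
            rw [hg, mul_smul, ← hτy _ w hw, hfix]
          rw [pow_succ, mul_smul, h5, ih (τ • w) (hWinv τ w hw) (by rw [← hτy _ w hw, hfix]),
            pow_succ, mul_smul]
      have hν : N v = ∏ t ∈ Finset.range (Nat.card P), τ ^ t • v := by
        rw [hN]; exact Finset.prod_congr rfl (fun t _ => hB t v hvW hvfix)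
      have hνW : N v ∈ W := by
        rw [hν]; exact Subgroup.prod_mem W (fun t _ => hWinv _ v hvW)
      have hντ : τ • N v = N v := by
        rw [hν]
        have e1 : τ • ∏ t ∈ Finset.range (Nat.card P), τ ^ t • v =
            ∏ t ∈ Finset.range (Nat.card P), τ ^ (t + 1) • v := by
          have h6 := map_prod (MulDistribMulAction.toMonoidHom V τ) (fun t => τ ^ t • v)
            (Finset.range (Nat.card P))
          simp only [MulDistribMulAction.toMonoidHom_apply] at h6
          rw [h6]
          apply Finset.prod_congr rfl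
          intro t _
          rw [← mul_smul, ← pow_succ']
        rw [e1]
        have e2 := Finset.prod_range_succ (fun t => τ ^ t • v) (Nat.card P)
        have e3 := Finset.prod_range_succ' (fun t => τ ^ t • v) (Nat.card P)
        rw [e2] at e3
        simp only [pow_card_eq_one', one_smul, pow_zero] at e3
        exact (mul_right_cancel e3).symm
      have hzν : z • N v = N v := by
        have hτz : τ = z ^ (-(i : ℤ) + (j : ℤ)) := by
          rw [hτ, zpow_add, zpow_neg, zpow_natCast, zpow_natCast]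
        have hcop : IsCoprime (-(i : ℤ) + (j : ℤ)) (p : ℤ) := by
          rw [Int.isCoprime_iff_gcd_eq_one]
          have hne : (-(i : ℤ) + (j : ℤ)) ≠ 0 := by
            intro h
            apply hij
            ext
            omega
          have hlt : (-(i : ℤ) + (j : ℤ)).natAbs < p := by
            have := i.2
            have := j.2
            omega
          have hpos : 0 < (-(i : ℤ) + (j : ℤ)).natAbs := Int.natAbs_pos.mpr hne
          have h7 : Nat.Coprime (-(i : ℤ) + (j : ℤ)).natAbs p :=
            Nat.Coprime.symm ((Nat.Prime.coprime_iff_not_dvd Fact.out).mpr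
              (Nat.not_dvd_of_pos_of_lt hpos hlt))
          simpa [Int.gcd] using h7
        obtain ⟨a, b, hab⟩ := hcop
        have hz1 : z = τ ^ a * (z ^ p) ^ b := by
          rw [hτz, ← zpow_mul, ← zpow_natCast z p, ← zpow_mul, ← zpow_add]
          have h8 : (-(i : ℤ) + (j : ℤ)) * a + (p : ℤ) * b = 1 := by linarith
          rw [h8, zpow_one]
        have hzpν : (z ^ p) ^ b • N v = N v := fix_zpow (hzp _ hνW) b
        have hτν : τ ^ a • N v = N v := fix_zpow hντ a
        calc z • N v = (τ ^ a * (z ^ p) ^ b) • N v := by rw [← hz1]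
          _ = N v := by rw [mul_smul, hzpν, hτν]
      have h9 : N v ∈ W ⊓ fixS z := Subgroup.mem_inf.mpr ⟨hνW, hzν⟩
      rw [hfpf, Subgroup.mem_bot] at h9
      exact h9
    have h3 : N (d j : V) = (d j : V) ^ Nat.card P := by
      rw [hN, Finset.prod_congr rfl (fun t _ => fix_pow (Subgroup.mem_inf.mp (d j).2).2 t),
        Finset.prod_const, Finset.card_range]
    rw [Finset.prod_eq_single j (fun i _ hij => h2 i hij)
      (fun h => absurd (Finset.mem_univ j) h), h3] at h1
    have ho : orderOf (d j : V) ∣ Nat.card P := orderOf_dvd_of_pow_eq_one h1.symm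
    have ho2 : orderOf (d j : V) ∣ Nat.card V := orderOf_dvd_natCard _
    obtain ⟨k, hk⟩ := IsPGroup.iff_card.mp hP
    rw [hk] at ho
    have hcop : (Nat.card V).Coprime (p ^ k) := Nat.Coprime.pow_right k hV
    exact orderOf_eq_one_iff.mp (Nat.eq_one_of_dvd_coprimes hcop ho2 ho)
  have hinj : Function.Injective (fun d : (i : Fin p) → ↥(W ⊓ fixS (x * z ^ (i : ℕ))) =>
      (⟨∏ i, (d i : V),
        Subgroup.prod_mem W (fun i _ => (Subgroup.mem_inf.mp (d i).2).1)⟩ : ↥W)) := by
    intro d d' hdd
    have hprod : ∏ i, ((d i : V)) = ∏ i, ((d' i : V)) := congrArg Subtype.val hdd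
    funext j
    have h4 := key j (fun i => d i * (d' i)⁻¹) (by
      simp only [Subgroup.coe_mul, Subgroup.coe_inv]
      rw [Finset.prod_mul_distrib, Finset.prod_inv_distrib, hprod, mul_inv_cancel])
    apply Subtype.ext
    have h5 : (d j : V) * (d' j : V)⁻¹ = 1 := by simpa using h4
    exact mul_inv_eq_one.mp h5
  have hle := Nat.card_le_card_of_injective _ hinj
  rw [Nat.card_pi] at hle
  rw [← Fin.prod_univ_eq_prod_range (fun i => Nat.card ↥(W ⊓ fixS (x * z ^ i))) p]
  exact hle

end FixProd3

end Cfsg.Agent.Lib.Helper21
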