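import Mathlib
import Cfsg.Agent.Lib.Helper21.FixProd3

set_option autoImplicit false

namespace Cfsg.Agent.Lib.Helper21

section FixProd4

variable {V : Type*} [CommGroup V] {P : Type*} [Group P] [MulDistribMulAction P V]

/-- The fixed-point product inequality for a coprime action of a `p`-group on an abelian
group. -/
theorem abel_claim [Finite V] [Fintype P] (p : ℕ) [Fact p.Prime] (hP : IsPGroup p P)
    (hV : (Nat.card V).Coprime p) :
    ∀ (n : ℕ) (W : Subgroup V), Nat.card W ≤ n → (∀ (x : P) (w : V), w ∈ W → x • w ∈ W) →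
    (∏ x : P, Nat.card ↥(W ⊓ fixS x)) ^ p ≤
      Nat.card W ^ Nat.card P * Nat.card ↥(W ⊓ fixAll P V) ^ (Nat.card P * (p - 1)) := by
  have hp : p.Prime := Fact.out
  intro n
  induction n with
  | zero =>
    intro W hW
    have := Nat.card_pos (α := W)
    omega
  | succ n ih =>
    intro W hW hWinv
    by_cases htriv : ∀ (x : P) (w : V), w ∈ W → x • w = w
    · have h1 : ∀ x : P, W ⊓ fixS x = W := fun x => inf_eq_left.mpr (fun w hw => htriv x w hw)
      have h2 : W ⊓ fixAll P V = W := inf_eq_left.mpr (fun w hw x => htriv x w hw)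
      rw [h2]
      simp only [h1]
      rw [Finset.prod_const, Finset.card_univ, ← Nat.card_eq_fintype_card (α := P), ← pow_mul,
        ← pow_add]
      apply le_of_eq
      congr 1
      obtain ⟨q, hq⟩ : ∃ q, p = q + 1 := ⟨p - 1, by have := hp.pos; omega⟩
      rw [hq, Nat.add_sub_cancel]
      ring
    · obtain ⟨K, hK⟩ : ∃ K : Subgroup P, ∀ x, x ∈ K ↔ ∀ w ∈ W, x • w = w :=
        ⟨{ carrier := {x | ∀ w ∈ W, x • w = w}
           one_mem' := fun w _ => one_smul P w
           mul_mem' := by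
             intro a b ha hb w hw
             rw [mul_smul, hb w hw, ha w hw]
           inv_mem' := by
             intro a ha w hw
             rw [inv_smul_eq_iff, ha w hw] }, fun x => Iff.rfl⟩
      haveI : K.Normal := by
        constructor
        intro x hx g
        rw [hK] at hx ⊢
        intro w hw
        rw [mul_smul, mul_smul, hx _ (hWinv g⁻¹ w hw), smul_inv_smul]
      have hKtop : K ≠ ⊤ := by
        intro h
        apply htriv
        intro x w hw
        have hx : x ∈ K := by rw [h]; exact Subgroup.mem_top x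
        exact (hK x).mp hx w hw
      obtain ⟨z, hzK, hzpK, hzc⟩ := exists_central_mod p hP K hKtop
      have hzp : ∀ w ∈ W, z ^ p • w = w := (hK _).mp hzpK
      have hzy : ∀ (y : P) (w : V), w ∈ W → z • (y • w) = y • (z • w) := by
        intro y w hw
        have h3 := (hK _).mp (hzc y) w hw
        rw [mul_smul, mul_smul, mul_smul, inv_smul_eq_iff, inv_smul_eq_iff] at h3
        exact h3.symm
      obtain ⟨δ, hδ⟩ : ∃ δ : V →* V, ∀ v, δ v = v⁻¹ * z • v :=
        ⟨(MonoidHom.id V)⁻¹ * MulDistribMulAction.toMonoidHom V z, fun v => by simp⟩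
      have hker : W ⊓ δ.ker = W ⊓ fixS z := by
        ext v
        simp only [Subgroup.mem_inf, MonoidHom.mem_ker, hδ, mem_fixS, inv_mul_eq_one]
        constructor
        · rintro ⟨h1, h2⟩; exact ⟨h1, h2.symm⟩
        · rintro ⟨h1, h2⟩; exact ⟨h1, h2.symm⟩
      have hcard : Nat.card W = Nat.card (W.map δ) * Nat.card ↥(W ⊓ fixS z) := by
        rw [← hker]; exact card_eq_card_map_mul_card_inf_ker δ W
      have h2le : W.map δ ≤ W := by
        intro v hv
        obtain ⟨w, hw, rfl⟩ := Subgroup.mem_map.mp hv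
        rw [hδ]; exact W.mul_mem (W.inv_mem hw) (hWinv z w hw)
      have hdisj : (W ⊓ fixS z) ⊓ W.map δ = ⊥ := by
        rw [eq_bot_iff]
        intro v hv
        obtain ⟨hv1, hv2⟩ := Subgroup.mem_inf.mp hv
        obtain ⟨hvW, hvz⟩ := Subgroup.mem_inf.mp hv1
        obtain ⟨w, hw, hwv⟩ := Subgroup.mem_map.mp hv2
        have e1 : ∏ t ∈ Finset.range p, z ^ t • v = v ^ p := by
          rw [Finset.prod_congr rfl (fun t _ => fix_pow hvz t), Finset.prod_const,
            Finset.card_range]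
        have e2 : ∏ t ∈ Finset.range p, z ^ t • v = 1 := by
          have e3 : ∀ t ∈ Finset.range p, z ^ t • v = (z ^ (t + 1) • w) / (z ^ t • w) := by
            intro t _
            rw [← hwv, hδ, smul_mul', smul_inv', ← mul_smul, ← pow_succ, div_eq_mul_inv,
              mul_comm]
          rw [Finset.prod_congr rfl e3, Finset.prod_range_div (fun t => z ^ t • w), hzp w hw]
          simp
        rw [e1] at e2
        have ho : orderOf v ∣ p := orderOf_dvd_of_pow_eq_one e2
        have ho2 : orderOf v ∣ Nat.card V := orderOf_dvd_natCard _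
        rw [Subgroup.mem_bot]
        exact orderOf_eq_one_iff.mp (Nat.eq_one_of_dvd_coprimes hV ho2 ho)
      have hinv1 : ∀ (x : P) (w : V), w ∈ W ⊓ fixS z → x • w ∈ W ⊓ fixS z := by
        intro x w hw
        obtain ⟨hwW, hwz⟩ := Subgroup.mem_inf.mp hw
        have hwz' : z • w = w := hwz
        refine Subgroup.mem_inf.mpr ⟨hWinv x w hwW, ?_⟩
        show z • (x • w) = x • w
        rw [hzy x w hwW, hwz']
      have hinv2 : ∀ (x : P) (w : V), w ∈ W.map δ → x • w ∈ W.map δ := by
        intro x v hv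
        obtain ⟨w, hw, rfl⟩ := Subgroup.mem_map.mp hv
        refine Subgroup.mem_map.mpr ⟨x • w, hWinv x w hw, ?_⟩
        rw [hδ, hδ, smul_mul', smul_inv', hzy x w hw]
      have hF : ∀ (y : P), ∀ w₁ ∈ W ⊓ fixS z, ∀ w₂ ∈ W.map δ,
          w₁ * w₂ ∈ (fixS y : Subgroup V) →
          w₁ ∈ (fixS y : Subgroup V) ∧ w₂ ∈ (fixS y : Subgroup V) := by
        intro y w₁ hw₁ w₂ hw₂ h12
        have h12' : y • (w₁ * w₂) = w₁ * w₂ := h12
        rw [smul_mul'] at h12'
        have e1 : w₁⁻¹ * y • w₁ = w₂ * (y • w₂)⁻¹ := by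
          rw [inv_mul_eq_iff_eq_mul, ← mul_assoc, eq_mul_inv_iff_mul_eq]; exact h12'
        have m1 : w₁⁻¹ * y • w₁ ∈ (W ⊓ fixS z) ⊓ W.map δ := by
          refine Subgroup.mem_inf.mpr
            ⟨Subgroup.mul_mem _ (Subgroup.inv_mem _ hw₁) (hinv1 y w₁ hw₁), ?_⟩
          rw [e1]
          exact Subgroup.mul_mem _ hw₂ (Subgroup.inv_mem _ (hinv2 y w₂ hw₂))
        rw [hdisj, Subgroup.mem_bot, inv_mul_eq_one] at m1
        have f1 : y • w₁ = w₁ := m1.symm
        refine ⟨f1, ?_⟩
        show y • w₂ = w₂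
        rw [f1] at h12'
        exact mul_left_cancel h12'
      have hFall : ∀ w₁ ∈ W ⊓ fixS z, ∀ w₂ ∈ W.map δ, w₁ * w₂ ∈ fixAll P V →
          w₁ ∈ fixAll P V ∧ w₂ ∈ fixAll P V := by
        intro w₁ hw₁ w₂ hw₂ h12
        exact ⟨fun y => (hF y w₁ hw₁ w₂ hw₂ (h12 y)).1, fun y => (hF y w₁ hw₁ w₂ hw₂ (h12 y)).2⟩
      have hc : ∀ y : P, Nat.card ↥(W ⊓ fixS y) =
          Nat.card ↥((W ⊓ fixS z) ⊓ fixS y) * Nat.card ↥(W.map δ ⊓ fixS y) :=
        fun y => card_inf_of_decomp inf_le_left h2le hdisj (hcard.trans (mul_comm _ _)) (hF y)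
      have hcall : Nat.card ↥(W ⊓ fixAll P V) =
          Nat.card ↥((W ⊓ fixS z) ⊓ fixAll P V) * Nat.card ↥(W.map δ ⊓ fixAll P V) :=
        card_inf_of_decomp inf_le_left h2le hdisj (hcard.trans (mul_comm _ _)) hFall
      have hW2 : W.map δ ≠ ⊥ := by
        rw [hK] at hzK
        push Not at hzK
        obtain ⟨w1, hw1, hzw1⟩ := hzK
        intro h
        have hm : δ w1 ∈ W.map δ := Subgroup.mem_map.mpr ⟨w1, hw1, rfl⟩
        rw [h, Subgroup.mem_bot, hδ, inv_mul_eq_one] at hm
        exact hzw1 hm.symm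
      have hb2 : 1 < Nat.card (W.map δ) := (Subgroup.one_lt_card_iff_ne_bot _).mpr hW2
      by_cases hfpf : W ⊓ fixS z = ⊥
      · have hall : W ⊓ fixAll P V = ⊥ := by
          rw [eq_bot_iff, ← hfpf]
          exact inf_le_inf_left _ (fun v hv => hv z)
        rw [hall, Subgroup.card_bot, one_pow, mul_one]
        have hper := fpf_per_x p hP hV W hWinv z hzp hzy hfpf
        have e1 : (∏ x : P, Nat.card ↥(W ⊓ fixS x)) ^ p =
            ∏ x : P, ∏ i ∈ Finset.range p, Nat.card ↥(W ⊓ fixS (x * z ^ i)) := by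
          rw [Finset.prod_comm]
          have e2 : ∀ i ∈ Finset.range p, ∏ x : P, Nat.card ↥(W ⊓ fixS (x * z ^ i)) =
              ∏ x : P, Nat.card ↥(W ⊓ fixS x) := fun i _ =>
            Equiv.prod_comp (Equiv.mulRight (z ^ i)) (fun x => Nat.card ↥(W ⊓ fixS x))
          rw [Finset.prod_congr rfl e2, Finset.prod_const, Finset.card_range]
        rw [e1]
        calc ∏ x : P, ∏ i ∈ Finset.range p, Nat.card ↥(W ⊓ fixS (x * z ^ i))
            ≤ ∏ _x : P, Nat.card W :=
              Finset.prod_le_prod (fun x _ => Nat.zero_le _) (fun x _ => hper x)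
          _ = Nat.card W ^ Nat.card P := by
              rw [Finset.prod_const, Finset.card_univ, Nat.card_eq_fintype_card (α := P)]
      · have ha2 : 1 < Nat.card ↥(W ⊓ fixS z) := (Subgroup.one_lt_card_iff_ne_bot _).mpr hfpf
        have ha : Nat.card ↥(W ⊓ fixS z) ≤ n := by nlinarith
        have hb : Nat.card (W.map δ) ≤ n := by nlinarith
        have ih1 := ih (W ⊓ fixS z) ha hinv1
        have ih2 := ih (W.map δ) hb hinv2
        rw [Finset.prod_congr rfl (fun y _ => hc y), Finset.prod_mul_distrib, mul_pow, hcall,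
          mul_pow, hcard, mul_pow]
        calc _ ≤ (Nat.card ↥(W ⊓ fixS z) ^ Nat.card P *
                Nat.card ↥((W ⊓ fixS z) ⊓ fixAll P V) ^ (Nat.card P * (p - 1))) *
              (Nat.card (W.map δ) ^ Nat.card P *
                Nat.card ↥(W.map δ ⊓ fixAll P V) ^ (Nat.card P * (p - 1))) :=
              Nat.mul_le_mul ih1 ih2
          _ = _ := by ring

end FixProd4

end Cfsg.Agent.Lib.Helper21
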