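import Mathlib
import Cfsg.Agent.Lib.Helper21.FixProd4
import Cfsg.Agent.Lib.Helper1.Coprime

set_option autoImplicit false

namespace Cfsg.Agent.Lib.Helper21

section FixProd5

variable {H : Type*} [Group H] {P : Type*} [Group P]

/-- Conjugation by `φ x` on a normalised subgroup. -/
def cjHom (φ : P →* H) (Q : Subgroup H)
    (hn : ∀ x : P, φ x ∈ Subgroup.normalizer (Q : Set H)) (x : P) : ↥Q →* ↥Q where
  toFun q := ⟨φ x * q * (φ x)⁻¹, (Subgroup.mem_normalizer_iff.mp (hn x) q).mp q.2⟩
  map_one' := Subtype.ext (by simp)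
  map_mul' a b := Subtype.ext (by simp [mul_assoc])

theorem cjHom_coe (φ : P →* H) (Q : Subgroup H)
    (hn : ∀ x : P, φ x ∈ Subgroup.normalizer (Q : Set H)) (x : P) (q : ↥Q) :
    ((cjHom φ Q hn x q : ↥Q) : H) = φ x * q * (φ x)⁻¹ := rfl

/-- The induced action on the abelianisation. -/
@[reducible] def abAct (φ : P →* H) (Q : Subgroup H)
    (hn : ∀ x : P, φ x ∈ Subgroup.normalizer (Q : Set H)) :
    MulDistribMulAction P (Abelianization ↥Q) where
  smul x v := Abelianization.map (cjHom φ Q hn x) v
  one_smul v := by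
    obtain ⟨q, rfl⟩ := QuotientGroup.mk_surjective v
    show Abelianization.map (cjHom φ Q hn 1) (Abelianization.of q) = Abelianization.of q
    rw [Abelianization.map_of]
    congr 1
    apply Subtype.ext
    simp [cjHom_coe]
  mul_smul x y v := by
    obtain ⟨q, rfl⟩ := QuotientGroup.mk_surjective v
    show Abelianization.map (cjHom φ Q hn (x * y)) (Abelianization.of q) =
      Abelianization.map (cjHom φ Q hn x) (Abelianization.map (cjHom φ Q hn y)
        (Abelianization.of q))
    rw [Abelianization.map_of, Abelianization.map_of, Abelianization.map_of]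
    congr 1
    apply Subtype.ext
    simp [cjHom_coe, mul_assoc]
  smul_mul x v w := map_mul (Abelianization.map (cjHom φ Q hn x)) v w
  smul_one x := map_one (Abelianization.map (cjHom φ Q hn x))

theorem abAct_fix_iff (φ : P →* H) (Q : Subgroup H)
    (hn : ∀ x : P, φ x ∈ Subgroup.normalizer (Q : Set H)) (y : P) (q : ↥Q) :
    (Abelianization.map (cjHom φ Q hn y) (Abelianization.of q) = Abelianization.of q) ↔
      φ y * q * (φ y)⁻¹ * (q : H)⁻¹ ∈ (commutator ↥Q).map Q.subtype := by
  rw [Abelianization.map_of, ← mul_inv_eq_one, ← map_inv, ← map_mul, ← MonoidHom.mem_ker,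
    Abelianization.ker_of]
  have h : φ y * q * (φ y)⁻¹ * (q : H)⁻¹ = Q.subtype (cjHom φ Q hn y q * q⁻¹) := rfl
  rw [h, Subgroup.mem_map_iff_mem Q.subtype_injective]

theorem card_fix_split [Finite H] (Q : Subgroup H) (A : Subgroup H)
    (hAQ : A ≤ Subgroup.normalizer (Q : Set H)) (hcop : (Nat.card A).Coprime (Nat.card Q))
    (hsolv : Group.IsSolvable A ∨ Group.IsSolvable Q)
    (F : Subgroup (Abelianization ↥Q))
    (hF : ∀ q : ↥Q, Abelianization.of q ∈ F ↔
      ∀ a ∈ A, a * q * a⁻¹ * (q : H)⁻¹ ∈ (commutator ↥Q).map Q.subtype) :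
    Nat.card ↥(Q ⊓ Subgroup.centralizer (A : Set H)) =
      Nat.card ↥((commutator ↥Q).map Q.subtype ⊓ Subgroup.centralizer (A : Set H)) *
        Nat.card F := by
  obtain ⟨D, hD⟩ : ∃ D : Subgroup ↥Q, D = (Subgroup.centralizer (A : Set H)).subgroupOf Q :=
    ⟨_, rfl⟩
  have h1 := card_eq_card_map_mul_card_inf_ker (Abelianization.of : ↥Q →* Abelianization ↥Q) D
  have hQ'Q : (commutator ↥Q).map Q.subtype ≤ Q := Subgroup.map_subtype_le _
  have hnn := Helper1.normalizer_le_normalizer_map_of_characteristic (K := Q) (commutator ↥Q)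
  have hQnorm : Q ≤ Subgroup.normalizer (((commutator ↥Q).map Q.subtype : Subgroup H) : Set H) :=
    Subgroup.le_normalizer.trans hnn
  have hAnorm : A ≤ Subgroup.normalizer (((commutator ↥Q).map Q.subtype : Subgroup H) : Set H) :=
    hAQ.trans hnn
  have e1 : Nat.card D = Nat.card ↥(Q ⊓ Subgroup.centralizer (A : Set H)) := by
    rw [hD, inf_comm, ← Subgroup.subgroupOf_map_subtype,
      Subgroup.card_map_of_injective (Subgroup.subtype_injective Q)]
  have e2 : D.map Abelianization.of = F := by
    ext v
    constructor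
    · intro hv
      obtain ⟨q, hq, rfl⟩ := Subgroup.mem_map.mp hv
      rw [hF]
      intro a ha
      have hqc : (q : H) ∈ Subgroup.centralizer (A : Set H) := by
        rw [hD] at hq; exact Subgroup.mem_subgroupOf.mp hq
      have h2 := hqc a ha
      have e : a * (q : H) * a⁻¹ * (q : H)⁻¹ = 1 := by rw [h2]; group
      rw [e]; exact Subgroup.one_mem _
    · intro hv
      obtain ⟨k, rfl⟩ := QuotientGroup.mk_surjective v
      have hk := (hF k).mp hv
      obtain ⟨c, hc, hkc⟩ := Helper1.coprime_fixed_quotient A Q hAQ hcop hsolv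
        ((commutator ↥Q).map Q.subtype) hQ'Q hQnorm hAnorm (k : H) k.2 hk
      obtain ⟨hcQ, hcC⟩ := Subgroup.mem_inf.mp hc
      refine Subgroup.mem_map.mpr ⟨⟨c, hcQ⟩, ?_, ?_⟩
      · rw [hD]; exact Subgroup.mem_subgroupOf.mpr hcC
      · show Abelianization.of (⟨c, hcQ⟩ : ↥Q) = Abelianization.of k
        apply Eq.symm
        rw [← inv_mul_eq_one, ← map_inv, ← map_mul, ← MonoidHom.mem_ker, Abelianization.ker_of,
          ← Subgroup.mem_map_iff_mem Q.subtype_injective]
        exact hkc
  have e3 : Nat.card ↥(D ⊓ (Abelianization.of : ↥Q →* Abelianization ↥Q).ker) =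
      Nat.card ↥((commutator ↥Q).map Q.subtype ⊓ Subgroup.centralizer (A : Set H)) := by
    rw [Abelianization.ker_of,
      ← Subgroup.card_map_of_injective Q.subtype_injective (K := D ⊓ commutator ↥Q),
      Subgroup.map_inf _ _ _ Q.subtype_injective, hD, Subgroup.subgroupOf_map_subtype]
    have e4 : Subgroup.centralizer (A : Set H) ⊓ Q ⊓ (commutator ↥Q).map Q.subtype =
        (commutator ↥Q).map Q.subtype ⊓ Subgroup.centralizer (A : Set H) :=
      le_antisymm (le_inf inf_le_right (inf_le_left.trans inf_le_left))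
        (le_inf (le_inf inf_le_right (inf_le_left.trans hQ'Q)) inf_le_left)
    rw [e4]
  rw [← e1, h1, e2, e3, mul_comm]

/-- The fixed-point product inequality for a solvable `p'`-subgroup normalised by the image of
a `p`-group. -/
theorem solv_claim [Finite H] [Fintype P] (p : ℕ) [Fact p.Prime] (hP : IsPGroup p P)
    (φ : P →* H) :
    ∀ (n : ℕ) (Q : Subgroup H), Nat.card Q ≤ n → Group.IsSolvable ↥Q →
    (∀ x : P, φ x ∈ Subgroup.normalizer (Q : Set H)) → (Nat.card Q).Coprime p →
    (∏ x : P, Nat.card ↥(Q ⊓ Subgroup.centralizer (Subgroup.zpowers (φ x) : Set H))) ^ p ≤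
      Nat.card Q ^ Nat.card P *
        Nat.card ↥(Q ⊓ Subgroup.centralizer (φ.range : Set H)) ^ (Nat.card P * (p - 1)) := by
  have hp : p.Prime := Fact.out
  have hrange : IsPGroup p φ.range :=
    IsPGroup.of_surjective hP φ.rangeRestrict φ.rangeRestrict_surjective
  intro n
  induction n with
  | zero =>
    intro Q hQ
    have := Nat.card_pos (α := Q)
    omega
  | succ n ih =>
    intro Q hQ hsolv hn hcop
    by_cases hbot : Q = ⊥
    · subst hbot
      simp
    · obtain ⟨Q', hQ'⟩ : ∃ Q' : Subgroup H, Q' = (commutator ↥Q).map Q.subtype := ⟨_, rfl⟩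
      have hQ'Q : Q' ≤ Q := hQ' ▸ Subgroup.map_subtype_le _
      haveI : Nontrivial ↥Q := (Subgroup.nontrivial_iff_ne_bot Q).mpr hbot
      have hlt : commutator ↥Q < ⊤ := Group.IsSolvable.commutator_lt_top_of_nontrivial ↥Q
      have hcardQ' : Nat.card Q' = Nat.card (commutator ↥Q) := by
        rw [hQ']; exact Subgroup.card_map_of_injective Q.subtype_injective
      have hVcard : Nat.card Q = Nat.card Q' * Nat.card (Abelianization ↥Q) := by
        rw [hcardQ', mul_comm]
        exact Subgroup.card_eq_card_quotient_mul_card_subgroup (commutator ↥Q)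
      have hV1 : 1 < Nat.card (Abelianization ↥Q) := by
        have h3 : Nat.card (Abelianization ↥Q) = (commutator ↥Q).index := rfl
        rw [h3]; exact Subgroup.one_lt_index_of_ne_top hlt.ne
      have hQ'n : Nat.card Q' ≤ n := by nlinarith [Nat.card_pos (α := Q')]
      have hQ'solv : Group.IsSolvable ↥Q' := Helper1.isSolvable_of_le hQ'Q
      have hQ'norm : ∀ x : P, φ x ∈ Subgroup.normalizer (Q' : Set H) := fun x => by
        rw [hQ']
        exact Helper1.normalizer_le_normalizer_map_of_characteristic (commutator ↥Q) (hn x)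
      have hQ'cop : (Nat.card Q').Coprime p :=
        Nat.Coprime.coprime_dvd_left (Subgroup.card_dvd_of_le hQ'Q) hcop
      have ih1 := ih Q' hQ'n hQ'solv hQ'norm hQ'cop
      letI := abAct φ Q hn
      have hVcop : (Nat.card (Abelianization ↥Q)).Coprime p :=
        Nat.Coprime.coprime_dvd_left (Dvd.intro_left _ hVcard.symm) hcop
      have hab := abel_claim p hP hVcop (Nat.card (Abelianization ↥Q)) ⊤
        (by rw [Subgroup.card_top]) (fun x w _ => Subgroup.mem_top _)
      rw [Subgroup.card_top] at hab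
      simp only [top_inf_eq] at hab
      have hrange_cop : ∀ A : Subgroup H, A ≤ φ.range → (Nat.card A).Coprime (Nat.card Q) := by
        intro A hA
        obtain ⟨k, hk⟩ := IsPGroup.iff_card.mp (hrange.to_le hA)
        rw [hk]
        exact Nat.Coprime.pow_left k hcop.symm
      have hx : ∀ x : P, Nat.card ↥(Q ⊓ Subgroup.centralizer (Subgroup.zpowers (φ x) : Set H)) =
          Nat.card ↥(Q' ⊓ Subgroup.centralizer (Subgroup.zpowers (φ x) : Set H)) *
            Nat.card ↥(fixS x : Subgroup (Abelianization ↥Q)) := by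
        intro x
        rw [hQ']
        apply card_fix_split Q (Subgroup.zpowers (φ x)) ?_ ?_ (Or.inr hsolv) (fixS x)
        · intro q
          constructor
          · intro hq a ha
            obtain ⟨k, rfl⟩ := Subgroup.mem_zpowers_iff.mp ha
            rw [← map_zpow]
            exact (abAct_fix_iff φ Q hn (x ^ k) q).mp (fix_zpow (mem_fixS.mp hq) k)
          · intro hq
            exact (abAct_fix_iff φ Q hn x q).mpr (hq _ (Subgroup.mem_zpowers _))
        · exact (Subgroup.zpowers_le.mpr (hn x))
        · exact hrange_cop _ (Subgroup.zpowers_le.mpr ⟨x, rfl⟩)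
      have hall : Nat.card ↥(Q ⊓ Subgroup.centralizer (φ.range : Set H)) =
          Nat.card ↥(Q' ⊓ Subgroup.centralizer (φ.range : Set H)) *
            Nat.card ↥(fixAll P (Abelianization ↥Q)) := by
        rw [hQ']
        apply card_fix_split Q φ.range ?_ ?_ (Or.inr hsolv) (fixAll P (Abelianization ↥Q))
        · intro q
          constructor
          · intro hq a ha
            obtain ⟨y, rfl⟩ := ha
            exact (abAct_fix_iff φ Q hn y q).mp (hq y)
          · intro hq y
            exact (abAct_fix_iff φ Q hn y q).mpr (hq _ ⟨y, rfl⟩)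
        · rintro _ ⟨y, rfl⟩
          exact hn y
        · exact hrange_cop _ le_rfl
      rw [Finset.prod_congr rfl (fun x _ => hx x), Finset.prod_mul_distrib, mul_pow, hall,
        mul_pow, hVcard, mul_pow]
      calc _ ≤ (Nat.card Q' ^ Nat.card P *
                Nat.card ↥(Q' ⊓ Subgroup.centralizer (φ.range : Set H)) ^ (Nat.card P * (p - 1))) *
              (Nat.card (Abelianization ↥Q) ^ Nat.card P *
                Nat.card ↥(fixAll P (Abelianization ↥Q)) ^ (Nat.card P * (p - 1))) :=
              Nat.mul_le_mul ih1 hab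
        _ = _ := by ring

end FixProd5

end Cfsg.Agent.Lib.Helper21
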