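import Mathlib
import Cfsg.Agent.Lib.Helper21.FixProd5
import Cfsg.Agent.Lib.Helper1.CoprimeSylow2

set_option autoImplicit false
open Pointwise

namespace Cfsg.Agent.Lib.Helper21

section FixProd6

variable {H : Type*} [Group H]

/-- Under coprime action, an invariant Sylow subgroup meets the centraliser in a Sylow
subgroup of the centraliser (cardinality form). -/
theorem card_map_inf_centralizer_sylow [Finite H] (A N : Subgroup H)
    (hAN : A ≤ Subgroup.normalizer (N : Set H)) (hcop : (Nat.card A).Coprime (Nat.card N))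
    (hsolv : Group.IsSolvable A ∨ Group.IsSolvable N) (q : ℕ) [Fact q.Prime] (S : Sylow q N)
    (hS : A ≤ Subgroup.normalizer ((S : Subgroup N).map N.subtype : Set H)) :
    Nat.card ↥((S : Subgroup N).map N.subtype ⊓ Subgroup.centralizer (A : Set H)) =
      q ^ (Nat.card ↥(N ⊓ Subgroup.centralizer (A : Set H))).factorization q := by
  have hq : q.Prime := Fact.out
  obtain ⟨C, hC⟩ : ∃ C : Subgroup H, C = N ⊓ Subgroup.centralizer (A : Set H) := ⟨_, rfl⟩
  obtain ⟨Q, hQ⟩ : ∃ Q : Subgroup H, Q = (S : Subgroup N).map N.subtype := ⟨_, rfl⟩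
  rw [← hC, ← hQ]
  have hQN : Q ≤ N := hQ ▸ Subgroup.map_subtype_le _
  have hQq : IsPGroup q Q := by rw [hQ]; exact S.isPGroup'.map N.subtype
  have hRC : Q ⊓ Subgroup.centralizer (A : Set H) ≤ C := by
    rw [hC]; exact inf_le_inf_right _ hQN
  have hCpos : Nat.card C ≠ 0 := Nat.card_pos.ne'
  have hup : Nat.card ↥(Q ⊓ Subgroup.centralizer (A : Set H)) ∣
      q ^ (Nat.card C).factorization q := by
    obtain ⟨k, hk⟩ := IsPGroup.iff_card.mp (hQq.to_le inf_le_left)
    rw [hk]
    apply pow_dvd_pow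
    rw [← hq.pow_dvd_iff_le_factorization hCpos, ← hk]
    exact Subgroup.card_dvd_of_le hRC
  obtain ⟨T⟩ : Nonempty (Sylow q ↥C) := inferInstance
  obtain ⟨U, hU⟩ : ∃ U : Subgroup H, U = (T : Subgroup C).map C.subtype := ⟨_, rfl⟩
  have hUC : U ≤ C := hU ▸ Subgroup.map_subtype_le _
  have hUcard : Nat.card U = q ^ (Nat.card C).factorization q := by
    rw [hU, Subgroup.card_map_of_injective C.subtype_injective]; exact T.card_eq_multiplicity
  have hUq : IsPGroup q U := by rw [hU]; exact T.isPGroup'.map C.subtype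
  have hUN : U ≤ N := hUC.trans (by rw [hC]; exact inf_le_left)
  have hUcent : U ≤ Subgroup.centralizer (A : Set H) := hUC.trans (by rw [hC]; exact inf_le_right)
  have hfix : ∀ a ∈ A, ∀ u ∈ U, a * u * a⁻¹ = u := by
    intro a ha u hu
    have h1 := hUcent hu a ha
    rw [h1]; group
  have hAU : A ≤ Subgroup.normalizer (U : Set H) := by
    intro a ha
    rw [Subgroup.mem_normalizer_iff]
    intro u
    constructor
    · intro hu
      rw [hfix a ha u hu]; exact hu
    · intro hu
      have h2 := hfix a ha _ hu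
      have h3 : a * u * a⁻¹ = u := by
        have h4 : a * (a * u * a⁻¹) * a⁻¹ = a * u * a⁻¹ := h2
        have h5 : a * (a * u * a⁻¹) = a * u := mul_right_cancel h4
        exact mul_left_cancel h5
      rw [h3] at hu; exact hu
  obtain ⟨S', hUS', hAS'⟩ := Helper1.invariant_pgroup_le_invariant_sylow A N hAN hcop hsolv q
    (Nat.card N - Nat.card U) U hUN hUq hAU le_rfl
  obtain ⟨c, hc, hcS⟩ := Helper1.invariant_sylow_conj A N hAN hcop hsolv q S' S hAS' hS
  have hQconj : Q = MulAut.conj (c : H) • (S' : Subgroup N).map N.subtype := by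
    rw [hQ, ← hcS]
    exact Helper1.sylow_smul_map c S'
  have hmem : ∀ u : U, (c : H) * u * (c : H)⁻¹ ∈ Q ⊓ Subgroup.centralizer (A : Set H) := by
    intro u
    refine Subgroup.mem_inf.mpr ⟨?_, ?_⟩
    · rw [hQconj]; exact Helper1.conj_mem_conj_smul _ _ _ (hUS' u.2)
    · exact Subgroup.mul_mem _ (Subgroup.mul_mem _ hc (hUcent u.2)) (Subgroup.inv_mem _ hc)
  have hle : Nat.card U ≤ Nat.card ↥(Q ⊓ Subgroup.centralizer (A : Set H)) := by
    apply Nat.card_le_card_of_injective (fun u : U =>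
      (⟨(c : H) * u * (c : H)⁻¹, hmem u⟩ : ↥(Q ⊓ Subgroup.centralizer (A : Set H))))
    intro u v huv
    have h1 : (c : H) * u * (c : H)⁻¹ = (c : H) * v * (c : H)⁻¹ := congrArg Subtype.val huv
    apply Subtype.ext
    exact mul_left_cancel (mul_right_cancel h1)
  rw [hUcard] at hle
  exact Nat.le_antisymm (Nat.le_of_dvd (pow_pos hq.pos _) hup) hle

/-- The fixed-point product inequality for a `p'`-subgroup normalised by the image of a
`p`-group. -/
theorem fix_claim {P : Type*} [Group P] [Finite H] [Fintype P] (p : ℕ) [Fact p.Prime]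
    (hP : IsPGroup p P) (φ : P →* H) (N : Subgroup H)
    (hn : ∀ x : P, φ x ∈ Subgroup.normalizer (N : Set H)) (hcop : (Nat.card N).Coprime p) :
    (∏ x : P, Nat.card ↥(N ⊓ Subgroup.centralizer (Subgroup.zpowers (φ x) : Set H))) ^ p ≤
      Nat.card N ^ Nat.card P *
        Nat.card ↥(N ⊓ Subgroup.centralizer (φ.range : Set H)) ^ (Nat.card P * (p - 1)) := by
  classical
  have hp : p.Prime := Fact.out
  have hrange : IsPGroup p φ.range :=
    IsPGroup.of_surjective hP φ.rangeRestrict φ.rangeRestrict_surjective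
  have hrangeN : φ.range ≤ Subgroup.normalizer (N : Set H) := by
    rintro _ ⟨y, rfl⟩; exact hn y
  have hA : ∀ A : Subgroup H, A ≤ φ.range → A ≤ Subgroup.normalizer (N : Set H) ∧
      (Nat.card A).Coprime (Nat.card N) ∧ Group.IsSolvable A := by
    intro A hA
    refine ⟨hA.trans hrangeN, ?_, ?_⟩
    · obtain ⟨k, hk⟩ := IsPGroup.iff_card.mp (hrange.to_le hA)
      rw [hk]; exact Nat.Coprime.pow_left k hcop.symm
    · haveI := (hrange.to_le hA).isNilpotent
      infer_instance
  obtain ⟨hR1, hR2, hR3⟩ := hA φ.range le_rfl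
  have hex : ∀ q : ℕ, ∃ Q : Subgroup H, q.Prime → ∃ S : Sylow q N,
      Q = (S : Subgroup N).map N.subtype ∧ φ.range ≤ Subgroup.normalizer (Q : Set H) := by
    intro q
    by_cases hq : q.Prime
    · haveI : Fact q.Prime := ⟨hq⟩
      obtain ⟨S, hS⟩ := Helper1.exists_invariant_sylow φ.range N hR1 hR2 (Or.inl hR3) q
      exact ⟨_, fun _ => ⟨S, rfl, hS⟩⟩
    · exact ⟨⊥, fun h => absurd h hq⟩
  choose Qf hQf using hex
  have hNpos : Nat.card N ≠ 0 := Nat.card_pos.ne'
  have hprod : ∀ A : Subgroup H, A ≤ φ.range →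
      Nat.card ↥(N ⊓ Subgroup.centralizer (A : Set H)) =
        ∏ q ∈ (Nat.card N).primeFactors, Nat.card ↥(Qf q ⊓ Subgroup.centralizer (A : Set H)) := by
    intro A hAle
    obtain ⟨hA1, hA2, hA3⟩ := hA A hAle
    have hCpos : Nat.card ↥(N ⊓ Subgroup.centralizer (A : Set H)) ≠ 0 := Nat.card_pos.ne'
    have hdvd : Nat.card ↥(N ⊓ Subgroup.centralizer (A : Set H)) ∣ Nat.card N :=
      Subgroup.card_dvd_of_le inf_le_left
    have e1 : ∀ q ∈ (Nat.card N).primeFactors,
        Nat.card ↥(Qf q ⊓ Subgroup.centralizer (A : Set H)) =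
          q ^ (Nat.card ↥(N ⊓ Subgroup.centralizer (A : Set H))).factorization q := by
      intro q hq
      have hqp := Nat.prime_of_mem_primeFactors hq
      haveI : Fact q.Prime := ⟨hqp⟩
      obtain ⟨S, hS1, hS2⟩ := hQf q hqp
      rw [hS1]
      exact card_map_inf_centralizer_sylow A N hA1 hA2 (Or.inl hA3) q S
        (by rw [← hS1]; exact hAle.trans hS2)
    refine (Nat.prod_primeFactors_pow_factorization hCpos).trans ?_
    rw [Finset.prod_congr rfl e1]
    apply Finset.prod_subset (Nat.primeFactors_mono hdvd hNpos)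
    intro q _ hq
    have h0 : (Nat.card ↥(N ⊓ Subgroup.centralizer (A : Set H))).factorization q = 0 := by
      rw [← Finsupp.notMem_support_iff, Nat.support_factorization]; exact hq
    rw [h0, pow_zero]
  have hNprod : Nat.card N = ∏ q ∈ (Nat.card N).primeFactors, Nat.card (Qf q) := by
    refine (Nat.prod_primeFactors_pow_factorization hNpos).trans ?_
    apply Finset.prod_congr rfl
    intro q hq
    have hqp := Nat.prime_of_mem_primeFactors hq
    haveI : Fact q.Prime := ⟨hqp⟩
    obtain ⟨S, hS1, hS2⟩ := hQf q hqp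
    rw [hS1, Subgroup.card_map_of_injective N.subtype_injective]
    exact S.card_eq_multiplicity.symm
  have hq_ineq : ∀ q ∈ (Nat.card N).primeFactors,
      (∏ x : P, Nat.card ↥(Qf q ⊓ Subgroup.centralizer (Subgroup.zpowers (φ x) : Set H))) ^ p ≤
        Nat.card (Qf q) ^ Nat.card P *
          Nat.card ↥(Qf q ⊓ Subgroup.centralizer (φ.range : Set H)) ^ (Nat.card P * (p - 1)) := by
    intro q hq
    have hqp := Nat.prime_of_mem_primeFactors hq
    haveI : Fact q.Prime := ⟨hqp⟩
    obtain ⟨S, hS1, hS2⟩ := hQf q hqp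
    have hQq : IsPGroup q (Qf q) := by rw [hS1]; exact S.isPGroup'.map N.subtype
    have hQN : Qf q ≤ N := hS1 ▸ Subgroup.map_subtype_le _
    haveI := hQq.isNilpotent
    exact solv_claim p hP φ (Nat.card (Qf q)) (Qf q) le_rfl inferInstance
      (fun x => hS2 ⟨x, rfl⟩)
      (Nat.Coprime.coprime_dvd_left (Subgroup.card_dvd_of_le hQN) hcop)
  have hmul := Finset.prod_le_prod (s := (Nat.card N).primeFactors)
    (fun q _ => Nat.zero_le _) hq_ineq
  rw [Finset.prod_pow, Finset.prod_comm, Finset.prod_mul_distrib, Finset.prod_pow,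
    Finset.prod_pow, ← hNprod, ← hprod φ.range le_rfl] at hmul
  rw [Finset.prod_congr rfl (fun x _ => hprod (Subgroup.zpowers (φ x))
    (Subgroup.zpowers_le.mpr ⟨x, rfl⟩))]
  exact hmul

end FixProd6

end Cfsg.Agent.Lib.Helper21
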