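import Mathlib
import Cfsg.Agent.Lib.Helper21.Basic
import Cfsg.Agent.Lib.Helper1.Basic

set_option autoImplicit false
open Pointwise

namespace Cfsg.Agent.Lib.Helper21

section FixProd7

variable {G : Type*} [Group G]

/-- The number of Sylow subgroups containing an element is conjugation invariant. -/
theorem sylow_contain_conj [Finite G] (p : ℕ) [Fact p.Prime] (h g : G) :
    Nat.card {Q : Sylow p G // h * g * h⁻¹ ∈ (Q : Subgroup G)} =
      Nat.card {Q : Sylow p G // g ∈ (Q : Subgroup G)} := by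
  apply Nat.card_congr
  refine Equiv.subtypeEquiv (MulAction.toPerm h⁻¹) ?_
  intro Q
  show h * g * h⁻¹ ∈ (Q : Subgroup G) ↔ g ∈ ((h⁻¹ • Q : Sylow p G) : Subgroup G)
  rw [Sylow.coe_subgroup_smul, Helper1.mem_conj_smul_iff]
  simp

theorem sylow_contain_ne_zero_iff [Finite G] (p : ℕ) [Fact p.Prime] (g : G) :
    Nat.card {Q : Sylow p G // g ∈ (Q : Subgroup G)} ≠ 0 ↔ ∃ k : ℕ, orderOf g = p ^ k := by
  rw [Nat.card_ne_zero]
  constructor
  · rintro ⟨⟨Q, hQ⟩, _⟩
    obtain ⟨k, hk⟩ := Q.isPGroup' ⟨g, hQ⟩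
    have hk' : g ^ p ^ k = 1 := congrArg Subtype.val hk
    obtain ⟨m, _, hm⟩ := (Nat.dvd_prime_pow Fact.out).mp (orderOf_dvd_of_pow_eq_one hk')
    exact ⟨m, hm⟩
  · rintro ⟨k, hk⟩
    have hz : IsPGroup p (Subgroup.zpowers g) := by
      apply IsPGroup.of_card (n := k); rw [Nat.card_zpowers, hk]
    obtain ⟨Q, hQ⟩ := hz.exists_le_sylow
    exact ⟨⟨⟨Q, hQ (Subgroup.mem_zpowers g)⟩⟩, inferInstance⟩

/-- The number of `p`-elements, counted through the Sylow subgroups. -/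
theorem pel_count [Finite G] (p : ℕ) [Fact p.Prime] (P : Sylow p G)
    [Fintype ↥(P : Subgroup G)] :
    (Nat.card {g : G // ∃ k : ℕ, orderOf g = p ^ k} : ℝ) =
      (Nat.card (Sylow p G) : ℝ) * ∑ x : ↥(P : Subgroup G),
        ((Nat.card {Q : Sylow p G // (x : G) ∈ (Q : Subgroup G)} : ℝ))⁻¹ := by
  classical
  haveI := Fintype.ofFinite G
  haveI := Fintype.ofFinite (Sylow p G)
  obtain ⟨L, hL⟩ : ∃ L : G → ℕ,
      ∀ g, L g = Nat.card {Q : Sylow p G // g ∈ (Q : Subgroup G)} := ⟨_, fun _ => rfl⟩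
  have hLconj : ∀ h g, L (h * g * h⁻¹) = L g := fun h g => by
    rw [hL, hL]; exact sylow_contain_conj p h g
  have hLne : ∀ g, L g ≠ 0 ↔ ∃ k : ℕ, orderOf g = p ^ k := fun g => by
    rw [hL]; exact sylow_contain_ne_zero_iff p g
  simp only [← hL]
  have hdc : ∑ Q : Sylow p G, ∑ g : G, (if g ∈ (Q : Subgroup G) then ((L g : ℝ))⁻¹ else 0) =
      (Nat.card {g : G // ∃ k : ℕ, orderOf g = p ^ k} : ℝ) := by
    rw [Finset.sum_comm]
    have h1 : ∀ g : G, ∑ Q : Sylow p G, (if g ∈ (Q : Subgroup G) then ((L g : ℝ))⁻¹ else 0) =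
        if (∃ k : ℕ, orderOf g = p ^ k) then 1 else 0 := by
      intro g
      rw [← Finset.sum_filter, Finset.sum_const, nsmul_eq_mul]
      have h2 : ((Finset.univ.filter (fun Q : Sylow p G => g ∈ (Q : Subgroup G))).card : ℝ) =
          (L g : ℝ) := by
        rw [hL, Nat.card_eq_fintype_card, Fintype.card_subtype]
      rw [h2]
      by_cases hg : ∃ k : ℕ, orderOf g = p ^ k
      · rw [if_pos hg]
        have h3 : (L g : ℝ) ≠ 0 := by exact_mod_cast (hLne g).mpr hg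
        exact mul_inv_cancel₀ h3
      · rw [if_neg hg]
        have h3 : L g = 0 := by
          by_contra h; exact hg ((hLne g).mp h)
        rw [h3]; simp
    rw [Finset.sum_congr rfl (fun g _ => h1 g), Finset.sum_boole]
    rw [Nat.card_eq_fintype_card, Fintype.card_subtype]
  have hQ : ∀ Q : Sylow p G,
      ∑ g : G, (if g ∈ (Q : Subgroup G) then ((L g : ℝ))⁻¹ else 0) =
        ∑ x : ↥(P : Subgroup G), ((L (x : G) : ℝ))⁻¹ := by
    intro Q
    obtain ⟨h, rfl⟩ := MulAction.exists_smul_eq G P Q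
    rw [← Equiv.sum_comp (MulAut.conj h).toEquiv]
    have h3 : ∀ g : G, (if (MulAut.conj h).toEquiv g ∈ ((h • P : Sylow p G) : Subgroup G) then
        ((L ((MulAut.conj h).toEquiv g) : ℝ))⁻¹ else 0) =
        if g ∈ (P : Subgroup G) then ((L g : ℝ))⁻¹ else 0 := by
      intro g
      have e1 : (MulAut.conj h).toEquiv g = h * g * h⁻¹ := rfl
      rw [e1, hLconj]
      have e2 : h * g * h⁻¹ ∈ ((h • P : Sylow p G) : Subgroup G) ↔ g ∈ (P : Subgroup G) := by
        rw [Sylow.coe_subgroup_smul, Helper1.mem_conj_smul_iff]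
        constructor
        · intro hh; convert hh using 1; group
        · intro hh; convert hh using 1; group
      simp only [e2]
    rw [Finset.sum_congr rfl (fun g _ => h3 g), ← Finset.sum_filter]
    exact Finset.sum_subtype _ (by simp) _
  rw [← hdc, Finset.sum_congr rfl (fun Q _ => hQ Q), Finset.sum_const, Finset.card_univ,
    nsmul_eq_mul, Nat.card_eq_fintype_card]

/-- AM-GM in the form needed. -/
theorem amgm_nat {ι : Type*} [Fintype ι] [Nonempty ι] (lam : ι → ℕ) (hlam : ∀ i, 0 < lam i)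
    (u nS : ℕ) (h : (u : ℝ) = nS * ∑ i, ((lam i : ℝ))⁻¹) :
    nS ^ Fintype.card ι * Fintype.card ι ^ Fintype.card ι ≤ u ^ Fintype.card ι * ∏ i, lam i := by
  obtain ⟨c, hc⟩ : ∃ c, c = Fintype.card ι := ⟨_, rfl⟩
  rw [← hc]
  have hcpos : 0 < c := by rw [hc]; exact Fintype.card_pos
  have hcR : (0 : ℝ) < c := by exact_mod_cast hcpos
  have hz : ∀ i ∈ (Finset.univ : Finset ι), (0 : ℝ) ≤ (nS : ℝ) * ((lam i : ℝ))⁻¹ :=
    fun i _ => by positivity
  have hw := Real.geom_mean_le_arith_mean_weighted Finset.univ (fun _ : ι => ((c : ℝ))⁻¹)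
    (fun i => (nS : ℝ) * ((lam i : ℝ))⁻¹) (fun i _ => by positivity)
    (by rw [Finset.sum_const, Finset.card_univ, ← hc, nsmul_eq_mul]; field_simp) hz
  have hrhs : ∑ i : ι, ((c : ℝ))⁻¹ * ((nS : ℝ) * ((lam i : ℝ))⁻¹) = (u : ℝ) / c := by
    rw [← Finset.mul_sum, ← Finset.mul_sum, ← h]; ring
  rw [hrhs] at hw
  have hpow := pow_le_pow_left₀ (Finset.prod_nonneg
    (fun i _ => Real.rpow_nonneg (hz i (Finset.mem_univ i)) _)) hw c
  rw [← Finset.prod_pow] at hpow
  have e1 : ∀ i ∈ (Finset.univ : Finset ι),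
      (((nS : ℝ) * ((lam i : ℝ))⁻¹) ^ ((c : ℝ))⁻¹) ^ c = (nS : ℝ) * ((lam i : ℝ))⁻¹ :=
    fun i hi => Real.rpow_inv_natCast_pow (hz i hi) hcpos.ne'
  rw [Finset.prod_congr rfl e1, Finset.prod_mul_distrib, Finset.prod_const, Finset.card_univ,
    ← hc, Finset.prod_inv_distrib, div_pow] at hpow
  have hlampos : (0 : ℝ) < ∏ i, (lam i : ℝ) :=
    Finset.prod_pos (fun i _ => by exact_mod_cast hlam i)
  have hcc : (0 : ℝ) < (c : ℝ) ^ c := by positivity
  have hfin : (nS : ℝ) ^ c * (c : ℝ) ^ c ≤ (u : ℝ) ^ c * ∏ i, (lam i : ℝ) := by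
    rw [← div_eq_mul_inv, div_le_div_iff₀ hlampos hcc] at hpow
    exact hpow
  exact_mod_cast hfin

end FixProd7

end Cfsg.Agent.Lib.Helper21
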