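import Mathlib
import Cfsg.Agent.Lib.Helper21.FixProd6
import Cfsg.Agent.Lib.Helper21.FixProd7

set_option autoImplicit false
open Pointwise

namespace Cfsg.Agent.Lib.Helper21

section FixProd8

variable {G : Type*} [Group G]

/-- Counting the relative centraliser in a normal section through the quotient. -/
theorem section_card [Finite G] (M M' B : Subgroup G) [M.Normal] (hMM' : M ≤ M') :
    Nat.card {u : G // u ∈ M' ∧ ∀ h ∈ B, h * u * h⁻¹ * u⁻¹ ∈ M} =
      Nat.card M * Nat.card ↥((M'.map (QuotientGroup.mk' M)) ⊓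
        Subgroup.centralizer ((B.map (QuotientGroup.mk' M) : Subgroup (G ⧸ M)) : Set (G ⧸ M))) := by
  obtain ⟨K, hK⟩ : ∃ K : Subgroup (G ⧸ M), K = (M'.map (QuotientGroup.mk' M)) ⊓
      Subgroup.centralizer ((B.map (QuotientGroup.mk' M) : Subgroup (G ⧸ M)) : Set (G ⧸ M)) :=
    ⟨_, rfl⟩
  rw [← hK]
  have hset : ∀ u : G, (u ∈ M' ∧ ∀ h ∈ B, h * u * h⁻¹ * u⁻¹ ∈ M) ↔
      u ∈ K.comap (QuotientGroup.mk' M) := by
    intro u
    rw [Subgroup.mem_comap, hK, Subgroup.mem_inf]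
    constructor
    · rintro ⟨h1, h2⟩
      refine ⟨Subgroup.mem_map_of_mem _ h1, ?_⟩
      rw [Subgroup.mem_centralizer_iff]
      intro b hb
      obtain ⟨h, hh, rfl⟩ := Subgroup.mem_map.mp hb
      have h3 := h2 h hh
      have e : (QuotientGroup.mk' M) (h * u * h⁻¹ * u⁻¹) = 1 :=
        (QuotientGroup.eq_one_iff _).mpr h3
      rw [map_mul, map_mul, map_mul, map_inv, map_inv] at e
      exact mul_inv_eq_iff_eq_mul.mp (mul_inv_eq_one.mp e)
    · rintro ⟨h1, h2⟩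
      constructor
      · obtain ⟨m, hm, hmu⟩ := Subgroup.mem_map.mp h1
        have h3 : m⁻¹ * u ∈ M := QuotientGroup.eq.mp hmu
        have h4 : u = m * (m⁻¹ * u) := by group
        rw [h4]; exact M'.mul_mem hm (hMM' h3)
      · intro h hh
        have h4 := (Subgroup.mem_centralizer_iff.mp h2) _ (Subgroup.mem_map_of_mem _ hh)
        rw [← QuotientGroup.eq_one_iff]
        show (QuotientGroup.mk' M) (h * u * h⁻¹ * u⁻¹) = 1
        rw [map_mul, map_mul, map_mul, map_inv, map_inv, h4]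
        group
  have hcard : Nat.card {u : G // u ∈ M' ∧ ∀ h ∈ B, h * u * h⁻¹ * u⁻¹ ∈ M} =
      Nat.card (K.comap (QuotientGroup.mk' M)) :=
    Nat.card_congr (Equiv.subtypeEquivRight hset)
  rw [hcard]
  have h5 := card_eq_card_map_mul_card_inf_ker (QuotientGroup.mk' M)
    (K.comap (QuotientGroup.mk' M))
  rw [Subgroup.map_comap_eq_self_of_surjective (QuotientGroup.mk'_surjective M),
    QuotientGroup.ker_mk'] at h5
  have h6 : K.comap (QuotientGroup.mk' M) ⊓ M = M := by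
    apply inf_eq_right.mpr
    intro m hm
    rw [Subgroup.mem_comap]
    have h7 : (QuotientGroup.mk' M) m = 1 := (QuotientGroup.eq_one_iff m).mpr hm
    rw [h7]; exact K.one_mem
  rw [h6] at h5
  rw [h5, mul_comm]

theorem card_map_mk_eq_relIndex [Finite G] (M M' : Subgroup G) [M.Normal] (hMM' : M ≤ M') :
    Nat.card (M'.map (QuotientGroup.mk' M)) = M.relIndex M' := by
  have h1 := card_eq_card_map_mul_card_inf_ker (QuotientGroup.mk' M) M'
  rw [QuotientGroup.ker_mk', inf_eq_right.mpr hMM'] at h1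
  have h2 := card_mul_relIndex hMM'
  have hpos : 0 < Nat.card M := Nat.card_pos
  apply Nat.eq_of_mul_eq_mul_right hpos
  rw [← h1, ← h2, mul_comm]

/-- The section inequality for one coprime factor of a normal chain. -/
theorem section_ineq [Finite G] (p : ℕ) [Fact p.Prime] (P : Sylow p G)
    [Fintype ↥(P : Subgroup G)]
    (M M' : Subgroup G) [M.Normal] [M'.Normal] (hMM' : M ≤ M')
    (hcop : (M.relIndex M').Coprime p) :
    (∏ x : ↥(P : Subgroup G), Nat.card {u : G // u ∈ M' ∧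
        ∀ h ∈ Subgroup.zpowers (x : G), h * u * h⁻¹ * u⁻¹ ∈ M} / Nat.card M) ^ p ≤
      (M.relIndex M') ^ Nat.card (P : Subgroup G) *
        (Nat.card {u : G // u ∈ M' ∧ ∀ h ∈ (P : Subgroup G), h * u * h⁻¹ * u⁻¹ ∈ M} /
          Nat.card M) ^ (Nat.card (P : Subgroup G) * (p - 1)) := by
  have hpos : 0 < Nat.card M := Nat.card_pos
  obtain ⟨φ, hφ⟩ : ∃ φ : ↥(P : Subgroup G) →* G ⧸ M,
      φ = (QuotientGroup.mk' M).comp (P : Subgroup G).subtype := ⟨_, rfl⟩
  have hN : ∀ x : ↥(P : Subgroup G), φ x ∈ Subgroup.normalizer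
      ((M'.map (QuotientGroup.mk' M) : Subgroup (G ⧸ M)) : Set (G ⧸ M)) := by
    intro x
    haveI : (M'.map (QuotientGroup.mk' M)).Normal :=
      Subgroup.Normal.map inferInstance _ (QuotientGroup.mk'_surjective M)
    rw [Subgroup.normalizer_eq_top]; exact Subgroup.mem_top _
  have hcl := fix_claim p P.isPGroup' φ (M'.map (QuotientGroup.mk' M)) hN
    (by rw [card_map_mk_eq_relIndex M M' hMM']; exact hcop)
  rw [card_map_mk_eq_relIndex M M' hMM'] at hcl
  have e1 : ∀ x : ↥(P : Subgroup G), Nat.card {u : G // u ∈ M' ∧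
      ∀ h ∈ Subgroup.zpowers (x : G), h * u * h⁻¹ * u⁻¹ ∈ M} / Nat.card M =
      Nat.card ↥(M'.map (QuotientGroup.mk' M) ⊓
        Subgroup.centralizer (Subgroup.zpowers (φ x) : Set (G ⧸ M))) := by
    intro x
    rw [section_card M M' _ hMM', Nat.mul_div_cancel_left _ hpos, MonoidHom.map_zpowers, hφ]
    rfl
  have e2 : Nat.card {u : G // u ∈ M' ∧ ∀ h ∈ (P : Subgroup G), h * u * h⁻¹ * u⁻¹ ∈ M} /
      Nat.card M = Nat.card ↥(M'.map (QuotientGroup.mk' M) ⊓
        Subgroup.centralizer (φ.range : Set (G ⧸ M))) := by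
    rw [section_card M M' _ hMM', Nat.mul_div_cancel_left _ hpos, hφ, MonoidHom.range_comp,
      Subgroup.range_subtype]
  rw [Finset.prod_congr rfl (fun x _ => e1 x), e2]
  exact hcl

theorem arith_dd {L t nS c p : ℕ} (hp : 0 < p) (ht : 0 < t)
    (h : (L * t ^ c) ^ p ≤ (nS * t) ^ c * t ^ (c * (p - 1))) : L ^ p ≤ nS ^ c := by
  obtain ⟨q, rfl⟩ : ∃ q, p = q + 1 := ⟨p - 1, by omega⟩
  simp only [Nat.add_sub_cancel] at h
  have e1 : (L * t ^ c) ^ (q + 1) = L ^ (q + 1) * t ^ (c * (q + 1)) := by ring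
  have e2 : (nS * t) ^ c * t ^ (c * q) = nS ^ c * t ^ (c * (q + 1)) := by ring
  rw [e1, e2] at h
  exact Nat.le_of_mul_le_mul_right h (by positivity)

theorem arith_fin {c nS u L p : ℕ} (hp : 0 < p) (hc : 0 < c) (hnS : 0 < nS)
    (h1 : nS ^ c * c ^ c ≤ u ^ c * L) (h2 : L ^ p ≤ nS ^ c) :
    c ^ p * nS ^ (p - 1) ≤ u ^ p := by
  obtain ⟨q, rfl⟩ : ∃ q, p = q + 1 := ⟨p - 1, by omega⟩
  simp only [Nat.add_sub_cancel]
  have h3 : (nS ^ c * c ^ c) ^ (q + 1) ≤ (u ^ c * L) ^ (q + 1) := Nat.pow_le_pow_left h1 _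
  have h4 : (u ^ c * L) ^ (q + 1) ≤ (u ^ (q + 1)) ^ c * nS ^ c := by
    have e : (u ^ c * L) ^ (q + 1) = (u ^ (q + 1)) ^ c * L ^ (q + 1) := by ring
    rw [e]; exact Nat.mul_le_mul_left _ h2
  have h5 : (nS ^ c * c ^ c) ^ (q + 1) = (c ^ (q + 1) * nS ^ q) ^ c * nS ^ c := by ring
  rw [h5] at h3
  have h6 := Nat.le_of_mul_le_mul_right (h3.trans h4) (by positivity : 0 < nS ^ c)
  exact (Nat.pow_le_pow_iff_left hc.ne').mp h6

end FixProd8

end Cfsg.Agent.Lib.Helper21
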