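import Mathlib
import Cfsg.Agent.Lib.Helper1.FrobPC
import Cfsg.Agent.Lib.Helper21.Basic

set_option autoImplicit false
set_option linter.style.haveILetI false
open Pointwise

namespace Cfsg.Agent.Lib.Helper21

universe u

/-- An element normalizing `Y` whose order is prime to the index of the centralizer of `Y`
centralizes `Y`. -/
theorem mem_centralizer_of_coprime_index {G : Type*} [Group G] (Y : Subgroup G) {g : G}
    (hg : g ∈ Subgroup.normalizer (Y : Set G))
    (hcop : (orderOf g).Coprime (Subgroup.centralizer (Y : Set G)).index) :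
    g ∈ Subgroup.centralizer (Y : Set G) := by
  have h1 := Subgroup.pow_index_mem ((Subgroup.centralizer (Y : Set G)).subgroupOf
    (Subgroup.normalizer (Y : Set G))) (⟨g, hg⟩ : Subgroup.normalizer (Y : Set G))
  rw [Subgroup.mem_subgroupOf] at h1
  have h2 : g ^ (Subgroup.centralizer (Y : Set G)).relIndex (Subgroup.normalizer (Y : Set G)) ∈
      Subgroup.centralizer (Y : Set G) := h1
  have hd : (Subgroup.centralizer (Y : Set G)).relIndex (Subgroup.normalizer (Y : Set G)) ∣
      (Subgroup.centralizer (Y : Set G)).index :=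
    Dvd.intro _ (Subgroup.relIndex_mul_index (Subgroup.centralizer_le_normalizer _))
  obtain ⟨m, hm⟩ := exists_pow_eq_self_of_coprime (x := g)
    (Nat.Coprime.coprime_dvd_left hd hcop.symm)
  rw [← hm]
  exact pow_mem h2 m

/-- Elements of coprime orders in a nilpotent group commute. -/
theorem mul_comm_of_coprime_of_isNilpotent {N : Type*} [Group N] [hN : Group.IsNilpotent N] :
    ∀ x y : N, (orderOf x).Coprime (orderOf y) → x * y = y * x := by
  refine Group.nilpotent_center_quotient_ind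
    (P := fun G [Group G] [Group.IsNilpotent G] =>
      ∀ x y : G, (orderOf x).Coprime (orderOf y) → x * y = y * x) N ?_ ?_
  · intro G _ _ x y _; exact Subsingleton.elim _ _
  · intro G _ _ ih x y h
    have hox : orderOf (x : G ⧸ Subgroup.center G) ∣ orderOf x := by
      apply orderOf_dvd_of_pow_eq_one
      rw [← QuotientGroup.mk_pow, pow_orderOf_eq_one]
      rfl
    have hoy : orderOf (y : G ⧸ Subgroup.center G) ∣ orderOf y := by
      apply orderOf_dvd_of_pow_eq_one
      rw [← QuotientGroup.mk_pow, pow_orderOf_eq_one]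
      rfl
    have hq := ih (x : G ⧸ Subgroup.center G) (y : G ⧸ Subgroup.center G)
      (Nat.Coprime.coprime_dvd_left hox (Nat.Coprime.coprime_dvd_right hoy h))
    have hz : x * y * x⁻¹ * y⁻¹ ∈ Subgroup.center G := by
      rw [← QuotientGroup.eq_one_iff]
      rw [QuotientGroup.mk_mul, QuotientGroup.mk_mul, QuotientGroup.mk_mul, hq,
        QuotientGroup.mk_inv, QuotientGroup.mk_inv]
      group
    obtain ⟨z, hzdef⟩ : ∃ z : G, z = x * y * x⁻¹ * y⁻¹ := ⟨_, rfl⟩
    rw [← hzdef] at hz
    have hzc : ∀ g : G, g * z = z * g := fun g => (Subgroup.mem_center_iff.mp hz g)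
    have h1 : x * y * x⁻¹ = z * y := by rw [hzdef]; group
    have h2 : y * x⁻¹ * y⁻¹ = x⁻¹ * z := by rw [hzdef]; group
    have hzn : z ^ orderOf y = 1 := by
      have h3 : (x * y * x⁻¹) ^ orderOf y = 1 := by
        rw [conj_pow, pow_orderOf_eq_one]; group
      rw [h1, (show Commute z y from (hzc y).symm).mul_pow, pow_orderOf_eq_one, mul_one] at h3
      exact h3
    have hzm : z ^ orderOf x = 1 := by
      have h3 : (y * x⁻¹ * y⁻¹) ^ orderOf x = 1 := by
        rw [conj_pow, inv_pow, pow_orderOf_eq_one]; group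
      rw [h2, (show Commute x⁻¹ z from hzc x⁻¹).mul_pow, inv_pow, pow_orderOf_eq_one, inv_one,
        one_mul] at h3
      exact h3
    have hd := Nat.dvd_gcd (orderOf_dvd_of_pow_eq_one hzm) (orderOf_dvd_of_pow_eq_one hzn)
    rw [Nat.Coprime] at h
    rw [h, Nat.dvd_one, orderOf_eq_one_iff] at hd
    rw [hd] at hzdef
    have : x * y = (x * y * x⁻¹ * y⁻¹) * (y * x) := by group
    rw [this, ← hzdef, one_mul]

/-- If the Frobenius condition holds for every prime of `σ`, the group has a normal Hall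
`σ'`-subgroup with a complement. -/
theorem exists_normal_hall_of_frobCond {K : Type u} [Group K] [Finite K] (σ : Set ℕ)
    (h : ∀ p : ℕ, p.Prime → p ∈ σ → Cfsg.Agent.Lib.Helper1.FrobCond p K) :
    ∃ T S : Subgroup K, T.Normal ∧ T.IsComplement' S ∧
      (∀ p : ℕ, p.Prime → p ∣ Nat.card T → p ∉ σ) ∧
      (∀ p : ℕ, p.Prime → p ∣ Nat.card S → p ∈ σ) := by
  classical
  obtain ⟨T, hTdef⟩ : ∃ T : Subgroup K,
      T = ⨅ p : {p : ℕ // p.Prime ∧ p ∈ σ}, Cfsg.pResidual p.1 K := ⟨_, rfl⟩
  haveI hTn : T.Normal := by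
    rw [hTdef]
    exact Subgroup.normal_iInf_normal (fun p => Cfsg.Agent.Lib.Helper1.pResidual_normal p.1)
  have hT1 : ∀ p : ℕ, p.Prime → p ∣ Nat.card T → p ∉ σ := by
    intro p hp hdvd hpσ
    haveI : Fact p.Prime := ⟨hp⟩
    have hle : T ≤ Cfsg.pResidual p K := by
      rw [hTdef]; exact iInf_le _ (⟨p, hp, hpσ⟩ : {p : ℕ // p.Prime ∧ p ∈ σ})
    have hcop := Cfsg.Agent.Lib.Helper1.frobCond_pResidual_coprime p (Nat.card K) K le_rfl
      (h p hp hpσ)
    have h2 : p ∣ Nat.card (Cfsg.pResidual p K) := hdvd.trans (Subgroup.card_dvd_of_le hle)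
    have := Nat.Coprime.eq_one_of_dvd hcop.symm h2
    exact hp.one_lt.ne' this
  have hT2 : ∀ q : ℕ, q.Prime → q ∣ T.index → q ∈ σ := by
    intro q hq hdvd
    by_contra hqσ
    haveI : Fact q.Prime := ⟨hq⟩
    obtain ⟨Q⟩ : Nonempty (Sylow q K) := inferInstance
    have hQT : (Q : Subgroup K) ≤ T := by
      rw [hTdef]
      refine le_iInf (fun p => ?_)
      intro x hx
      apply Subgroup.subset_closure
      obtain ⟨k, hk⟩ := Q.isPGroup' ⟨x, hx⟩
      have hk' : x ^ q ^ k = 1 := congrArg Subtype.val hk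
      have hne : q ≠ p.1 := fun hqp => hqσ (hqp ▸ p.2.2)
      exact Nat.Coprime.coprime_dvd_left (orderOf_dvd_of_pow_eq_one hk')
        (Nat.Coprime.pow_left k ((Nat.coprime_primes hq p.2.1).mpr hne))
    exact Q.not_dvd_index (hdvd.trans (Subgroup.index_dvd_of_le hQT))
  have hcop : (Nat.card T).Coprime T.index := by
    by_contra hnc
    obtain ⟨p, hp, h1, h2⟩ := Nat.Prime.not_coprime_iff_dvd.mp hnc
    exact hT1 p hp h1 (hT2 p hp h2)
  obtain ⟨S, hS⟩ := Subgroup.exists_right_complement'_of_coprime hcop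
  refine ⟨T, S, hTn, hS, hT1, ?_⟩
  intro p hp hdvd
  rw [← hS.symm.index_eq_card] at hdvd
  exact hT2 p hp hdvd

end Cfsg.Agent.Lib.Helper21
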