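import Mathlib

namespace Cfsg.Agent.Lib.Helper21

open Nat

/-- 2-adic valuation of `n!`. -/
def nsE (n : ℕ) : ℕ := padicValNat 2 n !

/-- order of a Sylow 2-subgroup of the symmetric group of degree `n`. -/
def nsB (n : ℕ) : ℕ := 2 ^ nsE n

/-- bound for nilpotent subgroups. -/
def nsG (n : ℕ) : ℕ := if n % 4 = 3 then 3 * nsB (n - 3) else nsB n

/-- bound for transitive nilpotent subgroups. -/
def nsT (n : ℕ) : ℕ := if n = 3 then 3 else nsB n

lemma nsE_mono {j k : ℕ} (h : j ≤ k) : nsE j ≤ nsE k := by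
  unfold nsE
  have h1 : 2 ^ padicValNat 2 j ! ∣ k ! :=
    (pow_padicValNat_dvd).trans (Nat.factorial_dvd_factorial h)
  exact (padicValNat_dvd_iff_le (Nat.factorial_ne_zero k)).mp h1

lemma nsE_add (x y : ℕ) : nsE x + nsE y ≤ nsE (x + y) := by
  unfold nsE
  have h1 : 2 ^ (padicValNat 2 x ! + padicValNat 2 y !) ∣ (x + y)! := by
    rw [pow_add]
    exact (Nat.mul_dvd_mul pow_padicValNat_dvd pow_padicValNat_dvd).trans
      (Nat.factorial_mul_factorial_dvd_factorial_add x y)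
  exact (padicValNat_dvd_iff_le (Nat.factorial_ne_zero _)).mp h1

lemma nsE_two_mul (j : ℕ) : nsE (2 * j) = j + nsE j := by
  unfold nsE
  rw [padicValNat_factorial_mul, add_comm]

lemma nsE_odd_succ (j : ℕ) : nsE (2 * j + 1) = nsE (2 * j) := by
  unfold nsE
  rw [Nat.factorial_succ, padicValNat.mul (by omega) (Nat.factorial_ne_zero _)]
  have : padicValNat 2 (2 * j + 1) = 0 := padicValNat.eq_zero_of_not_dvd (by omega)
  omega

lemma nsE_zero : nsE 0 = 0 := by simp [nsE]
lemma nsE_one : nsE 1 = 0 := by simp [nsE]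
lemma nsE_two : nsE 2 = 1 := by
  have := nsE_two_mul 1
  simp only [mul_one] at this
  rw [this, nsE_one]
lemma nsE_four : nsE 4 = 3 := by
  have := nsE_two_mul 2
  norm_num at this
  rw [this, nsE_two]

lemma nsB_add (x y : ℕ) : nsB x * nsB y ≤ nsB (x + y) := by
  unfold nsB; rw [← pow_add]; exact Nat.pow_le_pow_right (by norm_num) (nsE_add x y)

lemma nsB_mono {x y : ℕ} (h : x ≤ y) : nsB x ≤ nsB y :=
  Nat.pow_le_pow_right (by norm_num) (nsE_mono h)

lemma nsB_pos (x : ℕ) : 0 < nsB x := by unfold nsB; positivity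

lemma nsB_zero : nsB 0 = 1 := by simp [nsB, nsE_zero]
lemma nsB_one : nsB 1 = 1 := by simp [nsB, nsE_one]
lemma nsB_four : nsB 4 = 8 := by simp [nsB, nsE_four]

lemma nsB_4k1 (k : ℕ) : nsB (4 * k + 1) = nsB (4 * k) := by
  unfold nsB
  have : nsE (4 * k + 1) = nsE (4 * k) := by
    have := nsE_odd_succ (2 * k)
    rwa [show 2 * (2 * k) = 4 * k by ring] at this
  rw [this]

lemma nsB_4k2 (k : ℕ) : nsB (4 * k + 2) = 2 * nsB (4 * k) := by
  unfold nsB
  have h1 : nsE (4 * k + 2) = 2 * k + 1 + nsE (2 * k + 1) := by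
    have := nsE_two_mul (2 * k + 1)
    rwa [show 2 * (2 * k + 1) = 4 * k + 2 by ring] at this
  have h2 : nsE (4 * k) = 2 * k + nsE (2 * k) := by
    have := nsE_two_mul (2 * k)
    rwa [show 2 * (2 * k) = 4 * k by ring] at this
  have h3 := nsE_odd_succ k
  rw [h1, h2, h3, show 2 * k + 1 + nsE (2 * k) = (2 * k + nsE (2 * k)) + 1 by ring, pow_succ]
  ring

lemma nsB_4k3 (k : ℕ) : nsB (4 * k + 3) = 2 * nsB (4 * k) := by
  rw [← nsB_4k2]
  unfold nsB
  have := nsE_odd_succ (2 * k + 1)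
  rw [show 2 * (2 * k + 1) + 1 = 4 * k + 3 by ring, show 2 * (2 * k + 1) = 4 * k + 2 by ring] at this
  rw [this]

lemma nsB_4k4 (k : ℕ) : 8 * nsB (4 * k) ≤ nsB (4 * k + 4) := by
  have := nsB_add (4 * k) 4
  rw [nsB_four] at this
  linarith

lemma nsB_le_nsG (n : ℕ) : nsB n ≤ nsG n := by
  unfold nsG
  split_ifs with h
  · obtain ⟨k, rfl⟩ : ∃ k, n = 4 * k + 3 := ⟨n / 4, by omega⟩
    rw [nsB_4k3, show 4 * k + 3 - 3 = 4 * k by omega]
    have := nsB_pos (4 * k)
    omega
  · exact le_rfl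

lemma nsT_le (m : ℕ) : nsT m ≤ 2 * nsB m := by
  unfold nsT
  split_ifs with h
  · subst h
    have := nsB_4k3 0
    simp only [mul_zero, zero_add, nsB_zero] at this
    omega
  · have := nsB_pos m; omega

/-- the orbit-splitting inequality. -/
lemma ns_num1 (a b : ℕ) (ha : 1 ≤ a) : nsT a * nsG b ≤ nsG (a + b) := by
  obtain ⟨k, r, hr, rfl⟩ : ∃ k r, r < 4 ∧ b = 4 * k + r :=
    ⟨b / 4, b % 4, Nat.mod_lt _ (by norm_num), by omega⟩
  by_cases ha3 : a = 3
  · subst ha3
    have hT : nsT 3 = 3 := by simp [nsT]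
    rw [hT]
    have h4 := nsB_4k4 k
    have hpos := nsB_pos (4 * k)
    interval_cases r
    · -- b = 4k
      have h1 : nsG (4 * k + 0) = nsB (4 * k) := by
        unfold nsG; rw [if_neg (by omega)]; rfl
      have h2 : nsG (3 + (4 * k + 0)) = 3 * nsB (4 * k) := by
        unfold nsG; rw [if_pos (by omega)]
        rw [show 3 + (4 * k + 0) - 3 = 4 * k by omega]
      rw [h1, h2]
    · have h1 : nsG (4 * k + 1) = nsB (4 * k) := by
        unfold nsG; rw [if_neg (by omega)]; exact nsB_4k1 k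
      have h2 : nsG (3 + (4 * k + 1)) = nsB (4 * k + 4) := by
        unfold nsG; rw [if_neg (by omega)]
        rw [show 3 + (4 * k + 1) = 4 * k + 4 by omega]
      rw [h1, h2]; omega
    · have h1 : nsG (4 * k + 2) = 2 * nsB (4 * k) := by
        unfold nsG; rw [if_neg (by omega)]; exact nsB_4k2 k
      have h2 : nsG (3 + (4 * k + 2)) = nsB (4 * k + 4) := by
        unfold nsG; rw [if_neg (by omega)]
        rw [show 3 + (4 * k + 2) = 4 * (k + 1) + 1 by omega, nsB_4k1]
        rw [show 4 * (k + 1) = 4 * k + 4 by ring]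
      rw [h1, h2]; omega
    · have h1 : nsG (4 * k + 3) = 3 * nsB (4 * k) := by
        unfold nsG; rw [if_pos (by omega)]
        rw [show 4 * k + 3 - 3 = 4 * k by omega]
      have h2 : nsG (3 + (4 * k + 3)) = 2 * nsB (4 * k + 4) := by
        unfold nsG; rw [if_neg (by omega)]
        rw [show 3 + (4 * k + 3) = 4 * (k + 1) + 2 by omega, nsB_4k2]
        rw [show 4 * (k + 1) = 4 * k + 4 by ring]
      rw [h1, h2]; omega
  · have hT : nsT a = nsB a := by simp [nsT, ha3]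
    rw [hT]
    obtain ⟨j, s, hs, rfl⟩ : ∃ j s, s < 4 ∧ a = 4 * j + s :=
      ⟨a / 4, a % 4, Nat.mod_lt _ (by norm_num), by omega⟩
    by_cases hr3 : r = 3
    · subst hr3
      have h1 : nsG (4 * k + 3) = 3 * nsB (4 * k) := by
        unfold nsG; rw [if_pos (by omega)]
        rw [show 4 * k + 3 - 3 = 4 * k by omega]
      rw [h1]
      have hXY := nsB_add (4 * j) (4 * k)
      have hXY4 : 8 * (nsB (4 * j) * nsB (4 * k)) ≤ nsB (4 * (j + k) + 4) := by
        have := nsB_4k4 (j + k)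
        rw [show 4 * (j + k) = 4 * j + 4 * k by ring] at this ⊢
        nlinarith
      have hposj := nsB_pos (4 * j)
      have hposk := nsB_pos (4 * k)
      interval_cases s
      · -- a = 4j
        have h2 : nsG (4 * j + 0 + (4 * k + 3)) = 3 * nsB (4 * j + 4 * k) := by
          unfold nsG; rw [if_pos (by omega)]
          rw [show 4 * j + 0 + (4 * k + 3) - 3 = 4 * j + 4 * k by omega]
        rw [h2]; simp only [add_zero]; nlinarith
      · have h2 : nsG (4 * j + 1 + (4 * k + 3)) = nsB (4 * (j + k) + 4) := by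
          unfold nsG; rw [if_neg (by omega)]
          rw [show 4 * j + 1 + (4 * k + 3) = 4 * (j + k) + 4 by ring]
        rw [h2, nsB_4k1]; nlinarith
      · have h2 : nsG (4 * j + 2 + (4 * k + 3)) = nsB (4 * (j + k) + 4) := by
          unfold nsG; rw [if_neg (by omega)]
          rw [show 4 * j + 2 + (4 * k + 3) = 4 * (j + k + 1) + 1 by ring, nsB_4k1]
          rw [show 4 * (j + k + 1) = 4 * (j + k) + 4 by ring]
        rw [h2, nsB_4k2]; nlinarith
      · have h2 : nsG (4 * j + 3 + (4 * k + 3)) = 2 * nsB (4 * (j + k) + 4) := by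
          unfold nsG; rw [if_neg (by omega)]
          rw [show 4 * j + 3 + (4 * k + 3) = 4 * (j + k + 1) + 2 by ring, nsB_4k2]
          rw [show 4 * (j + k + 1) = 4 * (j + k) + 4 by ring]
        rw [h2, nsB_4k3]; nlinarith
    · have h1 : nsG (4 * k + r) = nsB (4 * k + r) := by
        unfold nsG; rw [if_neg (by omega)]
      rw [h1]
      exact (nsB_add _ _).trans (nsB_le_nsG _)

lemma ns_num3 (m : ℕ) (hm : 2 ≤ m) : 3 * nsT m ≤ nsB (3 * m) := by
  have h1 := nsT_le m
  have h2 := nsB_add m (2 * m)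
  have h3 : nsB 4 ≤ nsB (2 * m) := nsB_mono (by omega)
  rw [nsB_four] at h3
  rw [show m + 2 * m = 3 * m by ring] at h2
  have := nsB_pos m
  nlinarith

lemma ns_numq (q m : ℕ) (hq : 5 ≤ q) (hm : 1 ≤ m) (x y : ℕ) (hx : x ≤ nsB (q - 1))
    (hy : y ≤ nsT m) : x * y ≤ nsB (q * m) := by
  rcases Nat.lt_or_ge m 2 with h | h
  · have hm1 : m = 1 := by omega
    subst hm1
    have : nsT 1 = 1 := by simp [nsT, nsB_one]
    rw [this] at hy
    have h2 : nsB (q - 1) ≤ nsB (q * 1) := nsB_mono (by omega)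
    nlinarith
  · have h1 := nsT_le m
    have h2 := nsB_add (q - 1) m
    have h3 := nsB_add (q - 1 + m) ((q - 1) * (m - 1))
    have h4 : nsB 4 ≤ nsB ((q - 1) * (m - 1)) := by
      apply nsB_mono
      have : 4 * 1 ≤ (q - 1) * (m - 1) := Nat.mul_le_mul (by omega) (by omega)
      omega
    rw [nsB_four] at h4
    have h5 : q - 1 + m + (q - 1) * (m - 1) = q * m := by
      obtain ⟨q', rfl⟩ : ∃ q', q = q' + 1 := ⟨q - 1, by omega⟩
      obtain ⟨m', rfl⟩ : ∃ m', m = m' + 1 := ⟨m - 1, by omega⟩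
      simp only [Nat.add_sub_cancel]
      ring
    rw [h5] at h3
    have hp1 := nsB_pos (q - 1)
    have hp2 := nsB_pos m
    have h6 : 8 * (nsB (q - 1) * nsB m) ≤ nsB (q * m) := by nlinarith
    have h7 : x * y ≤ nsB (q - 1) * (2 * nsB m) := Nat.mul_le_mul hx (hy.trans h1)
    nlinarith

lemma ns_two_pow_ge (c : ℕ) (hc : 3 ≤ c) : 2 * c + 1 ≤ 2 ^ c := by
  induction c, hc using Nat.le_induction with
  | base => norm_num
  | succ c hc ih => rw [pow_succ]; omega

lemma ns_36_27 (u : ℕ) (hu : 2 ≤ u) : 3 * 27 ^ u ≤ 2 * 36 ^ u := by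
  induction u, hu using Nat.le_induction with
  | base => norm_num
  | succ u hu ih =>
    have h27 : 0 < 27 ^ u := by positivity
    rw [pow_succ, pow_succ]; nlinarith

lemma ns_key3 (a : ℕ) (ha : 2 ≤ a) : ∃ u, 3 ^ a = 2 * u + 1 ∧ 2 ≤ u ∧ 3 ^ u ≤ 2 ^ nsE (2 * u) := by
  induction a, ha using Nat.le_induction with
  | base =>
    refine ⟨4, by norm_num, by norm_num, ?_⟩
    have h8 : nsE (2 * 4) = 4 + nsE 4 := nsE_two_mul 4
    rw [h8, nsE_four]; norm_num
  | succ a ha ih =>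
    obtain ⟨u, hu, hu2, hle⟩ := ih
    refine ⟨3 * u + 1, by rw [pow_succ, hu]; ring, by omega, ?_⟩
    have e1 : nsE (2 * u) + nsE (4 * u + 2) ≤ nsE (2 * (3 * u + 1)) := by
      have := nsE_add (2 * u) (4 * u + 2)
      rwa [show 2 * u + (4 * u + 2) = 2 * (3 * u + 1) by ring] at this
    have e2 : nsE (4 * u + 2) = 2 * u + 1 + nsE (2 * u + 1) := by
      have := nsE_two_mul (2 * u + 1)
      rwa [show 2 * (2 * u + 1) = 4 * u + 2 by ring] at this
    have e3 : nsE (2 * u) ≤ nsE (2 * u + 1) := nsE_mono (by omega)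
    have e4 : 2 * nsE (2 * u) + (2 * u + 1) ≤ nsE (2 * (3 * u + 1)) := by omega
    calc 3 ^ (3 * u + 1) = 3 * 27 ^ u := by rw [pow_succ, pow_mul]; norm_num; ring
      _ ≤ 2 * 36 ^ u := ns_36_27 u hu2
      _ = (3 ^ u) ^ 2 * 2 ^ (2 * u + 1) := by
          have h36 : (36 : ℕ) ^ u = (3 ^ u) ^ 2 * (2 ^ u) ^ 2 := by
            rw [show (36 : ℕ) = 6 ^ 2 by norm_num, ← pow_mul, Nat.mul_comm 2 u, pow_mul,
              show (6 : ℕ) = 3 * 2 by norm_num, mul_pow, mul_pow]
          have h2 : (2 : ℕ) ^ (2 * u + 1) = (2 ^ u) ^ 2 * 2 := by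
            rw [pow_succ, Nat.mul_comm 2 u, pow_mul]
          rw [h36, h2]; ring
      _ ≤ (2 ^ nsE (2 * u)) ^ 2 * 2 ^ (2 * u + 1) :=
          Nat.mul_le_mul_right _ (Nat.pow_le_pow_left hle 2)
      _ = 2 ^ (2 * nsE (2 * u) + (2 * u + 1)) := by rw [← pow_mul, ← pow_add, mul_comm]
      _ ≤ 2 ^ nsE (2 * (3 * u + 1)) := Nat.pow_le_pow_right (by norm_num) e4

/-- a `p`-power dividing `(p^a)!` is at most the 2-part of `(p^a - 1)!`, for `p` odd, `p^a ≥ 5`. -/
lemma ns_key (p a : ℕ) (hp : p.Prime) (hp2 : p ≠ 2) (hq : 5 ≤ p ^ a) :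
    p ^ padicValNat p (p ^ a)! ≤ nsB (p ^ a - 1) := by
  haveI : Fact p.Prime := ⟨hp⟩
  have hq0 : p ^ a ≠ 0 := by omega
  have hlt := sub_one_mul_padicValNat_factorial_lt_of_ne_zero (p := p) hq0
  set v := padicValNat p (p ^ a)! with hv
  unfold nsB
  have hp3 : 3 ≤ p := by
    have := hp.two_le
    omega
  by_cases h3 : p = 3
  · subst h3
    have ha : 2 ≤ a := by
      by_contra hcon
      have : a = 0 ∨ a = 1 := by omega
      rcases this with rfl | rfl <;> norm_num at hq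
    obtain ⟨u, hu, hu2, hle⟩ := ns_key3 a ha
    have hvu : v ≤ u := by omega
    calc 3 ^ v ≤ 3 ^ u := Nat.pow_le_pow_right (by norm_num) hvu
      _ ≤ 2 ^ nsE (2 * u) := hle
      _ = 2 ^ nsE (3 ^ a - 1) := by rw [hu]; simp
  · by_cases h5 : p = 5
    · subst h5
      have h4v : 4 * v ≤ 5 ^ a - 1 := by omega
      have e1 : nsE (4 * v) = 2 * v + nsE (2 * v) := by
        have := nsE_two_mul (2 * v)
        rwa [show 2 * (2 * v) = 4 * v by ring] at this
      have e2 := nsE_two_mul v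
      have e3 : 3 * v ≤ nsE (5 ^ a - 1) := by
        have := nsE_mono h4v
        omega
      calc 5 ^ v ≤ 8 ^ v := Nat.pow_le_pow_left (by norm_num) v
        _ = 2 ^ (3 * v) := by rw [pow_mul]; norm_num
        _ ≤ 2 ^ nsE (5 ^ a - 1) := Nat.pow_le_pow_right (by norm_num) e3
    · have hodd : p % 2 = 1 := by
        rcases hp.eq_two_or_odd with h | h
        · exact absurd h hp2
        · exact h
      have hp7 : 7 ≤ p := by
        by_contra hcon
        have : p = 4 ∨ p = 6 := by omega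
        rcases this with rfl | rfl <;> omega
      obtain ⟨c, rfl⟩ : ∃ c, p = 2 * c + 1 := ⟨p / 2, by omega⟩
      have hc : 3 ≤ c := by omega
      have h1 : 2 * c * v ≤ (2 * c + 1) ^ a - 1 := by
        have : (2 * c + 1 - 1) * v < (2 * c + 1) ^ a := hlt
        rw [show 2 * c + 1 - 1 = 2 * c by omega] at this
        omega
      have e1 : c * v ≤ nsE ((2 * c + 1) ^ a - 1) := by
        have h2 := nsE_mono h1
        have h3 := nsE_two_mul (c * v)
        rw [show 2 * (c * v) = 2 * c * v by ring] at h3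
        omega
      calc (2 * c + 1) ^ v ≤ (2 ^ c) ^ v := Nat.pow_le_pow_left (ns_two_pow_ge c hc) v
        _ = 2 ^ (c * v) := by rw [← pow_mul]
        _ ≤ 2 ^ nsE ((2 * c + 1) ^ a - 1) := Nat.pow_le_pow_right (by norm_num) e1

end Cfsg.Agent.Lib.Helper21
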