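import Mathlib
import Cfsg.Agent.Lib.Helper21.NilSym1

namespace Cfsg.Agent.Lib.Helper21

open Nat

/-- In a finite nilpotent group, a Sylow subgroup together with its centralizer generates
everything. -/
lemma ns_sylow_sup_centralizer {N : Type*} [Group N] [Finite N] [Group.IsNilpotent N] (p : ℕ)
    [Fact p.Prime] (P : Sylow p N) :
    (P : Subgroup N) ⊔ Subgroup.centralizer ((P : Subgroup N) : Set N) = ⊤ := by
  apply Subgroup.eq_top_of_card_eq
  apply Nat.dvd_antisymm (Subgroup.card_subgroup_dvd_card _)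
  have hS0 : Nat.card ↥((P : Subgroup N) ⊔ Subgroup.centralizer ((P : Subgroup N) : Set N)) ≠ 0 :=
    Nat.card_pos.ne'
  have hN0 : Nat.card N ≠ 0 := Nat.card_pos.ne'
  rw [← Nat.factorization_prime_le_iff_dvd hN0 hS0]
  intro r hr
  haveI : Fact r.Prime := ⟨hr⟩
  have key : ∃ R : Sylow r N, (R : Subgroup N) ≤
      (P : Subgroup N) ⊔ Subgroup.centralizer ((P : Subgroup N) : Set N) := by
    by_cases hrp : r = p
    · subst hrp
      exact ⟨P, le_sup_left⟩
    · obtain ⟨R⟩ := (inferInstance : Nonempty (Sylow r N))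
      refine ⟨R, ?_⟩
      refine le_trans ?_ le_sup_right
      intro x hx
      rw [Subgroup.mem_centralizer_iff]
      intro y hy
      have hdis : Disjoint (R : Subgroup N) (P : Subgroup N) :=
        IsPGroup.disjoint_of_ne r p hrp _ _ R.isPGroup' P.isPGroup'
      have := Subgroup.commute_of_normal_of_disjoint _ _
        (inferInstance : (R : Subgroup N).Normal) (inferInstance : (P : Subgroup N).Normal)
        hdis x y hx hy
      exact this.eq.symm
  obtain ⟨R, hR⟩ := key
  have h1 : Nat.card (R : Subgroup N) ∣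
      Nat.card ↥((P : Subgroup N) ⊔ Subgroup.centralizer ((P : Subgroup N) : Set N)) :=
    Subgroup.card_dvd_of_le hR
  rw [Sylow.card_eq_multiplicity] at h1
  exact (hr.pow_dvd_iff_le_factorization hS0).mp h1

/-- transitive nilpotent permutation groups. -/
theorem ns_trans : ∀ (n : ℕ) (Ω : Type) [Finite Ω] (N : Subgroup (Equiv.Perm Ω)),
    Group.IsNilpotent N → MulAction.IsPretransitive N Ω → Nat.card Ω = n →
    Nat.card N ≤ nsT n := by
  intro n
  induction n using Nat.strong_induction_on with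
  | _ n ih =>
  intro Ω _ N hN htr hcard
  haveI := hN
  haveI := htr
  have hdvd : Nat.card N ∣ n ! := by
    have := Subgroup.card_subgroup_dvd_card N
    rwa [Nat.card_perm, hcard] at this
  have hBT : nsB n ≤ nsT n := by
    unfold nsT; split_ifs with h
    · subst h; have := nsB_4k3 0; simp [nsB_zero] at this; omega
    · exact le_rfl
  by_cases hodd : ∃ p : ℕ, p.Prime ∧ p ≠ 2 ∧ p ∣ Nat.card N
  swap
  · have hN0 : Nat.card N ≠ 0 := Nat.card_pos.ne'
    have h2 := Nat.eq_prime_pow_of_unique_prime_dvd (p := 2) hN0 (by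
      intro d hd hdd
      by_contra hne
      exact hodd ⟨d, hd, hne, hdd⟩)
    rw [h2] at hdvd ⊢
    have := (padicValNat_dvd_iff_le (p := 2) (Nat.factorial_ne_zero n)).mp hdvd
    exact le_trans (Nat.pow_le_pow_right (by norm_num) this) hBT
  obtain ⟨p, hp, hp2, hpN⟩ := hodd
  haveI : Fact p.Prime := ⟨hp⟩
  obtain ⟨P⟩ := (inferInstance : Nonempty (Sylow p N))
  have hne : Nonempty Ω := by
    by_contra hcon
    rw [not_nonempty_iff] at hcon
    have h1 : Nat.card N = 1 := by
      rw [Nat.card_eq_one_iff_unique]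
      exact ⟨⟨fun a b => Subtype.ext (Equiv.ext (fun x => isEmptyElim x))⟩, ⟨1⟩⟩
    rw [h1] at hpN
    exact hp.one_lt.ne' (Nat.dvd_one.mp hpN)
  obtain ⟨ω⟩ := hne
  obtain ⟨PS, hPS⟩ : ∃ PS : Subgroup N, PS = (P : Subgroup N) := ⟨_, rfl⟩
  haveI hPn : PS.Normal := hPS ▸ (inferInstance : (P : Subgroup N).Normal)
  have hPp : IsPGroup p ↥PS := hPS ▸ P.isPGroup'
  have hPk : Nat.card PS = p ^ (Nat.card N).factorization p := hPS ▸ P.card_eq_multiplicity
  have hPC : PS ⊔ Subgroup.centralizer (PS : Set N) = ⊤ := hPS ▸ ns_sylow_sup_centralizer p P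
  have hk1 : 1 ≤ (Nat.card N).factorization p :=
    hp.factorization_pos_of_dvd Nat.card_pos.ne' hpN
  have hdec : ∀ g : N, ∃ y ∈ PS, ∃ c ∈ Subgroup.centralizer (PS : Set N), g = y * c := by
    intro g
    have hg : g ∈ (↑(PS ⊔ Subgroup.centralizer (PS : Set N)) : Set N) := by
      rw [hPC]; exact Set.mem_univ g
    rw [Subgroup.normal_mul] at hg
    obtain ⟨y, hy, c, hc, rfl⟩ := Set.mem_mul.mp hg
    exact ⟨y, hy, c, hc, rfl⟩
  -- faithfulness of P on its orbit
  have hfaith : ∀ y ∈ PS, (∀ z ∈ PS, y • (z • ω) = z • ω) → y = 1 := by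
    intro y hy hfix
    apply Subtype.ext
    apply Equiv.ext
    intro x
    obtain ⟨g, rfl⟩ := MulAction.exists_smul_eq N ω x
    obtain ⟨z, hz, c, hc, rfl⟩ := hdec g
    have hcz : z * c = c * z := (Subgroup.mem_centralizer_iff.mp hc z hz)
    have hcy : y * c = c * y := (Subgroup.mem_centralizer_iff.mp hc y hy)
    change y • ((z * c) • ω) = (z * c) • ω
    rw [hcz, mul_smul, ← mul_smul y c, hcy, mul_smul, hfix z hz]
  obtain ⟨a, ha⟩ := hPp.card_orbit ω
  have hinj : Function.Injective (MulAction.toPermHom ↥PS (MulAction.orbit ↥PS ω)) := by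
    rw [injective_iff_map_eq_one]
    intro y hy
    have : (y : N) = 1 := by
      apply hfaith y y.2
      intro z hz
      have := congrArg (fun σ => ((σ ⟨(⟨z, hz⟩ : ↥PS) • ω, MulAction.mem_orbit _ _⟩ :
        MulAction.orbit ↥PS ω) : Ω)) hy
      exact this
    exact Subtype.ext this
  have hPcard : Nat.card PS ∣ (p ^ a) ! := by
    have := Subgroup.card_dvd_of_injective _ hinj
    rwa [Nat.card_perm, ha] at this
  have hkv : (Nat.card N).factorization p ≤ padicValNat p (p ^ a) ! := by
    rw [hPk] at hPcard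
    exact (padicValNat_dvd_iff_le (Nat.factorial_ne_zero _)).mp hPcard
  have ha1 : 1 ≤ a := by
    by_contra hcon
    have ha0 : a = 0 := by omega
    rw [ha0, pow_zero, Nat.factorial_one, hPk, Nat.dvd_one] at hPcard
    rcases Nat.pow_eq_one.mp hPcard with h | h
    · exact hp.one_lt.ne' h
    · omega
  have hp3 : 3 ≤ p := by
    have := hp.two_le
    omega
  have hq3 : 3 ≤ p ^ a := le_trans hp3 (Nat.le_self_pow (by omega) p)
  obtain ⟨St, hSt⟩ : ∃ St : Subgroup N, St = MulAction.stabilizer N ω := ⟨_, rfl⟩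
  obtain ⟨M, hM⟩ : ∃ M : Subgroup N, M = PS ⊔ St := ⟨_, rfl⟩
  obtain ⟨ff, hff⟩ : ∃ ff : N →* Equiv.Perm (N ⧸ M), ff = MulAction.toPermHom N (N ⧸ M) := ⟨_, rfl⟩
  have hker : ff.ker = M.normalCore := by rw [hff, Subgroup.normalCore_eq_ker]
  have hpres : ∀ x ∈ M.normalCore, ∀ ω' : Ω, ∃ y ∈ PS, x • ω' = y • ω' := by
    intro x hx ω'
    obtain ⟨g, rfl⟩ := MulAction.exists_smul_eq N ω ω'
    have h1 : g⁻¹ * x * g⁻¹⁻¹ ∈ M := hx g⁻¹
    rw [inv_inv, hM] at h1
    have h2 : g⁻¹ * x * g ∈ (↑(PS ⊔ St) : Set N) := h1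
    rw [Subgroup.normal_mul] at h2
    obtain ⟨y, hy, s, hs, hys⟩ := Set.mem_mul.mp h2
    refine ⟨g * y * g⁻¹, hPn.conj_mem y hy g, ?_⟩
    have hs' : s • ω = ω := by
      rw [hSt] at hs; exact MulAction.mem_stabilizer_iff.mp hs
    have : x * g = g * (y * s) := by rw [hys]; group
    calc x • g • ω = (x * g) • ω := (mul_smul _ _ _).symm
      _ = (g * (y * s)) • ω := by rw [this]
      _ = g • y • s • ω := by rw [mul_smul, mul_smul]
      _ = g • y • ω := by rw [hs']
      _ = (g * y * g⁻¹) • g • ω := by rw [mul_smul, mul_smul, inv_smul_smul]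
  have hKp : ∀ {r : ℕ}, r.Prime → r ∣ Nat.card M.normalCore → r = p := by
    intro r hr hrK
    by_contra hrp
    haveI : Fact r.Prime := ⟨hr⟩
    obtain ⟨x, hx⟩ := exists_prime_orderOf_dvd_card' (G := ↥M.normalCore) r hrK
    have hxN : orderOf (x : N) = r := by rw [Subgroup.orderOf_coe]; exact hx
    have hcomm : ∀ y ∈ PS, (x : N) * y = y * (x : N) := by
      have hzp : IsPGroup r (Subgroup.zpowers (x : N)) := by
        apply IsPGroup.of_card (n := 1)
        rw [Nat.card_zpowers, hxN, pow_one]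
      obtain ⟨R, hR⟩ := hzp.exists_le_sylow
      have hxR : (x : N) ∈ (R : Subgroup N) := hR (Subgroup.mem_zpowers _)
      have hdis : Disjoint (R : Subgroup N) PS :=
        IsPGroup.disjoint_of_ne r p hrp _ _ R.isPGroup' hPp
      intro y hy
      exact (Subgroup.commute_of_normal_of_disjoint _ _ inferInstance hPn hdis _ _ hxR hy).eq
    have hfix : ∀ ω' : Ω, (x : N) • ω' = ω' := by
      intro ω'
      obtain ⟨y, hy, hxy⟩ := hpres x x.2 ω'
      have hpow : ∀ j : ℕ, (x : N) ^ j • ω' = y ^ j • ω' := by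
        intro j
        induction j with
        | zero => simp
        | succ j ihj =>
          have hc : (x : N) ^ j * y = y * (x : N) ^ j :=
            (Commute.pow_left (show Commute (x : N) y from hcomm y hy) j).eq
          rw [pow_succ, mul_smul, hxy, ← mul_smul, hc, mul_smul, ihj, ← mul_smul, _root_.pow_succ']
      have hyk : y ^ (p ^ (Nat.card N).factorization p) = 1 := by
        have := pow_card_eq_one' (G := ↥PS) (x := ⟨y, hy⟩)
        rw [hPk] at this
        exact congrArg Subtype.val this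
      have h1 : (x : N) ^ (p ^ (Nat.card N).factorization p) • ω' = ω' := by
        rw [hpow, hyk, one_smul]
      have hcop : Nat.Coprime (p ^ (Nat.card N).factorization p) r := by
        apply Nat.Coprime.pow_left
        exact (Nat.coprime_primes hp hr).mpr (fun h => hrp h.symm)
      obtain ⟨v, -, hv⟩ := Nat.exists_mul_mod_eq_one_of_coprime hcop hr.one_lt
      have hx1 : (x : N) = ((x : N) ^ (p ^ (Nat.card N).factorization p)) ^ v := by
        rw [← pow_mul, ← pow_mod_orderOf, hxN, hv, pow_one]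
      rw [hx1]
      exact MulAction.mem_stabilizer_iff.mp
        (Subgroup.pow_mem _ (MulAction.mem_stabilizer_iff.mpr h1) v)
    have hx1 : (x : N) = 1 := by
      apply Subtype.ext; apply Equiv.ext; intro ω'
      exact hfix ω'
    rw [hx1, orderOf_one] at hxN
    exact hr.one_lt.ne' hxN.symm
  have hKle : Nat.card M.normalCore ≤ Nat.card PS := by
    have hK0 : Nat.card M.normalCore ≠ 0 := Nat.card_pos.ne'
    have h := Nat.eq_prime_pow_of_unique_prime_dvd hK0 (fun {d} hd hdd => hKp hd hdd)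
    have hKpg : IsPGroup p M.normalCore := IsPGroup.of_card h
    obtain ⟨Q, hQ⟩ := hKpg.exists_le_sylow
    calc Nat.card M.normalCore ≤ Nat.card (Q : Subgroup N) :=
          Nat.le_of_dvd Nat.card_pos (Subgroup.card_dvd_of_le hQ)
      _ = p ^ (Nat.card N).factorization p := Q.card_eq_multiplicity
      _ = Nat.card PS := hPk.symm
  have hNcard : Nat.card N = Nat.card M.normalCore * Nat.card ff.range := by
    rw [← hker, ← Subgroup.index_ker, Subgroup.card_mul_index]
  have hnqm : n = p ^ a * M.index := by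
    have h1 : St.index = Nat.card Ω := by
      rw [hSt]; exact MulAction.index_stabilizer_of_transitive N ω
    have h2 : St.relIndex M * M.index = St.index :=
      Subgroup.relIndex_mul_index (by rw [hM]; exact le_sup_right)
    have h3 : St.relIndex M = p ^ a := by
      have e1 : St.subgroupOf M = MulAction.stabilizer ↥M ω := by
        ext x
        rw [Subgroup.mem_subgroupOf, hSt, MulAction.mem_stabilizer_iff,
          MulAction.mem_stabilizer_iff]
        rfl
      have e2 : MulAction.orbit ↥M ω = MulAction.orbit ↥PS ω := by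
        ext x
        constructor
        · rintro ⟨⟨g, hg⟩, rfl⟩
          have hg' : g ∈ (↑(PS ⊔ St) : Set N) := by rw [← hM]; exact hg
          rw [Subgroup.normal_mul] at hg'
          obtain ⟨y, hy, s, hs, rfl⟩ := Set.mem_mul.mp hg'
          refine ⟨⟨y, hy⟩, ?_⟩
          change y • ω = (y * s) • ω
          rw [hSt] at hs
          rw [mul_smul, MulAction.mem_stabilizer_iff.mp hs]
        · rintro ⟨⟨y, hy⟩, rfl⟩
          exact ⟨⟨y, by rw [hM]; exact le_sup_left (a := PS) hy⟩, rfl⟩
      unfold Subgroup.relIndex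
      rw [e1, MulAction.index_stabilizer, e2, ← Nat.card_coe_set_eq, ha]
    rw [← hcard, ← h1, ← h2, h3]
  have hm1 : 1 ≤ M.index := Nat.one_le_iff_ne_zero.mpr Subgroup.index_ne_zero_of_finite
  have hlt : M.index < n := by rw [hnqm]; nlinarith
  have hRnil : Group.IsNilpotent ff.range :=
    Group.nilpotent_of_surjective ff.rangeRestrict ff.rangeRestrict_surjective
  have hRtr : MulAction.IsPretransitive ff.range (N ⧸ M) := by
    constructor
    intro u v
    obtain ⟨g, hg⟩ := MulAction.exists_smul_eq N u v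
    refine ⟨⟨ff g, ⟨g, rfl⟩⟩, ?_⟩
    rw [← hg, hff]
    rfl
  have hR := ih M.index hlt (N ⧸ M) ff.range hRnil hRtr rfl
  have hPle : Nat.card PS ≤ p ^ padicValNat p (p ^ a) ! := by
    rw [hPk]; exact Nat.pow_le_pow_right hp.pos hkv
  have hNle : Nat.card N ≤ Nat.card PS * nsT M.index := by
    rw [hNcard]; exact Nat.mul_le_mul hKle hR
  by_cases hq35 : p ^ a = 3
  · have hp3' : p = 3 := by
      have : p ∣ 3 := by rw [← hq35]; exact dvd_pow_self p (by omega)
      exact (Nat.prime_dvd_prime_iff_eq hp Nat.prime_three).mp this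
    have hv : padicValNat p (p ^ a) ! ≤ 1 := by
      have := sub_one_mul_padicValNat_factorial_lt_of_ne_zero (p := p) (n := p ^ a) (by omega)
      rw [hq35] at this ⊢
      rw [hp3'] at this ⊢
      omega
    have hP3 : Nat.card PS ≤ 3 := by
      calc Nat.card PS ≤ p ^ padicValNat p (p ^ a) ! := hPle
        _ ≤ p ^ 1 := Nat.pow_le_pow_right hp.pos hv
        _ = 3 := by rw [hp3']
    rcases Nat.lt_or_ge M.index 2 with h | h
    · have hm : M.index = 1 := by omega
      rw [hm] at hNle hnqm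
      have hT1 : nsT 1 = 1 := by simp [nsT, nsB_one]
      rw [hT1] at hNle
      have hn3 : n = 3 := by rw [hnqm, hq35]
      rw [hn3]
      have : nsT 3 = 3 := by simp [nsT]
      rw [this]; omega
    · have h3 := ns_num3 M.index h
      have hn : n = 3 * M.index := by rw [hnqm, hq35]
      have hT : nsT n = nsB n := by unfold nsT; rw [if_neg (by omega)]
      rw [hT, hn]
      calc Nat.card N ≤ Nat.card PS * nsT M.index := hNle
        _ ≤ 3 * nsT M.index := Nat.mul_le_mul_right _ hP3
        _ ≤ nsB (3 * M.index) := h3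
  · have hq5 : 5 ≤ p ^ a := by
      by_contra hcon
      have h4 : p ^ a = 4 := by omega
      have h2 : p ∣ 2 ^ 2 := by
        have : p ∣ p ^ a := dvd_pow_self p (by omega)
        rw [h4] at this; exact this
      exact hp2 ((Nat.prime_dvd_prime_iff_eq hp Nat.prime_two).mp (hp.dvd_of_dvd_pow h2))
    have hkey := ns_key p a hp hp2 hq5
    have := ns_numq (p ^ a) M.index hq5 hm1 (Nat.card PS) (Nat.card ff.range)
      (hPle.trans hkey) hR
    have hT : nsT n = nsB n := by
      unfold nsT; rw [if_neg (by rw [hnqm]; nlinarith)]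
    rw [hT, hnqm]
    calc Nat.card N = Nat.card M.normalCore * Nat.card ff.range := hNcard
      _ ≤ Nat.card PS * Nat.card ff.range := Nat.mul_le_mul_right _ hKle
      _ ≤ nsB (p ^ a * M.index) := this

/-- arbitrary nilpotent permutation groups. -/
theorem ns_general : ∀ (n : ℕ) (Ω : Type) [Finite Ω] (N : Subgroup (Equiv.Perm Ω)),
    Group.IsNilpotent N → Nat.card Ω = n → Nat.card N ≤ nsG n := by
  intro n
  induction n using Nat.strong_induction_on with
  | _ n ih =>
  intro Ω _ N hN hcard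
  haveI := hN
  rcases isEmpty_or_nonempty Ω with hE | ⟨⟨ω⟩⟩
  · have h1 : Nat.card N = 1 := by
      rw [Nat.card_eq_one_iff_unique]
      exact ⟨⟨fun a b => Subtype.ext (Equiv.ext (fun x => isEmptyElim x))⟩, ⟨1⟩⟩
    rw [h1]
    have h2 := nsB_le_nsG n
    have h3 := nsB_pos n
    omega
  obtain ⟨S, hS⟩ : ∃ S : SubMulAction N Ω, (S : Set Ω) = (MulAction.orbit N ω)ᶜ :=
    ⟨{ carrier := (MulAction.orbit N ω)ᶜ
       smul_mem' := by
        intro g x hx hgx
        apply hx
        have hx2 : x = g⁻¹ • (g • x) := by simp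
        rw [hx2]
        exact MulAction.mem_orbit_of_mem_orbit _ hgx }, rfl⟩
  obtain ⟨ρ₁, hρ₁⟩ : ∃ ρ₁ : N →* Equiv.Perm (MulAction.orbit N ω),
      ρ₁ = MulAction.toPermHom N (MulAction.orbit N ω) := ⟨_, rfl⟩
  obtain ⟨ρ₂, hρ₂⟩ : ∃ ρ₂ : N →* Equiv.Perm S, ρ₂ = MulAction.toPermHom N S := ⟨_, rfl⟩
  have hinj : Function.Injective (fun g : N => (ρ₁.rangeRestrict g, ρ₂.rangeRestrict g)) := by
    intro g h hgh
    simp only [Prod.mk.injEq] at hgh
    obtain ⟨h1, h2⟩ := hgh
    have h1' : ρ₁ g = ρ₁ h := congrArg Subtype.val h1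
    have h2' : ρ₂ g = ρ₂ h := congrArg Subtype.val h2
    apply Subtype.ext; apply Equiv.ext; intro x
    by_cases hx : x ∈ MulAction.orbit N ω
    · rw [hρ₁] at h1'
      have := congrArg (fun σ => ((σ ⟨x, hx⟩ : MulAction.orbit N ω) : Ω)) h1'
      exact this
    · have hxS : x ∈ S := by
        have : x ∈ (S : Set Ω) := by rw [hS]; exact hx
        exact this
      rw [hρ₂] at h2'
      have := congrArg (fun σ => ((σ ⟨x, hxS⟩ : S) : Ω)) h2'
      exact this
  have hcardle : Nat.card N ≤ Nat.card ρ₁.range * Nat.card ρ₂.range := by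
    rw [← Nat.card_prod]
    exact Nat.card_le_card_of_injective _ hinj
  have hab : Nat.card (MulAction.orbit N ω) + Nat.card S = n := by
    rw [← hcard]
    have h1 := Set.ncard_add_ncard_compl (MulAction.orbit N ω)
    rw [← hS, ← Nat.card_coe_set_eq, ← Nat.card_coe_set_eq] at h1
    exact h1
  have ha1 : 1 ≤ Nat.card (MulAction.orbit N ω) := by
    haveI : Nonempty (MulAction.orbit N ω) := ⟨⟨ω, MulAction.mem_orbit_self ω⟩⟩
    exact Nat.card_pos
  have hT := ns_trans (Nat.card (MulAction.orbit N ω)) (MulAction.orbit N ω) ρ₁.range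
    (Group.nilpotent_of_surjective ρ₁.rangeRestrict ρ₁.rangeRestrict_surjective) (by
      constructor
      intro u v
      obtain ⟨g, hg⟩ := MulAction.exists_smul_eq N u v
      refine ⟨⟨ρ₁ g, ⟨g, rfl⟩⟩, ?_⟩
      rw [← hg, hρ₁]
      rfl) rfl
  have hG := ih (Nat.card S) (by omega) S ρ₂.range
    (Group.nilpotent_of_surjective ρ₂.rangeRestrict ρ₂.rangeRestrict_surjective) rfl
  calc Nat.card N ≤ Nat.card ρ₁.range * Nat.card ρ₂.range := hcardle
    _ ≤ nsT (Nat.card (MulAction.orbit N ω)) * nsG (Nat.card S) := Nat.mul_le_mul hT hG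
    _ ≤ nsG (Nat.card (MulAction.orbit N ω) + Nat.card S) := ns_num1 _ _ ha1
    _ = nsG n := by rw [hab]

end Cfsg.Agent.Lib.Helper21
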