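import Mathlib
import Cfsg.Agent.Lib.Helper21.NilSym2

namespace Cfsg.Agent.Lib.Helper21

open Nat

/-- strict drop of the Sylow 2 order when four points are lost. -/
lemma ns_lt_aux (n d : ℕ) (hn : n % 4 = 3) (hd : d + 4 ≤ n) : nsB d < nsB (n - 3) := by
  obtain ⟨k, rfl⟩ : ∃ k, n = 4 * (k + 1) + 3 := ⟨(n - 7) / 4, by omega⟩
  have h1 : nsB d ≤ nsB (4 * k + 3) := nsB_mono (by omega)
  have h2 := nsB_4k3 k
  have h3 := nsB_4k4 k
  have h4 : 4 * (k + 1) + 3 - 3 = 4 * k + 4 := by omega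
  have h5 := nsB_pos (4 * k)
  rw [h4]; omega

/-- a 2-group acting faithfully on an invariant set embeds into its symmetric group. -/
lemma ns_emb {Ω : Type} [Finite Ω] (T : Subgroup (Equiv.Perm Ω)) (e : ℕ)
    (hT : Nat.card T = 2 ^ e) (D : Set Ω) (hD : ∀ t ∈ T, ∀ x ∈ D, t x ∈ D)
    (hfaith : ∀ t ∈ T, (∀ x ∈ D, t x = x) → t = 1) : Nat.card T ≤ nsB (Nat.card D) := by
  classical
  let S : SubMulAction T Ω := { carrier := D, smul_mem' := fun t x hx => hD t.1 t.2 x hx }
  let f0 : T →* Equiv.Perm S := MulAction.toPermHom T S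
  have hf0 : Function.Injective f0 := by
    rw [injective_iff_map_eq_one]
    intro t ht
    have h1 : ∀ x ∈ D, (t : Equiv.Perm Ω) x = x := by
      intro x hx
      have h2 := congrArg (fun σ : Equiv.Perm S => ((σ ⟨x, hx⟩ : S) : Ω)) ht
      have h3 : ((t : Equiv.Perm Ω)) x = t • x := rfl
      rw [h3]; simpa [f0] using h2
    exact Subtype.ext (hfaith t.1 t.2 h1)
  have hdvd : Nat.card T ∣ Nat.card (Equiv.Perm S) := Subgroup.card_dvd_of_injective f0 hf0
  have hS : Nat.card S = Nat.card D := rfl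
  rw [Nat.card_perm, hT, hS] at hdvd
  haveI : Fact (Nat.Prime 2) := ⟨Nat.prime_two⟩
  have h3 := (padicValNat_dvd_iff_le (p := 2) (Nat.factorial_ne_zero (Nat.card D))).mp hdvd
  rw [hT]; unfold nsB nsE
  exact Nat.pow_le_pow_right (by norm_num) h3

/-- an element of order dividing 3 commuting with a 2-group cannot move a point inside an orbit. -/
lemma ns_orbit_aux {Ω : Type} [Finite Ω] (T : Subgroup (Equiv.Perm Ω)) (e : ℕ)
    (hT : Nat.card T = 2 ^ e) (w : Equiv.Perm Ω) (hw : w ^ 3 = 1)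
    (hcomm : ∀ t ∈ T, t * w = w * t) (s : Equiv.Perm Ω) (hs : s ∈ T) (y : Ω)
    (h : s (w y) = y) : w y = y := by
  have hu : s⁻¹ ∈ T := T.inv_mem hs
  have h1 : w y = s⁻¹ y := by
    rw [Equiv.Perm.eq_inv_iff_eq]; exact h
  have hc : s⁻¹ * w = w * s⁻¹ := hcomm _ hu
  have hcj : ∀ j : ℕ, s⁻¹ * w ^ j = w ^ j * s⁻¹ := by
    intro j
    exact ((Commute.pow_right (show Commute s⁻¹ w from hc) j)).eq
  have h2 : ∀ j : ℕ, (w ^ j) y = ((s⁻¹) ^ j) y := by
    intro j
    induction j with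
    | zero => simp
    | succ j ih =>
      have e1 : (w ^ (j + 1)) y = (w ^ j) (w y) := by rw [pow_succ]; rfl
      have e2 : ((s⁻¹) ^ (j + 1)) y = s⁻¹ (((s⁻¹) ^ j) y) := by rw [_root_.pow_succ']; rfl
      rw [e1, e2, h1, ← ih]
      have := congrArg (fun σ : Equiv.Perm Ω => σ y) (hcj j)
      simpa using this.symm
  have h3 : (s⁻¹) ^ (2 ^ e) = 1 := by
    have := pow_card_eq_one' (G := T) (x := ⟨s⁻¹, hu⟩)
    rw [hT] at this
    have := congrArg (Subtype.val) this
    simpa using this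
  have h4 : (w ^ (2 ^ e)) y = y := by rw [h2, h3]; rfl
  have h5 : w ^ (2 ^ e) = w ^ (2 ^ e % 3) := pow_eq_pow_mod _ hw
  have h6 : 2 ^ e % 3 = 1 ∨ 2 ^ e % 3 = 2 := by
    have : ¬ 3 ∣ 2 ^ e := by
      intro h
      have := Nat.Prime.dvd_of_dvd_pow Nat.prime_three h
      omega
    omega
  rw [h5] at h4
  rcases h6 with h6 | h6
  · rw [h6] at h4; simpa using h4
  · rw [h6] at h4
    have h7 : w (w y) = y := by simpa [pow_two] using h4
    have h8 : w (w (w y)) = y := by
      have := congrArg (fun σ : Equiv.Perm Ω => σ y) hw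
      simpa [pow_succ] using this
    rw [h7] at h8; exact h8

/-- if the 2-part moves a point moved by `z`, it lives on at most `n - 4` points. -/
lemma ns_moved_bound {Ω : Type} [Finite Ω] (T : Subgroup (Equiv.Perm Ω)) (e : ℕ)
    (hT : Nat.card T = 2 ^ e) (z : Equiv.Perm Ω) (hz : z ^ 3 = 1)
    (hcomm : ∀ t ∈ T, t * z = z * t) (x : Ω) (hx : z x ≠ x) (t₀ : Equiv.Perm Ω) (ht₀ : t₀ ∈ T)
    (hmove : t₀ x ≠ x) : ∃ d, d + 4 ≤ Nat.card Ω ∧ Nat.card T ≤ nsB d := by
  classical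
  have hc : ∀ t ∈ T, ∀ y, t (z y) = z (t y) := by
    intro t ht y
    have := congrArg (fun σ : Equiv.Perm Ω => σ y) (hcomm t ht)
    simpa using this
  have hzz : (z * z) ^ 3 = 1 := by
    have : (z * z) ^ 3 = (z ^ 3) ^ 2 := by rw [← pow_two, ← pow_mul, ← pow_mul]
    rw [this, hz]; simp
  have hcommzz : ∀ t ∈ T, t * (z * z) = (z * z) * t := by
    intro t ht
    rw [← mul_assoc, hcomm t ht, mul_assoc, hcomm t ht, mul_assoc]
  have hA : ∀ s ∈ T, ∀ y, s (z y) = y → z y = y :=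
    fun s hs y h => ns_orbit_aux T e hT z hz hcomm s hs y h
  have hB : ∀ s ∈ T, ∀ y, s (z (z y)) = y → z (z y) = y :=
    fun s hs y h => ns_orbit_aux T e hT (z * z) hzz hcommzz s hs y h
  have hx2 : z (z x) ≠ z x := fun h => hx (z.injective h)
  have hx3 : z (z x) ≠ x := by
    intro h
    have h8 : z (z (z x)) = x := by
      have := congrArg (fun σ : Equiv.Perm Ω => σ x) hz
      simpa [pow_succ] using this
    rw [h] at h8; exact hx h8
  obtain ⟨D, hDdef⟩ : ∃ D : Set Ω,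
      D = {y | (∀ s ∈ T, s (z x) ≠ y) ∧ (∀ s ∈ T, s (z (z x)) ≠ y)} := ⟨_, rfl⟩
  have hDinv : ∀ t ∈ T, ∀ y ∈ D, t y ∈ D := by
    intro t ht y hy
    rw [hDdef] at hy ⊢
    refine ⟨fun s hs h => hy.1 (t⁻¹ * s) (T.mul_mem (T.inv_mem ht) hs) ?_,
      fun s hs h => hy.2 (t⁻¹ * s) (T.mul_mem (T.inv_mem ht) hs) ?_⟩
    · simp [h]
    · simp [h]
  have hxD : ∀ s ∈ T, s x ∈ D := by
    have hx0 : x ∈ D := by
      rw [hDdef]
      exact ⟨fun s hs h => hx (hA s hs x h), fun s hs h => hx3 (hB s hs x h)⟩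
    intro s hs
    exact hDinv s hs x hx0
  have hfaith : ∀ t ∈ T, (∀ y ∈ D, t y = y) → t = 1 := by
    intro t ht hfix
    ext y
    by_cases hy : y ∈ D
    · simpa using hfix y hy
    · rw [hDdef] at hy
      simp only [Set.mem_ofPred_eq, not_and_or, not_forall, not_not] at hy
      rcases hy with ⟨s, hs, rfl⟩ | ⟨s, hs, rfl⟩
      · show t (s (z x)) = s (z x)
        rw [hc s hs, hc t ht, hfix _ (hxD s hs)]
      · show t (s (z (z x))) = s (z (z x))
        rw [hc s hs, hc s hs, hc t ht, hc t ht, hfix _ (hxD s hs)]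
  refine ⟨Nat.card D, ?_, ns_emb T e hT D hDinv hfaith⟩
  have h4 : ({z x, t₀ (z x), z (z x), t₀ (z (z x))} : Finset Ω).card = 4 := by
    rw [Finset.card_insert_of_notMem, Finset.card_insert_of_notMem,
      Finset.card_insert_of_notMem, Finset.card_singleton]
    · simp only [Finset.mem_singleton]
      intro h
      rw [hc t₀ ht₀, hc t₀ ht₀] at h
      exact hmove (z.injective (z.injective h.symm))
    · simp only [Finset.mem_insert, Finset.mem_singleton, not_or]
      refine ⟨?_, ?_⟩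
      · intro h
        have h9 : t₀⁻¹ (z (z x)) = z x := by rw [← h]; simp
        exact hx2 (hA t₀⁻¹ (T.inv_mem ht₀) (z x) h9)
      · intro h
        exact hx2 (t₀.injective h).symm
    · simp only [Finset.mem_insert, Finset.mem_singleton, not_or]
      refine ⟨?_, ?_, ?_⟩
      · intro h
        rw [hc t₀ ht₀] at h
        exact hmove (z.injective h.symm)
      · exact fun h => hx2 h.symm
      · intro h
        exact hx2 (hA t₀ ht₀ (z x) h.symm)
  have hsub : (({z x, t₀ (z x), z (z x), t₀ (z (z x))} : Finset Ω) : Set Ω) ⊆ Dᶜ := by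
    intro y hy
    simp only [Finset.coe_insert, Finset.coe_singleton, Set.mem_insert_iff,
      Set.mem_singleton_iff] at hy
    rw [Set.mem_compl_iff, hDdef]
    simp only [Set.mem_ofPred_eq, not_and_or, not_forall, not_not]
    rcases hy with rfl | rfl | rfl | rfl
    · exact Or.inl ⟨1, T.one_mem, rfl⟩
    · exact Or.inl ⟨t₀, ht₀, rfl⟩
    · exact Or.inr ⟨1, T.one_mem, rfl⟩
    · exact Or.inr ⟨t₀, ht₀, rfl⟩
  have h5 : 4 ≤ Dᶜ.ncard := by
    have := Set.ncard_le_ncard hsub (Set.toFinite _)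
    rw [Set.ncard_coe_finset, h4] at this
    exact this
  have h6 := Set.ncard_add_ncard_compl D
  rw [Nat.card_coe_set_eq]
  omega

open scoped Pointwise in
/-- two `p`-subgroups of maximal order inside a subgroup `F` are conjugate under `F`. -/
lemma ns_conj_of_max {G : Type*} [Group G] [Finite G] (F A B : Subgroup G) (p : ℕ)
    [Fact p.Prime] (hA : A ≤ F) (hB : B ≤ F) (hpA : IsPGroup p A) (hpB : IsPGroup p B)
    (hmax : ∀ Q : Subgroup G, Q ≤ F → IsPGroup p Q → Nat.card Q ≤ Nat.card A)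
    (hAB : Nat.card B = Nat.card A) :
    ∃ h ∈ F, B = A.map (MulAut.conj h).toMonoidHom := by
  have key : ∀ C : Subgroup G, C ≤ F → IsPGroup p C → Nat.card C = Nat.card A →
      ∃ Q : Sylow p F, (Q : Subgroup F) = C.subgroupOf F := by
    intro C hC hpC hcC
    have hp' : IsPGroup p (C.subgroupOf F) := hpC.comap_subtype
    obtain ⟨Q, hQ⟩ := hp'.exists_le_sylow
    refine ⟨Q, ?_⟩
    symm
    apply Subgroup.eq_of_le_of_card_ge hQ
    have h1 : Nat.card (C.subgroupOf F) = Nat.card C :=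
      Nat.card_congr (Subgroup.subgroupOfEquivOfLe hC).toEquiv
    have h2 : Nat.card ((Q : Subgroup F).map F.subtype) = Nat.card (Q : Subgroup F) :=
      Subgroup.card_map_of_injective (Subgroup.subtype_injective F)
    have h3 := hmax ((Q : Subgroup F).map F.subtype) (Subgroup.map_subtype_le _)
      (Q.isPGroup'.map _)
    omega
  obtain ⟨QA, hQA⟩ := key A hA hpA rfl
  obtain ⟨QB, hQB⟩ := key B hB hpB hAB
  obtain ⟨h, hh⟩ := MulAction.exists_smul_eq F QA QB
  refine ⟨h.1, h.2, ?_⟩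
  symm
  apply Subgroup.eq_of_le_of_card_ge
  · rintro _ ⟨a, ha, rfl⟩
    have h1 : (⟨a, hA ha⟩ : F) ∈ (QA : Subgroup F) := by
      rw [hQA, Subgroup.mem_subgroupOf]; exact ha
    have h2 : MulAut.conj h • (⟨a, hA ha⟩ : F) ∈ MulAut.conj h • (QA : Subgroup F) :=
      Subgroup.smul_mem_pointwise_smul _ _ _ h1
    rw [← Sylow.coe_subgroup_smul, hh, hQB, Subgroup.mem_subgroupOf] at h2
    simpa [MulAut.smul_def, MulAut.conj_apply] using h2
  · rw [Subgroup.card_map_of_injective (MulAut.conj h.1).injective, hAB]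

/-- structure of a nilpotent subgroup of maximal order when `n % 4 = 3`. -/
theorem ns_extremal (n : ℕ) (hn : n % 4 = 3) (N : Subgroup (Equiv.Perm (Fin n)))
    (hN : Group.IsNilpotent N) (hcard : Nat.card N = 3 * nsB (n - 3)) :
    ∃ (z : Equiv.Perm (Fin n)) (T : Subgroup (Equiv.Perm (Fin n))),
      z.support.card = 3 ∧ Nat.card T = nsB (n - 3) ∧
      (∀ t ∈ T, ∀ x ∈ z.support, t x = x) ∧ N = T ⊔ Subgroup.zpowers z := by
  classical
  haveI := hN
  haveI : Fact (Nat.Prime 2) := ⟨Nat.prime_two⟩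
  haveI : Fact (Nat.Prime 3) := ⟨Nat.prime_three⟩
  obtain ⟨e, he⟩ : ∃ e, e = nsE (n - 3) := ⟨_, rfl⟩
  have hB : nsB (n - 3) = 2 ^ e := by rw [he]; rfl
  rw [hB] at hcard
  obtain ⟨z0, hz0⟩ := exists_prime_orderOf_dvd_card' (G := N) 3
    (by rw [hcard]; exact dvd_mul_right 3 _)
  obtain ⟨S⟩ := (inferInstance : Nonempty (Sylow 2 N))
  have hScard : Nat.card (S : Subgroup N) = 2 ^ e := by
    rw [Sylow.card_eq_multiplicity, hcard, Nat.factorization_def _ Nat.prime_two,
      padicValNat.mul (by norm_num) (by positivity), padicValNat.prime_pow]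
    have : padicValNat 2 3 = 0 := padicValNat.eq_zero_of_not_dvd (by norm_num)
    rw [this, zero_add]
  obtain ⟨T, hTdef⟩ : ∃ T : Subgroup (Equiv.Perm (Fin n)),
      T = (S : Subgroup N).map N.subtype := ⟨_, rfl⟩
  have hTcard : Nat.card T = 2 ^ e := by
    rw [hTdef, Subgroup.card_map_of_injective (Subgroup.subtype_injective N), hScard]
  have hTN : T ≤ N := by rw [hTdef]; exact Subgroup.map_subtype_le _
  obtain ⟨z, hzdef⟩ : ∃ z : Equiv.Perm (Fin n), z = (z0 : Equiv.Perm (Fin n)) := ⟨_, rfl⟩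
  have hzord : orderOf z = 3 := by rw [hzdef, Subgroup.orderOf_coe, hz0]
  have hz3 : z ^ 3 = 1 := by rw [← hzord]; exact pow_orderOf_eq_one z
  have hzN : z ∈ N := by rw [hzdef]; exact z0.2
  have hz1 : z ≠ 1 := by
    intro h; rw [h, orderOf_one] at hzord; omega
  have hcomm : ∀ t ∈ T, t * z = z * t := by
    intro t ht
    rw [hTdef] at ht
    obtain ⟨t', ht', rfl⟩ := ht
    have hp3 : IsPGroup 3 (Subgroup.zpowers z0) := by
      apply IsPGroup.of_card (n := 1)
      rw [Nat.card_zpowers, hz0]; rfl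
    obtain ⟨R, hR⟩ := hp3.exists_le_sylow
    have hdis : Disjoint (S : Subgroup N) (R : Subgroup N) :=
      IsPGroup.disjoint_of_ne 2 3 (by norm_num) _ _ S.isPGroup' R.isPGroup'
    have hcm := Subgroup.commute_of_normal_of_disjoint _ _
      (inferInstance : (S : Subgroup N).Normal) (inferInstance : (R : Subgroup N).Normal)
      hdis t' z0 ht' (hR (Subgroup.mem_zpowers z0))
    have h2 := congrArg (Subtype.val) hcm.eq
    rw [hzdef]; simpa using h2
  have hNeq : N = T ⊔ Subgroup.zpowers z := by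
    symm
    apply Subgroup.eq_of_le_of_card_ge (sup_le hTN (by rw [Subgroup.zpowers_le]; exact hzN))
    have h1 : Nat.card T ∣ Nat.card ↥(T ⊔ Subgroup.zpowers z) :=
      Subgroup.card_dvd_of_le le_sup_left
    have h2 : Nat.card (Subgroup.zpowers z) ∣ Nat.card ↥(T ⊔ Subgroup.zpowers z) :=
      Subgroup.card_dvd_of_le le_sup_right
    rw [Nat.card_zpowers, hzord] at h2
    rw [hTcard] at h1
    have hcop : Nat.Coprime 3 (2 ^ e) := Nat.Coprime.pow_right _ (by norm_num)
    have h3 := Nat.Coprime.mul_dvd_of_dvd_of_dvd hcop h2 h1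
    rw [hcard]
    exact Nat.le_of_dvd Nat.card_pos h3
  have hnΩ : Nat.card (Fin n) = n := by simp
  have hfix : ∀ t ∈ T, ∀ x ∈ z.support, t x = x := by
    intro t ht x hx
    rw [Equiv.Perm.mem_support] at hx
    by_contra hmove
    obtain ⟨d, hd1, hd2⟩ := ns_moved_bound T e hTcard z hz3 hcomm x hx t ht hmove
    rw [hnΩ] at hd1
    have := ns_lt_aux n d hn hd1
    rw [hB, ← hTcard] at this
    omega
  have hsupp_le : z.support.card ≤ 3 := by
    by_contra hgt
    have hDinv : ∀ t ∈ T, ∀ y ∈ ((z.support : Set (Fin n))ᶜ),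
        t y ∈ ((z.support : Set (Fin n))ᶜ) := by
      intro t ht y hy hty
      apply hy
      have h1 := hfix t⁻¹ (T.inv_mem ht) (t y) hty
      have h2 : y = t y := by simpa using h1
      rw [h2]; exact hty
    have hfaith : ∀ t ∈ T, (∀ y ∈ ((z.support : Set (Fin n))ᶜ), t y = y) → t = 1 := by
      intro t ht h
      apply Equiv.ext; intro y
      by_cases hy : y ∈ z.support
      · simpa using hfix t ht y hy
      · simpa using h y (by simpa using hy)
    have h1 := ns_emb T e hTcard _ hDinv hfaith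
    have h2 : Nat.card ((z.support : Set (Fin n))ᶜ : Set (Fin n)) + 4 ≤ n := by
      have h6 := Set.ncard_add_ncard_compl (z.support : Set (Fin n))
      rw [Set.ncard_coe_finset, hnΩ] at h6
      rw [Nat.card_coe_set_eq]
      omega
    have := ns_lt_aux n _ hn h2
    rw [hB, ← hTcard] at this
    omega
  have hsupp_ge : 3 ≤ z.support.card := by
    have h2 := Equiv.Perm.two_le_card_support_of_ne_one hz1
    by_contra hlt
    have h3 : z.support.card = 2 := by omega
    have h4 := (Equiv.Perm.card_support_eq_two.mp h3).orderOf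
    omega
  exact ⟨z, T, le_antisymm hsupp_le hsupp_ge, by rw [hB]; exact hTcard, hfix, hNeq⟩

/-- conjugacy of the nilpotent subgroups of maximal order when `n % 4 = 3`. -/
theorem ns_conj (n : ℕ) (hn : n % 4 = 3) (N₁ N₂ : Subgroup (Equiv.Perm (Fin n)))
    (h1 : Group.IsNilpotent N₁) (h2 : Group.IsNilpotent N₂)
    (hc1 : Nat.card N₁ = 3 * nsB (n - 3)) (hc2 : Nat.card N₂ = 3 * nsB (n - 3)) :
    ∃ g : Equiv.Perm (Fin n), N₂ = N₁.map (MulAut.conj g).toMonoidHom := by
  classical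
  haveI : Fact (Nat.Prime 2) := ⟨Nat.prime_two⟩
  obtain ⟨z₁, T₁, hs1, hT1, hf1, hN1⟩ := ns_extremal n hn N₁ h1 hc1
  obtain ⟨z₂, T₂, hs2, hT2, hf2, hN2⟩ := ns_extremal n hn N₂ h2 hc2
  have hconj : IsConj z₁ z₂ := by
    rw [Equiv.Perm.isConj_iff_cycleType_eq]
    have a1 : z₁.IsThreeCycle := card_support_eq_three_iff.mp hs1
    have a2 : z₂.IsThreeCycle := card_support_eq_three_iff.mp hs2
    exact a1.trans a2.symm
  obtain ⟨σ, hσ⟩ := isConj_iff.mp hconj
  obtain ⟨F, hF⟩ : ∃ F : Subgroup (Equiv.Perm (Fin n)),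
      F = fixingSubgroup (Equiv.Perm (Fin n)) (z₂.support : Set (Fin n)) := ⟨_, rfl⟩
  have hFmem : ∀ f, f ∈ F ↔ ∀ y ∈ z₂.support, f y = y := by
    intro f; rw [hF, mem_fixingSubgroup_iff]; simp
  obtain ⟨A, hA⟩ : ∃ A, A = T₁.map (MulAut.conj σ).toMonoidHom := ⟨_, rfl⟩
  have hAcard : Nat.card A = nsB (n - 3) := by
    rw [hA, Subgroup.card_map_of_injective (MulAut.conj σ).injective, hT1]
  have hAF : A ≤ F := by
    rw [hA]
    rintro _ ⟨t, ht, rfl⟩
    rw [hFmem]
    intro y hy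
    have hy' : σ⁻¹ y ∈ z₁.support := by
      rw [Equiv.Perm.mem_support] at hy ⊢
      intro h
      apply hy
      rw [← hσ]
      show σ (z₁ (σ⁻¹ y)) = y
      rw [h]; simp
    have hfx := hf1 t ht _ hy'
    show σ (t (σ⁻¹ y)) = y
    rw [hfx]; simp
  have hBF : T₂ ≤ F := by
    intro t ht; rw [hFmem]; exact hf2 t ht
  have hB2 : nsB (n - 3) = 2 ^ nsE (n - 3) := rfl
  have hpA : IsPGroup 2 A := IsPGroup.of_card (n := nsE (n - 3)) (by rw [hAcard, hB2])
  have hpB : IsPGroup 2 T₂ := IsPGroup.of_card (n := nsE (n - 3)) (by rw [hT2, hB2])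
  have hmax : ∀ Q : Subgroup (Equiv.Perm (Fin n)), Q ≤ F → IsPGroup 2 Q →
      Nat.card Q ≤ Nat.card A := by
    intro Q hQF hQ
    obtain ⟨m, hm⟩ := IsPGroup.iff_card.mp hQ
    have hDinv : ∀ t ∈ Q, ∀ y ∈ ((z₂.support : Set (Fin n))ᶜ),
        t y ∈ ((z₂.support : Set (Fin n))ᶜ) := by
      intro t ht y hy hty
      apply hy
      have h1 := (hFmem t⁻¹).mp (hQF (Q.inv_mem ht)) (t y) hty
      have h2 : y = t y := by simpa using h1
      rw [h2]; exact hty
    have hfaith : ∀ t ∈ Q, (∀ y ∈ ((z₂.support : Set (Fin n))ᶜ), t y = y) → t = 1 := by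
      intro t ht h
      apply Equiv.ext; intro y
      by_cases hy : y ∈ z₂.support
      · simpa using (hFmem t).mp (hQF ht) y hy
      · simpa using h y (by simpa using hy)
    have h1 := ns_emb Q m hm _ hDinv hfaith
    have h2 : Nat.card ((z₂.support : Set (Fin n))ᶜ : Set (Fin n)) = n - 3 := by
      have h6 := Set.ncard_add_ncard_compl (z₂.support : Set (Fin n))
      rw [Set.ncard_coe_finset, hs2] at h6
      rw [Nat.card_coe_set_eq]
      simp at h6
      omega
    rw [h2] at h1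
    rw [hAcard]; exact h1
  obtain ⟨h, hhF, hh⟩ := ns_conj_of_max F A T₂ 2 hAF hBF hpA hpB hmax (by rw [hT2, hAcard])
  refine ⟨h * σ, ?_⟩
  have hdisj : Equiv.Perm.Disjoint h z₂ := by
    intro y
    by_cases hy : y ∈ z₂.support
    · exact Or.inl ((hFmem h).mp hhF y hy)
    · exact Or.inr (by simpa using hy)
  have hcz : h * z₂ * h⁻¹ = z₂ := by
    rw [hdisj.commute.eq]; simp
  rw [hN1, hN2, Subgroup.map_sup, MonoidHom.map_zpowers]
  congr 1
  · rw [hh, hA, Subgroup.map_map]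
    congr 1
  · congr 1
    simp only [MulEquiv.coe_toMonoidHom, MulAut.conj_apply]
    rw [← hcz, ← hσ]; simp [mul_assoc]

/-- existence of a nilpotent subgroup `P × C₃` of the symmetric group on `n` letters. -/
theorem ns_exists (n : ℕ) (hn : n % 4 = 3) (P : Sylow 2 (Equiv.Perm (Fin (n - 3)))) :
    ∃ M : Subgroup (Equiv.Perm (Fin n)), Group.IsNilpotent M ∧ Nat.card M = 3 * Nat.card P ∧
      Nonempty (M ≃* (↥(P : Subgroup (Equiv.Perm (Fin (n - 3)))) × Multiplicative (ZMod 3))) := by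
  classical
  haveI : Fact (Nat.Prime 3) := ⟨Nat.prime_three⟩
  haveI : Fact (Nat.Prime 2) := ⟨Nat.prime_two⟩
  have hn3 : n - 3 + 3 = n := by omega
  obtain ⟨e, -⟩ : ∃ e : Fin (n - 3) ⊕ Fin 3 ≃ Fin n, e = finSumFinEquiv.trans (finCongr hn3) :=
    ⟨_, rfl⟩
  obtain ⟨ι, hιdef⟩ : ∃ ι : Equiv.Perm (Fin (n - 3)) × Equiv.Perm (Fin 3) →* Equiv.Perm (Fin n),
      ι = (e.permCongrHom.toMonoidHom).comp (Equiv.Perm.sumCongrHom (Fin (n - 3)) (Fin 3)) :=
    ⟨_, rfl⟩
  have hι : Function.Injective ι := by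
    rw [hιdef]
    exact e.permCongrHom.injective.comp Equiv.Perm.sumCongrHom_injective
  obtain ⟨A, hAdef⟩ : ∃ A : Subgroup (Equiv.Perm (Fin 3)), A = alternatingGroup (Fin 3) :=
    ⟨_, rfl⟩
  have hA : Nat.card A = 3 := by
    have h1 := two_mul_card_alternatingGroup (α := Fin 3)
    rw [Fintype.card_perm, Fintype.card_fin, ← Nat.card_eq_fintype_card] at h1
    rw [hAdef]
    have h2 : (3 : ℕ)! = 6 := by decide
    omega
  obtain ⟨M, hM⟩ : ∃ M : Subgroup (Equiv.Perm (Fin n)),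
      M = ((P : Subgroup (Equiv.Perm (Fin (n - 3)))).prod A).map ι := ⟨_, rfl⟩
  have iso1 : M ≃* ((P : Subgroup (Equiv.Perm (Fin (n - 3)))).prod A) := by
    rw [hM]; exact (Subgroup.equivMapOfInjective _ ι hι).symm
  have iso2 : ((P : Subgroup (Equiv.Perm (Fin (n - 3)))).prod A) ≃*
      (↥(P : Subgroup (Equiv.Perm (Fin (n - 3)))) × ↥A) := Subgroup.prodEquiv _ _
  have iso3 : ↥A ≃* Multiplicative (ZMod 3) :=
    mulEquivOfPrimeCardEq (p := 3) hA (by simp [Nat.card_eq_fintype_card])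
  have iso : M ≃* (↥(P : Subgroup (Equiv.Perm (Fin (n - 3)))) × Multiplicative (ZMod 3)) :=
    iso1.trans (iso2.trans (MulEquiv.prodCongr (MulEquiv.refl _) iso3))
  refine ⟨M, ?_, ?_, ⟨iso⟩⟩
  · haveI : Group.IsNilpotent (↥(P : Subgroup (Equiv.Perm (Fin (n - 3))))) :=
      P.isPGroup'.isNilpotent
    exact Group.nilpotent_of_mulEquiv iso.symm
  · rw [Nat.card_congr iso.toEquiv, Nat.card_prod]
    have h3 : Nat.card (Multiplicative (ZMod 3)) = 3 := by simp [Nat.card_eq_fintype_card]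
    rw [h3, mul_comm]

end Cfsg.Agent.Lib.Helper21
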