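import Mathlib
import Cfsg.Agent.Lib.Helper21.NilSym1

namespace Cfsg.Agent.Lib.Helper21

open Nat

/-- doubled bound for even nilpotent permutation groups. -/
def nsH (n : ℕ) : ℕ :=
  if n = 0 then 2 else if n = 1 then 2 else if n = 3 then 6 else if n = 5 then 10
  else if n = 6 then 18 else if n = 9 then 162 else nsG n

lemma nsE_table : nsE 3 = 1 ∧ nsE 5 = 3 ∧ nsE 6 = 4 ∧ nsE 7 = 4 ∧ nsE 8 = 7 ∧ nsE 9 = 7 ∧
    nsE 10 = 8 ∧ nsE 12 = 10 ∧ nsE 14 = 11 ∧ nsE 18 = 16 := by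
  have h3 : nsE 3 = 1 := by have := nsE_odd_succ 1; simpa [nsE_two] using this
  have h5 : nsE 5 = 3 := by have := nsE_odd_succ 2; simpa [nsE_four] using this
  have h6 : nsE 6 = 4 := by have := nsE_two_mul 3; simpa [h3] using this
  have h7 : nsE 7 = 4 := by have := nsE_odd_succ 3; simpa [h6] using this
  have h8 : nsE 8 = 7 := by have := nsE_two_mul 4; simpa [nsE_four] using this
  have h9 : nsE 9 = 7 := by have := nsE_odd_succ 4; simpa [h8] using this
  have h10 : nsE 10 = 8 := by have := nsE_two_mul 5; simpa [h5] using this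
  have h12 : nsE 12 = 10 := by have := nsE_two_mul 6; simpa [h6] using this
  have h14 : nsE 14 = 11 := by have := nsE_two_mul 7; simpa [h7] using this
  have h18 : nsE 18 = 16 := by have := nsE_two_mul 9; simpa [h9] using this
  exact ⟨h3, h5, h6, h7, h8, h9, h10, h12, h14, h18⟩

lemma nsB_table : nsB 2 = 2 ∧ nsB 3 = 2 ∧ nsB 5 = 8 ∧ nsB 6 = 16 ∧ nsB 8 = 128 ∧ nsB 9 = 128 ∧
    nsB 10 = 256 ∧ nsB 12 = 1024 ∧ nsB 14 = 2048 ∧ nsB 18 = 65536 := by
  obtain ⟨h3, h5, h6, h7, h8, h9, h10, h12, h14, h18⟩ := nsE_table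
  refine ⟨?_, ?_, ?_, ?_, ?_, ?_, ?_, ?_, ?_, ?_⟩ <;> unfold nsB
  · rw [nsE_two]; norm_num
  · rw [h3]; norm_num
  · rw [h5]; norm_num
  · rw [h6]; norm_num
  · rw [h8]; norm_num
  · rw [h9]; norm_num
  · rw [h10]; norm_num
  · rw [h12]; norm_num
  · rw [h14]; norm_num
  · rw [h18]; norm_num

lemma nsG_le_nsH (n : ℕ) : nsG n ≤ nsH n := by
  obtain ⟨b2, b3, b5, b6, b8, b9, b10, b12, b14, b18⟩ := nsB_table
  unfold nsH
  split_ifs with h0 h1 h3 h5 h6 h9
  · subst h0; simp [nsG, nsB_zero]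
  · subst h1; simp [nsG, nsB_one]
  · subst h3; simp [nsG, nsB_zero]
  · subst h5; simp [nsG, b5]
  · subst h6; simp [nsG, b6]
  · subst h9; simp [nsG, b9]
  · exact le_rfl

lemma nsH_good (n : ℕ) (h2 : 2 ≤ n) (hn : n % 4 ≠ 3) (h5 : n ≠ 5) (h6 : n ≠ 6) (h9 : n ≠ 9) :
    nsH n = nsB n := by
  unfold nsH nsG
  rw [if_neg (by omega), if_neg (by omega), if_neg (by omega), if_neg h5, if_neg h6, if_neg h9,
    if_neg hn]

lemma nsH_table : nsH 0 = 2 ∧ nsH 1 = 2 ∧ nsH 3 = 6 ∧ nsH 4 = 8 ∧ nsH 5 = 10 ∧ nsH 6 = 18 ∧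
    nsH 8 = 128 ∧ nsH 9 = 162 ∧ nsH 10 = 256 ∧ nsH 11 = 384 ∧ nsH 12 = 1024 ∧ nsH 14 = 2048 ∧
    nsH 15 = 3072 ∧ nsH 18 = 65536 := by
  obtain ⟨b2, b3, b5, b6, b8, b9, b10, b12, b14, b18⟩ := nsB_table
  refine ⟨?_, ?_, ?_, ?_, ?_, ?_, ?_, ?_, ?_, ?_, ?_, ?_, ?_, ?_⟩
  · simp [nsH]
  · simp [nsH]
  · simp [nsH]
  · simp [nsH, nsG, nsB_four]
  · simp [nsH]
  · simp [nsH]
  · simp [nsH, nsG, b8]
  · simp [nsH]
  · simp [nsH, nsG, b10]
  · simp [nsH, nsG, b8]
  · simp [nsH, nsG, b12]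
  · simp [nsH, nsG, b14]
  · simp [nsH, nsG, b12]
  · simp [nsH, nsG, b18]

lemma nsH_step (a c b : ℕ) (ha : 1 ≤ a) (hc : c ≤ nsT a) (h0 : b ≠ 0) (h1 : b ≠ 1) (h3 : b ≠ 3)
    (h5 : b ≠ 5) (h6 : b ≠ 6) (h9 : b ≠ 9) : c * nsH b ≤ nsH (a + b) := by
  have hb : nsH b = nsG b := by
    unfold nsH
    rw [if_neg h0, if_neg h1, if_neg h3, if_neg h5, if_neg h6, if_neg h9]
  rw [hb]
  calc c * nsG b ≤ nsT a * nsG b := Nat.mul_le_mul_right _ hc
    _ ≤ nsG (a + b) := ns_num1 a b ha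
    _ ≤ nsH (a + b) := nsG_le_nsH _

lemma nsH_step3 (b : ℕ) : 3 * nsH b ≤ nsH (3 + b) := by
  obtain ⟨t0, t1, t3, t4, t5, t6, t8, t9, t10, t11, t12, t14, t15, t18⟩ := nsH_table
  by_cases h0 : b = 0
  · subst h0; norm_num [t0, t3]
  by_cases h1 : b = 1
  · subst h1; norm_num [t1, t4]
  by_cases h3 : b = 3
  · subst h3; norm_num [t3, t6]
  by_cases h5 : b = 5
  · subst h5; norm_num [t5, t8]
  by_cases h6 : b = 6
  · subst h6; norm_num [t6, t9]
  by_cases h9 : b = 9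
  · subst h9; norm_num [t9, t12]
  exact nsH_step 3 3 b (by norm_num) (by simp [nsT]) h0 h1 h3 h5 h6 h9

lemma nsH_step5 (b : ℕ) : 5 * nsH b ≤ nsH (5 + b) := by
  obtain ⟨t0, t1, t3, t4, t5, t6, t8, t9, t10, t11, t12, t14, t15, t18⟩ := nsH_table
  obtain ⟨b2, b3, b5, b6, b8, b9, b10, b12, b14, b18⟩ := nsB_table
  by_cases h0 : b = 0
  · subst h0; norm_num [t0, t5]
  by_cases h1 : b = 1
  · subst h1; norm_num [t1, t6]
  by_cases h3 : b = 3
  · subst h3; norm_num [t3, t8]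
  by_cases h5 : b = 5
  · subst h5; norm_num [t5, t10]
  by_cases h6 : b = 6
  · subst h6; norm_num [t6, t11]
  by_cases h9 : b = 9
  · subst h9; norm_num [t9, t14]
  exact nsH_step 5 5 b (by norm_num) (by simp [nsT, b5]) h0 h1 h3 h5 h6 h9

lemma nsH_step9 (b : ℕ) : 81 * nsH b ≤ nsH (9 + b) := by
  obtain ⟨t0, t1, t3, t4, t5, t6, t8, t9, t10, t11, t12, t14, t15, t18⟩ := nsH_table
  obtain ⟨b2, b3, b5, b6, b8, b9, b10, b12, b14, b18⟩ := nsB_table
  by_cases h0 : b = 0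
  · subst h0; norm_num [t0, t9]
  by_cases h1 : b = 1
  · subst h1; norm_num [t1, t10]
  by_cases h3 : b = 3
  · subst h3; norm_num [t3, t12]
  by_cases h5 : b = 5
  · subst h5; norm_num [t5, t14]
  by_cases h6 : b = 6
  · subst h6; norm_num [t6, t15]
  by_cases h9 : b = 9
  · subst h9; norm_num [t9, t18]
  exact nsH_step 9 81 b (by norm_num) (by simp [nsT, b9]) h0 h1 h3 h5 h6 h9

lemma ns_num3' (m : ℕ) (hm : 2 ≤ m) (hm3 : m ≠ 3) : 6 * nsT m ≤ nsB (3 * m) := by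
  obtain ⟨b2, b3, b5, b6, b8, b9, b10, b12, b14, b18⟩ := nsB_table
  rcases Nat.lt_or_ge m 4 with h | h
  · have h2 : m = 2 := by omega
    subst h2
    simp [nsT, b2, b6]
  · have hT : nsT m = nsB m := by unfold nsT; rw [if_neg (by omega)]
    have h2 := nsB_add m (2 * m)
    have h3 : nsB 8 ≤ nsB (2 * m) := nsB_mono (by omega)
    rw [b8] at h3
    rw [show m + 2 * m = 3 * m by ring] at h2
    have := nsB_pos m
    rw [hT]; nlinarith

lemma ns_numq' (q m : ℕ) (hq : 5 ≤ q) (hm : 2 ≤ m) (x y : ℕ) (hx : x ≤ nsB (q - 1))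
    (hy : y ≤ nsT m) : 2 * (x * y) ≤ nsB (q * m) := by
  have h1 := nsT_le m
  have h2 := nsB_add (q - 1) m
  have h3 := nsB_add (q - 1 + m) ((q - 1) * (m - 1))
  have h4 : nsB 4 ≤ nsB ((q - 1) * (m - 1)) := by
    apply nsB_mono
    have : 4 * 1 ≤ (q - 1) * (m - 1) := Nat.mul_le_mul (by omega) (by omega)
    omega
  rw [nsB_four] at h4
  have h5 : q - 1 + m + (q - 1) * (m - 1) = q * m := by
    obtain ⟨q', rfl⟩ : ∃ q', q = q' + 1 := ⟨q - 1, by omega⟩
    obtain ⟨m', rfl⟩ : ∃ m', m = m' + 1 := ⟨m - 1, by omega⟩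
    simp only [Nat.add_sub_cancel]
    ring
  rw [h5] at h3
  have hp1 := nsB_pos (q - 1)
  have hp2 := nsB_pos m
  have h6 : 8 * (nsB (q - 1) * nsB m) ≤ nsB (q * m) := by nlinarith
  have h7 : x * y ≤ nsB (q - 1) * (2 * nsB m) := Nat.mul_le_mul hx (hy.trans h1)
  nlinarith

lemma ns_36_27' (u : ℕ) (hu : 4 ≤ u) : 6 * 27 ^ u ≤ 2 * 36 ^ u := by
  induction u, hu using Nat.le_induction with
  | base => norm_num
  | succ u hu ih =>
    have h27 : 0 < 27 ^ u := by positivity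
    rw [pow_succ, pow_succ]; nlinarith

lemma ns_key3' (a : ℕ) (ha : 3 ≤ a) :
    ∃ u, 3 ^ a = 2 * u + 1 ∧ 2 * 3 ^ u ≤ 2 ^ nsE (2 * u) := by
  obtain ⟨a', rfl⟩ : ∃ a', a = a' + 1 := ⟨a - 1, by omega⟩
  obtain ⟨u, hu, hu2, hle⟩ := ns_key3 a' (by omega)
  have hu4 : 4 ≤ u := by
    have : 3 ^ 2 ≤ 3 ^ a' := Nat.pow_le_pow_right (by norm_num) (by omega)
    omega
  refine ⟨3 * u + 1, by rw [pow_succ, hu]; ring, ?_⟩
  have e1 : nsE (2 * u) + nsE (4 * u + 2) ≤ nsE (2 * (3 * u + 1)) := by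
    have := nsE_add (2 * u) (4 * u + 2)
    rwa [show 2 * u + (4 * u + 2) = 2 * (3 * u + 1) by ring] at this
  have e2 : nsE (4 * u + 2) = 2 * u + 1 + nsE (2 * u + 1) := by
    have := nsE_two_mul (2 * u + 1)
    rwa [show 2 * (2 * u + 1) = 4 * u + 2 by ring] at this
  have e3 : nsE (2 * u) ≤ nsE (2 * u + 1) := nsE_mono (by omega)
  have e4 : 2 * nsE (2 * u) + (2 * u + 1) ≤ nsE (2 * (3 * u + 1)) := by omega
  calc 2 * 3 ^ (3 * u + 1) = 6 * 27 ^ u := by rw [pow_succ, pow_mul]; norm_num; ring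
    _ ≤ 2 * 36 ^ u := ns_36_27' u hu4
    _ = (3 ^ u) ^ 2 * 2 ^ (2 * u + 1) := by
        have h36 : (36 : ℕ) ^ u = (3 ^ u) ^ 2 * (2 ^ u) ^ 2 := by
          rw [show (36 : ℕ) = 6 ^ 2 by norm_num, ← pow_mul, Nat.mul_comm 2 u, pow_mul,
            show (6 : ℕ) = 3 * 2 by norm_num, mul_pow, mul_pow]
        have h2 : (2 : ℕ) ^ (2 * u + 1) = (2 ^ u) ^ 2 * 2 := by
          rw [pow_succ, Nat.mul_comm 2 u, pow_mul]
        rw [h36, h2]; ring
    _ ≤ (2 ^ nsE (2 * u)) ^ 2 * 2 ^ (2 * u + 1) :=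
        Nat.mul_le_mul_right _ (Nat.pow_le_pow_left hle 2)
    _ = 2 ^ (2 * nsE (2 * u) + (2 * u + 1)) := by rw [← pow_mul, ← pow_add, mul_comm]
    _ ≤ 2 ^ nsE (2 * (3 * u + 1)) := Nat.pow_le_pow_right (by norm_num) e4

lemma ns_two_five (v : ℕ) (hv : 2 ≤ v) : 2 * 5 ^ v ≤ 8 ^ v := by
  induction v, hv using Nat.le_induction with
  | base => norm_num
  | succ v hv ih =>
    have h5 : 0 < 5 ^ v := by positivity
    rw [pow_succ, pow_succ]; nlinarith

/-- sharper version of `ns_key` with a factor `2`, for `p^a ≥ 7`, `p^a ≠ 9`. -/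
lemma ns_key2 (p a : ℕ) (hp : p.Prime) (hp2 : p ≠ 2) (hq : 7 ≤ p ^ a) (hq9 : p ^ a ≠ 9) :
    2 * p ^ padicValNat p (p ^ a)! ≤ nsB (p ^ a - 1) := by
  haveI : Fact p.Prime := ⟨hp⟩
  obtain ⟨b2, b3, b5, b6, b8, b9, b10, b12, b14, b18⟩ := nsB_table
  have hq0 : p ^ a ≠ 0 := by omega
  have hlt := sub_one_mul_padicValNat_factorial_lt_of_ne_zero (p := p) hq0
  obtain ⟨v, hv⟩ : ∃ v, v = padicValNat p (p ^ a)! := ⟨_, rfl⟩
  rw [← hv] at hlt ⊢
  have hp3 : 3 ≤ p := by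
    have := hp.two_le
    omega
  by_cases h3 : p = 3
  · subst h3
    have ha : 3 ≤ a := by
      by_contra hcon
      have : a = 0 ∨ a = 1 ∨ a = 2 := by omega
      rcases this with rfl | rfl | rfl
      · norm_num at hq
      · norm_num at hq
      · norm_num at hq9
    obtain ⟨u, hu, hle⟩ := ns_key3' a ha
    have hvu : v ≤ u := by omega
    unfold nsB
    calc 2 * 3 ^ v ≤ 2 * 3 ^ u := Nat.mul_le_mul_left _ (Nat.pow_le_pow_right (by norm_num) hvu)
      _ ≤ 2 ^ nsE (2 * u) := hle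
      _ = 2 ^ nsE (3 ^ a - 1) := by rw [hu]; simp
  · by_cases h5 : p = 5
    · subst h5
      have h4v : 4 * v ≤ 5 ^ a - 1 := by omega
      have e1 : nsE (4 * v) = 2 * v + nsE (2 * v) := by
        have := nsE_two_mul (2 * v)
        rwa [show 2 * (2 * v) = 4 * v by ring] at this
      have e2 := nsE_two_mul v
      have e3 : 3 * v ≤ nsE (5 ^ a - 1) := by
        have := nsE_mono h4v
        omega
      rcases Nat.lt_or_ge v 2 with hv2 | hv2
      · have ha2 : 2 ≤ a := by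
          by_contra hcon
          have : a = 0 ∨ a = 1 := by omega
          rcases this with rfl | rfl
          · norm_num at hq
          · norm_num at hq
        have h25 : 5 ^ 2 ≤ 5 ^ a := Nat.pow_le_pow_right (by norm_num) ha2
        have h8 : nsB 8 ≤ nsB (5 ^ a - 1) := nsB_mono (by omega)
        rw [b8] at h8
        have : 5 ^ v ≤ 5 ^ 1 := Nat.pow_le_pow_right (by norm_num) (by omega)
        omega
      · unfold nsB
        calc 2 * 5 ^ v ≤ 8 ^ v := ns_two_five v hv2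
          _ = 2 ^ (3 * v) := by rw [pow_mul]; norm_num
          _ ≤ 2 ^ nsE (5 ^ a - 1) := Nat.pow_le_pow_right (by norm_num) e3
    · have hodd : p % 2 = 1 := by
        rcases hp.eq_two_or_odd with h | h
        · exact absurd h hp2
        · exact h
      have hp7 : 7 ≤ p := by
        by_contra hcon
        have : p = 4 ∨ p = 6 := by omega
        rcases this with rfl | rfl <;> omega
      obtain ⟨c, rfl⟩ : ∃ c, p = 2 * c + 1 := ⟨p / 2, by omega⟩
      have hc : 3 ≤ c := by omega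
      have h1 : 2 * c * v ≤ (2 * c + 1) ^ a - 1 := by
        have : (2 * c + 1 - 1) * v < (2 * c + 1) ^ a := hlt
        rw [show 2 * c + 1 - 1 = 2 * c by omega] at this
        omega
      rcases Nat.eq_zero_or_pos v with hv0 | hv0
      · rw [hv0, pow_zero]
        have h6 : nsB 6 ≤ nsB ((2 * c + 1) ^ a - 1) := nsB_mono (by omega)
        rw [b6] at h6
        omega
      · have e1 : c * v + 1 ≤ nsE ((2 * c + 1) ^ a - 1) := by
          have h2 := nsE_mono h1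
          have h3 := nsE_two_mul (c * v)
          rw [show 2 * (c * v) = 2 * c * v by ring] at h3
          have h4 : nsE 2 ≤ nsE (c * v) := nsE_mono (by nlinarith)
          rw [nsE_two] at h4
          omega
        unfold nsB
        calc 2 * (2 * c + 1) ^ v ≤ 2 * (2 ^ c) ^ v :=
              Nat.mul_le_mul_left _ (Nat.pow_le_pow_left (ns_two_pow_ge c hc) v)
          _ = 2 ^ (c * v + 1) := by rw [← pow_mul, pow_succ, mul_comm]
          _ ≤ 2 ^ nsE ((2 * c + 1) ^ a - 1) := Nat.pow_le_pow_right (by norm_num) e1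

/-- numeric consequences of the structure of a transitive nilpotent group that is not a 2-group. -/
lemma ns_trans2_num (p a m d x : ℕ) (hp : p.Prime) (hp2 : p ≠ 2) (ha : 1 ≤ a) (hm : 1 ≤ m)
    (hd : d = p ^ a * m) (hx : x ≤ p ^ padicValNat p (p ^ a)! * nsT m) :
    (d ≠ 3 → d ≠ 5 → d ≠ 9 → 2 * x ≤ nsB d) ∧ (d = 3 → x ≤ 3) ∧ (d = 5 → x ≤ 5) ∧
      (d = 9 → x ≤ 81) := by
  haveI : Fact p.Prime := ⟨hp⟩
  obtain ⟨b2, b3, b5, b6, b8, b9, b10, b12, b14, b18⟩ := nsB_table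
  have hp3 : 3 ≤ p := by
    have := hp.two_le
    omega
  have hq3 : 3 ≤ p ^ a := le_trans hp3 (Nat.le_self_pow (by omega) p)
  have hq0 : p ^ a ≠ 0 := by omega
  have hlt := sub_one_mul_padicValNat_factorial_lt_of_ne_zero (p := p) hq0
  obtain ⟨v, hv⟩ : ∃ v, v = padicValNat p (p ^ a)! := ⟨_, rfl⟩
  rw [← hv] at hlt hx
  have hqodd : p ^ a % 2 = 1 := by
    have hodd : Odd p := hp.odd_of_ne_two hp2
    exact Nat.odd_iff.mp hodd.pow
  have hT1 : nsT 1 = 1 := by simp [nsT, nsB_one]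
  have hT3 : nsT 3 = 3 := by simp [nsT]
  have hpdvd : p ∣ p ^ a := dvd_pow_self p (by omega)
  by_cases hq35 : p ^ a = 3
  · have hp3' : p = 3 := by
      rw [hq35] at hpdvd
      exact (Nat.prime_dvd_prime_iff_eq hp Nat.prime_three).mp hpdvd
    subst hp3'
    have hv1 : v ≤ 1 := by
      rw [hq35] at hlt; omega
    have hx' : x ≤ 3 * nsT m := by
      calc x ≤ 3 ^ v * nsT m := hx
        _ ≤ 3 ^ 1 * nsT m := Nat.mul_le_mul_right _ (Nat.pow_le_pow_right (by norm_num) hv1)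
        _ = 3 * nsT m := by norm_num
    rw [hq35] at hd
    refine ⟨?_, ?_, ?_, ?_⟩
    · intro d3 d5 d9
      have h6 := ns_num3' m (by omega) (by omega)
      rw [hd]; omega
    · intro d3
      have : m = 1 := by omega
      subst this
      rw [hT1] at hx'; omega
    · intro d5; omega
    · intro d9
      have : m = 3 := by omega
      subst this
      rw [hT3] at hx'; omega
  · have hq5 : 5 ≤ p ^ a := by omega
    have hkey := ns_key p a hp hp2 hq5
    rw [← hv] at hkey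
    rcases Nat.lt_or_ge m 2 with hm2 | hm2
    · have hm1 : m = 1 := by omega
      subst hm1
      rw [hT1, mul_one] at hx
      rw [mul_one] at hd
      refine ⟨?_, ?_, ?_, ?_⟩
      · intro d3 d5 d9
        have hk2 := ns_key2 p a hp hp2 (by omega) (by omega)
        rw [← hv] at hk2
        have hmono : nsB (p ^ a - 1) ≤ nsB d := nsB_mono (by omega)
        omega
      · intro d3; omega
      · intro d5
        have hp5 : p = 5 := by
          rw [← hd, d5] at hpdvd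
          exact (Nat.prime_dvd_prime_iff_eq hp Nat.prime_five).mp hpdvd
        subst hp5
        have hv1 : v ≤ 1 := by
          rw [← hd, d5] at hlt; omega
        calc x ≤ 5 ^ v := hx
          _ ≤ 5 ^ 1 := Nat.pow_le_pow_right (by norm_num) hv1
          _ = 5 := by norm_num
      · intro d9
        have hp3' : p = 3 := by
          rw [← hd, d9] at hpdvd
          have h9 : p ∣ 3 ^ 2 := by norm_num; exact hpdvd
          exact (Nat.prime_dvd_prime_iff_eq hp Nat.prime_three).mp (hp.dvd_of_dvd_pow h9)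
        subst hp3'
        have hv4 : v ≤ 4 := by
          rw [← hd, d9] at hlt; omega
        calc x ≤ 3 ^ v := hx
          _ ≤ 3 ^ 4 := Nat.pow_le_pow_right (by norm_num) hv4
          _ = 81 := by norm_num
    · have h10 : 10 ≤ d := by rw [hd]; nlinarith
      have hmain := ns_numq' (p ^ a) m hq5 hm2 (p ^ v) (nsT m) hkey le_rfl
      refine ⟨?_, ?_, ?_, ?_⟩
      · intro _ _ _
        rw [hd]; omega
      · intro d3; omega
      · intro d5; omega
      · intro d9; omega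

end Cfsg.Agent.Lib.Helper21
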