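import Mathlib
import Cfsg.Agent.Lib.Helper21.NilSym2
import Cfsg.Agent.Lib.Helper21.NilSym4

namespace Cfsg.Agent.Lib.Helper21

open Nat

/-- structure of transitive nilpotent permutation groups that are not 2-groups. -/
theorem ns_trans2 (n : ℕ) (Ω : Type) [Finite Ω] (N : Subgroup (Equiv.Perm Ω))
    (hN : Group.IsNilpotent N) (htr : MulAction.IsPretransitive N Ω) (hcard : Nat.card Ω = n)
    (hodd : ∃ p : ℕ, p.Prime ∧ p ≠ 2 ∧ p ∣ Nat.card N) :
    ∃ p a m : ℕ, p.Prime ∧ p ≠ 2 ∧ 1 ≤ a ∧ 1 ≤ m ∧ n = p ^ a * m ∧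
      Nat.card N ≤ p ^ padicValNat p (p ^ a)! * nsT m := by
  haveI := hN
  haveI := htr
  obtain ⟨p, hp, hp2, hpN⟩ := hodd
  haveI : Fact p.Prime := ⟨hp⟩
  obtain ⟨P⟩ := (inferInstance : Nonempty (Sylow p N))
  have hne : Nonempty Ω := by
    by_contra hcon
    rw [not_nonempty_iff] at hcon
    have h1 : Nat.card N = 1 := by
      rw [Nat.card_eq_one_iff_unique]
      exact ⟨⟨fun a b => Subtype.ext (Equiv.ext (fun x => isEmptyElim x))⟩, ⟨1⟩⟩
    rw [h1] at hpN
    exact hp.one_lt.ne' (Nat.dvd_one.mp hpN)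
  obtain ⟨ω⟩ := hne
  obtain ⟨PS, hPS⟩ : ∃ PS : Subgroup N, PS = (P : Subgroup N) := ⟨_, rfl⟩
  haveI hPn : PS.Normal := hPS ▸ (inferInstance : (P : Subgroup N).Normal)
  have hPp : IsPGroup p ↥PS := hPS ▸ P.isPGroup'
  have hPk : Nat.card PS = p ^ (Nat.card N).factorization p := hPS ▸ P.card_eq_multiplicity
  have hPC : PS ⊔ Subgroup.centralizer (PS : Set N) = ⊤ := hPS ▸ ns_sylow_sup_centralizer p P
  have hk1 : 1 ≤ (Nat.card N).factorization p :=
    hp.factorization_pos_of_dvd Nat.card_pos.ne' hpN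
  have hdec : ∀ g : N, ∃ y ∈ PS, ∃ c ∈ Subgroup.centralizer (PS : Set N), g = y * c := by
    intro g
    have hg : g ∈ (↑(PS ⊔ Subgroup.centralizer (PS : Set N)) : Set N) := by
      rw [hPC]; exact Set.mem_univ g
    rw [Subgroup.normal_mul] at hg
    obtain ⟨y, hy, c, hc, rfl⟩ := Set.mem_mul.mp hg
    exact ⟨y, hy, c, hc, rfl⟩
  -- faithfulness of P on its orbit
  have hfaith : ∀ y ∈ PS, (∀ z ∈ PS, y • (z • ω) = z • ω) → y = 1 := by
    intro y hy hfix
    apply Subtype.ext
    apply Equiv.ext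
    intro x
    obtain ⟨g, rfl⟩ := MulAction.exists_smul_eq N ω x
    obtain ⟨z, hz, c, hc, rfl⟩ := hdec g
    have hcz : z * c = c * z := (Subgroup.mem_centralizer_iff.mp hc z hz)
    have hcy : y * c = c * y := (Subgroup.mem_centralizer_iff.mp hc y hy)
    change y • ((z * c) • ω) = (z * c) • ω
    rw [hcz, mul_smul, ← mul_smul y c, hcy, mul_smul, hfix z hz]
  obtain ⟨a, ha⟩ := hPp.card_orbit ω
  have hinj : Function.Injective (MulAction.toPermHom ↥PS (MulAction.orbit ↥PS ω)) := by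
    rw [injective_iff_map_eq_one]
    intro y hy
    have : (y : N) = 1 := by
      apply hfaith y y.2
      intro z hz
      have := congrArg (fun σ => ((σ ⟨(⟨z, hz⟩ : ↥PS) • ω, MulAction.mem_orbit _ _⟩ :
        MulAction.orbit ↥PS ω) : Ω)) hy
      exact this
    exact Subtype.ext this
  have hPcard : Nat.card PS ∣ (p ^ a) ! := by
    have := Subgroup.card_dvd_of_injective _ hinj
    rwa [Nat.card_perm, ha] at this
  have hkv : (Nat.card N).factorization p ≤ padicValNat p (p ^ a) ! := by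
    rw [hPk] at hPcard
    exact (padicValNat_dvd_iff_le (Nat.factorial_ne_zero _)).mp hPcard
  have ha1 : 1 ≤ a := by
    by_contra hcon
    have ha0 : a = 0 := by omega
    rw [ha0, pow_zero, Nat.factorial_one, hPk, Nat.dvd_one] at hPcard
    rcases Nat.pow_eq_one.mp hPcard with h | h
    · exact hp.one_lt.ne' h
    · omega
  have hp3 : 3 ≤ p := by
    have := hp.two_le
    omega
  have hq3 : 3 ≤ p ^ a := le_trans hp3 (Nat.le_self_pow (by omega) p)
  obtain ⟨St, hSt⟩ : ∃ St : Subgroup N, St = MulAction.stabilizer N ω := ⟨_, rfl⟩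
  obtain ⟨M, hM⟩ : ∃ M : Subgroup N, M = PS ⊔ St := ⟨_, rfl⟩
  obtain ⟨ff, hff⟩ : ∃ ff : N →* Equiv.Perm (N ⧸ M), ff = MulAction.toPermHom N (N ⧸ M) := ⟨_, rfl⟩
  have hker : ff.ker = M.normalCore := by rw [hff, Subgroup.normalCore_eq_ker]
  have hpres : ∀ x ∈ M.normalCore, ∀ ω' : Ω, ∃ y ∈ PS, x • ω' = y • ω' := by
    intro x hx ω'
    obtain ⟨g, rfl⟩ := MulAction.exists_smul_eq N ω ω'
    have h1 : g⁻¹ * x * g⁻¹⁻¹ ∈ M := hx g⁻¹
    rw [inv_inv, hM] at h1
    have h2 : g⁻¹ * x * g ∈ (↑(PS ⊔ St) : Set N) := h1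
    rw [Subgroup.normal_mul] at h2
    obtain ⟨y, hy, s, hs, hys⟩ := Set.mem_mul.mp h2
    refine ⟨g * y * g⁻¹, hPn.conj_mem y hy g, ?_⟩
    have hs' : s • ω = ω := by
      rw [hSt] at hs; exact MulAction.mem_stabilizer_iff.mp hs
    have : x * g = g * (y * s) := by rw [hys]; group
    calc x • g • ω = (x * g) • ω := (mul_smul _ _ _).symm
      _ = (g * (y * s)) • ω := by rw [this]
      _ = g • y • s • ω := by rw [mul_smul, mul_smul]
      _ = g • y • ω := by rw [hs']
      _ = (g * y * g⁻¹) • g • ω := by rw [mul_smul, mul_smul, inv_smul_smul]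
  have hKp : ∀ {r : ℕ}, r.Prime → r ∣ Nat.card M.normalCore → r = p := by
    intro r hr hrK
    by_contra hrp
    haveI : Fact r.Prime := ⟨hr⟩
    obtain ⟨x, hx⟩ := exists_prime_orderOf_dvd_card' (G := ↥M.normalCore) r hrK
    have hxN : orderOf (x : N) = r := by rw [Subgroup.orderOf_coe]; exact hx
    have hcomm : ∀ y ∈ PS, (x : N) * y = y * (x : N) := by
      have hzp : IsPGroup r (Subgroup.zpowers (x : N)) := by
        apply IsPGroup.of_card (n := 1)
        rw [Nat.card_zpowers, hxN, pow_one]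
      obtain ⟨R, hR⟩ := hzp.exists_le_sylow
      have hxR : (x : N) ∈ (R : Subgroup N) := hR (Subgroup.mem_zpowers _)
      have hdis : Disjoint (R : Subgroup N) PS :=
        IsPGroup.disjoint_of_ne r p hrp _ _ R.isPGroup' hPp
      intro y hy
      exact (Subgroup.commute_of_normal_of_disjoint _ _ inferInstance hPn hdis _ _ hxR hy).eq
    have hfix : ∀ ω' : Ω, (x : N) • ω' = ω' := by
      intro ω'
      obtain ⟨y, hy, hxy⟩ := hpres x x.2 ω'
      have hpow : ∀ j : ℕ, (x : N) ^ j • ω' = y ^ j • ω' := by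
        intro j
        induction j with
        | zero => simp
        | succ j ihj =>
          have hc : (x : N) ^ j * y = y * (x : N) ^ j :=
            (Commute.pow_left (show Commute (x : N) y from hcomm y hy) j).eq
          rw [pow_succ, mul_smul, hxy, ← mul_smul, hc, mul_smul, ihj, ← mul_smul, _root_.pow_succ']
      have hyk : y ^ (p ^ (Nat.card N).factorization p) = 1 := by
        have := pow_card_eq_one' (G := ↥PS) (x := ⟨y, hy⟩)
        rw [hPk] at this
        exact congrArg Subtype.val this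
      have h1 : (x : N) ^ (p ^ (Nat.card N).factorization p) • ω' = ω' := by
        rw [hpow, hyk, one_smul]
      have hcop : Nat.Coprime (p ^ (Nat.card N).factorization p) r := by
        apply Nat.Coprime.pow_left
        exact (Nat.coprime_primes hp hr).mpr (fun h => hrp h.symm)
      obtain ⟨v, -, hv⟩ := Nat.exists_mul_mod_eq_one_of_coprime hcop hr.one_lt
      have hx1 : (x : N) = ((x : N) ^ (p ^ (Nat.card N).factorization p)) ^ v := by
        rw [← pow_mul, ← pow_mod_orderOf, hxN, hv, pow_one]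
      rw [hx1]
      exact MulAction.mem_stabilizer_iff.mp
        (Subgroup.pow_mem _ (MulAction.mem_stabilizer_iff.mpr h1) v)
    have hx1 : (x : N) = 1 := by
      apply Subtype.ext; apply Equiv.ext; intro ω'
      exact hfix ω'
    rw [hx1, orderOf_one] at hxN
    exact hr.one_lt.ne' hxN.symm
  have hKle : Nat.card M.normalCore ≤ Nat.card PS := by
    have hK0 : Nat.card M.normalCore ≠ 0 := Nat.card_pos.ne'
    have h := Nat.eq_prime_pow_of_unique_prime_dvd hK0 (fun {d} hd hdd => hKp hd hdd)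
    have hKpg : IsPGroup p M.normalCore := IsPGroup.of_card h
    obtain ⟨Q, hQ⟩ := hKpg.exists_le_sylow
    calc Nat.card M.normalCore ≤ Nat.card (Q : Subgroup N) :=
          Nat.le_of_dvd Nat.card_pos (Subgroup.card_dvd_of_le hQ)
      _ = p ^ (Nat.card N).factorization p := Q.card_eq_multiplicity
      _ = Nat.card PS := hPk.symm
  have hNcard : Nat.card N = Nat.card M.normalCore * Nat.card ff.range := by
    rw [← hker, ← Subgroup.index_ker, Subgroup.card_mul_index]
  have hnqm : n = p ^ a * M.index := by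
    have h1 : St.index = Nat.card Ω := by
      rw [hSt]; exact MulAction.index_stabilizer_of_transitive N ω
    have h2 : St.relIndex M * M.index = St.index :=
      Subgroup.relIndex_mul_index (by rw [hM]; exact le_sup_right)
    have h3 : St.relIndex M = p ^ a := by
      have e1 : St.subgroupOf M = MulAction.stabilizer ↥M ω := by
        ext x
        rw [Subgroup.mem_subgroupOf, hSt, MulAction.mem_stabilizer_iff,
          MulAction.mem_stabilizer_iff]
        rfl
      have e2 : MulAction.orbit ↥M ω = MulAction.orbit ↥PS ω := by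
        ext x
        constructor
        · rintro ⟨⟨g, hg⟩, rfl⟩
          have hg' : g ∈ (↑(PS ⊔ St) : Set N) := by rw [← hM]; exact hg
          rw [Subgroup.normal_mul] at hg'
          obtain ⟨y, hy, s, hs, rfl⟩ := Set.mem_mul.mp hg'
          refine ⟨⟨y, hy⟩, ?_⟩
          change y • ω = (y * s) • ω
          rw [hSt] at hs
          rw [mul_smul, MulAction.mem_stabilizer_iff.mp hs]
        · rintro ⟨⟨y, hy⟩, rfl⟩
          exact ⟨⟨y, by rw [hM]; exact le_sup_left (a := PS) hy⟩, rfl⟩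
      unfold Subgroup.relIndex
      rw [e1, MulAction.index_stabilizer, e2, ← Nat.card_coe_set_eq, ha]
    rw [← hcard, ← h1, ← h2, h3]
  have hm1 : 1 ≤ M.index := Nat.one_le_iff_ne_zero.mpr Subgroup.index_ne_zero_of_finite
  have hlt : M.index < n := by rw [hnqm]; nlinarith
  have hRnil : Group.IsNilpotent ff.range :=
    Group.nilpotent_of_surjective ff.rangeRestrict ff.rangeRestrict_surjective
  have hRtr : MulAction.IsPretransitive ff.range (N ⧸ M) := by
    constructor
    intro u v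
    obtain ⟨g, hg⟩ := MulAction.exists_smul_eq N u v
    refine ⟨⟨ff g, ⟨g, rfl⟩⟩, ?_⟩
    rw [← hg, hff]
    rfl
  have hR := ns_trans M.index (N ⧸ M) ff.range hRnil hRtr rfl
  have hPle : Nat.card PS ≤ p ^ padicValNat p (p ^ a) ! := by
    rw [hPk]; exact Nat.pow_le_pow_right hp.pos hkv
  have hNle : Nat.card N ≤ Nat.card PS * nsT M.index := by
    rw [hNcard]; exact Nat.mul_le_mul hKle hR
  exact ⟨p, a, M.index, hp, hp2, ha1, hm1, hnqm, hNle.trans (Nat.mul_le_mul_right _ hPle)⟩

/-- even nilpotent permutation groups: doubled order bound. -/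
theorem ns_alt : ∀ (n : ℕ) (Ω : Type) [Fintype Ω] [DecidableEq Ω] (N : Subgroup (Equiv.Perm Ω)),
    Group.IsNilpotent N → (∀ g ∈ N, Equiv.Perm.sign g = 1) → Nat.card Ω = n →
    2 * Nat.card N ≤ nsH n := by
  intro n
  induction n using Nat.strong_induction_on with
  | _ n ih =>
  intro Ω _ _ N hN heven hcard
  haveI := hN
  classical
  by_cases hodd : ∃ p : ℕ, p.Prime ∧ p ≠ 2 ∧ p ∣ Nat.card N
  swap
  · have hN0 : Nat.card N ≠ 0 := Nat.card_pos.ne'
    have h2 := Nat.eq_prime_pow_of_unique_prime_dvd (p := 2) hN0 (by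
      intro d hd hdd
      by_contra hne
      exact hodd ⟨d, hd, hne, hdd⟩)
    obtain ⟨k, hk⟩ : ∃ k, Nat.card N = 2 ^ k := ⟨_, h2⟩
    rcases Nat.lt_or_ge n 2 with hn2 | hn2
    · have h1 : Nat.card N = 1 := by
        have hdvd := Subgroup.card_subgroup_dvd_card N
        rw [Nat.card_perm, hcard] at hdvd
        have hf : n ! = 1 := by interval_cases n <;> rfl
        rw [hf] at hdvd
        exact Nat.dvd_one.mp hdvd
      rw [h1]
      have hH : nsH n = 2 := by
        obtain ⟨t0, t1, -⟩ := nsH_table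
        interval_cases n
        · exact t0
        · exact t1
      omega
    · haveI : Nontrivial Ω := by
        rw [← Fintype.one_lt_card_iff_nontrivial, ← Nat.card_eq_fintype_card, hcard]; omega
      have hle : N ≤ alternatingGroup Ω :=
        fun g hg => Equiv.Perm.mem_alternatingGroup.mpr (heven g hg)
      have hdvd := Subgroup.card_dvd_of_le hle
      have h2A := two_mul_nat_card_alternatingGroup (α := Ω)
      rw [Nat.card_perm, hcard] at h2A
      have hdvd2 : 2 * Nat.card N ∣ n ! := by rw [← h2A]; exact Nat.mul_dvd_mul_left 2 hdvd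
      rw [hk, ← _root_.pow_succ'] at hdvd2
      haveI : Fact (Nat.Prime 2) := ⟨Nat.prime_two⟩
      have hle2 := (padicValNat_dvd_iff_le (p := 2) (Nat.factorial_ne_zero n)).mp hdvd2
      calc 2 * Nat.card N = 2 ^ (k + 1) := by rw [hk, _root_.pow_succ']
        _ ≤ nsB n := Nat.pow_le_pow_right (by norm_num) hle2
        _ ≤ nsG n := nsB_le_nsG n
        _ ≤ nsH n := nsG_le_nsH n
  obtain ⟨p, hp, hp2, hpN⟩ := hodd
  haveI : Fact p.Prime := ⟨hp⟩
  obtain ⟨x, hx⟩ := exists_prime_orderOf_dvd_card' (G := N) p hpN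
  have hx1 : (x : Equiv.Perm Ω) ≠ 1 := by
    intro h
    have h1 : x = 1 := Subtype.ext h
    rw [h1, orderOf_one] at hx
    exact hp.one_lt.ne' hx.symm
  obtain ⟨ω, hω⟩ : ∃ ω, (x : Equiv.Perm Ω) ω ≠ ω := by
    by_contra hcon
    apply hx1
    apply Equiv.ext
    intro y
    by_contra hy
    exact hcon ⟨y, hy⟩
  obtain ⟨q, hq⟩ : ∃ q : Ω → Prop, q = fun y => y ∈ MulAction.orbit N ω := ⟨_, rfl⟩
  have hqdef : ∀ y, q y ↔ y ∈ MulAction.orbit N ω := by
    intro y; rw [hq]
  have hqinv : ∀ g : N, ∀ y, q ((g : Equiv.Perm Ω) y) ↔ q y := by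
    intro g y
    rw [hq]
    show (g • y) ∈ MulAction.orbit N ω ↔ y ∈ MulAction.orbit N ω
    rw [← MulAction.orbit_eq_iff, MulAction.orbit_smul, MulAction.orbit_eq_iff]
  obtain ⟨r₁, hr₁⟩ : ∃ r₁ : N →* Equiv.Perm {y // q y},
      ∀ g : N, ∀ y : {y // q y}, ((r₁ g y : {y // q y}) : Ω) = (g : Equiv.Perm Ω) y :=
    ⟨{ toFun := fun g => (g : Equiv.Perm Ω).subtypePerm (hqinv g)
       map_one' := by ext y; rfl
       map_mul' := by intro g h; ext y; rfl }, fun g y => rfl⟩
  obtain ⟨r₂, hr₂⟩ : ∃ r₂ : N →* Equiv.Perm {y // ¬ q y},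
      ∀ g : N, ∀ y : {y // ¬ q y}, ((r₂ g y : {y // ¬ q y}) : Ω) = (g : Equiv.Perm Ω) y :=
    ⟨{ toFun := fun g => (g : Equiv.Perm Ω).subtypePerm (fun y => not_congr (hqinv g y))
       map_one' := by ext y; rfl
       map_mul' := by intro g h; ext y; rfl }, fun g y => rfl⟩
  have hsign : ∀ g : N, Equiv.Perm.sign (g : Equiv.Perm Ω) =
      Equiv.Perm.sign (r₁ g) * Equiv.Perm.sign (r₂ g) := by
    intro g
    have h1 : (g : Equiv.Perm Ω) = (r₁ g).subtypeCongr (r₂ g) := by
      apply Equiv.ext; intro y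
      by_cases hy : q y
      · rw [Equiv.Perm.subtypeCongr.left_apply _ _ hy, hr₁]
      · rw [Equiv.Perm.subtypeCongr.right_apply _ _ hy, hr₂]
    conv_lhs => rw [h1]
    rw [Equiv.Perm.sign_subtypeCongr]
  have hinj : Function.Injective (fun g : N => (r₁.rangeRestrict g, r₂.rangeRestrict g)) := by
    intro g h hgh
    simp only [Prod.mk.injEq] at hgh
    obtain ⟨h1, h2⟩ := hgh
    have h1' : r₁ g = r₁ h := congrArg Subtype.val h1
    have h2' : r₂ g = r₂ h := congrArg Subtype.val h2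
    apply Subtype.ext; apply Equiv.ext; intro y
    by_cases hy : q y
    · have e := congrArg (fun σ : Equiv.Perm {y // q y} => ((σ ⟨y, hy⟩ : {y // q y}) : Ω)) h1'
      simp only [hr₁] at e
      exact e
    · have e := congrArg (fun σ : Equiv.Perm {y // ¬ q y} => ((σ ⟨y, hy⟩ : {y // ¬ q y}) : Ω)) h2'
      simp only [hr₂] at e
      exact e
  have hcardle : Nat.card N ≤ Nat.card r₁.range * Nat.card r₂.range := by
    rw [← Nat.card_prod]
    exact Nat.card_le_card_of_injective _ hinj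
  have hab : Nat.card {y // q y} + Nat.card {y // ¬ q y} = n := by
    rw [← hcard, ← Nat.card_sum]
    exact Nat.card_congr (Equiv.sumCompl q)
  have hωq : q ω := by rw [hq]; exact MulAction.mem_orbit_self ω
  have ha1 : 1 ≤ Nat.card {y // q y} := by
    haveI : Nonempty {y // q y} := ⟨⟨ω, hωq⟩⟩
    exact Nat.card_pos
  have hAnil : Group.IsNilpotent r₁.range :=
    Group.nilpotent_of_surjective r₁.rangeRestrict r₁.rangeRestrict_surjective
  have hBnil : Group.IsNilpotent r₂.range :=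
    Group.nilpotent_of_surjective r₂.rangeRestrict r₂.rangeRestrict_surjective
  have htr : MulAction.IsPretransitive r₁.range {y // q y} := by
    constructor
    intro u v
    have hu : (u : Ω) ∈ MulAction.orbit N ω := (hqdef _).mp u.2
    have hv : (v : Ω) ∈ MulAction.orbit N ω := (hqdef _).mp v.2
    obtain ⟨g₁, hg₁⟩ := MulAction.mem_orbit_iff.mp hu
    obtain ⟨g₂, hg₂⟩ := MulAction.mem_orbit_iff.mp hv
    refine ⟨⟨r₁ (g₂ * g₁⁻¹), ⟨_, rfl⟩⟩, ?_⟩
    apply Subtype.ext
    show ((r₁ (g₂ * g₁⁻¹) u : {y // q y}) : Ω) = v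
    rw [hr₁, ← hg₁, ← hg₂]
    show (g₂ * g₁⁻¹) • (g₁ • ω) = g₂ • ω
    rw [mul_smul, inv_smul_smul]
  have hpA : p ∣ Nat.card r₁.range := by
    have ho : orderOf (r₁ x) = p := by
      apply orderOf_eq_prime
      · rw [← map_pow, ← hx, pow_orderOf_eq_one, map_one]
      · intro h
        have e := congrArg (fun σ : Equiv.Perm {y // q y} => ((σ ⟨ω, hωq⟩ : {y // q y}) : Ω)) h
        simp only [hr₁] at e
        exact hω e
    have ho' : orderOf (⟨r₁ x, ⟨x, rfl⟩⟩ : r₁.range) = p := by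
      rw [← Subgroup.orderOf_coe]; exact ho
    rw [← ho']
    exact orderOf_dvd_natCard _
  obtain ⟨p', a', m, hp', hp2', ha', hm, hd, hAle⟩ :=
    ns_trans2 (Nat.card {y // q y}) {y // q y} r₁.range hAnil htr rfl ⟨p, hp, hp2, hpA⟩
  obtain ⟨hA0, hA3, hA5, hA9⟩ :=
    ns_trans2_num p' a' m (Nat.card {y // q y}) (Nat.card r₁.range) hp' hp2' ha' hm hd hAle
  have hT := ns_trans (Nat.card {y // q y}) {y // q y} r₁.range hAnil htr rfl
  have hG := ns_general (Nat.card {y // ¬ q y}) {y // ¬ q y} r₂.range hBnil rfl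
  by_cases hodd1 : ∃ g : N, Equiv.Perm.sign (r₁ g) ≠ 1
  · obtain ⟨g₀, hg₀⟩ := hodd1
    obtain ⟨ψ, hψ⟩ : ∃ ψ : r₁.range × r₂.range →* ℤˣ,
        ∀ u : r₁.range × r₂.range, ψ u = Equiv.Perm.sign (u.1 : Equiv.Perm {y // q y}) *
          Equiv.Perm.sign (u.2 : Equiv.Perm {y // ¬ q y}) :=
      ⟨(Equiv.Perm.sign.comp r₁.range.subtype).coprod (Equiv.Perm.sign.comp r₂.range.subtype),
        fun u => rfl⟩
    have hK : ∀ g : N, (r₁.rangeRestrict g, r₂.rangeRestrict g) ∈ ψ.ker := by
      intro g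
      rw [MonoidHom.mem_ker, hψ]
      show Equiv.Perm.sign (r₁ g) * Equiv.Perm.sign (r₂ g) = 1
      rw [← hsign]; exact heven g g.2
    have hKne : ψ.ker ≠ ⊤ := by
      intro h
      have hmem : ((⟨r₁ g₀, ⟨g₀, rfl⟩⟩ : r₁.range), (1 : r₂.range)) ∈ ψ.ker := by
        rw [h]; exact Subgroup.mem_top _
      rw [MonoidHom.mem_ker, hψ] at hmem
      apply hg₀
      simpa using hmem
    have hidx : 2 ≤ ψ.ker.index := by
      have h0 : ψ.ker.index ≠ 0 := Subgroup.index_ne_zero_of_finite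
      have h1 : ψ.ker.index ≠ 1 := fun h => hKne (Subgroup.index_eq_one.mp h)
      omega
    have hNK : Nat.card N ≤ Nat.card ψ.ker :=
      Nat.card_le_card_of_injective
        (fun g : N => (⟨(r₁.rangeRestrict g, r₂.rangeRestrict g), hK g⟩ : ψ.ker))
        (by
          intro g h e
          exact hinj (congrArg Subtype.val e))
    have hmul := Subgroup.card_mul_index ψ.ker
    rw [Nat.card_prod] at hmul
    calc 2 * Nat.card N ≤ 2 * Nat.card ψ.ker := Nat.mul_le_mul_left _ hNK
      _ ≤ Nat.card ψ.ker * ψ.ker.index := by rw [mul_comm]; exact Nat.mul_le_mul_left _ hidx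
      _ = Nat.card r₁.range * Nat.card r₂.range := hmul
      _ ≤ nsT (Nat.card {y // q y}) * nsG (Nat.card {y // ¬ q y}) := Nat.mul_le_mul hT hG
      _ ≤ nsG (Nat.card {y // q y} + Nat.card {y // ¬ q y}) := ns_num1 _ _ ha1
      _ = nsG n := by rw [hab]
      _ ≤ nsH n := nsG_le_nsH n
  · have hev1 : ∀ g : N, Equiv.Perm.sign (r₁ g) = 1 := by
      intro g
      by_contra h
      exact hodd1 ⟨g, h⟩
    have hBeven : ∀ σ ∈ r₂.range, Equiv.Perm.sign σ = 1 := by
      rintro _ ⟨g, rfl⟩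
      have h1 := hsign g
      rw [heven g g.2, hev1 g, one_mul] at h1
      exact h1.symm
    have hIH : Nat.card {y // ¬ q y} < n → 2 * Nat.card r₂.range ≤ nsH (Nat.card {y // ¬ q y}) :=
      fun hlt => ih (Nat.card {y // ¬ q y}) hlt {y // ¬ q y} r₂.range hBnil hBeven rfl
    have hIH' := hIH (by omega)
    by_cases h3 : Nat.card {y // q y} = 3
    · have hA := hA3 h3
      have hs := nsH_step3 (Nat.card {y // ¬ q y})
      rw [← h3, hab] at hs
      rw [h3] at hs
      calc 2 * Nat.card N ≤ 2 * (Nat.card r₁.range * Nat.card r₂.range) :=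
            Nat.mul_le_mul_left _ hcardle
        _ = Nat.card r₁.range * (2 * Nat.card r₂.range) := by ring
        _ ≤ 3 * nsH (Nat.card {y // ¬ q y}) := Nat.mul_le_mul hA hIH'
        _ ≤ nsH n := hs
    by_cases h5 : Nat.card {y // q y} = 5
    · have hA := hA5 h5
      have hs := nsH_step5 (Nat.card {y // ¬ q y})
      rw [← h5, hab] at hs
      rw [h5] at hs
      calc 2 * Nat.card N ≤ 2 * (Nat.card r₁.range * Nat.card r₂.range) :=
            Nat.mul_le_mul_left _ hcardle
        _ = Nat.card r₁.range * (2 * Nat.card r₂.range) := by ring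
        _ ≤ 5 * nsH (Nat.card {y // ¬ q y}) := Nat.mul_le_mul hA hIH'
        _ ≤ nsH n := hs
    by_cases h9 : Nat.card {y // q y} = 9
    · have hA := hA9 h9
      have hs := nsH_step9 (Nat.card {y // ¬ q y})
      rw [← h9, hab] at hs
      calc 2 * Nat.card N ≤ 2 * (Nat.card r₁.range * Nat.card r₂.range) :=
            Nat.mul_le_mul_left _ hcardle
        _ = Nat.card r₁.range * (2 * Nat.card r₂.range) := by ring
        _ ≤ 81 * nsH (Nat.card {y // ¬ q y}) := Nat.mul_le_mul hA hIH'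
        _ ≤ nsH n := hs
    have hA := hA0 h3 h5 h9
    have hBT : nsB (Nat.card {y // q y}) = nsT (Nat.card {y // q y}) := by
      unfold nsT; rw [if_neg h3]
    calc 2 * Nat.card N ≤ 2 * (Nat.card r₁.range * Nat.card r₂.range) :=
          Nat.mul_le_mul_left _ hcardle
      _ = (2 * Nat.card r₁.range) * Nat.card r₂.range := by ring
      _ ≤ nsT (Nat.card {y // q y}) * nsG (Nat.card {y // ¬ q y}) := by
          rw [← hBT]; exact Nat.mul_le_mul hA hG
      _ ≤ nsG (Nat.card {y // q y} + Nat.card {y // ¬ q y}) := ns_num1 _ _ ha1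
      _ = nsG n := by rw [hab]
      _ ≤ nsH n := nsG_le_nsH n

end Cfsg.Agent.Lib.Helper21
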