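import Mathlib
import Cfsg.Agent.Lib.Helper21.NilSym3
import Cfsg.Agent.Lib.Helper21.NilSym5

namespace Cfsg.Agent.Lib.Helper21

open Nat

/-- structure of a nilpotent subgroup of order `3 * 2 ^ e` when `2 ^ e` is too large to live on
`n - 4` points. -/
theorem ns_extremal_gen (n e : ℕ) (N : Subgroup (Equiv.Perm (Fin n)))
    (hN : Group.IsNilpotent N) (hcard : Nat.card N = 3 * 2 ^ e)
    (hbig : ∀ d, d + 4 ≤ n → nsB d < 2 ^ e) :
    ∃ (z : Equiv.Perm (Fin n)) (T : Subgroup (Equiv.Perm (Fin n))),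
      z.support.card = 3 ∧ Nat.card T = 2 ^ e ∧
      (∀ t ∈ T, ∀ x ∈ z.support, t x = x) ∧ N = T ⊔ Subgroup.zpowers z := by
  classical
  haveI := hN
  haveI : Fact (Nat.Prime 2) := ⟨Nat.prime_two⟩
  haveI : Fact (Nat.Prime 3) := ⟨Nat.prime_three⟩
  obtain ⟨z0, hz0⟩ := exists_prime_orderOf_dvd_card' (G := N) 3
    (by rw [hcard]; exact dvd_mul_right 3 _)
  obtain ⟨S⟩ := (inferInstance : Nonempty (Sylow 2 N))
  have hScard : Nat.card (S : Subgroup N) = 2 ^ e := by
    rw [Sylow.card_eq_multiplicity, hcard, Nat.factorization_def _ Nat.prime_two,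
      padicValNat.mul (by norm_num) (by positivity), padicValNat.prime_pow]
    have : padicValNat 2 3 = 0 := padicValNat.eq_zero_of_not_dvd (by norm_num)
    rw [this, zero_add]
  obtain ⟨T, hTdef⟩ : ∃ T : Subgroup (Equiv.Perm (Fin n)),
      T = (S : Subgroup N).map N.subtype := ⟨_, rfl⟩
  have hTcard : Nat.card T = 2 ^ e := by
    rw [hTdef, Subgroup.card_map_of_injective (Subgroup.subtype_injective N), hScard]
  have hTN : T ≤ N := by rw [hTdef]; exact Subgroup.map_subtype_le _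
  obtain ⟨z, hzdef⟩ : ∃ z : Equiv.Perm (Fin n), z = (z0 : Equiv.Perm (Fin n)) := ⟨_, rfl⟩
  have hzord : orderOf z = 3 := by rw [hzdef, Subgroup.orderOf_coe, hz0]
  have hz3 : z ^ 3 = 1 := by rw [← hzord]; exact pow_orderOf_eq_one z
  have hzN : z ∈ N := by rw [hzdef]; exact z0.2
  have hz1 : z ≠ 1 := by
    intro h; rw [h, orderOf_one] at hzord; omega
  have hcomm : ∀ t ∈ T, t * z = z * t := by
    intro t ht
    rw [hTdef] at ht
    obtain ⟨t', ht', rfl⟩ := ht
    have hp3 : IsPGroup 3 (Subgroup.zpowers z0) := by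
      apply IsPGroup.of_card (n := 1)
      rw [Nat.card_zpowers, hz0]; rfl
    obtain ⟨R, hR⟩ := hp3.exists_le_sylow
    have hdis : Disjoint (S : Subgroup N) (R : Subgroup N) :=
      IsPGroup.disjoint_of_ne 2 3 (by norm_num) _ _ S.isPGroup' R.isPGroup'
    have hcm := Subgroup.commute_of_normal_of_disjoint _ _
      (inferInstance : (S : Subgroup N).Normal) (inferInstance : (R : Subgroup N).Normal)
      hdis t' z0 ht' (hR (Subgroup.mem_zpowers z0))
    have h2 := congrArg (Subtype.val) hcm.eq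
    rw [hzdef]; simpa using h2
  have hNeq : N = T ⊔ Subgroup.zpowers z := by
    symm
    apply Subgroup.eq_of_le_of_card_ge (sup_le hTN (by rw [Subgroup.zpowers_le]; exact hzN))
    have h1 : Nat.card T ∣ Nat.card ↥(T ⊔ Subgroup.zpowers z) :=
      Subgroup.card_dvd_of_le le_sup_left
    have h2 : Nat.card (Subgroup.zpowers z) ∣ Nat.card ↥(T ⊔ Subgroup.zpowers z) :=
      Subgroup.card_dvd_of_le le_sup_right
    rw [Nat.card_zpowers, hzord] at h2
    rw [hTcard] at h1
    have hcop : Nat.Coprime 3 (2 ^ e) := Nat.Coprime.pow_right _ (by norm_num)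
    have h3 := Nat.Coprime.mul_dvd_of_dvd_of_dvd hcop h2 h1
    rw [hcard]
    exact Nat.le_of_dvd Nat.card_pos h3
  have hnΩ : Nat.card (Fin n) = n := by simp
  have hfix : ∀ t ∈ T, ∀ x ∈ z.support, t x = x := by
    intro t ht x hx
    rw [Equiv.Perm.mem_support] at hx
    by_contra hmove
    obtain ⟨d, hd1, hd2⟩ := ns_moved_bound T e hTcard z hz3 hcomm x hx t ht hmove
    rw [hnΩ] at hd1
    have := hbig d hd1
    rw [← hTcard] at this
    omega
  have hsupp_le : z.support.card ≤ 3 := by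
    by_contra hgt
    have hDinv : ∀ t ∈ T, ∀ y ∈ ((z.support : Set (Fin n))ᶜ),
        t y ∈ ((z.support : Set (Fin n))ᶜ) := by
      intro t ht y hy hty
      apply hy
      have h1 := hfix t⁻¹ (T.inv_mem ht) (t y) hty
      have h2 : y = t y := by simpa using h1
      rw [h2]; exact hty
    have hfaith : ∀ t ∈ T, (∀ y ∈ ((z.support : Set (Fin n))ᶜ), t y = y) → t = 1 := by
      intro t ht h
      apply Equiv.ext; intro y
      by_cases hy : y ∈ z.support
      · simpa using hfix t ht y hy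
      · simpa using h y (by simpa using hy)
    have h1 := ns_emb T e hTcard _ hDinv hfaith
    have h2 : Nat.card ((z.support : Set (Fin n))ᶜ : Set (Fin n)) + 4 ≤ n := by
      have h6 := Set.ncard_add_ncard_compl (z.support : Set (Fin n))
      rw [Set.ncard_coe_finset, hnΩ] at h6
      rw [Nat.card_coe_set_eq]
      omega
    have := hbig _ h2
    rw [← hTcard] at this
    omega
  have hsupp_ge : 3 ≤ z.support.card := by
    have h2 := Equiv.Perm.two_le_card_support_of_ne_one hz1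
    by_contra hlt
    have h3 : z.support.card = 2 := by omega
    have h4 := (Equiv.Perm.card_support_eq_two.mp h3).orderOf
    omega
  exact ⟨z, T, le_antisymm hsupp_le hsupp_ge, hTcard, hfix, hNeq⟩

/-- an even nilpotent group fixing a finite set pointwise is bounded via the complement. -/
lemma ns_fix_even_bound {Ω : Type} [Fintype Ω] [DecidableEq Ω] (Q : Subgroup (Equiv.Perm Ω))
    (hQ : Group.IsNilpotent Q) (s : Finset Ω) (hfix : ∀ f ∈ Q, ∀ x ∈ s, f x = x)
    (heven : ∀ f ∈ Q, Equiv.Perm.sign f = 1) :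
    2 * Nat.card Q ≤ nsH (Nat.card {x // x ∉ s}) := by
  classical
  have h1 : ∀ f : Q, ∀ x, ((f : Equiv.Perm Ω) x ∉ s) ↔ x ∉ s := by
    intro f x
    constructor
    · intro h hx
      apply h
      rw [hfix f f.2 x hx]; exact hx
    · intro h hfx
      apply h
      have h3 := hfix f f.2 _ hfx
      have h2 : (f : Equiv.Perm Ω) x = x := (f : Equiv.Perm Ω).injective h3
      rw [← h2]; exact hfx
  obtain ⟨ρ, hρ⟩ : ∃ ρ : Q →* Equiv.Perm {x // x ∉ s},
      ∀ f : Q, ρ f = (f : Equiv.Perm Ω).subtypePerm (h1 f) :=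
    ⟨{ toFun := fun f => (f : Equiv.Perm Ω).subtypePerm (h1 f)
       map_one' := by ext y; rfl
       map_mul' := by intro g h; ext y; rfl }, fun f => rfl⟩
  have hinj : Function.Injective ρ := by
    rw [injective_iff_map_eq_one]
    intro f hf
    apply Subtype.ext; apply Equiv.ext; intro x
    by_cases hx : x ∈ s
    · simpa using hfix f f.2 x hx
    · have e := congrArg (fun σ : Equiv.Perm {x // x ∉ s} => ((σ ⟨x, hx⟩ : {x // x ∉ s}) : Ω)) hf
      rw [hρ] at e
      simpa using e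
  have hcard : Nat.card ρ.range = Nat.card Q :=
    (Nat.card_congr (MonoidHom.ofInjective hinj).toEquiv).symm
  have hnil : Group.IsNilpotent ρ.range := by
    haveI := hQ
    exact Group.nilpotent_of_surjective ρ.rangeRestrict ρ.rangeRestrict_surjective
  have hev : ∀ σ ∈ ρ.range, Equiv.Perm.sign σ = 1 := by
    rintro _ ⟨f, rfl⟩
    rw [hρ, Equiv.Perm.sign_subtypePerm]
    · exact heven f f.2
    · intro x hx hxs
      exact hx (hfix f f.2 x hxs)
  have hmain := ns_alt (Nat.card {x // x ∉ s}) {x // x ∉ s} ρ.range hnil hev rfl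
  rw [hcard] at hmain
  exact hmain

/-- conjugacy (by an even permutation) of the even nilpotent subgroups of maximal order when
`n % 4 = 3`, `n ≥ 7`. -/
theorem ns_conj_alt (n : ℕ) (hn : n % 4 = 3) (h7 : 7 ≤ n)
    (N₁ N₂ : Subgroup (Equiv.Perm (Fin n)))
    (h1 : Group.IsNilpotent N₁) (h2 : Group.IsNilpotent N₂)
    (he1 : ∀ g ∈ N₁, Equiv.Perm.sign g = 1) (he2 : ∀ g ∈ N₂, Equiv.Perm.sign g = 1)
    (hc1 : 2 * Nat.card N₁ = 3 * nsB (n - 3)) (hc2 : 2 * Nat.card N₂ = 3 * nsB (n - 3)) :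
    ∃ g : Equiv.Perm (Fin n), Equiv.Perm.sign g = 1 ∧
      N₂ = N₁.map (MulAut.conj g).toMonoidHom := by
  classical
  haveI : Fact (Nat.Prime 2) := ⟨Nat.prime_two⟩
  obtain ⟨f, hf⟩ : ∃ f, nsB (n - 3) = 2 * 2 ^ f := by
    have h4 : nsE 4 ≤ nsE (n - 3) := nsE_mono (by omega)
    rw [nsE_four] at h4
    refine ⟨nsE (n - 3) - 1, ?_⟩
    unfold nsB
    rw [← _root_.pow_succ']; congr 1; omega
  have hbig : ∀ d, d + 4 ≤ n → nsB d < 2 ^ f := by
    intro d hd
    obtain ⟨k, rfl⟩ : ∃ k, n = 4 * (k + 1) + 3 := ⟨(n - 7) / 4, by omega⟩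
    have e1 : nsB d ≤ nsB (4 * k + 3) := nsB_mono (by omega)
    have e2 := nsB_4k3 k
    have e3 := nsB_4k4 k
    have e4 : 4 * (k + 1) + 3 - 3 = 4 * k + 4 := by omega
    have e5 := nsB_pos (4 * k)
    rw [e4] at hf
    omega
  have hc1' : Nat.card N₁ = 3 * 2 ^ f := by rw [hf] at hc1; omega
  have hc2' : Nat.card N₂ = 3 * 2 ^ f := by rw [hf] at hc2; omega
  obtain ⟨z₁, T₁, hs1, hT1, hf1, hN1⟩ := ns_extremal_gen n f N₁ h1 hc1' hbig
  obtain ⟨z₂, T₂, hs2, hT2, hf2, hN2⟩ := ns_extremal_gen n f N₂ h2 hc2' hbig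
  have hconj : IsConj z₁ z₂ := by
    rw [Equiv.Perm.isConj_iff_cycleType_eq]
    have a1 : z₁.IsThreeCycle := card_support_eq_three_iff.mp hs1
    have a2 : z₂.IsThreeCycle := card_support_eq_three_iff.mp hs2
    exact a1.trans a2.symm
  obtain ⟨σ₀, hσ₀⟩ := isConj_iff.mp hconj
  obtain ⟨σ, hσ, hσe⟩ : ∃ σ : Equiv.Perm (Fin n), σ * z₁ * σ⁻¹ = z₂ ∧
      Equiv.Perm.sign σ = 1 := by
    rcases Int.units_eq_one_or (Equiv.Perm.sign σ₀) with h | h
    · exact ⟨σ₀, hσ₀, h⟩
    · have hcc : 1 < (z₂.supportᶜ).card := by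
        rw [Finset.card_compl, hs2, Fintype.card_fin]; omega
      obtain ⟨a, ha, b, hb, hab⟩ := Finset.one_lt_card.mp hcc
      rw [Finset.mem_compl, Equiv.Perm.notMem_support] at ha hb
      refine ⟨Equiv.swap a b * σ₀, ?_, ?_⟩
      · have hdisj : Equiv.Perm.Disjoint (Equiv.swap a b) z₂ := by
          intro y
          by_cases hya : y = a
          · right; rw [hya]; exact ha
          · by_cases hyb : y = b
            · right; rw [hyb]; exact hb
            · left; exact Equiv.swap_apply_of_ne_of_ne hya hyb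
        calc Equiv.swap a b * σ₀ * z₁ * (Equiv.swap a b * σ₀)⁻¹
            = Equiv.swap a b * (σ₀ * z₁ * σ₀⁻¹) * (Equiv.swap a b)⁻¹ := by group
          _ = Equiv.swap a b * z₂ * (Equiv.swap a b)⁻¹ := by rw [hσ₀]
          _ = z₂ := by rw [hdisj.commute.eq]; simp
      · rw [Equiv.Perm.sign_mul, Equiv.Perm.sign_swap hab, h]; simp
  have hT1N : T₁ ≤ N₁ := by rw [hN1]; exact le_sup_left
  have hT2N : T₂ ≤ N₂ := by rw [hN2]; exact le_sup_left
  obtain ⟨F, hF⟩ : ∃ F : Subgroup (Equiv.Perm (Fin n)),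
      F = fixingSubgroup (Equiv.Perm (Fin n)) (z₂.support : Set (Fin n)) ⊓
        alternatingGroup (Fin n) := ⟨_, rfl⟩
  have hFmem : ∀ u, u ∈ F ↔ (∀ y ∈ z₂.support, u y = y) ∧ Equiv.Perm.sign u = 1 := by
    intro u
    rw [hF, Subgroup.mem_inf, mem_fixingSubgroup_iff, Equiv.Perm.mem_alternatingGroup]
    simp
  obtain ⟨A, hA⟩ : ∃ A, A = T₁.map (MulAut.conj σ).toMonoidHom := ⟨_, rfl⟩
  have hAcard : Nat.card A = 2 ^ f := by
    rw [hA, Subgroup.card_map_of_injective (MulAut.conj σ).injective, hT1]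
  have hAF : A ≤ F := by
    rw [hA]
    rintro _ ⟨t, ht, rfl⟩
    rw [hFmem]
    constructor
    · intro y hy
      have hy' : σ⁻¹ y ∈ z₁.support := by
        rw [Equiv.Perm.mem_support] at hy ⊢
        intro h
        apply hy
        rw [← hσ]
        show σ (z₁ (σ⁻¹ y)) = y
        rw [h]; simp
      have hfx := hf1 t ht _ hy'
      show σ (t (σ⁻¹ y)) = y
      rw [hfx]; simp
    · show Equiv.Perm.sign (σ * t * σ⁻¹) = 1
      rw [Equiv.Perm.sign_mul, Equiv.Perm.sign_mul, Equiv.Perm.sign_inv, hσe,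
        he1 t (hT1N ht)]
      simp
  have hBF : T₂ ≤ F := by
    intro t ht; rw [hFmem]; exact ⟨hf2 t ht, he2 t (hT2N ht)⟩
  have hpA : IsPGroup 2 A := IsPGroup.of_card (n := f) hAcard
  have hpB : IsPGroup 2 T₂ := IsPGroup.of_card (n := f) hT2
  have hcompl : Nat.card {x // x ∉ z₂.support} = n - 3 := by
    have e1 : Nat.card {x // x ∈ z₂.support} + Nat.card {x // ¬ x ∈ z₂.support} =
        Nat.card (Fin n) := by
      rw [← Nat.card_sum]
      exact Nat.card_congr (Equiv.sumCompl (fun x => x ∈ z₂.support))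
    have e2 : Nat.card {x // x ∈ z₂.support} = 3 := by
      rw [Nat.card_eq_fintype_card, Fintype.card_coe, hs2]
    rw [e2, Nat.card_fin] at e1
    omega
  have hHgood : nsH (n - 3) = nsB (n - 3) :=
    nsH_good (n - 3) (by omega) (by omega) (by omega) (by omega) (by omega)
  have hmax : ∀ Q : Subgroup (Equiv.Perm (Fin n)), Q ≤ F → IsPGroup 2 Q →
      Nat.card Q ≤ Nat.card A := by
    intro Q hQF hQ
    have hb := ns_fix_even_bound Q hQ.isNilpotent z₂.support
      (fun u hu => ((hFmem u).mp (hQF hu)).1) (fun u hu => ((hFmem u).mp (hQF hu)).2)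
    rw [hcompl, hHgood, hf] at hb
    rw [hAcard]; omega
  obtain ⟨h, hhF, hh⟩ := ns_conj_of_max F A T₂ 2 hAF hBF hpA hpB hmax (by rw [hT2, hAcard])
  refine ⟨h * σ, ?_, ?_⟩
  · rw [Equiv.Perm.sign_mul, hσe, ((hFmem h).mp hhF).2]; simp
  have hdisj : Equiv.Perm.Disjoint h z₂ := by
    intro y
    by_cases hy : y ∈ z₂.support
    · exact Or.inl (((hFmem h).mp hhF).1 y hy)
    · exact Or.inr (by simpa using hy)
  have hcz : h * z₂ * h⁻¹ = z₂ := by
    rw [hdisj.commute.eq]; simp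
  rw [hN1, hN2, Subgroup.map_sup, MonoidHom.map_zpowers]
  congr 1
  · rw [hh, hA, Subgroup.map_map]
    congr 1
  · congr 1
    simp only [MulEquiv.coe_toMonoidHom, MulAut.conj_apply]
    rw [← hcz, ← hσ]; simp [mul_assoc]

/-- existence of a nilpotent subgroup `P × C₃` of the alternating group on `n` letters. -/
theorem ns_exists_alt (n : ℕ) (hn : n % 4 = 3) (h7 : 7 ≤ n)
    (P : Sylow 2 (alternatingGroup (Fin (n - 3)))) :
    ∃ M : Subgroup (alternatingGroup (Fin n)), Group.IsNilpotent M ∧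
      Nat.card M = 3 * Nat.card P ∧
      Nonempty (M ≃* (↥(P : Subgroup (alternatingGroup (Fin (n - 3)))) ×
        Multiplicative (ZMod 3))) := by
  classical
  haveI : Fact (Nat.Prime 3) := ⟨Nat.prime_three⟩
  haveI : Fact (Nat.Prime 2) := ⟨Nat.prime_two⟩
  have hn3 : n - 3 + 3 = n := by omega
  obtain ⟨e, -⟩ : ∃ e : Fin (n - 3) ⊕ Fin 3 ≃ Fin n, e = finSumFinEquiv.trans (finCongr hn3) :=
    ⟨_, rfl⟩
  obtain ⟨ι, hιdef⟩ : ∃ ι : Equiv.Perm (Fin (n - 3)) × Equiv.Perm (Fin 3) →* Equiv.Perm (Fin n),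
      ι = (e.permCongrHom.toMonoidHom).comp (Equiv.Perm.sumCongrHom (Fin (n - 3)) (Fin 3)) :=
    ⟨_, rfl⟩
  have hι : Function.Injective ι := by
    rw [hιdef]
    exact e.permCongrHom.injective.comp Equiv.Perm.sumCongrHom_injective
  have hιsign : ∀ u : Equiv.Perm (Fin (n - 3)) × Equiv.Perm (Fin 3),
      Equiv.Perm.sign (ι u) = Equiv.Perm.sign u.1 * Equiv.Perm.sign u.2 := by
    intro u
    rw [hιdef]
    show Equiv.Perm.sign (e.permCongr (Equiv.sumCongr u.1 u.2)) = _
    rw [Equiv.Perm.sign_permCongr, Equiv.Perm.sign_sumCongr]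
  obtain ⟨A, hAdef⟩ : ∃ A : Subgroup (Equiv.Perm (Fin 3)), A = alternatingGroup (Fin 3) :=
    ⟨_, rfl⟩
  have hA : Nat.card A = 3 := by
    have h1 := two_mul_card_alternatingGroup (α := Fin 3)
    rw [Fintype.card_perm, Fintype.card_fin, ← Nat.card_eq_fintype_card] at h1
    rw [hAdef]
    have h2 : (3 : ℕ)! = 6 := by decide
    omega
  have hsubinj := Subgroup.subtype_injective (alternatingGroup (Fin (n - 3)))
  obtain ⟨P', hP'⟩ : ∃ P' : Subgroup (Equiv.Perm (Fin (n - 3))),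
      P' = (P : Subgroup (alternatingGroup (Fin (n - 3)))).map
        (alternatingGroup (Fin (n - 3))).subtype := ⟨_, rfl⟩
  obtain ⟨M', hM'⟩ : ∃ M' : Subgroup (Equiv.Perm (Fin n)),
      M' = (P'.prod A).map ι := ⟨_, rfl⟩
  have hle : M' ≤ alternatingGroup (Fin n) := by
    rw [hM']
    rintro _ ⟨u, hu, rfl⟩
    rw [Equiv.Perm.mem_alternatingGroup, hιsign]
    have hu' := Subgroup.mem_prod.mp hu
    have s1 : Equiv.Perm.sign u.1 = 1 := by
      have hu1 := hu'.1
      rw [hP'] at hu1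
      obtain ⟨w, -, hw⟩ := hu1
      rw [← hw]
      exact Equiv.Perm.mem_alternatingGroup.mp w.2
    have s2 : Equiv.Perm.sign u.2 = 1 := by
      have hu2 := hu'.2
      rw [hAdef] at hu2
      exact Equiv.Perm.mem_alternatingGroup.mp hu2
    rw [s1, s2, mul_one]
  obtain ⟨M, hM⟩ : ∃ M : Subgroup (alternatingGroup (Fin n)),
      M = M'.subgroupOf (alternatingGroup (Fin n)) := ⟨_, rfl⟩
  have iso0 : M ≃* M' := by
    rw [hM]; exact Subgroup.subgroupOfEquivOfLe hle
  have iso1 : M' ≃* (P'.prod A) := by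
    rw [hM']; exact (Subgroup.equivMapOfInjective _ ι hι).symm
  have iso2 : (P'.prod A) ≃* (↥P' × ↥A) := Subgroup.prodEquiv _ _
  have iso3 : ↥A ≃* Multiplicative (ZMod 3) :=
    mulEquivOfPrimeCardEq (p := 3) hA (by simp [Nat.card_eq_fintype_card])
  have iso4 : ↥P' ≃* ↥(P : Subgroup (alternatingGroup (Fin (n - 3)))) := by
    rw [hP']; exact (Subgroup.equivMapOfInjective _ _ hsubinj).symm
  have iso : M ≃* (↥(P : Subgroup (alternatingGroup (Fin (n - 3)))) × Multiplicative (ZMod 3)) :=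
    iso0.trans (iso1.trans (iso2.trans (MulEquiv.prodCongr iso4 iso3)))
  refine ⟨M, ?_, ?_, ⟨iso⟩⟩
  · haveI : Group.IsNilpotent (↥(P : Subgroup (alternatingGroup (Fin (n - 3))))) :=
      P.isPGroup'.isNilpotent
    exact Group.nilpotent_of_mulEquiv iso.symm
  · rw [Nat.card_congr iso.toEquiv, Nat.card_prod]
    have h3 : Nat.card (Multiplicative (ZMod 3)) = 3 := by simp [Nat.card_eq_fintype_card]
    rw [h3, mul_comm]

end Cfsg.Agent.Lib.Helper21
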