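import Mathlib
import Cfsg.Agent.Lib.Helper21.FrobCount
import Cfsg.Agent.Lib.Helper21.FrobHall
import Cfsg.Agent.Lib.Helper21.FrobSolv
import Cfsg.Agent.Lib.Helper21.PGroup
import Cfsg.Agent.Lib.Helper2.CyclicMax

/-!
Counting elements of order `p ^ s` (odd `p`, noncyclic Sylow `p`-subgroups): Kulakoff / Miller type
divisibility.
-/

namespace Cfsg.Agent.Lib.Helper21

/-- Fibre-count divisibility, divisibility version. -/
theorem dvd_card_of_fibers' {α β : Type*} [DecidableEq β] (S : Finset α) (f : α → β) (d : ℕ)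
    (h : ∀ x ∈ S, d ∣ (S.filter (fun y => f y = f x)).card) : d ∣ S.card := by
  classical
  rw [Finset.card_eq_sum_card_fiberwise (f := f) (t := S.image f)
    (fun x hx => Finset.mem_image_of_mem _ hx)]
  apply Finset.dvd_sum
  intro b hb
  obtain ⟨x, hx, rfl⟩ := Finset.mem_image.1 hb
  exact h x hx

/-- A set closed under right multiplication by a subgroup has size divisible by its order. -/
theorem card_dvd_of_mul_mem {G : Type*} [Group G] [Finite G] (D : Subgroup G) (Q : G → Prop)
    (h : ∀ y d, Q y → d ∈ D → Q (y * d)) : Nat.card D ∣ Nat.card {y : G // Q y} := by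
  classical
  haveI : Fintype {y : G // Q y} := Fintype.ofFinite _
  letI act : MulAction D {y : G // Q y} :=
    { smul := fun d y => ⟨y.1 * (d.1)⁻¹, h y.1 _ y.2 (D.inv_mem d.2)⟩
      one_smul := fun y => Subtype.ext (by
        show y.1 * ((1 : D) : G)⁻¹ = y.1
        simp)
      mul_smul := fun a b y => Subtype.ext (by
        show y.1 * ((a * b : D) : G)⁻¹ = y.1 * (b : G)⁻¹ * (a : G)⁻¹
        simp [mul_assoc]) }
  have h1 := dvd_sum_of_orbit (G := D) (X := {y : G // Q y}) (fun _ => 1) (fun _ _ => rfl)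
    (Nat.card D) (by
      intro y
      have hst : MulAction.stabilizer D y = ⊥ := by
        rw [eq_bot_iff]
        intro d hd
        have h2 : y.1 * (d.1)⁻¹ = y.1 := congrArg Subtype.val (MulAction.mem_stabilizer_iff.1 hd)
        rw [Subgroup.mem_bot]
        apply Subtype.ext
        have h3 : (d.1)⁻¹ = 1 := by simpa using h2
        simpa using h3
      rw [hst, Subgroup.index_bot, mul_one])
  simpa [Nat.card_eq_fintype_card] using h1

/-- Power formula when the commutator is central. -/
theorem pow_mul_of_comm_central {G : Type*} [Group G] (x r c : G) (hc : r * x = x * r * c)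
    (hcx : Commute c x) (hcr : Commute c r) (n : ℕ) :
    ∃ k, 2 * k + n = n * n ∧ (x * r) ^ n = x ^ n * r ^ n * c ^ k := by
  induction n with
  | zero => exact ⟨0, by simp, by simp⟩
  | succ n ih =>
    obtain ⟨k, hk, hpow⟩ := ih
    refine ⟨n + k, by nlinarith, ?_⟩
    have h1 : ∀ j : ℕ, r ^ j * x = x * r ^ j * c ^ j := by
      intro j
      induction j with
      | zero => simp
      | succ j ihj =>
        calc r ^ (j + 1) * x = r ^ j * (r * x) := by rw [pow_succ, mul_assoc]
          _ = r ^ j * (x * r * c) := by rw [hc]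
          _ = (r ^ j * x) * r * c := by simp only [mul_assoc]
          _ = (x * r ^ j * c ^ j) * r * c := by rw [ihj]
          _ = x * r ^ j * (c ^ j * r) * c := by simp only [mul_assoc]
          _ = x * r ^ j * (r * c ^ j) * c := by rw [(hcr.pow_left j).eq]
          _ = x * r ^ (j + 1) * c ^ (j + 1) := by rw [pow_succ, pow_succ]; simp only [mul_assoc]
    calc (x * r) ^ (n + 1) = (x * r) ^ n * (x * r) := pow_succ _ _
      _ = x ^ n * r ^ n * c ^ k * (x * r) := by rw [hpow]
      _ = x ^ n * r ^ n * (c ^ k * x) * r := by simp only [mul_assoc]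
      _ = x ^ n * r ^ n * (x * c ^ k) * r := by rw [(hcx.pow_left k).eq]
      _ = x ^ n * (r ^ n * x) * c ^ k * r := by simp only [mul_assoc]
      _ = x ^ n * (x * r ^ n * c ^ n) * c ^ k * r := by rw [h1 n]
      _ = x ^ n * x * r ^ n * c ^ n * (c ^ k * r) := by simp only [mul_assoc]
      _ = x ^ n * x * r ^ n * c ^ n * (r * c ^ k) := by rw [(hcr.pow_left k).eq]
      _ = x ^ n * x * r ^ n * (c ^ n * r) * c ^ k := by simp only [mul_assoc]
      _ = x ^ n * x * r ^ n * (r * c ^ n) * c ^ k := by rw [(hcr.pow_left n).eq]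
      _ = x ^ (n + 1) * r ^ (n + 1) * c ^ (n + k) := by
        rw [pow_succ, pow_succ, pow_add]; simp only [mul_assoc]

theorem orderOf_of_orderOf_pow_prime {G : Type*} [Group G] {p : ℕ} (hp : p.Prime) {y : G} {j : ℕ}
    (hj : 0 < j) (h : orderOf (y ^ p) = p ^ j) : orderOf y = p ^ (j + 1) := by
  have h1 := orderOf_pow' y hp.ne_zero
  by_cases hd : p ∣ orderOf y
  · have hg : Nat.gcd (orderOf y) p = p := Nat.gcd_eq_right hd
    rw [hg, h] at h1
    obtain ⟨t, ht⟩ := hd
    rw [ht, Nat.mul_div_cancel_left _ hp.pos] at h1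
    rw [ht, ← h1, pow_succ, mul_comm]
  · exfalso
    have hg : Nat.gcd (orderOf y) p = 1 :=
      Nat.coprime_comm.1 ((Nat.Prime.coprime_iff_not_dvd hp).2 hd)
    rw [hg, Nat.div_one, h] at h1
    apply hd
    rw [← h1]
    exact dvd_pow_self p hj.ne'

theorem orderOf_pow_prime_of_orderOf {G : Type*} [Group G] {p : ℕ} (hp : p.Prime) {y : G} {j : ℕ}
    (h : orderOf y = p ^ (j + 1)) : orderOf (y ^ p) = p ^ j := by
  rw [orderOf_pow' y hp.ne_zero, h, Nat.gcd_eq_right (dvd_pow_self p (Nat.succ_ne_zero j)),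
    pow_succ, Nat.mul_div_cancel _ hp.pos]

theorem zpowers_mul_pow_eq {G : Type*} [Group G] [Finite G] {p : ℕ} (hp : p.Prime) {u c : G} {t : ℕ}
    (hu : orderOf u = p ^ (t + 1)) (hc : c ∈ Subgroup.zpowers u) :
    Subgroup.zpowers (u * c ^ p) = Subgroup.zpowers u := by
  have hcu : Commute u c := by
    obtain ⟨k, rfl⟩ := Subgroup.mem_zpowers_iff.1 hc
    exact (Commute.refl u).zpow_right k
  have hw : u * c ^ p ∈ Subgroup.zpowers u :=
    mul_mem (Subgroup.mem_zpowers u) (pow_mem hc p)
  have hco : orderOf c ∣ p ^ (t + 1) := hu ▸ orderOf_dvd_of_mem_zpowers hc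
  have hwo : orderOf (u * c ^ p) ∣ p ^ (t + 1) := hu ▸ orderOf_dvd_of_mem_zpowers hw
  obtain ⟨j, hj, hj'⟩ := (Nat.dvd_prime_pow hp).1 hwo
  have hjt : j = t + 1 := by
    by_contra hne
    have hjt : j ≤ t := by omega
    have h1 : (u * c ^ p) ^ (p ^ t) = 1 := by
      apply orderOf_dvd_iff_pow_eq_one.1
      rw [hj']
      exact pow_dvd_pow p hjt
    rw [(hcu.pow_right p).mul_pow, ← pow_mul, ← pow_succ'] at h1
    rw [orderOf_dvd_iff_pow_eq_one.1 hco, mul_one] at h1
    have h2 := orderOf_dvd_of_pow_eq_one h1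
    rw [hu] at h2
    have h3 := (Nat.pow_dvd_pow_iff_le_right hp.one_lt).1 h2
    omega
  apply Subgroup.eq_of_le_of_card_ge (Subgroup.zpowers_le.2 hw)
  rw [Nat.card_zpowers, Nat.card_zpowers, hj', hjt, hu]

/-- In a finite `p`-group, commutators with a normal subgroup of order `p ^ 2` are central. -/
theorem comm_mem_center_of_card_sq {S : Type*} [Group S] [Finite S] {p : ℕ} [hp : Fact p.Prime]
    (hS : IsPGroup p S) (A : Subgroup S) [hAn : A.Normal] (hAe : ∀ a ∈ A, a ^ p = 1)
    (hAcard : Nat.card A = p ^ 2) (r : S) (hr : r ∈ A) (x : S) :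
    r⁻¹ * x⁻¹ * r * x ∈ Subgroup.center S := by
  have hA1 : A ≠ ⊥ := by
    rintro rfl
    rw [Subgroup.card_bot] at hAcard
    have := hp.out.one_lt
    nlinarith
  obtain ⟨z, hzA, hzc, hz1⟩ := exists_mem_center_of_normal hS A hA1
  have hZle : Subgroup.zpowers z ≤ Subgroup.center S := Subgroup.zpowers_le.2 hzc
  haveI hZn : (Subgroup.zpowers z).Normal := by
    constructor
    intro n hn g
    have h1 := Subgroup.mem_center_iff.1 (hZle hn) g
    have h2 : g * n * g⁻¹ = n := by rw [h1, mul_inv_cancel_right]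
    rw [h2]; exact hn
  have hZcard : Nat.card (Subgroup.zpowers z) = p := by
    rw [Nat.card_zpowers]
    exact orderOf_eq_prime (hAe z hzA) hz1
  have hcm := card_comap_mk (Subgroup.zpowers z) (A.map (QuotientGroup.mk' (Subgroup.zpowers z)))
  rw [Subgroup.comap_map_eq, QuotientGroup.ker_mk', sup_eq_left.2 (Subgroup.zpowers_le.2 hzA),
    hAcard, hZcard, pow_two] at hcm
  have hA' : Nat.card (A.map (QuotientGroup.mk' (Subgroup.zpowers z))) = p :=
    (Nat.eq_of_mul_eq_mul_right hp.out.pos hcm).symm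
  haveI : (A.map (QuotientGroup.mk' (Subgroup.zpowers z))).Normal :=
    Subgroup.Normal.map hAn _ (QuotientGroup.mk'_surjective _)
  have hcen := le_center_of_normal_of_card_eq_prime (hS.to_quotient (Subgroup.zpowers z))
    (A.map (QuotientGroup.mk' (Subgroup.zpowers z))) hA'
  have h1 := Subgroup.mem_center_iff.1 (hcen (Subgroup.mem_map_of_mem _ hr))
    (QuotientGroup.mk' (Subgroup.zpowers z) x)
  apply hZle
  rw [← QuotientGroup.eq_one_iff, ← QuotientGroup.mk'_apply]
  rw [map_mul, map_mul, map_mul, map_inv, map_inv]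
  rw [mul_assoc, ← h1]
  group

/-- `(x r) ^ p = x ^ p` for `r` in a normal elementary abelian subgroup of order `p ^ 2`, `p` odd. -/
theorem mul_pow_eq_of_card_sq {S : Type*} [Group S] [Finite S] {p : ℕ} [hp : Fact p.Prime]
    (hodd : p ≠ 2) (hS : IsPGroup p S) (A : Subgroup S) [hAn : A.Normal] (hAe : ∀ a ∈ A, a ^ p = 1)
    (hAcard : Nat.card A = p ^ 2) (x : S) (r : S) (hr : r ∈ A) : (x * r) ^ p = x ^ p := by
  have hc := comm_mem_center_of_card_sq hS A hAe hAcard r hr x
  have hcA : r⁻¹ * x⁻¹ * r * x ∈ A := by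
    have h1 : x⁻¹ * r * x⁻¹⁻¹ ∈ A := hAn.conj_mem r hr x⁻¹
    rw [inv_inv] at h1
    have h2 := A.mul_mem (A.inv_mem hr) h1
    simpa only [mul_assoc] using h2
  have hcomm := Subgroup.mem_center_iff.1 hc
  obtain ⟨k, hk, hpow⟩ := pow_mul_of_comm_central x r (r⁻¹ * x⁻¹ * r * x) (by group)
    (hcomm x).symm (hcomm r).symm p
  have hpk : p ∣ k := by
    have h1 : p ∣ 2 * k := by
      have h2 : p ∣ 2 * k + p := by rw [hk]; exact dvd_mul_right p p
      exact (Nat.dvd_add_left (dvd_refl p)).1 h2
    have hcop : Nat.Coprime p 2 := (Nat.coprime_primes hp.out Nat.prime_two).2 hodd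
    exact hcop.dvd_of_dvd_mul_left h1
  obtain ⟨j, rfl⟩ := hpk
  rw [hpow, hAe r hr, pow_mul, hAe _ hcA, one_pow, mul_one, mul_one]

theorem commute_pow_of_card_sq {S : Type*} [Group S] [Finite S] {p : ℕ} [hp : Fact p.Prime]
    (hodd : p ≠ 2) (hS : IsPGroup p S) (A : Subgroup S) [hAn : A.Normal] (hAe : ∀ a ∈ A, a ^ p = 1)
    (hAcard : Nat.card A = p ^ 2) (x : S) (r : S) (hr : r ∈ A) : Commute (x ^ p) r := by
  have hr' : x⁻¹ * r⁻¹ * x * r ∈ A := by
    have h1 : x⁻¹ * r⁻¹ * x⁻¹⁻¹ ∈ A := hAn.conj_mem r⁻¹ (A.inv_mem hr) x⁻¹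
    rw [inv_inv] at h1
    exact A.mul_mem h1 hr
  have h1 := mul_pow_eq_of_card_sq hodd hS A hAe hAcard x _ hr'
  have h2 : x * (x⁻¹ * r⁻¹ * x * r) = r⁻¹ * x * r⁻¹⁻¹ := by group
  rw [h2, conj_pow, inv_inv] at h1
  show x ^ p * r = r * x ^ p
  calc x ^ p * r = r * (r⁻¹ * x ^ p * r) := by group
    _ = r * x ^ p := by rw [h1]

/-- Kulakoff/Miller: in a noncyclic `p`-group, `p` odd, the number of elements of order `p ^ s`
(`s ≥ 2`) is divisible by `p ^ s`. -/
theorem card_orderOf_pgroup {S : Type*} [Group S] [Finite S] {p : ℕ} [hp : Fact p.Prime]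
    (hodd : p ≠ 2) (hS : IsPGroup p S) (hnc : ¬ IsCyclic S) (t : ℕ) :
    p ^ (t + 2) ∣ Nat.card {x : S // orderOf x = p ^ (t + 2)} := by
  classical
  obtain ⟨A, hAn, ⟨hAc, hAe⟩, hAcard⟩ := Helper2.exists_normal_elementary_abelian_sq hodd hS hnc
  haveI := hAn
  haveI : Fintype S := Fintype.ofFinite S
  have hcard : Nat.card {x : S // orderOf x = p ^ (t + 2)} =
      (Finset.univ.filter (fun x : S => orderOf x = p ^ (t + 2))).card := by
    rw [Nat.card_eq_fintype_card, Fintype.card_subtype]
  rw [hcard]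
  apply dvd_card_of_fibers' _ (fun x : S => Subgroup.zpowers (x ^ p))
  intro x hx
  have hxo : orderOf x = p ^ (t + 2) := (Finset.mem_filter.1 hx).2
  have hxp : orderOf (x ^ p) = p ^ (t + 1) := orderOf_pow_prime_of_orderOf hp.out hxo
  have hfib : ((Finset.univ.filter (fun x : S => orderOf x = p ^ (t + 2))).filter
      (fun y => Subgroup.zpowers (y ^ p) = Subgroup.zpowers (x ^ p))).card =
      Nat.card {y : S // Subgroup.zpowers (y ^ p) = Subgroup.zpowers (x ^ p)} := by
    rw [Nat.card_eq_fintype_card, Fintype.card_subtype, Finset.filter_filter]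
    congr 1
    apply Finset.filter_congr
    intro y _
    constructor
    · exact fun h => h.2
    · intro h
      refine ⟨?_, h⟩
      apply orderOf_of_orderOf_pow_prime hp.out (Nat.succ_pos t)
      rw [← Nat.card_zpowers, h, Nat.card_zpowers, hxp]
  rw [hfib]
  have hD := card_dvd_of_mul_mem (Subgroup.zpowers (x ^ p) ⊔ A)
    (fun y => Subgroup.zpowers (y ^ p) = Subgroup.zpowers (x ^ p)) (by
      intro y d hy hd
      have hd' : d ∈ ((Subgroup.zpowers (x ^ p) ⊔ A : Subgroup S) : Set S) := hd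
      rw [Subgroup.mul_normal] at hd'
      obtain ⟨c, hc, r, hr, rfl⟩ := Set.mem_mul.1 hd'
      have hc' : c ∈ Subgroup.zpowers (y ^ p) := by
        have hy' : Subgroup.zpowers (y ^ p) = Subgroup.zpowers (x ^ p) := hy
        rw [hy']; exact hc
      have hyo : orderOf (y ^ p) = p ^ (t + 1) := by
        have hy' : Subgroup.zpowers (y ^ p) = Subgroup.zpowers (x ^ p) := hy
        rw [← Nat.card_zpowers, hy', Nat.card_zpowers, hxp]
      have hyc : Commute y c := by
        obtain ⟨k, rfl⟩ := Subgroup.mem_zpowers_iff.1 hc'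
        exact ((Commute.refl y).pow_right p).zpow_right k
      show Subgroup.zpowers ((y * (c * r)) ^ p) = Subgroup.zpowers (x ^ p)
      rw [← mul_assoc, mul_pow_eq_of_card_sq hodd hS A hAe hAcard (y * c) r hr, hyc.mul_pow,
        zpowers_mul_pow_eq hp.out hyo hc']
      exact hy)
  refine dvd_trans ?_ hD
  -- `p ^ (t + 2)` divides the order of `⟨x ^ p⟩ ⊔ A`
  obtain ⟨k, hk⟩ := IsPGroup.iff_card.1 (hS.to_subgroup (Subgroup.zpowers (x ^ p) ⊔ A))
  have hCcard : Nat.card (Subgroup.zpowers (x ^ p)) = p ^ (t + 1) := by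
    rw [Nat.card_zpowers, hxp]
  have hdvd : p ^ (t + 1) ∣ p ^ k := by
    rw [← hk, ← hCcard]
    exact Subgroup.card_dvd_of_le le_sup_left
  have hle : t + 1 ≤ k := (Nat.pow_dvd_pow_iff_le_right hp.out.one_lt).1 hdvd
  have hne : k ≠ t + 1 := by
    intro hkt
    have heq : Subgroup.zpowers (x ^ p) = Subgroup.zpowers (x ^ p) ⊔ A := by
      apply Subgroup.eq_of_le_of_card_ge le_sup_left
      rw [hk, hCcard, hkt]
    have hAle : A ≤ Subgroup.zpowers (x ^ p) := by
      rw [heq]; exact le_sup_right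
    haveI : IsCyclic A := Subgroup.isCyclic_of_le hAle
    obtain ⟨g, hg⟩ := IsCyclic.exists_ofOrder_eq_natCard (α := A)
    have h1 : g ^ p = 1 := Subtype.ext (by
      rw [Subgroup.coe_pow]; exact hAe g.1 g.2)
    have h2 := orderOf_dvd_of_pow_eq_one h1
    rw [hg, hAcard] at h2
    have h3 := Nat.le_of_dvd hp.out.pos h2
    have := hp.out.one_lt
    nlinarith
  rw [hk]
  exact pow_dvd_pow p (by omega)

/-- `φ(n)` divides the number of elements of order `n`. -/
theorem totient_dvd_card_orderOf {G : Type*} [Group G] [Finite G] (n : ℕ) :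
    Nat.totient n ∣ Nat.card {x : G // orderOf x = n} := by
  classical
  haveI : Fintype G := Fintype.ofFinite G
  have hcard : Nat.card {x : G // orderOf x = n} =
      (Finset.univ.filter (fun x : G => orderOf x = n)).card := by
    rw [Nat.card_eq_fintype_card, Fintype.card_subtype]
  rw [hcard]
  apply dvd_card_of_fibers' _ (fun x : G => Subgroup.zpowers x)
  intro x hx
  have hxo : orderOf x = n := (Finset.mem_filter.1 hx).2
  have hfib : ((Finset.univ.filter (fun x : G => orderOf x = n)).filter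
      (fun y => Subgroup.zpowers y = Subgroup.zpowers x)).card =
      Nat.card {y : G // Subgroup.zpowers y = Subgroup.zpowers x} := by
    rw [Nat.card_eq_fintype_card, Fintype.card_subtype, Finset.filter_filter]
    congr 1
    apply Finset.filter_congr
    intro y _
    constructor
    · exact fun h => h.2
    · intro h
      refine ⟨?_, h⟩
      rw [← Nat.card_zpowers, h, Nat.card_zpowers, hxo]
  rw [hfib, card_zpowers_eq, hxo]

/-- Elements of order `p ^ s` generating cyclic subgroups not normalized by a `p`-subgroup `P`: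
their number is divisible by `p ^ s`. -/
theorem dvd_card_of_not_normalized {G : Type*} [Group G] [Finite G] {p : ℕ} [hp : Fact p.Prime]
    (P : Subgroup G) (hP : IsPGroup p P) (s : ℕ) (hs : 0 < s) (Q : G → Prop)
    (hQo : ∀ x, Q x → orderOf x = p ^ s)
    (hQn : ∀ x, Q x → ¬ (P ≤ Subgroup.normalizer (Subgroup.zpowers x : Set G)))
    (hQz : ∀ x y, Q x → Subgroup.zpowers y = Subgroup.zpowers x → Q y)
    (hQc : ∀ g ∈ P, ∀ x, Q x → Q (g * x * g⁻¹)) :
    p ^ s ∣ Nat.card {x : G // Q x} := by
  classical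
  haveI : Fintype G := Fintype.ofFinite G
  have hcard : Nat.card {x : G // Q x} = (Finset.univ.filter (fun x : G => Q x)).card := by
    rw [Nat.card_eq_fintype_card, Fintype.card_subtype]
  rw [hcard]
  have hsum := Finset.card_eq_sum_card_fiberwise (f := fun x : G => Subgroup.zpowers x)
    (s := Finset.univ.filter (fun x : G => Q x))
    (t := (Finset.univ.filter (fun x : G => Q x)).image (fun x : G => Subgroup.zpowers x))
    (fun x hx => Finset.mem_image_of_mem _ hx)
  have hfib : ∀ C ∈ (Finset.univ.filter (fun x : G => Q x)).image (fun x : G => Subgroup.zpowers x),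
      ((Finset.univ.filter (fun x : G => Q x)).filter
        (fun y => Subgroup.zpowers y = C)).card = Nat.totient (p ^ s) := by
    intro C hC
    obtain ⟨x, hx, rfl⟩ := Finset.mem_image.1 hC
    have hxQ : Q x := (Finset.mem_filter.1 hx).2
    have h1 : ((Finset.univ.filter (fun x : G => Q x)).filter
        (fun y => Subgroup.zpowers y = Subgroup.zpowers x)).card =
        Nat.card {y : G // Subgroup.zpowers y = Subgroup.zpowers x} := by
      rw [Nat.card_eq_fintype_card, Fintype.card_subtype, Finset.filter_filter]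
      congr 1
      apply Finset.filter_congr
      intro y _
      exact ⟨fun h => h.2, fun h => ⟨hQz x y hxQ h, h⟩⟩
    rw [h1, card_zpowers_eq, hQo x hxQ]
  rw [hsum, Finset.sum_congr rfl hfib, Finset.sum_const, smul_eq_mul,
    Nat.totient_prime_pow hp.out hs]
  -- the action of `P` on the set of cyclic subgroups
  have hI : p ∣ ((Finset.univ.filter (fun x : G => Q x)).image
      (fun x : G => Subgroup.zpowers x)).card := by
    letI act : MulAction P {C : Subgroup G // C ∈ (Finset.univ.filter (fun x : G => Q x)).image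
        (fun x : G => Subgroup.zpowers x)} :=
      { smul := fun g C => ⟨C.1.map (MulAut.conj (g : G)).toMonoidHom, by
          obtain ⟨x, hx, hxC⟩ := Finset.mem_image.1 C.2
          have hxQ : Q x := (Finset.mem_filter.1 hx).2
          refine Finset.mem_image.2 ⟨(g : G) * x * (g : G)⁻¹,
            Finset.mem_filter.2 ⟨Finset.mem_univ _, hQc g g.2 x hxQ⟩, ?_⟩
          show Subgroup.zpowers ((g : G) * x * (g : G)⁻¹) = C.1.map (MulAut.conj (g : G)).toMonoidHom
          rw [← hxC, MonoidHom.map_zpowers]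
          rfl⟩
        one_smul := fun C => Subtype.ext (by
          show C.1.map (MulAut.conj ((1 : P) : G)).toMonoidHom = C.1
          ext y
          rw [Subgroup.mem_map]
          constructor
          · rintro ⟨c, hc, rfl⟩
            simpa using hc
          · intro hy
            exact ⟨y, hy, by simp⟩)
        mul_smul := fun a b C => Subtype.ext (by
          show C.1.map (MulAut.conj ((a * b : P) : G)).toMonoidHom =
            (C.1.map (MulAut.conj (b : G)).toMonoidHom).map (MulAut.conj (a : G)).toMonoidHom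
          rw [Subgroup.map_map]
          congr 1
          ext y
          simp [mul_assoc]) }
    have hmod := hP.card_modEq_card_fixedPoints
      {C : Subgroup G // C ∈ (Finset.univ.filter (fun x : G => Q x)).image
        (fun x : G => Subgroup.zpowers x)}
    have hfix : IsEmpty (MulAction.fixedPoints P
        {C : Subgroup G // C ∈ (Finset.univ.filter (fun x : G => Q x)).image
          (fun x : G => Subgroup.zpowers x)}) := by
      constructor
      rintro ⟨C, hCfix⟩
      obtain ⟨x, hx, hxC⟩ := Finset.mem_image.1 C.2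
      have hxQ : Q x := (Finset.mem_filter.1 hx).2
      apply hQn x hxQ
      intro g hg
      have h1 : C.1.map (MulAut.conj g).toMonoidHom = C.1 :=
        congrArg Subtype.val (hCfix ⟨g, hg⟩)
      have hxC' : Subgroup.zpowers x = C.1 := hxC
      rw [hxC', Subgroup.mem_normalizer_iff]
      intro n
      constructor
      · intro hn
        have h2 : g * n * g⁻¹ ∈ C.1.map (MulAut.conj g).toMonoidHom :=
          Subgroup.mem_map.2 ⟨n, hn, rfl⟩
        rwa [h1] at h2
      · intro hn
        rw [← h1] at hn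
        obtain ⟨c, hc, hcn⟩ := Subgroup.mem_map.1 hn
        have h3 : g * c * g⁻¹ = g * n * g⁻¹ := hcn
        have h4 : c = n := by
          have := congrArg (fun t => g⁻¹ * t * g) h3
          simpa [mul_assoc] using this
        rwa [← h4]
    have h0 : Nat.card (MulAction.fixedPoints P
        {C : Subgroup G // C ∈ (Finset.univ.filter (fun x : G => Q x)).image
          (fun x : G => Subgroup.zpowers x)}) = 0 := by
      haveI := hfix
      exact Nat.card_of_isEmpty
    rw [h0] at hmod
    have h5 := (Nat.modEq_zero_iff_dvd).1 hmod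
    rwa [Nat.card_eq_fintype_card, Fintype.card_coe] at h5
  obtain ⟨j, hj⟩ := hI
  rw [hj]
  have hps : p ^ s = p * p ^ (s - 1) := by
    rw [← pow_succ']
    congr 1
    omega
  rw [hps]
  exact ⟨j * (p - 1), by ring⟩

theorem le_normalizer_zpowers_of_conj_mem {G : Type*} [Group G] (P : Subgroup G) (x : G)
    (h : ∀ g ∈ P, g * x * g⁻¹ ∈ Subgroup.zpowers x) :
    P ≤ Subgroup.normalizer (Subgroup.zpowers x : Set G) := by
  have key : ∀ g ∈ P, ∀ n ∈ Subgroup.zpowers x, g * n * g⁻¹ ∈ Subgroup.zpowers x := by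
    intro g hg n hn
    obtain ⟨k, rfl⟩ := Subgroup.mem_zpowers_iff.1 hn
    rw [← conj_zpow]
    exact zpow_mem (h g hg) k
  intro g hg
  rw [Subgroup.mem_normalizer_iff]
  intro n
  constructor
  · exact key g hg n
  · intro hn
    have := key g⁻¹ (P.inv_mem hg) _ hn
    simpa [mul_assoc] using this

/-- Kulakoff/Miller, global form: if the Sylow `p`-subgroups (`p` odd) are not cyclic then the
number of elements of order `p ^ s`, `s ≥ 2`, is divisible by `p ^ s`. -/
theorem card_orderOf_of_sylow_not_cyclic {G : Type*} [Group G] [Finite G] {p : ℕ}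
    [hp : Fact p.Prime] (hodd : p ≠ 2) (P : Sylow p G) (hP : ¬ IsCyclic ↥(P : Subgroup G)) (t : ℕ) :
    p ^ (t + 2) ∣ Nat.card {x : G // orderOf x = p ^ (t + 2)} := by
  classical
  haveI : Fintype G := Fintype.ofFinite G
  have hconj : ∀ g ∈ (P : Subgroup G), ∀ x : G,
      (∀ h ∈ (P : Subgroup G), h * (g * x * g⁻¹) * h⁻¹ ∈ Subgroup.zpowers (g * x * g⁻¹)) →
      ∀ h ∈ (P : Subgroup G), h * x * h⁻¹ ∈ Subgroup.zpowers x := by
    intro g hg x hN h hh
    have h1 := hN (g * h * g⁻¹) (mul_mem (mul_mem hg hh) (inv_mem hg))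
    obtain ⟨k, hk⟩ := Subgroup.mem_zpowers_iff.1 h1
    rw [conj_zpow] at hk
    refine Subgroup.mem_zpowers_iff.2 ⟨k, ?_⟩
    have := congrArg (fun t => g⁻¹ * t * g) hk
    simpa [mul_assoc] using this
  have hord : ∀ g x : G, orderOf (g * x * g⁻¹) = orderOf x := by
    intro g x
    have := (MulAut.conj g).orderOf_eq x
    rwa [MulAut.conj_apply] at this
  have h1 : p ^ (t + 2) ∣ Nat.card {x : G // orderOf x = p ^ (t + 2) ∧
      ¬ ∀ h ∈ (P : Subgroup G), h * x * h⁻¹ ∈ Subgroup.zpowers x} := by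
    apply dvd_card_of_not_normalized (P : Subgroup G) P.isPGroup' (t + 2) (Nat.succ_pos _)
    · exact fun x hx => hx.1
    · intro x hx hle
      apply hx.2
      intro h hh
      exact (Subgroup.mem_normalizer_iff.1 (hle hh) x).1 (Subgroup.mem_zpowers x)
    · intro x y hx hyx
      refine ⟨?_, ?_⟩
      · rw [← Nat.card_zpowers, hyx, Nat.card_zpowers]; exact hx.1
      · intro hN
        apply hx.2
        have hle := le_normalizer_zpowers_of_conj_mem (P : Subgroup G) y hN
        rw [hyx] at hle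
        intro h hh
        exact (Subgroup.mem_normalizer_iff.1 (hle hh) x).1 (Subgroup.mem_zpowers x)
    · intro g hg x hx
      refine ⟨?_, fun hN => hx.2 (hconj g hg x hN)⟩
      rw [hord]; exact hx.1
  have h2 : p ^ (t + 2) ∣ Nat.card {x : G // x ∈ (P : Subgroup G) ∧ orderOf x = p ^ (t + 2) ∧
      ¬ ∀ h ∈ (P : Subgroup G), h * x * h⁻¹ ∈ Subgroup.zpowers x} := by
    apply dvd_card_of_not_normalized (P : Subgroup G) P.isPGroup' (t + 2) (Nat.succ_pos _)
    · exact fun x hx => hx.2.1
    · intro x hx hle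
      apply hx.2.2
      intro h hh
      exact (Subgroup.mem_normalizer_iff.1 (hle hh) x).1 (Subgroup.mem_zpowers x)
    · intro x y hx hyx
      refine ⟨?_, ?_, ?_⟩
      · have : y ∈ Subgroup.zpowers x := hyx ▸ Subgroup.mem_zpowers y
        exact (Subgroup.zpowers_le.2 hx.1) this
      · rw [← Nat.card_zpowers, hyx, Nat.card_zpowers]; exact hx.2.1
      · intro hN
        apply hx.2.2
        have hle := le_normalizer_zpowers_of_conj_mem (P : Subgroup G) y hN
        rw [hyx] at hle
        intro h hh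
        exact (Subgroup.mem_normalizer_iff.1 (hle hh) x).1 (Subgroup.mem_zpowers x)
    · intro g hg x hx
      refine ⟨mul_mem (mul_mem hg hx.1) (inv_mem hg), ?_, fun hN => hx.2.2 (hconj g hg x hN)⟩
      rw [hord]; exact hx.2.1
  have h3 : p ^ (t + 2) ∣ Nat.card {x : G // x ∈ (P : Subgroup G) ∧ orderOf x = p ^ (t + 2)} := by
    have h := card_orderOf_pgroup hodd P.isPGroup' hP t
    have e : {x : ↥(P : Subgroup G) // orderOf x = p ^ (t + 2)} ≃
        {x : G // x ∈ (P : Subgroup G) ∧ orderOf x = p ^ (t + 2)} :=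
      { toFun := fun x => ⟨x.1.1, x.1.2, by rw [Subgroup.orderOf_coe]; exact x.2⟩
        invFun := fun x => ⟨⟨x.1, x.2.1⟩, by rw [← Subgroup.orderOf_coe]; exact x.2.2⟩
        left_inv := fun x => rfl
        right_inv := fun x => rfl }
    rwa [Nat.card_congr e] at h
  have h4 : ∀ x : G, orderOf x = p ^ (t + 2) →
      (∀ h ∈ (P : Subgroup G), h * x * h⁻¹ ∈ Subgroup.zpowers x) → x ∈ (P : Subgroup G) := by
    intro x hxo hN
    have hle := le_normalizer_zpowers_of_conj_mem (P : Subgroup G) x hN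
    have hZ : IsPGroup p (Subgroup.zpowers x) :=
      IsPGroup.of_card (n := t + 2) (by rw [Nat.card_zpowers, hxo])
    have hsup := IsPGroup.to_sup_of_normal_right' P.isPGroup' hZ hle
    have hmax := P.is_maximal' hsup le_sup_left
    have hxs : x ∈ (P : Subgroup G) ⊔ Subgroup.zpowers x :=
      (le_sup_right : Subgroup.zpowers x ≤ _) (Subgroup.mem_zpowers x)
    rwa [hmax] at hxs
  rw [Nat.card_eq_fintype_card, Fintype.card_subtype] at h1 h2 h3 ⊢
  have e1 := Finset.card_filter_add_card_filter_not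
    (s := Finset.univ.filter (fun x : G => orderOf x = p ^ (t + 2)))
    (fun x => ∀ h ∈ (P : Subgroup G), h * x * h⁻¹ ∈ Subgroup.zpowers x)
  have e2 := Finset.card_filter_add_card_filter_not
    (s := Finset.univ.filter (fun x : G => x ∈ (P : Subgroup G) ∧ orderOf x = p ^ (t + 2)))
    (fun x => ∀ h ∈ (P : Subgroup G), h * x * h⁻¹ ∈ Subgroup.zpowers x)
  rw [Finset.filter_filter, Finset.filter_filter] at e1 e2
  have e3 : (Finset.univ.filter (fun x : G => (x ∈ (P : Subgroup G) ∧ orderOf x = p ^ (t + 2)) ∧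
      ∀ h ∈ (P : Subgroup G), h * x * h⁻¹ ∈ Subgroup.zpowers x)) =
      Finset.univ.filter (fun x : G => orderOf x = p ^ (t + 2) ∧
        ∀ h ∈ (P : Subgroup G), h * x * h⁻¹ ∈ Subgroup.zpowers x) := by
    apply Finset.filter_congr
    intro x _
    exact ⟨fun h => ⟨h.1.2, h.2⟩, fun h => ⟨⟨h4 x h.1 h.2, h.1⟩, h.2⟩⟩
  have e4 : (Finset.univ.filter (fun x : G => (x ∈ (P : Subgroup G) ∧ orderOf x = p ^ (t + 2)) ∧
      ¬ ∀ h ∈ (P : Subgroup G), h * x * h⁻¹ ∈ Subgroup.zpowers x)) =
      Finset.univ.filter (fun x : G => x ∈ (P : Subgroup G) ∧ orderOf x = p ^ (t + 2) ∧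
        ¬ ∀ h ∈ (P : Subgroup G), h * x * h⁻¹ ∈ Subgroup.zpowers x) := by
    apply Finset.filter_congr
    intro x _
    exact and_assoc
  rw [e3, e4] at e2
  have ha : p ^ (t + 2) ∣ (Finset.univ.filter (fun x : G => orderOf x = p ^ (t + 2) ∧
      ∀ h ∈ (P : Subgroup G), h * x * h⁻¹ ∈ Subgroup.zpowers x)).card := by
    rw [← e2] at h3
    exact (Nat.dvd_add_left h2).1 h3
  rw [← e1]
  exact dvd_add ha h1

/-- CRT decomposition of the elements of order `A * B`, `A`, `B` coprime. -/
theorem card_orderOf_mul_coprime {G : Type*} [Group G] [Finite G] (A B : ℕ)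
    (hAB : Nat.Coprime A B) (hA : 0 < A) (hB : 0 < B) :
    Nat.card {x : G // orderOf x = A * B} =
      Nat.card (Σ y : {y : G // orderOf y = A}, {z : G // Commute y.1 z ∧ orderOf z = B}) := by
  obtain ⟨u, v, hu1, hu2, hv1, hv2, huv⟩ := crt_exps A B hAB
  have key : ∀ (y z : G), orderOf y = A → orderOf z = B → Commute y z →
      (y * z) ^ u = y ∧ (y * z) ^ v = z := by
    intro y z hy hz hc
    have hyA : y ^ A = 1 := hy ▸ pow_orderOf_eq_one y
    have hzB : z ^ B = 1 := hz ▸ pow_orderOf_eq_one z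
    constructor
    · rw [hc.mul_pow, pow_eq_pow_of_modEq' hyA hu1, pow_eq_pow_of_modEq' hzB hu2, pow_one,
        pow_zero, mul_one]
    · rw [hc.mul_pow, pow_eq_pow_of_modEq' hyA hv1, pow_eq_pow_of_modEq' hzB hv2, pow_one,
        pow_zero, one_mul]
  symm
  refine Nat.card_congr (Equiv.ofBijective (fun yz => ⟨yz.1.1 * yz.2.1, ?_⟩) ⟨?_, ?_⟩)
  · have h := yz.2.2.1.orderOf_mul_eq_mul_orderOf_of_coprime
      (by rw [yz.1.2, yz.2.2.2]; exact hAB)
    rw [h, yz.1.2, yz.2.2.2]
  · rintro ⟨⟨y, hy⟩, ⟨z, hyz, hz⟩⟩ ⟨⟨y', hy'⟩, ⟨z', hyz', hz'⟩⟩ h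
    have h0 : y * z = y' * z' := congrArg Subtype.val h
    have e1 : y = y' := by
      rw [← (key y z hy hz hyz).1, ← (key y' z' hy' hz' hyz').1, h0]
    have e2 : z = z' := by
      rw [← (key y z hy hz hyz).2, ← (key y' z' hy' hz' hyz').2, h0]
    subst e1; subst e2; rfl
  · rintro ⟨x, hx⟩
    have hxAB : x ^ (A * B) = 1 := hx ▸ pow_orderOf_eq_one x
    have hyA : (x ^ u) ^ A = 1 := by
      rw [← pow_mul]
      obtain ⟨k, hk⟩ := (Nat.modEq_zero_iff_dvd).1 hu2
      rw [hk, mul_comm B k, mul_assoc, mul_comm B A, mul_comm k, pow_mul, hxAB, one_pow]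
    have hzB : (x ^ v) ^ B = 1 := by
      rw [← pow_mul]
      obtain ⟨k, hk⟩ := (Nat.modEq_zero_iff_dvd).1 hv1
      rw [hk, mul_assoc, mul_comm k B, ← mul_assoc, pow_mul, hxAB, one_pow]
    have hcomm : Commute (x ^ u) (x ^ v) := (Commute.refl x).pow_pow u v
    have hmul : x ^ u * x ^ v = x := by
      rw [← pow_add, pow_eq_pow_of_modEq' hxAB huv, pow_one]
    have hdy : orderOf (x ^ u) ∣ A := orderOf_dvd_of_pow_eq_one hyA
    have hdz : orderOf (x ^ v) ∣ B := orderOf_dvd_of_pow_eq_one hzB
    have hprod : orderOf (x ^ u) * orderOf (x ^ v) = A * B := by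
      rw [← hcomm.orderOf_mul_eq_mul_orderOf_of_coprime
        (Nat.Coprime.coprime_dvd_left hdy (Nat.Coprime.coprime_dvd_right hdz hAB)), hmul, hx]
    have hy : orderOf (x ^ u) = A := by
      have h1 := Nat.le_of_dvd hA hdy
      have h2 := Nat.le_of_dvd hB hdz
      by_contra hne
      have h3 : orderOf (x ^ u) < A := lt_of_le_of_ne h1 hne
      have : orderOf (x ^ u) * orderOf (x ^ v) < A * B :=
        calc orderOf (x ^ u) * orderOf (x ^ v) ≤ orderOf (x ^ u) * B := Nat.mul_le_mul_left _ h2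
          _ < A * B := Nat.mul_lt_mul_of_pos_right h3 hB
      omega
    have hz : orderOf (x ^ v) = B := by
      rw [hy] at hprod
      exact Nat.eq_of_mul_eq_mul_left hA hprod
    exact ⟨⟨⟨x ^ u, hy⟩, ⟨x ^ v, hcomm, hz⟩⟩, Subtype.ext hmul⟩

/-- If the Sylow `p`-subgroups (`p` odd) are not cyclic, `s ≥ 2` and `m` is prime to `p`, then the
number of elements of order `p ^ s * m` is divisible by `p ^ s`. -/
theorem dvd_card_orderOf_mul {G : Type*} [Group G] [Finite G] {p : ℕ} [hp : Fact p.Prime]
    (hodd : p ≠ 2) (P : Sylow p G) (hP : ¬ IsCyclic ↥(P : Subgroup G)) (t m : ℕ)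
    (hm : Nat.Coprime p m) :
    p ^ (t + 2) ∣ Nat.card {g : G // orderOf g = p ^ (t + 2) * m} := by
  have hm0 : 0 < m := by
    rcases Nat.eq_zero_or_pos m with h | h
    · subst h
      rw [Nat.coprime_zero_right] at hm
      exact absurd hm hp.out.one_lt.ne'
    · exact h
  have hord : ∀ g x : G, orderOf (g * x * g⁻¹) = orderOf x := by
    intro g x
    have := (MulAut.conj g).orderOf_eq x
    rwa [MulAut.conj_apply] at this
  rw [mul_comm, card_orderOf_mul_coprime m (p ^ (t + 2)) (Nat.Coprime.pow_right _ hm.symm) hm0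
    (pow_pos hp.out.pos _)]
  apply dvd_card_sigma_conj (p ^ (t + 2)) (fun y => orderOf y = m)
    (fun y z => Commute y z ∧ orderOf z = p ^ (t + 2))
  · intro g y hy
    show orderOf (g * y * g⁻¹) = m
    rw [hord]; exact hy
  · intro g y z hyz
    refine ⟨?_, ?_⟩
    · have h := hyz.1.eq
      show g * y * g⁻¹ * (g * z * g⁻¹) = g * z * g⁻¹ * (g * y * g⁻¹)
      calc g * y * g⁻¹ * (g * z * g⁻¹) = g * (y * z) * g⁻¹ := by group
        _ = g * (z * y) * g⁻¹ := by rw [h]
        _ = g * z * g⁻¹ * (g * y * g⁻¹) := by group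
    · rw [hord]; exact hyz.2
  · intro y hy
    have e : {z : ↥(Subgroup.centralizer {y}) // orderOf z = p ^ (t + 2)} ≃
        {z : G // Commute y z ∧ orderOf z = p ^ (t + 2)} :=
      { toFun := fun z => ⟨z.1.1,
          Subgroup.mem_centralizer_iff.1 z.1.2 y (Set.mem_singleton y),
          by rw [Subgroup.orderOf_coe]; exact z.2⟩
        invFun := fun z => ⟨⟨z.1, Subgroup.mem_centralizer_iff.2 (fun h hh => by
          rw [Set.mem_singleton_iff.1 hh]; exact z.2.1.eq)⟩,
          by rw [← Subgroup.orderOf_coe]; exact z.2.2⟩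
        left_inv := fun z => rfl
        right_inv := fun z => rfl }
    rw [← Nat.card_congr e]
    by_cases hcyc : IsCyclic ↥((default : Sylow p ↥(Subgroup.centralizer {y})) :
        Subgroup ↥(Subgroup.centralizer {y}))
    · have hidx : p ∣ (Subgroup.centralizer {y}).index := by
        by_contra hnd
        apply hP
        have hQcard := (default : Sylow p ↥(Subgroup.centralizer {y})).card_eq_multiplicity
        have hfac : (Nat.card G).factorization p =
            (Nat.card ↥(Subgroup.centralizer {y})).factorization p := by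
          rw [← (Subgroup.centralizer {y}).card_mul_index,
            Nat.factorization_mul Nat.card_pos.ne' (Subgroup.index_ne_zero_of_finite),
            Finsupp.add_apply, Nat.factorization_eq_zero_of_not_dvd hnd, add_zero]
        have hinj : Function.Injective (Subgroup.centralizer {y}).subtype :=
          Subgroup.subtype_injective _
        have hcard' : Nat.card (((default : Sylow p ↥(Subgroup.centralizer {y})) :
            Subgroup ↥(Subgroup.centralizer {y})).map (Subgroup.centralizer {y}).subtype) =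
            p ^ (Nat.card G).factorization p := by
          rw [Subgroup.card_map_of_injective hinj, hQcard, hfac]
        have e1 := Subgroup.equivMapOfInjective
          ((default : Sylow p ↥(Subgroup.centralizer {y})) :
            Subgroup ↥(Subgroup.centralizer {y})) (Subgroup.centralizer {y}).subtype hinj
        have e2 := Sylow.equiv (Sylow.ofCard _ hcard') P
        haveI := hcyc
        exact (e2.isCyclic).1 ((e1.isCyclic).1 hcyc)
      have htot := totient_dvd_card_orderOf (G := ↥(Subgroup.centralizer {y})) (p ^ (t + 2))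
      rw [Nat.totient_prime_pow hp.out (Nat.succ_pos _)] at htot
      have h1 : p ^ (t + 1) ∣
          Nat.card {z : ↥(Subgroup.centralizer {y}) // orderOf z = p ^ (t + 2)} :=
        dvd_trans (dvd_mul_right _ _) htot
      have h5 := mul_dvd_mul hidx h1
      rw [← pow_succ'] at h5
      exact h5
    · exact dvd_mul_of_dvd_right (card_orderOf_of_sylow_not_cyclic hodd _ hcyc t) _

end Cfsg.Agent.Lib.Helper21
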