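import Mathlib

set_option autoImplicit false

namespace Cfsg.Agent.Lib.Helper21

/-- A normal subgroup contained in a point stabilizer of a faithful transitive action is trivial. -/
theorem normal_le_stabilizer_eq_bot {G Ω : Type*} [Group G] [MulAction G Ω] [FaithfulSMul G Ω]
    [MulAction.IsPretransitive G Ω] (N : Subgroup G) [hN : N.Normal] (a : Ω)
    (h : N ≤ MulAction.stabilizer G a) : N = ⊥ := by
  rw [Subgroup.eq_bot_iff_forall]
  intro x hx
  apply FaithfulSMul.eq_of_smul_eq_smul (α := Ω)
  intro c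
  obtain ⟨g, rfl⟩ := MulAction.exists_smul_eq G a c
  have h1 : g⁻¹ * x * g⁻¹⁻¹ ∈ MulAction.stabilizer G a := h (hN.conj_mem x hx g⁻¹)
  rw [MulAction.mem_stabilizer_iff] at h1
  rw [one_smul, ← mul_smul]
  have e : x * g = g * (g⁻¹ * x * g⁻¹⁻¹) := by group
  rw [e, mul_smul, h1]

/-- A nontrivial normal subgroup of a faithful primitive group is transitive. -/
theorem isPretransitive_of_normal_ne_bot {G Ω : Type*} [Group G] [MulAction G Ω] [FaithfulSMul G Ω]
    [MulAction.IsPreprimitive G Ω] (N : Subgroup G) [hN : N.Normal] (hne : N ≠ ⊥) :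
    MulAction.IsPretransitive N Ω := by
  apply MulAction.IsQuasiPreprimitive.isPretransitive_of_normal
  intro hfix
  apply hne
  rw [Subgroup.eq_bot_iff_forall]
  intro x hx
  apply FaithfulSMul.eq_of_smul_eq_smul (α := Ω)
  intro c
  have hc : c ∈ MulAction.fixedPoints N Ω := by rw [hfix]; trivial
  have := hc ⟨x, hx⟩
  rw [one_smul]
  exact this

end Cfsg.Agent.Lib.Helper21
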