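import Mathlib
import Cfsg.Agent.Lib.Helper21.Basic
import Cfsg.Agent.Lib.Helper1.CoprimeSylow
import Cfsg.Agent.Lib.Helper1.Basic
import Cfsg.Agent.Lib.Helper11.Subnormalizer

set_option autoImplicit false

namespace Cfsg.Agent.Lib.Helper21

open scoped Pointwise

section SubnCount

variable {G : Type*} [Group G]

theorem mem_normalizer_of_normal (N : Subgroup G) [hN : N.Normal] (g : G) :
    g ∈ Subgroup.normalizer (N : Set G) := by
  rw [Subgroup.normalizer_eq_top_iff.mpr hN]; exact Subgroup.mem_top g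

theorem mem_normalizer_sup {R K : Subgroup G} {g : G}
    (hR : g ∈ Subgroup.normalizer (R : Set G)) (hK : g ∈ Subgroup.normalizer (K : Set G)) :
    g ∈ Subgroup.normalizer ((R ⊔ K : Subgroup G) : Set G) := by
  rw [mem_normalizer_iff_map] at hR hK ⊢
  rw [Subgroup.map_sup, hR, hK]

theorem mem_normalizer_inf {R K : Subgroup G} {g : G}
    (hR : g ∈ Subgroup.normalizer (R : Set G)) (hK : g ∈ Subgroup.normalizer (K : Set G)) :
    g ∈ Subgroup.normalizer ((R ⊓ K : Subgroup G) : Set G) := by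
  rw [mem_normalizer_iff_map] at hR hK ⊢
  rw [Subgroup.map_inf _ _ _ (MulAut.conj g).injective, hR, hK]

/-- `R` witnesses that `g` lies in the relative subnormalizer set of `H` over `M`. -/
def relW (p : ℕ) (H M : Subgroup G) (g : G) (R : Subgroup G) : Prop :=
  M ≤ R ∧ H ≤ R ∧ g ∈ Subgroup.normalizer (R : Set G) ∧ ∃ k : ℕ, M.relIndex R = p ^ k

/-- The relative subnormalizer set of `H` over `M`. -/
def relS (p : ℕ) (H M : Subgroup G) : Set G := {g | ∃ R : Subgroup G, relW p H M g R}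

theorem relS_bot [Finite G] (p : ℕ) [Fact p.Prime] (H : Subgroup G) (hH : IsPGroup p H) :
    relS p H ⊥ = {g : G | (H.subgroupOf (H ⊔ Subgroup.zpowers g)).IsSubnormal} := by
  ext g
  simp only [relS, relW, Set.mem_ofPred_eq]
  rw [Cfsg.Agent.Lib.Helper11.subn_iff p H hH g]
  constructor
  · rintro ⟨R, -, hHR, hg, k, hk⟩
    refine ⟨R, hHR, ?_, hg⟩
    rw [Subgroup.relIndex_bot_left] at hk
    exact IsPGroup.of_card hk
  · rintro ⟨R, hHR, hR, hg⟩
    obtain ⟨k, hk⟩ := IsPGroup.iff_card.mp hR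
    exact ⟨R, bot_le, hHR, hg, k, by rw [Subgroup.relIndex_bot_left]; exact hk⟩

theorem relS_top (p : ℕ) (H : Subgroup G) : relS p H ⊤ = Set.univ := by
  ext g
  simp only [relS, relW, Set.mem_ofPred_eq, Set.mem_univ, iff_true]
  exact ⟨⊤, le_rfl, le_top, mem_normalizer_of_normal ⊤ g, 0, by simp⟩

theorem ppow_of_dvd {p : ℕ} [hp : Fact p.Prime] {a b : ℕ} (h : a ∣ b) (hb : ∃ k, b = p ^ k) :
    ∃ k, a = p ^ k := by
  obtain ⟨k, rfl⟩ := hb
  obtain ⟨j, -, hj⟩ := (Nat.dvd_prime_pow hp.out).mp h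
  exact ⟨j, hj⟩

theorem relW_sup {p : ℕ} [Fact p.Prime] {H M M' : Subgroup G} [M'.Normal] (hMM' : M ≤ M')
    {g : G} {R : Subgroup G} (h : relW p H M g R) : relW p H M' g (R ⊔ M') := by
  obtain ⟨h1, h2, h3, h4⟩ := h
  refine ⟨le_sup_right, h2.trans le_sup_left,
    mem_normalizer_sup h3 (mem_normalizer_of_normal M' g), ?_⟩
  rw [Subgroup.relIndex_sup_right]
  exact ppow_of_dvd (Subgroup.relIndex_dvd_of_le_left R hMM') h4

theorem relW_inf {p : ℕ} [Fact p.Prime] {H M : Subgroup G} {g : G} {R₁ R₂ : Subgroup G}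
    (h : relW p H M g R₁) (h' : relW p H M g R₂) : relW p H M g (R₁ ⊓ R₂) := by
  obtain ⟨h1, h2, h3, h4⟩ := h
  obtain ⟨h1', h2', h3', h4'⟩ := h'
  refine ⟨le_inf h1 h1', le_inf h2 h2', mem_normalizer_inf h3 h3', ?_⟩
  exact ppow_of_dvd (Dvd.intro _
    (Subgroup.relIndex_mul_relIndex M (R₁ ⊓ R₂) R₁ (le_inf h1 h1') inf_le_left)) h4

theorem relW_mul_right {p : ℕ} {H M : Subgroup G} {g : G} {R : Subgroup G}
    (h : relW p H M g R) {m : G} (hm : m ∈ R) : relW p H M (g * m) R :=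
  ⟨h.1, h.2.1, Subgroup.mul_mem _ h.2.2.1 (Subgroup.le_normalizer hm), h.2.2.2⟩

theorem relS_mul_right {p : ℕ} {H M : Subgroup G} {g : G} (h : g ∈ relS p H M) {m : G}
    (hm : m ∈ M) : g * m ∈ relS p H M := by
  obtain ⟨R, hR⟩ := h
  exact ⟨R, relW_mul_right hR (hR.1 hm)⟩

theorem relS_mono {p : ℕ} [Fact p.Prime] {H M M' : Subgroup G} [M'.Normal] (hMM' : M ≤ M') :
    relS p H M ⊆ relS p H M' := by
  rintro g ⟨R, hR⟩
  exact ⟨R ⊔ M', relW_sup hMM' hR⟩

theorem relS_pstep {p : ℕ} [Fact p.Prime] {H M M' : Subgroup G} [M'.Normal] (hMM' : M ≤ M')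
    (hidx : ∃ m : ℕ, M.relIndex M' = p ^ m) : relS p H M = relS p H M' := by
  apply Set.Subset.antisymm (relS_mono hMM')
  rintro g ⟨R, h1, h2, h3, k, hk⟩
  obtain ⟨m, hm⟩ := hidx
  refine ⟨R, hMM'.trans h1, h2, h3, m + k, ?_⟩
  rw [← Subgroup.relIndex_mul_relIndex M M' R hMM' h1, hm, hk, pow_add]

theorem exists_min_relW [Finite G] {p : ℕ} [Fact p.Prime] {H M : Subgroup G} {g : G}
    (hg : g ∈ relS p H M) :
    ∃ L, relW p H M g L ∧ ∀ R, relW p H M g R → L ≤ R := by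
  obtain ⟨L, hL, hmin⟩ := Set.Finite.exists_minimal
    (s := {R : Subgroup G | relW p H M g R}) (Set.toFinite _) hg
  exact ⟨L, hL, fun R hR => (hmin (relW_inf hL hR) inf_le_left).trans inf_le_right⟩

theorem inf_eq_of_coprime {p : ℕ} [Fact p.Prime] {M M' T : Subgroup G} (hMT : M ≤ T)
    (hMM' : M ≤ M') (hk : ∃ k : ℕ, M.relIndex T = p ^ k) (hcop : (M.relIndex M').Coprime p) :
    T ⊓ M' = M := by
  apply le_antisymm _ (le_inf hMT hMM')
  rw [← Subgroup.relIndex_eq_one]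
  have h1 : M.relIndex (T ⊓ M') ∣ M.relIndex T := Dvd.intro _
    (Subgroup.relIndex_mul_relIndex M (T ⊓ M') T (le_inf hMT hMM') inf_le_left)
  have h2 : M.relIndex (T ⊓ M') ∣ M.relIndex M' := Dvd.intro _
    (Subgroup.relIndex_mul_relIndex M (T ⊓ M') M' (le_inf hMT hMM') inf_le_right)
  obtain ⟨j, hj⟩ := ppow_of_dvd h1 hk
  rw [hj] at h2 ⊢
  exact Nat.Coprime.eq_one_of_dvd (Nat.Coprime.pow_left j hcop.symm) h2

/-- `T` is a relative "Sylow complement" of `M'/M` in `L/M`. -/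
def relT (p : ℕ) (M M' L T : Subgroup G) : Prop :=
  M ≤ T ∧ T ⊔ M' = L ∧ ∃ k : ℕ, M.relIndex T = p ^ k

theorem relT_le {p : ℕ} {M M' L T : Subgroup G} (hT : relT p M M' L T) : T ≤ L := by
  rw [← hT.2.1]; exact le_sup_left

theorem relT_card [Finite G] {p : ℕ} [Fact p.Prime] {M M' L T : Subgroup G} [M'.Normal]
    (hMM' : M ≤ M') (hcop : (M.relIndex M').Coprime p) (hT : relT p M M' L T) :
    Nat.card T * Nat.card M' = Nat.card L * Nat.card M := by
  obtain ⟨h1, h2, h3⟩ := hT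
  have := card_sup_mul_card_inf T M'
  rw [h2, inf_eq_of_coprime h1 hMM' h3 hcop] at this
  exact this.symm

theorem relT_relIndex [Finite G] {p : ℕ} [Fact p.Prime] {M M' L T : Subgroup G} [M'.Normal]
    (hMM' : M ≤ M') (hcop : (M.relIndex M').Coprime p) (hT : relT p M M' L T) :
    T.relIndex L = M.relIndex M' := by
  have h := relT_card hMM' hcop hT
  have e1 := card_mul_relIndex (relT_le hT)
  have e2 := card_mul_relIndex hMM'
  have hpos1 : 0 < Nat.card T := Nat.card_pos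
  have hpos2 : 0 < Nat.card M := Nat.card_pos
  rw [← e1, ← e2] at h
  have h' : Nat.card T * Nat.card M * M.relIndex M' = Nat.card T * Nat.card M * T.relIndex L := by
    rw [mul_assoc, h]; ring
  exact (Nat.eq_of_mul_eq_mul_left (Nat.mul_pos hpos1 hpos2) h').symm

theorem relT_conj [Finite G] {p : ℕ} {M M' L T : Subgroup G} [M.Normal] [M'.Normal] {y : G}
    (hy : y ∈ Subgroup.normalizer (L : Set G)) (hT : relT p M M' L T) :
    relT p M M' L (MulAut.conj y • T) := by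
  obtain ⟨h1, h2, k, h3⟩ := hT
  have hM : MulAut.conj y • M = M := Subgroup.Normal.conj_smul_eq_self y M
  have hM' : MulAut.conj y • M' = M' := Subgroup.Normal.conj_smul_eq_self y M'
  have hle : M ≤ MulAut.conj y • T := by
    have := Subgroup.pointwise_smul_le_pointwise_smul_iff (a := MulAut.conj y) |>.mpr h1
    rwa [hM] at this
  refine ⟨hle, ?_, k, ?_⟩
  · have e : MulAut.conj y • T ⊔ M' = MulAut.conj y • (T ⊔ M') := by
      rw [Subgroup.smul_sup, hM']
    rw [e, h2]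
    exact (mem_normalizer_iff_map L y).mp hy
  · have e1 := card_mul_relIndex hle
    have e2 := card_mul_relIndex h1
    rw [Cfsg.Agent.Lib.Helper1.card_conj_smul] at e1
    have hpos : 0 < Nat.card M := Nat.card_pos
    rw [← h3]
    exact Nat.eq_of_mul_eq_mul_left hpos (e1.trans e2.symm)

end SubnCount

end Cfsg.Agent.Lib.Helper21
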