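import Mathlib
import Cfsg.Agent.Lib.Helper21.SubnCount

set_option autoImplicit false

namespace Cfsg.Agent.Lib.Helper21

open scoped Pointwise

section SubnCount2

variable {G : Type*} [Group G]

theorem relT_of_normalized {p : ℕ} [Fact p.Prime] {H M M' L D : Subgroup G} [M'.Normal]
    {g x : G} (hMM' : M ≤ M')
    (hL : relW p H M' g L) (hLmin : ∀ R, relW p H M' g R → L ≤ R)
    (hMD : M ≤ D) (hDL : D ≤ L) (hHD : H ≤ D) (hx : x ∈ Subgroup.normalizer (D : Set G))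
    (hxg : x⁻¹ * g ∈ M') (hk : ∃ k : ℕ, M.relIndex D = p ^ k) : relT p M M' L D := by
  refine ⟨hMD, le_antisymm (sup_le hDL hL.1) (hLmin _ ?_), hk⟩
  have hW : relW p H M x D := ⟨hMD, hHD, hx, hk⟩
  have hW' := relW_sup hMM' hW
  have e : g = x * (x⁻¹ * g) := by group
  rw [e]
  exact relW_mul_right hW' (le_sup_right (a := D) hxg)

theorem exists_relT {p : ℕ} [Fact p.Prime] {H M M' L : Subgroup G} [M'.Normal] {g x : G}
    (hMM' : M ≤ M')
    (hL : relW p H M' g L) (hLmin : ∀ R, relW p H M' g R → L ≤ R)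
    (hx : x ∈ relS p H M) (hxg : x⁻¹ * g ∈ M') :
    ∃ T, H ≤ T ∧ relT p M M' L T ∧ x ∈ Subgroup.normalizer (T : Set G) := by
  obtain ⟨R, h1, h2, h3, h4⟩ := hx
  have hxL : x ∈ Subgroup.normalizer (L : Set G) := by
    have e : x = g * (x⁻¹ * g)⁻¹ := by group
    rw [e]
    exact Subgroup.mul_mem _ hL.2.2.1 (Subgroup.inv_mem _ (Subgroup.le_normalizer (hL.1 hxg)))
  have hxT := mem_normalizer_inf h3 hxL
  have hMT : M ≤ R ⊓ L := le_inf h1 (hMM'.trans hL.1)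
  exact ⟨R ⊓ L, le_inf h2 hL.2.1,
    relT_of_normalized hMM' hL hLmin hMT inf_le_right (le_inf h2 hL.2.1) hxT hxg
      (ppow_of_dvd (Dvd.intro _ (Subgroup.relIndex_mul_relIndex M (R ⊓ L) R hMT inf_le_left)) h4),
    hxT⟩

theorem relT_unique [Finite G] {p : ℕ} [Fact p.Prime] {H M M' L T₁ T₂ : Subgroup G}
    [M'.Normal] {g x : G} (hMM' : M ≤ M') (hcop : (M.relIndex M').Coprime p)
    (hL : relW p H M' g L) (hLmin : ∀ R, relW p H M' g R → L ≤ R)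
    (hH1 : H ≤ T₁) (hT1 : relT p M M' L T₁) (hx1 : x ∈ Subgroup.normalizer (T₁ : Set G))
    (hH2 : H ≤ T₂) (hT2 : relT p M M' L T₂) (hx2 : x ∈ Subgroup.normalizer (T₂ : Set G))
    (hxg : x⁻¹ * g ∈ M') : T₁ = T₂ := by
  have hD : relT p M M' L (T₁ ⊓ T₂) :=
    relT_of_normalized hMM' hL hLmin (le_inf hT1.1 hT2.1) (inf_le_left.trans (relT_le hT1))
      (le_inf hH1 hH2) (mem_normalizer_inf hx1 hx2) hxg
      (ppow_of_dvd (Dvd.intro _ (Subgroup.relIndex_mul_relIndex M (T₁ ⊓ T₂) T₁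
        (le_inf hT1.1 hT2.1) inf_le_left)) hT1.2.2)
  have c0 := relT_card hMM' hcop hD
  have c1 := relT_card hMM' hcop hT1
  have c2 := relT_card hMM' hcop hT2
  have hpos : 0 < Nat.card M' := Nat.card_pos
  have e1 : T₁ ⊓ T₂ = T₁ := Subgroup.eq_of_le_of_card_ge inf_le_left (by
    have : Nat.card T₁ * Nat.card M' = Nat.card ↥(T₁ ⊓ T₂) * Nat.card M' := c1.trans c0.symm
    exact (Nat.eq_of_mul_eq_mul_right hpos this).le)
  have e2 : T₁ ⊓ T₂ = T₂ := Subgroup.eq_of_le_of_card_ge inf_le_right (by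
    have : Nat.card T₂ * Nat.card M' = Nat.card ↥(T₁ ⊓ T₂) * Nat.card M' := c2.trans c0.symm
    exact (Nat.eq_of_mul_eq_mul_right hpos this).le)
  exact e1.symm.trans e2

theorem one_of_ppow_dvd {p : ℕ} {a b : ℕ} (hb : ¬ p ∣ b) (hab : a ∣ b)
    (ha : ∃ k : ℕ, a = p ^ k) : a = 1 := by
  obtain ⟨j, rfl⟩ := ha
  rcases Nat.eq_zero_or_pos j with rfl | hjpos
  · simp
  · exact absurd ((dvd_pow_self p hjpos.ne').trans hab) hb

theorem exists_relT₀ [Finite G] {p : ℕ} [Fact p.Prime] {H M M' L : Subgroup G} [M.Normal]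
    [M'.Normal] (hMM' : M ≤ M') (hH : IsPGroup p H)
    (hHL : H ≤ L) (hM'L : M' ≤ L) (hk : ∃ k : ℕ, M'.relIndex L = p ^ k) :
    ∃ T, H ≤ T ∧ relT p M M' L T := by
  obtain ⟨S, hS⟩ := (hH.comap_subtype : IsPGroup p (H.subgroupOf L)).exists_le_sylow
  obtain ⟨S', hS'⟩ : ∃ S' : Subgroup G, S' = (S : Subgroup L).map L.subtype := ⟨_, rfl⟩
  have hS'L : S' ≤ L := by rw [hS']; exact Subgroup.map_subtype_le _
  have hHS' : H ≤ S' := by
    intro h hh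
    rw [hS']
    exact ⟨⟨h, hHL hh⟩, hS (Subgroup.mem_subgroupOf.mpr hh), rfl⟩
  have hS'p : IsPGroup p S' := by rw [hS']; exact S.2.map _
  have hidx : ¬ p ∣ S'.relIndex L := by
    rw [hS', Subgroup.relIndex, Subgroup.subgroupOf,
      Subgroup.comap_map_eq_self_of_injective (Subgroup.subtype_injective _)]
    exact S.not_dvd_index
  refine ⟨S' ⊔ M, hHS'.trans le_sup_left, le_sup_right, ?_, ?_⟩
  · apply le_antisymm (sup_le (sup_le hS'L (hMM'.trans hM'L)) hM'L)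
    rw [← Subgroup.relIndex_eq_one]
    have d1 : ((S' ⊔ M) ⊔ M').relIndex L ∣ S'.relIndex L :=
      Subgroup.relIndex_dvd_of_le_left L (le_sup_left.trans le_sup_left)
    have d2 : ((S' ⊔ M) ⊔ M').relIndex L ∣ M'.relIndex L :=
      Subgroup.relIndex_dvd_of_le_left L le_sup_right
    exact one_of_ppow_dvd hidx d1 (ppow_of_dvd d2 hk)
  · rw [Subgroup.relIndex_sup_right, ← Subgroup.inf_relIndex_right]
    exact ppow_of_dvd (Subgroup.relIndex_dvd_card _ _) (IsPGroup.iff_card.mp hS'p)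

theorem relT_sylow_part [Finite G] {p : ℕ} [Fact p.Prime] {M M' L T : Subgroup G} [M.Normal]
    [M'.Normal] (hMM' : M ≤ M') (hcop : (M.relIndex M').Coprime p) (hT : relT p M M' L T) :
    ∃ S : Subgroup G, S ≤ L ∧ IsPGroup p S ∧ S ⊔ M = T ∧ ¬ p ∣ S.relIndex L := by
  obtain ⟨P⟩ : Nonempty (Sylow p T) := inferInstance
  have hTL := relT_le hT
  obtain ⟨S', hS'⟩ : ∃ S' : Subgroup G, S' = (P : Subgroup T).map T.subtype := ⟨_, rfl⟩
  have hS'T : S' ≤ T := by rw [hS']; exact Subgroup.map_subtype_le _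
  have hS'p : IsPGroup p S' := by rw [hS']; exact P.2.map _
  have hidx : ¬ p ∣ S'.relIndex T := by
    rw [hS', Subgroup.relIndex, Subgroup.subgroupOf,
      Subgroup.comap_map_eq_self_of_injective (Subgroup.subtype_injective _)]
    exact P.not_dvd_index
  refine ⟨S', hS'T.trans hTL, hS'p, ?_, ?_⟩
  · apply le_antisymm (sup_le hS'T hT.1)
    rw [← Subgroup.relIndex_eq_one]
    have d1 : (S' ⊔ M).relIndex T ∣ S'.relIndex T :=
      Subgroup.relIndex_dvd_of_le_left T le_sup_left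
    have d2 : (S' ⊔ M).relIndex T ∣ M.relIndex T :=
      Subgroup.relIndex_dvd_of_le_left T le_sup_right
    exact one_of_ppow_dvd hidx d1 (ppow_of_dvd d2 hT.2.2)
  · rw [← Subgroup.relIndex_mul_relIndex _ T L hS'T hTL, relT_relIndex hMM' hcop hT]
    intro hdvd
    rcases (Nat.Prime.dvd_mul (Fact.out)).mp hdvd with h | h
    · exact hidx h
    · exact (Nat.Prime.coprime_iff_not_dvd Fact.out).mp hcop.symm h

theorem conj_of_sylow_in [Finite G] {p : ℕ} [Fact p.Prime] {L S₁ S₂ : Subgroup G}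
    (h1 : S₁ ≤ L) (h2 : S₂ ≤ L) (hp1 : IsPGroup p S₁) (hp2 : IsPGroup p S₂)
    (hi1 : ¬ p ∣ S₁.relIndex L) (hi2 : ¬ p ∣ S₂.relIndex L) :
    ∃ y ∈ L, S₂ = MulAut.conj y • S₁ := by
  obtain ⟨Q₁, hQ₁⟩ : ∃ Q : Sylow p L, (Q : Subgroup L) = S₁.subgroupOf L :=
    ⟨IsPGroup.toSylow (hp1.comap_subtype : IsPGroup p (S₁.subgroupOf L)) hi1, rfl⟩
  obtain ⟨Q₂, hQ₂⟩ : ∃ Q : Sylow p L, (Q : Subgroup L) = S₂.subgroupOf L :=
    ⟨IsPGroup.toSylow (hp2.comap_subtype : IsPGroup p (S₂.subgroupOf L)) hi2, rfl⟩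
  obtain ⟨y, hy⟩ := MulAction.exists_smul_eq L Q₁ Q₂
  refine ⟨y, y.2, ?_⟩
  have e := Cfsg.Agent.Lib.Helper1.sylow_smul_map y Q₁
  rw [hy, hQ₁, hQ₂, Subgroup.map_subgroupOf_eq_of_le h1, Subgroup.map_subgroupOf_eq_of_le h2] at e
  exact e

theorem rel_conj [Finite G] {p : ℕ} [Fact p.Prime] {M M' L T₁ T₂ : Subgroup G} [M.Normal]
    [M'.Normal] (hMM' : M ≤ M') (hcop : (M.relIndex M').Coprime p)
    (hT1 : relT p M M' L T₁) (hT2 : relT p M M' L T₂) :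
    ∃ m ∈ M', T₂ = MulAut.conj m • T₁ := by
  obtain ⟨S₁, a1, b1, c1, d1⟩ := relT_sylow_part hMM' hcop hT1
  obtain ⟨S₂, a2, b2, c2, d2⟩ := relT_sylow_part hMM' hcop hT2
  obtain ⟨y, hyL, hy⟩ := conj_of_sylow_in a1 a2 b1 b2 d1 d2
  have hyL' : y ∈ M' ⊔ T₁ := by rw [sup_comm, hT1.2.1]; exact hyL
  rw [← SetLike.mem_coe, Subgroup.normal_mul] at hyL'
  obtain ⟨m, hm, t, ht, rfl⟩ := Set.mem_mul.mp hyL'
  refine ⟨m, hm, ?_⟩
  have hT2eq : T₂ = MulAut.conj (m * t) • T₁ := by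
    rw [← c2, hy, ← c1, Subgroup.smul_sup, Subgroup.Normal.conj_smul_eq_self (m * t) M]
  rw [hT2eq, map_mul, mul_smul, Subgroup.conj_smul_eq_self_of_mem ht]

end SubnCount2

end Cfsg.Agent.Lib.Helper21
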