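import Mathlib
import Cfsg.Agent.Lib.Helper21.SubnCount2

set_option autoImplicit false

namespace Cfsg.Agent.Lib.Helper21

open scoped Pointwise

section SubnCount3

variable {G : Type*} [Group G]

theorem fibre1 [Finite G] {p : ℕ} [Fact p.Prime] {M M' L T : Subgroup G} [M.Normal]
    [hM' : M'.Normal] (hMM' : M ≤ M') (hcop : (M.relIndex M').Coprime p) {g : G}
    (hg : g ∈ Subgroup.normalizer (L : Set G)) (hT : relT p M M' L T) :
    Nat.card {x : G // x ∈ Subgroup.normalizer (T : Set G) ∧ x⁻¹ * g ∈ M'} =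
      Nat.card ↥(M' ⊓ Subgroup.normalizer (T : Set G)) := by
  obtain ⟨m, hm, hmT⟩ := rel_conj hMM' hcop hT (relT_conj hg hT)
  have hx₀ : m⁻¹ * g ∈ Subgroup.normalizer (T : Set G) := by
    rw [mem_normalizer_iff_map, map_conj_eq_smul, map_mul, mul_smul, hmT, ← mul_smul,
      ← map_mul, inv_mul_cancel, map_one, one_smul]
  have hx₀g : (m⁻¹ * g)⁻¹ * g ∈ M' := by
    have e : (m⁻¹ * g)⁻¹ * g = g⁻¹ * m * g⁻¹⁻¹ := by group
    rw [e]; exact hM'.conj_mem m hm g⁻¹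
  refine Nat.card_congr
    ⟨fun x => ⟨(m⁻¹ * g)⁻¹ * x.1, Subgroup.mem_inf.mpr ⟨?_, ?_⟩⟩,
     fun n => ⟨(m⁻¹ * g) * n.1, ?_, ?_⟩, ?_, ?_⟩
  · have e : (m⁻¹ * g)⁻¹ * x.1 = ((m⁻¹ * g)⁻¹ * g) * (x.1⁻¹ * g)⁻¹ := by group
    rw [e]; exact M'.mul_mem hx₀g (M'.inv_mem x.2.2)
  · exact Subgroup.mul_mem _ (Subgroup.inv_mem _ hx₀) x.2.1
  · exact Subgroup.mul_mem _ hx₀ (Subgroup.mem_inf.mp n.2).2
  · have e : (m⁻¹ * g * n.1)⁻¹ * g = n.1⁻¹ * ((m⁻¹ * g)⁻¹ * g) := by group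
    rw [e]; exact M'.mul_mem (M'.inv_mem (Subgroup.mem_inf.mp n.2).1) hx₀g
  · intro x; apply Subtype.ext; exact mul_inv_cancel_left _ _
  · intro n; apply Subtype.ext; exact inv_mul_cancel_left _ _

theorem fibre2 [Finite G] {p : ℕ} [Fact p.Prime] {M M' L T₀ T : Subgroup G} [M.Normal]
    [M'.Normal] (hMM' : M ≤ M') (hcop : (M.relIndex M').Coprime p)
    (hT₀ : relT p M M' L T₀) (hT : relT p M M' L T) :
    Nat.card {u : G // u ∈ M' ∧ MulAut.conj u⁻¹ • T₀ = T} =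
      Nat.card ↥(M' ⊓ Subgroup.normalizer (T : Set G)) := by
  obtain ⟨m, hm, hmT⟩ := rel_conj hMM' hcop hT hT₀
  have key : ∀ u : G, MulAut.conj u⁻¹ • T₀ = T ↔
      u⁻¹ * m ∈ Subgroup.normalizer (T : Set G) := by
    intro u
    rw [mem_normalizer_iff_map, map_conj_eq_smul, map_mul, mul_smul, ← hmT]
  refine Nat.card_congr
    ⟨fun u => ⟨u.1⁻¹ * m, Subgroup.mem_inf.mpr
        ⟨M'.mul_mem (M'.inv_mem u.2.1) hm, (key u.1).mp u.2.2⟩⟩,
     fun n => ⟨m * n.1⁻¹, M'.mul_mem hm (M'.inv_mem (Subgroup.mem_inf.mp n.2).1),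
        (key _).mpr (by simpa using (Subgroup.mem_inf.mp n.2).2)⟩, ?_, ?_⟩
  · intro u; apply Subtype.ext; simp
  · intro n; apply Subtype.ext; simp

theorem comm_iff {p : ℕ} [Fact p.Prime] {H M M' L T₀ : Subgroup G} [M.Normal]
    [hM' : M'.Normal] (hMM' : M ≤ M') (hcop : (M.relIndex M').Coprime p) (hH : H ≤ T₀)
    (hT₀ : relT p M M' L T₀) {u : G} (hu : u ∈ M') :
    (∀ h ∈ H, h * u * h⁻¹ * u⁻¹ ∈ M) ↔ H ≤ MulAut.conj u⁻¹ • T₀ := by
  constructor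
  · intro hc h hh
    rw [Cfsg.Agent.Lib.Helper1.mem_conj_smul_iff]
    have h1 := hc h⁻¹ (H.inv_mem hh)
    have e : u⁻¹⁻¹ * h * u⁻¹ = h * (h⁻¹ * u * h⁻¹⁻¹ * u⁻¹) := by group
    rw [e]
    exact T₀.mul_mem (hH hh) (hT₀.1 h1)
  · intro hle h hh
    have h1 := hle (H.inv_mem hh)
    rw [Cfsg.Agent.Lib.Helper1.mem_conj_smul_iff] at h1
    have hT : h * u * h⁻¹ * u⁻¹ ∈ T₀ := by
      have e : h * u * h⁻¹ * u⁻¹ = h * (u⁻¹⁻¹ * h⁻¹ * u⁻¹) := by group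
      rw [e]; exact T₀.mul_mem (hH hh) h1
    have hM'' : h * u * h⁻¹ * u⁻¹ ∈ M' := M'.mul_mem (hM'.conj_mem u hu h) (M'.inv_mem hu)
    have e := inf_eq_of_coprime hT₀.1 hMM' hT₀.2.2 hcop
    rw [← e]; exact Subgroup.mem_inf.mpr ⟨hT, hM''⟩

theorem card_eq_of_fibres {A B I : Type*} [Finite A] [Finite B] [Finite I] (f : A → I)
    (f' : B → I) (h : ∀ i, Nat.card {a // f a = i} = Nat.card {b // f' b = i}) :
    Nat.card A = Nat.card B := by
  classical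
  have := Fintype.ofFinite I
  rw [← Nat.card_congr (Equiv.sigmaFiberEquiv f), ← Nat.card_congr (Equiv.sigmaFiberEquiv f'),
    Nat.card_sigma, Nat.card_sigma]
  exact Finset.sum_congr rfl (fun i _ => h i)

theorem fibre_card [Finite G] {p : ℕ} [Fact p.Prime] {H M M' : Subgroup G} [M.Normal]
    [M'.Normal] (hMM' : M ≤ M') (hcop : (M.relIndex M').Coprime p) (hH : IsPGroup p H)
    {g : G} (hg : g ∈ relS p H M') :
    Nat.card {x : G // x ∈ relS p H M ∧ x⁻¹ * g ∈ M'} =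
      Nat.card {u : G // u ∈ M' ∧ ∀ h ∈ H, h * u * h⁻¹ * u⁻¹ ∈ M} := by
  classical
  obtain ⟨L, hL, hLmin⟩ := exists_min_relW hg
  obtain ⟨T₀, hHT₀, hT₀⟩ := exists_relT₀ (M := M) hMM' hH hL.2.1 hL.1 hL.2.2.2
  have hex : ∀ x : {x : G // x ∈ relS p H M ∧ x⁻¹ * g ∈ M'},
      ∃ T, H ≤ T ∧ relT p M M' L T ∧ x.1 ∈ Subgroup.normalizer (T : Set G) :=
    fun x => exists_relT hMM' hL hLmin x.2.1 x.2.2
  let f : {x : G // x ∈ relS p H M ∧ x⁻¹ * g ∈ M'} →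
      {T : Subgroup G // H ≤ T ∧ relT p M M' L T} :=
    fun x => ⟨Classical.choose (hex x), (Classical.choose_spec (hex x)).1,
      (Classical.choose_spec (hex x)).2.1⟩
  have hf : ∀ x, x.1 ∈ Subgroup.normalizer ((f x).1 : Set G) :=
    fun x => (Classical.choose_spec (hex x)).2.2
  have hconjT : ∀ u : {u : G // u ∈ M' ∧ ∀ h ∈ H, h * u * h⁻¹ * u⁻¹ ∈ M},
      H ≤ MulAut.conj u.1⁻¹ • T₀ ∧ relT p M M' L (MulAut.conj u.1⁻¹ • T₀) :=
    fun u => ⟨(comm_iff hMM' hcop hHT₀ hT₀ u.2.1).mp u.2.2,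
      relT_conj (Subgroup.le_normalizer (hL.1 (M'.inv_mem u.2.1))) hT₀⟩
  let f' : {u : G // u ∈ M' ∧ ∀ h ∈ H, h * u * h⁻¹ * u⁻¹ ∈ M} →
      {T : Subgroup G // H ≤ T ∧ relT p M M' L T} :=
    fun u => ⟨MulAut.conj u.1⁻¹ • T₀, hconjT u⟩
  apply card_eq_of_fibres f f'
  rintro ⟨T, hHT, hT⟩
  have e1 : Nat.card {a // f a = ⟨T, hHT, hT⟩} =
      Nat.card {x : G // x ∈ Subgroup.normalizer (T : Set G) ∧ x⁻¹ * g ∈ M'} := by
    refine Nat.card_congr ⟨fun a => ⟨a.1.1, ?_, a.1.2.2⟩,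
      fun x => ⟨⟨x.1, ⟨T, hT.1, hHT, x.2.1, hT.2.2⟩, x.2.2⟩, ?_⟩, fun a => rfl, fun x => rfl⟩
    · have := hf a.1; rw [a.2] at this; exact this
    · apply Subtype.ext
      exact relT_unique hMM' hcop hL hLmin (f ⟨x.1, _⟩).2.1 (f ⟨x.1, _⟩).2.2 (hf ⟨x.1, _⟩)
        hHT hT x.2.1 x.2.2
  have e2 : Nat.card {b // f' b = ⟨T, hHT, hT⟩} =
      Nat.card {u : G // u ∈ M' ∧ MulAut.conj u⁻¹ • T₀ = T} := by
    refine Nat.card_congr ⟨fun b => ⟨b.1.1, b.1.2.1, congrArg Subtype.val b.2⟩,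
      fun u => ⟨⟨u.1, u.2.1, (comm_iff hMM' hcop hHT₀ hT₀ u.2.1).mpr (by rw [u.2.2]; exact hHT)⟩,
        Subtype.ext u.2.2⟩, fun b => rfl, fun u => rfl⟩
  rw [e1, e2, fibre1 hMM' hcop hL.2.2.1 hT, fibre2 hMM' hcop hT₀ hT]

theorem relS_coprime_step [Finite G] {p : ℕ} [Fact p.Prime] {H M M' : Subgroup G} [M.Normal]
    [M'.Normal] (hMM' : M ≤ M') (hcop : (M.relIndex M').Coprime p) (hH : IsPGroup p H) :
    Nat.card (relS p H M) * Nat.card M' =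
      Nat.card (relS p H M') *
        Nat.card {u : G // u ∈ M' ∧ ∀ h ∈ H, h * u * h⁻¹ * u⁻¹ ∈ M} := by
  classical
  have := Fintype.ofFinite G
  have key := Finset.card_mul_eq_card_mul
    (s := Finset.univ.filter (fun x : G => x ∈ relS p H M))
    (t := Finset.univ.filter (fun x : G => x ∈ relS p H M'))
    (r := fun x g => x⁻¹ * g ∈ M') (m := Nat.card M')
    (n := Nat.card {u : G // u ∈ M' ∧ ∀ h ∈ H, h * u * h⁻¹ * u⁻¹ ∈ M}) ?_ ?_
  · have c1 : Nat.card (relS p H M) = (Finset.univ.filter (fun x : G => x ∈ relS p H M)).card := by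
      rw [Nat.card_eq_fintype_card, ← Fintype.card_subtype]
    have c2 : Nat.card (relS p H M') =
        (Finset.univ.filter (fun x : G => x ∈ relS p H M')).card := by
      rw [Nat.card_eq_fintype_card, ← Fintype.card_subtype]
    rw [c1, c2]; exact key
  · intro x hx
    rw [Finset.mem_filter] at hx
    have hx' := hx.2
    rw [Finset.bipartiteAbove]
    have e : (Finset.univ.filter (fun g : G => g ∈ relS p H M')).filter (fun g => x⁻¹ * g ∈ M') =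
        Finset.univ.filter (fun g : G => x⁻¹ * g ∈ M') := by
      ext g
      simp only [Finset.mem_filter, Finset.mem_univ, true_and]
      constructor
      · exact fun h => h.2
      · intro h
        refine ⟨?_, h⟩
        have e' : g = x * (x⁻¹ * g) := by group
        rw [e']
        exact relS_mul_right (relS_mono hMM' hx') h
    rw [e, ← Fintype.card_subtype, ← Nat.card_eq_fintype_card]
    refine Nat.card_congr ⟨fun g => ⟨x⁻¹ * g.1, g.2⟩, fun m => ⟨x * m.1, by simp⟩,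
      ?_, ?_⟩
    · intro g; apply Subtype.ext; simp
    · intro m; apply Subtype.ext; simp
  · intro g hg
    rw [Finset.mem_filter] at hg
    rw [Finset.bipartiteBelow, ← fibre_card hMM' hcop hH hg.2, Finset.filter_filter,
      ← Fintype.card_subtype, ← Nat.card_eq_fintype_card]

end SubnCount3

end Cfsg.Agent.Lib.Helper21
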