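import Mathlib
import Cfsg.Agent.Lib.Helper21.SubnCount3

set_option autoImplicit false

namespace Cfsg.Agent.Lib.Helper21

open scoped Pointwise

section SubnCount4

variable {G : Type*} [Group G]

theorem fin_telescope (n : ℕ) (a : Fin (n + 1) → ℕ) (s t : Fin n → ℕ)
    (h : ∀ j : Fin n, a j.castSucc * s j = a j.succ * t j) :
    a 0 * ∏ j, s j = a (Fin.last n) * ∏ j, t j := by
  induction n with
  | zero => simp
  | succ n ih =>
    have key := ih (fun i => a i.castSucc) (fun j => s j.castSucc) (fun j => t j.castSucc)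
      (fun j => by have := h j.castSucc; rwa [Fin.succ_castSucc] at this)
    rw [Fin.prod_univ_castSucc, Fin.prod_univ_castSucc]
    have h' := h (Fin.last n)
    rw [Fin.succ_last] at h'
    have key' : a 0 * ∏ j : Fin n, s j.castSucc =
        a (Fin.last n).castSucc * ∏ j : Fin n, t j.castSucc := key
    calc a 0 * ((∏ j : Fin n, s j.castSucc) * s (Fin.last n))
        = (a 0 * ∏ j : Fin n, s j.castSucc) * s (Fin.last n) := by ring
      _ = (a (Fin.last n).castSucc * ∏ j : Fin n, t j.castSucc) * s (Fin.last n) := by rw [key']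
      _ = (a (Fin.last n).castSucc * s (Fin.last n)) * ∏ j : Fin n, t j.castSucc := by ring
      _ = a (Fin.last (n + 1)) * ((∏ j : Fin n, t j.castSucc) * t (Fin.last n)) := by
          rw [h']; ring

theorem card_dvd_commC [Finite G] {H M M' : Subgroup G} [hM : M.Normal]
    (hMM' : M ≤ M') :
    Nat.card M ∣ Nat.card {u : G // u ∈ M' ∧ ∀ h ∈ H, h * u * h⁻¹ * u⁻¹ ∈ M} := by
  let K : Subgroup G :=
    { carrier := {u | u ∈ M' ∧ ∀ h ∈ H, h * u * h⁻¹ * u⁻¹ ∈ M}
      one_mem' := ⟨M'.one_mem, fun h _ => by simp⟩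
      mul_mem' := by
        rintro u v ⟨hu, hu'⟩ ⟨hv, hv'⟩
        refine ⟨M'.mul_mem hu hv, fun h hh => ?_⟩
        have e : h * (u * v) * h⁻¹ * (u * v)⁻¹ =
            (h * u * h⁻¹ * u⁻¹) * (u * (h * v * h⁻¹ * v⁻¹) * u⁻¹) := by group
        rw [e]
        exact M.mul_mem (hu' h hh) (hM.conj_mem _ (hv' h hh) u)
      inv_mem' := by
        rintro u ⟨hu, hu'⟩
        refine ⟨M'.inv_mem hu, fun h hh => ?_⟩
        have e : h * u⁻¹ * h⁻¹ * u⁻¹⁻¹ = u⁻¹ * (h * u * h⁻¹ * u⁻¹)⁻¹ * u⁻¹⁻¹ := by group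
        rw [e]
        exact hM.conj_mem _ (M.inv_mem (hu' h hh)) u⁻¹ }
  have hMK : M ≤ K := fun u hu =>
    ⟨hMM' hu, fun h _ => M.mul_mem (hM.conj_mem u hu h) (M.inv_mem hu)⟩
  exact Subgroup.card_dvd_of_le hMK

theorem sylow_card_of_prod [Finite G] (p : ℕ) [Fact p.Prime] (P : Sylow p G) (n : ℕ)
    (e : Fin n → ℕ) (hprod : ∏ j, e j = Nat.card G)
    (hfac : ∀ j, (∃ m : ℕ, e j = p ^ m) ∨ (e j).Coprime p) :
    Nat.card G = Nat.card (P : Subgroup G) * ∏ j, (if (e j).Coprime p then e j else 1) := by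
  have hAB : (∏ j, (if (e j).Coprime p then e j else 1)) *
      (∏ j, (if (e j).Coprime p then 1 else e j)) = Nat.card G := by
    rw [← hprod, ← Finset.prod_mul_distrib]
    apply Finset.prod_congr rfl
    intro j _
    split_ifs <;> simp
  have hA : (∏ j, (if (e j).Coprime p then e j else 1)).Coprime p :=
    Nat.Coprime.prod_left (fun j _ => by
      split_ifs with h
      · exact h
      · exact Nat.coprime_one_left p)
  have hB : ∃ N : ℕ, (∏ j, (if (e j).Coprime p then 1 else e j)) = p ^ N := by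
    have : ∀ j, ∃ m : ℕ, (if (e j).Coprime p then 1 else e j) = p ^ m := by
      intro j
      split_ifs with h
      · exact ⟨0, by simp⟩
      · exact (hfac j).resolve_right h
    choose m hm using this
    exact ⟨∑ j, m j, by
      rw [← Finset.prod_pow_eq_pow_sum]; exact Finset.prod_congr rfl (fun j _ => hm j)⟩
  obtain ⟨N, hN⟩ := hB
  have hP : Nat.card (P : Subgroup G) = p ^ (Nat.card G).factorization p :=
    P.card_eq_multiplicity
  have hidx := (P : Subgroup G).card_mul_index
  have hnd := P.not_dvd_index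
  have hBP : (∏ j, (if (e j).Coprime p then 1 else e j)) = Nat.card (P : Subgroup G) := by
    apply Nat.dvd_antisymm
    · have h1 : (∏ j, (if (e j).Coprime p then 1 else e j)) ∣
          Nat.card (P : Subgroup G) * (P : Subgroup G).index := by
        rw [hidx, ← hAB]; exact dvd_mul_left _ _
      rw [hN] at h1 ⊢
      exact (Nat.Coprime.dvd_mul_right (Nat.Coprime.pow_left N
        ((Nat.Prime.coprime_iff_not_dvd Fact.out).mpr hnd))).mp h1
    · have h1 : Nat.card (P : Subgroup G) ∣ (∏ j, (if (e j).Coprime p then e j else 1)) *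
          (∏ j, (if (e j).Coprime p then 1 else e j)) := by
        rw [hAB, ← hidx]; exact dvd_mul_right _ _
      rw [hP] at h1 ⊢
      exact (Nat.Coprime.dvd_mul_left (Nat.Coprime.pow_left _ hA.symm)).mp h1
  rw [← hAB, hBP, mul_comm]

end SubnCount4

end Cfsg.Agent.Lib.Helper21
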