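import Mathlib
import Cfsg.Agent.Lib.Helper21.SubnCount4

set_option autoImplicit false

namespace Cfsg.Agent.Lib.Helper21

open scoped Pointwise

section SubnMob1

variable {G : Type*} [Group G]

/-- A Moebius-type weight on the subgroups above `H`. -/
theorem exists_mu [Finite G] (H : Subgroup G) :
    ∃ μ : Subgroup G → ℤ, μ H = 1 ∧
      ∀ (s : Finset (Subgroup G)) (A : Subgroup G), (∀ K, K ∈ s ↔ H ≤ K ∧ K ≤ A) → H ≠ A →
        ∑ K ∈ s, μ K = 0 := by
  classical
  letI : Fintype (Subgroup G) := Fintype.ofFinite _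
  letI : LocallyFiniteOrder (Subgroup G) := Fintype.toLocallyFiniteOrder
  refine ⟨fun K => IncidenceAlgebra.mu ℤ H K, IncidenceAlgebra.mu_self H, fun s A hs hne => ?_⟩
  have e : s = Finset.Icc H A := by
    ext K; rw [hs, Finset.mem_Icc]
  rw [e, IncidenceAlgebra.sum_Icc_mu_right, if_neg hne]

/-- Closure lemma: a down-closed family above `H`, closed under joining with some `M₀ > H`,
has total weight zero. -/
theorem mu_closure [Finite G] (μ : Subgroup G → ℤ) (H : Subgroup G)
    (hμ : ∀ (s : Finset (Subgroup G)) (A : Subgroup G), (∀ K, K ∈ s ↔ H ≤ K ∧ K ≤ A) → H ≠ A →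
        ∑ K ∈ s, μ K = 0)
    (U : Finset (Subgroup G)) (M₀ : Subgroup G) (hHM : H ≤ M₀) (hne : H ≠ M₀)
    (hU1 : ∀ K ∈ U, H ≤ K) (hU2 : ∀ K ∈ U, ∀ K', H ≤ K' → K' ≤ K → K' ∈ U)
    (hU3 : ∀ K ∈ U, K ⊔ M₀ ∈ U) : ∑ K ∈ U, μ K = 0 := by
  classical
  have key : ∀ c : Subgroup G, c ∈ U → M₀ ≤ c →
      ∑ K ∈ U.filter (fun K => K ⊔ M₀ = c), μ K = 0 := by
    intro c
    induction c using WellFoundedLT.induction with
    | ind c ih =>
      intro hcU hMc
      have hHc : H ≠ c := by
        rintro rfl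
        exact hne (le_antisymm hHM hMc)
      have h1 : ∑ K ∈ U.filter (fun K => K ≤ c), μ K = 0 := by
        apply hμ _ c _ hHc
        intro K
        rw [Finset.mem_filter]
        exact ⟨fun h => ⟨hU1 K h.1, h.2⟩, fun h => ⟨hU2 c hcU K h.1 h.2, h.2⟩⟩
      have h2 := Finset.sum_fiberwise_of_maps_to
        (s := U.filter (fun K => K ≤ c)) (t := U.filter (fun c' => M₀ ≤ c' ∧ c' ≤ c))
        (g := fun K => K ⊔ M₀) (fun K hK => by
          rw [Finset.mem_filter] at hK ⊢
          exact ⟨hU3 K hK.1, le_sup_right, sup_le hK.2 hMc⟩) μ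
      rw [h1] at h2
      have hct : c ∈ U.filter (fun c' => M₀ ≤ c' ∧ c' ≤ c) :=
        Finset.mem_filter.mpr ⟨hcU, hMc, le_rfl⟩
      rw [← Finset.add_sum_erase _ _ hct] at h2
      have h3 : ∑ x ∈ (U.filter (fun c' => M₀ ≤ c' ∧ c' ≤ c)).erase c,
          ∑ i ∈ (U.filter (fun K => K ≤ c)).filter (fun K => K ⊔ M₀ = x), μ i = 0 := by
        apply Finset.sum_eq_zero
        intro y hy
        rw [Finset.mem_erase, Finset.mem_filter] at hy
        have hyc : y < c := lt_of_le_of_ne hy.2.2.2 hy.1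
        have e : (U.filter (fun K => K ≤ c)).filter (fun K => K ⊔ M₀ = y) =
            U.filter (fun K => K ⊔ M₀ = y) := by
          ext K
          simp only [Finset.mem_filter]
          constructor
          · exact fun h => ⟨h.1.1, h.2⟩
          · intro h
            exact ⟨⟨h.1, (le_sup_left.trans h.2.le).trans hy.2.2.2⟩, h.2⟩
        rw [e]
        exact ih y hyc hy.2.1 hy.2.2.1
      rw [h3, add_zero] at h2
      have e : (U.filter (fun K => K ≤ c)).filter (fun K => K ⊔ M₀ = c) =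
          U.filter (fun K => K ⊔ M₀ = c) := by
        ext K
        simp only [Finset.mem_filter]
        constructor
        · exact fun h => ⟨h.1.1, h.2⟩
        · intro h
          exact ⟨⟨h.1, le_sup_left.trans h.2.le⟩, h.2⟩
      rw [e] at h2
      exact h2
  have h2 := Finset.sum_fiberwise_of_maps_to
    (s := U) (t := U.filter (fun c' => M₀ ≤ c'))
    (g := fun K => K ⊔ M₀) (fun K hK => by
      rw [Finset.mem_filter]
      exact ⟨hU3 K hK, le_sup_right⟩) μ
  rw [← h2]
  apply Finset.sum_eq_zero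
  intro y hy
  rw [Finset.mem_filter] at hy
  exact key y hy.1 hy.2

end SubnMob1

end Cfsg.Agent.Lib.Helper21
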