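import Mathlib
import Cfsg.Agent.Lib.Helper21.SubnMob1
import Cfsg.Agent.Lib.Helper14.ConjFamily

set_option autoImplicit false

namespace Cfsg.Agent.Lib.Helper21

open scoped Pointwise

section SubnMob2

variable {G : Type*} [Group G]

/-- `g` lies in the subnormalizer of the `p`-subgroup `K`. -/
def SubN (p : ℕ) (K : Subgroup G) (g : G) : Prop :=
  ∃ R : Subgroup G, K ≤ R ∧ IsPGroup p R ∧ g ∈ Subgroup.normalizer (R : Set G)

/-- `Q` is a Sylow `p`-subgroup of `X`. -/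
def IsSyl (p : ℕ) (X Q : Subgroup G) : Prop :=
  Q ≤ X ∧ IsPGroup p Q ∧ ¬ p ∣ Q.relIndex X

theorem SubN_mono {p : ℕ} {H K : Subgroup G} {g : G} (hHK : H ≤ K) (h : SubN p K g) :
    SubN p H g := by
  obtain ⟨R, h1, h2, h3⟩ := h
  exact ⟨R, hHK.trans h1, h2, h3⟩

theorem exists_min_inv [Finite G] {p : ℕ} {H : Subgroup G} {g : G} (h : SubN p H g) :
    ∃ R₀ : Subgroup G, H ≤ R₀ ∧ IsPGroup p R₀ ∧ g ∈ Subgroup.normalizer (R₀ : Set G) ∧
      ∀ R : Subgroup G, H ≤ R → IsPGroup p R → g ∈ Subgroup.normalizer (R : Set G) → R₀ ≤ R := by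
  obtain ⟨R₀, hR₀, hmin⟩ := Set.Finite.exists_minimal
    (s := {R : Subgroup G | H ≤ R ∧ IsPGroup p R ∧ g ∈ Subgroup.normalizer (R : Set G)})
    (Set.toFinite _) h
  refine ⟨R₀, hR₀.1, hR₀.2.1, hR₀.2.2, fun R h1 h2 h3 => ?_⟩
  have hmem : R₀ ⊓ R ∈
      {R : Subgroup G | H ≤ R ∧ IsPGroup p R ∧ g ∈ Subgroup.normalizer (R : Set G)} :=
    ⟨le_inf hR₀.1 h1, hR₀.2.1.to_le inf_le_left, mem_normalizer_inf hR₀.2.2 h3⟩
  exact (hmin hmem inf_le_left).trans inf_le_right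

theorem exists_isSyl_ge [Finite G] {p : ℕ} [Fact p.Prime] {X H : Subgroup G} (hHX : H ≤ X)
    (hH : IsPGroup p H) : ∃ Q, IsSyl p X Q ∧ H ≤ Q := by
  obtain ⟨S, hS⟩ := (hH.comap_subtype : IsPGroup p (H.subgroupOf X)).exists_le_sylow
  refine ⟨(S : Subgroup X).map X.subtype, ⟨Subgroup.map_subtype_le _, S.2.map _, ?_⟩, ?_⟩
  · rw [Subgroup.relIndex, Subgroup.subgroupOf,
      Subgroup.comap_map_eq_self_of_injective (Subgroup.subtype_injective _)]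
    exact S.not_dvd_index
  · intro h hh
    exact ⟨⟨h, hHX hh⟩, hS (Subgroup.mem_subgroupOf.mpr hh), rfl⟩

theorem isSyl_max [Finite G] {p : ℕ} [Fact p.Prime] {X Q K : Subgroup G} (hQ : IsSyl p X Q)
    (hQK : Q ≤ K) (hKX : K ≤ X) (hK : IsPGroup p K) : K = Q := by
  apply le_antisymm _ hQK
  rw [← Subgroup.relIndex_eq_one]
  have d1 : Q.relIndex K ∣ Q.relIndex X :=
    Dvd.intro _ (Subgroup.relIndex_mul_relIndex Q K X hQK hKX)
  have d2 : Q.relIndex K ∣ Nat.card K := Subgroup.relIndex_dvd_card _ _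
  exact one_of_ppow_dvd hQ.2.2 d1 (ppow_of_dvd d2 (IsPGroup.iff_card.mp hK))

theorem isSyl_conj [Finite G] {p : ℕ} [Fact p.Prime] {X Q₁ Q₂ : Subgroup G}
    (h1 : IsSyl p X Q₁) (h2 : IsSyl p X Q₂) : ∃ x ∈ X, Q₂ = MulAut.conj x • Q₁ :=
  conj_of_sylow_in h1.1 h2.1 h1.2.1 h2.2.1 h1.2.2 h2.2.2

theorem conj_smul_eq_of_mem_normalizer {K : Subgroup G} {x : G}
    (hx : x ∈ Subgroup.normalizer (K : Set G)) : MulAut.conj x • K = K :=
  (mem_normalizer_iff_map K x).mp hx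

theorem conj_smul_eq_iff (T : Subgroup G) (x x₁ : G) :
    MulAut.conj x • T = MulAut.conj x₁ • T ↔ x₁⁻¹ * x ∈ Subgroup.normalizer (T : Set G) := by
  rw [mem_normalizer_iff_map, map_conj_eq_smul, map_mul, mul_smul, map_inv, inv_smul_eq_iff]

theorem isSyl_smul [Finite G] {p : ℕ} [Fact p.Prime] {X Q : Subgroup G} (hQ : IsSyl p X Q)
    {x : G} (hx : x ∈ X) : IsSyl p X (MulAut.conj x • Q) := by
  have hX : MulAut.conj x • X = X := Subgroup.conj_smul_eq_self_of_mem hx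
  have hle : MulAut.conj x • Q ≤ X := by
    have := Subgroup.pointwise_smul_le_pointwise_smul_iff (a := MulAut.conj x) |>.mpr hQ.1
    rwa [hX] at this
  refine ⟨hle, ?_, ?_⟩
  · obtain ⟨k, hk⟩ := IsPGroup.iff_card.mp hQ.2.1
    exact IsPGroup.of_card (n := k) (by rw [Cfsg.Agent.Lib.Helper1.card_conj_smul]; exact hk)
  · have e1 := card_mul_relIndex hle
    have e2 := card_mul_relIndex hQ.1
    rw [Cfsg.Agent.Lib.Helper1.card_conj_smul] at e1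
    have hpos : 0 < Nat.card Q := Nat.card_pos
    rw [Nat.eq_of_mul_eq_mul_left hpos (e1.trans e2.symm)]
    exact hQ.2.2

theorem le_isSyl_of_normal [Finite G] {p : ℕ} [Fact p.Prime] {X H Q : Subgroup G} (hHX : H ≤ X)
    (hH : IsPGroup p H) (hn : X ≤ Subgroup.normalizer (H : Set G)) (hQ : IsSyl p X Q) :
    H ≤ Q := by
  obtain ⟨Q₁, hQ₁, hHQ₁⟩ := exists_isSyl_ge hHX hH
  obtain ⟨x, hx, rfl⟩ := isSyl_conj hQ₁ hQ
  have := Subgroup.pointwise_smul_le_pointwise_smul_iff (a := MulAut.conj x) |>.mpr hHQ₁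
  rwa [conj_smul_eq_of_mem_normalizer (hn hx)] at this

theorem card_inf_normalizer_conj [Finite G] {X Q : Subgroup G} {x : G} (hx : x ∈ X) :
    Nat.card ↥(X ⊓ Subgroup.normalizer ((MulAut.conj x • Q : Subgroup G) : Set G)) =
      Nat.card ↥(X ⊓ Subgroup.normalizer (Q : Set G)) := by
  have key : ∀ y : G, y ∈ Subgroup.normalizer ((MulAut.conj x • Q : Subgroup G) : Set G) ↔
      x⁻¹ * y * x ∈ Subgroup.normalizer (Q : Set G) := by
    intro y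
    rw [mem_normalizer_iff_map, mem_normalizer_iff_map, map_conj_eq_smul, map_conj_eq_smul,
      map_mul, map_mul, mul_smul, mul_smul, map_inv, inv_smul_eq_iff]
  refine Nat.card_congr
    ⟨fun y => ⟨x⁻¹ * y.1 * x, Subgroup.mem_inf.mpr
        ⟨X.mul_mem (X.mul_mem (X.inv_mem hx) (Subgroup.mem_inf.mp y.2).1) hx,
          (key y.1).mp (Subgroup.mem_inf.mp y.2).2⟩⟩,
     fun z => ⟨x * z.1 * x⁻¹, Subgroup.mem_inf.mpr
        ⟨X.mul_mem (X.mul_mem hx (Subgroup.mem_inf.mp z.2).1) (X.inv_mem hx),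
          (key _).mpr (by
            have e : x⁻¹ * (x * z.1 * x⁻¹) * x = z.1 := by group
            rw [e]; exact (Subgroup.mem_inf.mp z.2).2)⟩⟩, ?_, ?_⟩
  · intro y; apply Subtype.ext; show x * (x⁻¹ * y.1 * x) * x⁻¹ = y.1; group
  · intro z; apply Subtype.ext; show x⁻¹ * (x * z.1 * x⁻¹) * x = z.1; group

theorem card_inf_normalizer_isSyl [Finite G] {p : ℕ} [Fact p.Prime] {X Q₁ Q₂ : Subgroup G}
    (h1 : IsSyl p X Q₁) (h2 : IsSyl p X Q₂) :
    Nat.card ↥(X ⊓ Subgroup.normalizer (Q₂ : Set G)) =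
      Nat.card ↥(X ⊓ Subgroup.normalizer (Q₁ : Set G)) := by
  obtain ⟨x, hx, rfl⟩ := isSyl_conj h1 h2
  exact card_inf_normalizer_conj hx

theorem card_eq_mul_of_fibres {A I : Type*} [Finite A] [Finite I] (f : A → I) (c : ℕ)
    (h : ∀ i, Nat.card {a // f a = i} = c) : Nat.card A = Nat.card I * c := by
  classical
  have := Fintype.ofFinite I
  rw [← Nat.card_congr (Equiv.sigmaFiberEquiv f), Nat.card_sigma,
    Finset.sum_congr rfl (fun i _ => h i), Finset.sum_const, Finset.card_univ,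
    Nat.card_eq_fintype_card, smul_eq_mul]

theorem card_isSyl_mul [Finite G] {p : ℕ} [Fact p.Prime] {X Q₀ : Subgroup G}
    (hQ₀ : IsSyl p X Q₀) :
    Nat.card X = Nat.card {Q : Subgroup G // IsSyl p X Q} *
      Nat.card ↥(X ⊓ Subgroup.normalizer (Q₀ : Set G)) := by
  apply card_eq_mul_of_fibres
    (fun x : X => (⟨MulAut.conj (x : G) • Q₀, isSyl_smul hQ₀ x.2⟩ : {Q : Subgroup G // IsSyl p X Q}))
  rintro ⟨Q, hQ⟩
  obtain ⟨x₁, hx₁, rfl⟩ := isSyl_conj hQ₀ hQ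
  refine Nat.card_congr
    ⟨fun a => ⟨x₁⁻¹ * a.1.1, Subgroup.mem_inf.mpr ⟨X.mul_mem (X.inv_mem hx₁) a.1.2,
        (conj_smul_eq_iff Q₀ a.1.1 x₁).mp (congrArg Subtype.val a.2)⟩⟩,
     fun n => ⟨⟨x₁ * n.1, X.mul_mem hx₁ (Subgroup.mem_inf.mp n.2).1⟩,
        Subtype.ext ((conj_smul_eq_iff Q₀ _ x₁).mpr (by
          have e : x₁⁻¹ * (x₁ * n.1) = n.1 := inv_mul_cancel_left _ _
          show x₁⁻¹ * (x₁ * n.1) ∈ _
          rw [e]; exact (Subgroup.mem_inf.mp n.2).2))⟩, ?_, ?_⟩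
  · intro a; apply Subtype.ext; apply Subtype.ext; exact mul_inv_cancel_left _ _
  · intro n; apply Subtype.ext; exact inv_mul_cancel_left _ _

theorem casolo_normal [Finite G] {p : ℕ} [Fact p.Prime] {X H Q₀ : Subgroup G} (hHX : H ≤ X)
    (hH : IsPGroup p H) (hn : X ≤ Subgroup.normalizer (H : Set G)) (hQ₀ : IsSyl p X Q₀) :
    Nat.card {g : G // g ∈ X ∧ SubN p H g} =
      Nat.card {Q : Subgroup G // IsSyl p X Q ∧ H ≤ Q} *
        Nat.card ↥(X ⊓ Subgroup.normalizer (Q₀ : Set G)) := by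
  have e1 : Nat.card {g : G // g ∈ X ∧ SubN p H g} = Nat.card X :=
    Nat.card_congr (Equiv.subtypeEquivRight
      (fun g => ⟨fun h => h.1, fun h => ⟨h, H, le_rfl, hH, hn h⟩⟩))
  have e2 : Nat.card {Q : Subgroup G // IsSyl p X Q ∧ H ≤ Q} =
      Nat.card {Q : Subgroup G // IsSyl p X Q} :=
    Nat.card_congr (Equiv.subtypeEquivRight
      (fun Q => ⟨fun h => h.1, fun h => ⟨h, le_isSyl_of_normal hHX hH hn h⟩⟩))
  rw [e1, e2]; exact card_isSyl_mul hQ₀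

theorem casolo_sylow [Finite G] {p : ℕ} [Fact p.Prime] {X H Q₀ : Subgroup G}
    (hH : IsSyl p X H) (hQ₀ : IsSyl p X Q₀) :
    Nat.card {g : G // g ∈ X ∧ SubN p H g} =
      Nat.card {Q : Subgroup G // IsSyl p X Q ∧ H ≤ Q} *
        Nat.card ↥(X ⊓ Subgroup.normalizer (Q₀ : Set G)) := by
  have e1 : Nat.card {g : G // g ∈ X ∧ SubN p H g} =
      Nat.card ↥(X ⊓ Subgroup.normalizer (H : Set G)) := by
    refine Nat.card_congr (Equiv.subtypeEquivRight (fun g => ?_))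
    rw [Subgroup.mem_inf]
    constructor
    · rintro ⟨hgX, R, hHR, hR, hgR⟩
      refine ⟨hgX, ?_⟩
      have hRX : R ⊓ X = H :=
        isSyl_max hH (le_inf hHR hH.1) inf_le_right (hR.to_le inf_le_left)
      rw [← hRX]
      exact mem_normalizer_inf hgR (Subgroup.le_normalizer hgX)
    · rintro ⟨hgX, hgN⟩
      exact ⟨hgX, H, le_rfl, hH.2.1, hgN⟩
  have e2 : Nat.card {Q : Subgroup G // IsSyl p X Q ∧ H ≤ Q} = 1 := by
    rw [Nat.card_eq_one_iff_unique]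
    refine ⟨⟨?_⟩, ⟨⟨H, hH, le_rfl⟩⟩⟩
    rintro ⟨Q, hQ, hHQ⟩ ⟨Q', hQ', hHQ'⟩
    apply Subtype.ext
    show Q = Q'
    rw [isSyl_max hH hHQ hQ.1 hQ.2.1, isSyl_max hH hHQ' hQ'.1 hQ'.2.1]
  rw [e1, e2, one_mul]
  exact card_inf_normalizer_isSyl hQ₀ hH

theorem mu_lam_sum [Finite G] {p : ℕ} (μ : Subgroup G → ℤ) (H : Subgroup G)
    (hμ : ∀ (s : Finset (Subgroup G)) (A : Subgroup G), (∀ K, K ∈ s ↔ H ≤ K ∧ K ≤ A) → H ≠ A →
        ∑ K ∈ s, μ K = 0)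
    (Y N : Subgroup G) (𝒦 : Finset (Subgroup G))
    (h𝒦 : ∀ K, K ∈ 𝒦 ↔ H ≤ K ∧ K ≤ N ∧ IsPGroup p K)
    (hQ : ∀ Q, IsSyl p Y Q → H ≤ Q → H ≠ N ⊓ Q) :
    ∑ K ∈ 𝒦, μ K * (Nat.card {Q : Subgroup G // IsSyl p Y Q ∧ K ≤ Q} : ℤ) = 0 := by
  classical
  have := Fintype.ofFinite (Subgroup G)
  have e : ∀ K : Subgroup G, (Nat.card {Q : Subgroup G // IsSyl p Y Q ∧ K ≤ Q} : ℤ) =
      ∑ Q : Subgroup G, if IsSyl p Y Q ∧ K ≤ Q then (1 : ℤ) else 0 := by
    intro K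
    rw [Finset.sum_boole, Nat.card_eq_fintype_card, Fintype.card_subtype]
  simp_rw [e, Finset.mul_sum]
  rw [Finset.sum_comm]
  apply Finset.sum_eq_zero
  intro Q _
  by_cases hQY : IsSyl p Y Q
  · by_cases hHQ : H ≤ Q
    · have h1 := hμ (𝒦.filter (fun K => K ≤ Q)) (N ⊓ Q) (fun K => by
        rw [Finset.mem_filter, h𝒦]
        constructor
        · rintro ⟨⟨h1, h2, -⟩, h4⟩; exact ⟨h1, le_inf h2 h4⟩
        · rintro ⟨h1, h2⟩
          exact ⟨⟨h1, h2.trans inf_le_left, hQY.2.1.to_le (h2.trans inf_le_right)⟩,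
            h2.trans inf_le_right⟩) (hQ Q hQY hHQ)
      refine Eq.trans ?_ h1
      rw [Finset.sum_filter]
      apply Finset.sum_congr rfl
      intro K _
      by_cases hKQ : K ≤ Q
      · simp [hQY, hKQ]
      · simp [hKQ]
    · apply Finset.sum_eq_zero
      intro K hK
      have : ¬ K ≤ Q := fun h => hHQ (((h𝒦 K).mp hK).1.trans h)
      simp [this]
  · apply Finset.sum_eq_zero
    intro K _
    simp [hQY]

theorem mu_subn_sum [Finite G] {p : ℕ} [Fact p.Prime] (μ : Subgroup G → ℤ) (H : Subgroup G)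
    (hμ : ∀ (s : Finset (Subgroup G)) (A : Subgroup G), (∀ K, K ∈ s ↔ H ≤ K ∧ K ≤ A) → H ≠ A →
        ∑ K ∈ s, μ K = 0)
    (X N : Subgroup G) (hHX : H ≤ X) (hN : N = X ⊓ Subgroup.normalizer (H : Set G))
    (𝒦 : Finset (Subgroup G)) (h𝒦 : ∀ K, K ∈ 𝒦 ↔ H ≤ K ∧ K ≤ N ∧ IsPGroup p K)
    (g : G) (hgX : g ∈ X) (hg : g ∉ Subgroup.normalizer (H : Set G))
    [DecidablePred (fun K : Subgroup G => SubN p K g)] :
    ∑ K ∈ 𝒦, μ K * (if SubN p K g then (1 : ℤ) else 0) = 0 := by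
  by_cases hs : SubN p H g
  · obtain ⟨R₀, h1, h2, h3, h4⟩ := exists_min_inv hs
    have hne : H ≠ R₀ := by rintro rfl; exact hg h3
    have hR₀X : R₀ ≤ X := by
      have := h4 (R₀ ⊓ X) (le_inf h1 hHX) (h2.to_le inf_le_left)
        (mem_normalizer_inf h3 (Subgroup.le_normalizer hgX))
      exact this.trans inf_le_right
    obtain ⟨x, hx, hxH⟩ := Cfsg.Agent.Lib.Helper14.exists_mem_normalizer_not_mem h2 h1 hne
    have hM₀ : H ≠ R₀ ⊓ Subgroup.normalizer (H : Set G) := by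
      intro h; rw [← h] at hx; exact hxH hx
    have h5 := mu_closure μ H hμ (𝒦.filter (fun K => SubN p K g))
      (R₀ ⊓ Subgroup.normalizer (H : Set G)) (le_inf h1 Subgroup.le_normalizer) hM₀ ?_ ?_ ?_
    · refine Eq.trans ?_ h5
      rw [Finset.sum_filter]
      apply Finset.sum_congr rfl
      intro K _
      split_ifs <;> simp
    · intro K hK; exact ((h𝒦 K).mp (Finset.mem_filter.mp hK).1).1
    · intro K hK K' h1' h2'
      rw [Finset.mem_filter, h𝒦] at hK ⊢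
      exact ⟨⟨h1', h2'.trans hK.1.2.1, hK.1.2.2.to_le h2'⟩, SubN_mono h2' hK.2⟩
    · intro K hK
      rw [Finset.mem_filter, h𝒦] at hK ⊢
      obtain ⟨⟨k1, k2, k3⟩, R, r1, r2, r3⟩ := hK
      have hR₀R : R₀ ≤ R := h4 R (k1.trans r1) r2 r3
      have hle : K ⊔ (R₀ ⊓ Subgroup.normalizer (H : Set G)) ≤ R :=
        sup_le r1 (inf_le_left.trans hR₀R)
      refine ⟨⟨k1.trans le_sup_left, sup_le k2 ?_, r2.to_le hle⟩, R, hle, r2, r3⟩
      rw [hN]; exact inf_le_inf_right _ hR₀X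
  · apply Finset.sum_eq_zero
    intro K hK
    have : ¬ SubN p K g := fun h => hs (SubN_mono ((h𝒦 K).mp hK).1 h)
    simp [this]

theorem T_eq_sum_w [Fintype G] {p : ℕ} (μ : Subgroup G → ℤ) (𝒦 : Finset (Subgroup G))
    (Y : Subgroup G) [DecidablePred (fun g : G => g ∈ Y)]
    [∀ (K : Subgroup G) (g : G), Decidable (SubN p K g)] :
    ∑ K ∈ 𝒦, μ K * (Nat.card {g : G // g ∈ Y ∧ SubN p K g} : ℤ) =
      ∑ g ∈ Finset.univ.filter (fun g : G => g ∈ Y),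
        ∑ K ∈ 𝒦, μ K * (if SubN p K g then (1 : ℤ) else 0) := by
  have e : ∀ K : Subgroup G, (Nat.card {g : G // g ∈ Y ∧ SubN p K g} : ℤ) =
      ∑ g ∈ Finset.univ.filter (fun g : G => g ∈ Y), (if SubN p K g then (1 : ℤ) else 0) := by
    intro K
    rw [Finset.sum_boole, Finset.filter_filter, Nat.card_eq_fintype_card, Fintype.card_subtype]
  simp_rw [e, Finset.mul_sum]
  exact Finset.sum_comm

end SubnMob2

end Cfsg.Agent.Lib.Helper21
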