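import Mathlib
import Cfsg.Agent.Lib.Helper21.SubnMob2

set_option autoImplicit false

namespace Cfsg.Agent.Lib.Helper21

open scoped Pointwise

section SubnMob3

variable {G : Type*} [Group G]

theorem casolo_rel [Finite G] (p : ℕ) [Fact p.Prime] :
    ∀ (n : ℕ) (X : Subgroup G), Nat.card X = n → ∀ (d : ℕ) (H : Subgroup G), H ≤ X →
      IsPGroup p H → Nat.card X - Nat.card H = d →
      ∀ Q₀ : Subgroup G, IsSyl p X Q₀ →
      Nat.card {g : G // g ∈ X ∧ SubN p H g} =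
        Nat.card {Q : Subgroup G // IsSyl p X Q ∧ H ≤ Q} *
          Nat.card ↥(X ⊓ Subgroup.normalizer (Q₀ : Set G)) := by
  intro n
  induction n using Nat.strong_induction_on with
  | _ n ihX =>
    intro X hXn d
    induction d using Nat.strong_induction_on with
    | _ d ihH =>
      intro H hHX hH hd Q₀ hQ₀
      by_cases hn : X ≤ Subgroup.normalizer (H : Set G)
      · exact casolo_normal hHX hH hn hQ₀
      by_cases hsyl : IsSyl p X H
      · exact casolo_sylow hsyl hQ₀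
      classical
      have := Fintype.ofFinite G
      have := Fintype.ofFinite (Subgroup G)
      obtain ⟨N, hN⟩ : ∃ N : Subgroup G, N = X ⊓ Subgroup.normalizer (H : Set G) := ⟨_, rfl⟩
      have hNX : N ≤ X := by rw [hN]; exact inf_le_left
      have hHN : H ≤ N := by rw [hN]; exact le_inf hHX Subgroup.le_normalizer
      have hNlt : Nat.card N < Nat.card X := by
        apply lt_of_le_of_ne (Subgroup.card_le_of_le hNX)
        intro hcard
        have hNeq : N = X := Subgroup.eq_of_le_of_card_ge hNX hcard.ge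
        apply hn
        rw [← hNeq, hN]; exact inf_le_right
      obtain ⟨μ, hμ1, hμ⟩ := exists_mu H
      obtain ⟨𝒦, h𝒦⟩ : ∃ 𝒦 : Finset (Subgroup G),
          ∀ K, K ∈ 𝒦 ↔ H ≤ K ∧ K ≤ N ∧ IsPGroup p K :=
        ⟨Finset.univ.filter (fun K => H ≤ K ∧ K ≤ N ∧ IsPGroup p K), fun K => by simp⟩
      have hH𝒦 : H ∈ 𝒦 := (h𝒦 H).mpr ⟨le_rfl, hHN, hH⟩
      obtain ⟨Q₁, hQ₁, hHQ₁⟩ := exists_isSyl_ge hHX hH
      have hHQ₁ne : H ≠ Q₁ := by rintro rfl; exact hsyl hQ₁
      have haX : ∑ K ∈ 𝒦, μ K * (Nat.card {Q : Subgroup G // IsSyl p X Q ∧ K ≤ Q} : ℤ) = 0 := by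
        apply mu_lam_sum μ H hμ X N 𝒦 h𝒦
        intro Q hQ hHQ hEq
        have hne : H ≠ Q := by rintro rfl; exact hsyl hQ
        obtain ⟨x, hx, hxH⟩ :=
          Cfsg.Agent.Lib.Helper14.exists_mem_normalizer_not_mem hQ.2.1 hHQ hne
        apply hxH
        rw [hEq, hN]
        exact Subgroup.mem_inf.mpr ⟨Subgroup.mem_inf.mpr
          ⟨hQ.1 (Subgroup.mem_inf.mp hx).1, (Subgroup.mem_inf.mp hx).2⟩,
          (Subgroup.mem_inf.mp hx).1⟩
      have hnsN : ¬ IsSyl p N H := by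
        intro hs
        obtain ⟨x, hx, hxH⟩ :=
          Cfsg.Agent.Lib.Helper14.exists_mem_normalizer_not_mem hQ₁.2.1 hHQ₁ hHQ₁ne
        have hK₁ : Q₁ ⊓ Subgroup.normalizer (H : Set G) = H :=
          isSyl_max hs (le_inf hHQ₁ Subgroup.le_normalizer)
            (by rw [hN]; exact inf_le_inf_right _ hQ₁.1) (hQ₁.2.1.to_le inf_le_left)
        rw [hK₁] at hx; exact hxH hx
      have haN : ∑ K ∈ 𝒦, μ K * (Nat.card {Q : Subgroup G // IsSyl p N Q ∧ K ≤ Q} : ℤ) = 0 := by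
        apply mu_lam_sum μ H hμ N N 𝒦 h𝒦
        intro Q hQ hHQ hEq
        have hNQ : N ⊓ Q = Q := inf_eq_right.mpr hQ.1
        rw [hNQ] at hEq
        rw [← hEq] at hQ
        exact hnsN hQ
      obtain ⟨QN, hQN, -⟩ := exists_isSyl_ge hHN hH
      have hc : ∀ K ∈ 𝒦, Nat.card {g : G // g ∈ N ∧ SubN p K g} =
          Nat.card {Q : Subgroup G // IsSyl p N Q ∧ K ≤ Q} *
            Nat.card ↥(N ⊓ Subgroup.normalizer (QN : Set G)) := by
        intro K hK
        exact ihX (Nat.card N) (by rw [← hXn]; exact hNlt) N rfl _ K ((h𝒦 K).mp hK).2.1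
          ((h𝒦 K).mp hK).2.2 rfl QN hQN
      have hi : ∀ K ∈ 𝒦, K ≠ H → Nat.card {g : G // g ∈ X ∧ SubN p K g} =
          Nat.card {Q : Subgroup G // IsSyl p X Q ∧ K ≤ Q} *
            Nat.card ↥(X ⊓ Subgroup.normalizer (Q₀ : Set G)) := by
        intro K hK hKH
        have hK' := (h𝒦 K).mp hK
        have hlt : Nat.card H < Nat.card K := by
          apply lt_of_le_of_ne (Subgroup.card_le_of_le hK'.1)
          intro hcard
          exact hKH (Subgroup.eq_of_le_of_card_ge hK'.1 hcard.ge).symm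
        have hKX : K ≤ X := hK'.2.1.trans hNX
        have hKc : Nat.card K ≤ Nat.card X := Subgroup.card_le_of_le hKX
        exact ihH (Nat.card X - Nat.card K) (by omega) K hKX hK'.2.2 rfl Q₀ hQ₀
      have hsub : Finset.univ.filter (fun g : G => g ∈ N) ⊆
          Finset.univ.filter (fun g : G => g ∈ X) := by
        intro g hg
        rw [Finset.mem_filter] at hg ⊢
        exact ⟨hg.1, hNX hg.2⟩
      have hw : ∀ g ∈ Finset.univ.filter (fun g : G => g ∈ X),
          g ∉ Finset.univ.filter (fun g : G => g ∈ N) →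
          ∑ K ∈ 𝒦, μ K * (if SubN p K g then (1 : ℤ) else 0) = 0 := by
        intro g hgX hgN
        rw [Finset.mem_filter] at hgX hgN
        apply mu_subn_sum μ H hμ X N hHX hN 𝒦 h𝒦 g hgX.2
        intro hgn
        apply hgN
        refine ⟨Finset.mem_univ g, ?_⟩
        rw [hN]; exact Subgroup.mem_inf.mpr ⟨hgX.2, hgn⟩
      have hTXN : ∑ K ∈ 𝒦, μ K * (Nat.card {g : G // g ∈ X ∧ SubN p K g} : ℤ) =
          ∑ K ∈ 𝒦, μ K * (Nat.card {g : G // g ∈ N ∧ SubN p K g} : ℤ) := by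
        rw [T_eq_sum_w μ 𝒦 X, T_eq_sum_w μ 𝒦 N]
        exact (Finset.sum_subset hsub hw).symm
      have hTN : ∑ K ∈ 𝒦, μ K * (Nat.card {g : G // g ∈ N ∧ SubN p K g} : ℤ) = 0 := by
        have e : ∀ K ∈ 𝒦, μ K * (Nat.card {g : G // g ∈ N ∧ SubN p K g} : ℤ) =
            (μ K * (Nat.card {Q : Subgroup G // IsSyl p N Q ∧ K ≤ Q} : ℤ)) *
              (Nat.card ↥(N ⊓ Subgroup.normalizer (QN : Set G)) : ℤ) := by
          intro K hK; rw [hc K hK]; push_cast; ring
        rw [Finset.sum_congr rfl e, ← Finset.sum_mul, haN, zero_mul]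
      have h1 := Finset.add_sum_erase 𝒦
        (fun K => μ K * (Nat.card {g : G // g ∈ X ∧ SubN p K g} : ℤ)) hH𝒦
      have h2 := Finset.add_sum_erase 𝒦
        (fun K => μ K * (Nat.card {Q : Subgroup G // IsSyl p X Q ∧ K ≤ Q} : ℤ)) hH𝒦
      have h3 : ∑ K ∈ 𝒦.erase H, μ K * (Nat.card {g : G // g ∈ X ∧ SubN p K g} : ℤ) =
          (∑ K ∈ 𝒦.erase H, μ K * (Nat.card {Q : Subgroup G // IsSyl p X Q ∧ K ≤ Q} : ℤ)) *
            (Nat.card ↥(X ⊓ Subgroup.normalizer (Q₀ : Set G)) : ℤ) := by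
        rw [Finset.sum_mul]
        apply Finset.sum_congr rfl
        intro K hK
        rw [Finset.mem_erase] at hK
        rw [hi K hK.2 hK.1]; push_cast; ring
      rw [hTXN, hTN, hμ1, one_mul] at h1
      rw [haX, hμ1, one_mul] at h2
      have h2' : ∑ K ∈ 𝒦.erase H, μ K * (Nat.card {Q : Subgroup G // IsSyl p X Q ∧ K ≤ Q} : ℤ) =
          - (Nat.card {Q : Subgroup G // IsSyl p X Q ∧ H ≤ Q} : ℤ) := by linarith
      rw [h2'] at h3
      have hfin : (Nat.card {g : G // g ∈ X ∧ SubN p H g} : ℤ) =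
          (Nat.card {Q : Subgroup G // IsSyl p X Q ∧ H ≤ Q} : ℤ) *
            (Nat.card ↥(X ⊓ Subgroup.normalizer (Q₀ : Set G)) : ℤ) := by linarith
      exact_mod_cast hfin

theorem casolo_main [Finite G] (p : ℕ) [Fact p.Prime] (H : Subgroup G) (hH : IsPGroup p H)
    (P : Sylow p G) :
    Nat.card {g : G // (H.subgroupOf (H ⊔ Subgroup.zpowers g)).IsSubnormal} =
      Nat.card {Q : Sylow p G // H ≤ Q} * Nat.card (Subgroup.normalizer ((P : Subgroup G) : Set G)) := by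
  have hP : IsSyl p ⊤ (P : Subgroup G) :=
    ⟨le_top, P.2, by rw [Subgroup.relIndex_top_right]; exact P.not_dvd_index⟩
  have h := casolo_rel p (Nat.card (⊤ : Subgroup G)) ⊤ rfl _ H le_top hH rfl P hP
  have e1 : Nat.card {g : G // g ∈ (⊤ : Subgroup G) ∧ SubN p H g} =
      Nat.card {g : G // (H.subgroupOf (H ⊔ Subgroup.zpowers g)).IsSubnormal} :=
    Nat.card_congr (Equiv.subtypeEquivRight (fun g => by
      rw [Cfsg.Agent.Lib.Helper11.subn_iff p H hH g]
      exact ⟨fun h => h.2, fun h => ⟨Subgroup.mem_top g, h⟩⟩))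
  have e2 : Nat.card {Q : Subgroup G // IsSyl p ⊤ Q ∧ H ≤ Q} =
      Nat.card {Q : Sylow p G // H ≤ Q} := by
    refine Nat.card_congr
      ⟨fun Q => ⟨IsPGroup.toSylow Q.2.1.2.1
          (by rw [← Subgroup.relIndex_top_right]; exact Q.2.1.2.2), Q.2.2⟩,
       fun Q => ⟨Q.1, ⟨le_top, Q.1.2,
          by rw [Subgroup.relIndex_top_right]; exact Q.1.not_dvd_index⟩, Q.2⟩,
       fun Q => rfl, fun Q => ?_⟩
    apply Subtype.ext; apply Sylow.ext; rfl
  have e3 : Nat.card ↥(⊤ ⊓ Subgroup.normalizer ((P : Subgroup G) : Set G)) =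
      Nat.card (Subgroup.normalizer ((P : Subgroup G) : Set G)) := by rw [top_inf_eq]
  rw [e1, e2, e3] at h
  exact h

end SubnMob3

end Cfsg.Agent.Lib.Helper21
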