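import Mathlib
import Cfsg.Agent.Lib.Helper21.SubnMob3

set_option autoImplicit false

namespace Cfsg.Agent.Lib.Helper21

open scoped Pointwise

section SubnMob4

variable {G : Type*} [Group G]

theorem conj_count [Finite G] (p : ℕ) [Fact p.Prime] (H : Subgroup G) (P : Sylow p G) :
    Nat.card {Q : Sylow p G // H ≤ (Q : Subgroup G)} *
        Nat.card (Subgroup.normalizer ((P : Subgroup G) : Set G)) =
      Nat.card {K : Subgroup G // K ≤ (P : Subgroup G) ∧
          ∃ g : G, K = H.map (MulAut.conj g).toMonoidHom} *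
        Nat.card (Subgroup.normalizer (H : Set G)) := by
  have hZ : ∀ y : G, MulAut.conj y • H ≤ (P : Subgroup G) ↔
      H ≤ MulAut.conj y⁻¹ • (P : Subgroup G) := by
    intro y
    rw [Subgroup.pointwise_smul_subset_iff, map_inv]
  have c1 : Nat.card {y : G // MulAut.conj y • H ≤ (P : Subgroup G)} =
      Nat.card {Q : Sylow p G // H ≤ (Q : Subgroup G)} *
        Nat.card (Subgroup.normalizer ((P : Subgroup G) : Set G)) := by
    apply card_eq_mul_of_fibres (fun y : {y : G // MulAut.conj y • H ≤ (P : Subgroup G)} =>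
      (⟨y.1⁻¹ • P, by rw [Sylow.coe_subgroup_smul]; exact (hZ y.1).mp y.2⟩ :
        {Q : Sylow p G // H ≤ (Q : Subgroup G)}))
    rintro ⟨Q, hQ⟩
    obtain ⟨g, rfl⟩ := MulAction.exists_smul_eq G P Q
    have key : ∀ y : G, y⁻¹ • P = g • P ↔
        g⁻¹ * y⁻¹ ∈ Subgroup.normalizer ((P : Subgroup G) : Set G) := by
      intro y
      have h1 : (g⁻¹ * y⁻¹) • P = P ↔
          g⁻¹ * y⁻¹ ∈ Subgroup.normalizer ((P : Subgroup G) : Set G) :=
        Sylow.smul_eq_iff_mem_normalizer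
      rw [← h1]
      constructor
      · intro h; rw [mul_smul, h, inv_smul_smul]
      · intro h; rw [mul_smul, inv_smul_eq_iff] at h; exact h
    refine Nat.card_congr
      ⟨fun a => ⟨g⁻¹ * a.1.1⁻¹, (key a.1.1).mp (congrArg Subtype.val a.2)⟩,
       fun n => ⟨⟨n.1⁻¹ * g⁻¹, (hZ _).mpr (by
            have e : (n.1⁻¹ * g⁻¹)⁻¹ = g * n.1 := by group
            have hn : n.1 • P = P := Sylow.smul_eq_iff_mem_normalizer.mpr n.2
            rw [e, ← Sylow.coe_subgroup_smul, mul_smul, hn]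
            exact hQ)⟩,
          Subtype.ext ((key _).mpr (by
            have e : g⁻¹ * (n.1⁻¹ * g⁻¹)⁻¹ = n.1 := by group
            show g⁻¹ * (n.1⁻¹ * g⁻¹)⁻¹ ∈ _
            rw [e]; exact n.2))⟩, ?_, ?_⟩
    · intro a; apply Subtype.ext; apply Subtype.ext
      show (g⁻¹ * a.1.1⁻¹)⁻¹ * g⁻¹ = a.1.1
      group
    · intro n; apply Subtype.ext
      show g⁻¹ * (n.1⁻¹ * g⁻¹)⁻¹ = n.1
      group
  have c2 : Nat.card {y : G // MulAut.conj y • H ≤ (P : Subgroup G)} =
      Nat.card {K : Subgroup G // K ≤ (P : Subgroup G) ∧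
          ∃ g : G, K = H.map (MulAut.conj g).toMonoidHom} *
        Nat.card (Subgroup.normalizer (H : Set G)) := by
    apply card_eq_mul_of_fibres (fun y : {y : G // MulAut.conj y • H ≤ (P : Subgroup G)} =>
      (⟨MulAut.conj y.1 • H, y.2, y.1, rfl⟩ : {K : Subgroup G // K ≤ (P : Subgroup G) ∧
          ∃ g : G, K = H.map (MulAut.conj g).toMonoidHom}))
    rintro ⟨K, hKP, y₀, rfl⟩
    refine Nat.card_congr
      ⟨fun a => ⟨y₀⁻¹ * a.1.1, (conj_smul_eq_iff H a.1.1 y₀).mp (congrArg Subtype.val a.2)⟩,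
       fun n => ⟨⟨y₀ * n.1, ?_⟩, Subtype.ext ((conj_smul_eq_iff H _ y₀).mpr ?_)⟩, ?_, ?_⟩
    · rw [map_mul, mul_smul, conj_smul_eq_of_mem_normalizer n.2]; exact hKP
    · show y₀⁻¹ * (y₀ * n.1) ∈ _
      rw [inv_mul_cancel_left]; exact n.2
    · intro a; apply Subtype.ext; apply Subtype.ext; exact mul_inv_cancel_left _ _
    · intro n; apply Subtype.ext; exact inv_mul_cancel_left _ _
  exact c1.symm.trans c2

end SubnMob4

end Cfsg.Agent.Lib.Helper21
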