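import Mathlib

namespace Cfsg.Agent.Lib.Helper21

/-- if the commutator subgroup lies in `M₀` and `M₀` (as a subgroup of the ambient group) has
derived length `≤ i`, then the group has derived length `≤ i + 1`. -/
lemma sd_step {G : Type*} [Group G] (Q : Subgroup G) (M₀ : Subgroup Q) (hc : commutator Q ≤ M₀)
    (i : ℕ) (h : derivedSeries ↥(M₀.map Q.subtype) i = ⊥) : derivedSeries ↥Q (i + 1) = ⊥ := by
  obtain ⟨f, hf⟩ : ∃ f : ↥(M₀.map Q.subtype) →* ↥Q, ∀ x, ((f x : Q) : G) = (x : G) :=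
    ⟨Subgroup.inclusion (Subgroup.map_subtype_le M₀), fun x => rfl⟩
  have hrange : ∀ x : Q, x ∈ M₀ → ∃ y, f y = x := by
    intro x hx
    refine ⟨⟨(x : G), ⟨x, hx, rfl⟩⟩, ?_⟩
    apply Subtype.ext
    rw [hf]
  have key : ∀ j, derivedSeries ↥Q (j + 1) ≤ (derivedSeries ↥(M₀.map Q.subtype) j).map f := by
    intro j
    induction j with
    | zero =>
      rw [derivedSeries_one]
      intro x hx
      obtain ⟨y, hy⟩ := hrange x (hc hx)
      exact ⟨y, by simp [derivedSeries_zero], hy⟩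
    | succ j ihj =>
      calc derivedSeries ↥Q (j + 1 + 1)
          = ⁅derivedSeries ↥Q (j + 1), derivedSeries ↥Q (j + 1)⁆ := rfl
        _ ≤ ⁅(derivedSeries ↥(M₀.map Q.subtype) j).map f,
              (derivedSeries ↥(M₀.map Q.subtype) j).map f⁆ := Subgroup.commutator_mono ihj ihj
        _ = (⁅derivedSeries ↥(M₀.map Q.subtype) j,
              derivedSeries ↥(M₀.map Q.subtype) j⁆).map f := (Subgroup.map_commutator _ _ f).symm
        _ = (derivedSeries ↥(M₀.map Q.subtype) (j + 1)).map f := rfl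
  have hfin := key i
  rw [h, Subgroup.map_bot] at hfin
  exact le_bot_iff.mp hfin

/-- a `p`-group of permutations all of whose orbits have fewer than `p ^ (k + 1)` points has
derived length at most `k`. -/
theorem sd_upper (p : ℕ) [Fact p.Prime] : ∀ (N : ℕ) (Ω : Type) [Finite Ω], Nat.card Ω = N →
    ∀ (k : ℕ) (Q : Subgroup (Equiv.Perm Ω)), IsPGroup p Q →
    (∀ ω : Ω, Nat.card (MulAction.orbit Q ω) < p ^ (k + 1)) → derivedSeries ↥Q k = ⊥ := by
  intro N
  induction N using Nat.strong_induction_on with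
  | _ N ih =>
  intro Ω _ hcard
  classical
  have hp : p.Prime := Fact.out
  have hintr : ∀ (k : ℕ) (Q : Subgroup (Equiv.Perm Ω)), IsPGroup p Q →
      (∀ ω : Ω, Nat.card (MulAction.orbit Q ω) < p ^ (k + 1)) →
      ∀ ω : Ω, Nat.card (MulAction.orbit Q ω) < N → derivedSeries ↥Q k = ⊥ := by
    intro k Q hQ horb ω hlt
    obtain ⟨q, hq⟩ : ∃ q : Ω → Prop, q = fun y => y ∈ MulAction.orbit Q ω := ⟨_, rfl⟩
    have hqdef : ∀ y, q y ↔ y ∈ MulAction.orbit Q ω := by intro y; rw [hq]
    have hqinv : ∀ g : Q, ∀ y, q ((g : Equiv.Perm Ω) y) ↔ q y := by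
      intro g y
      rw [hq]
      show (g • y) ∈ MulAction.orbit Q ω ↔ y ∈ MulAction.orbit Q ω
      rw [← MulAction.orbit_eq_iff, MulAction.orbit_smul, MulAction.orbit_eq_iff]
    obtain ⟨r₁, hr₁⟩ : ∃ r₁ : Q →* Equiv.Perm {y // q y},
        ∀ g : Q, ∀ y : {y // q y}, ((r₁ g y : {y // q y}) : Ω) = (g : Equiv.Perm Ω) y :=
      ⟨{ toFun := fun g => (g : Equiv.Perm Ω).subtypePerm (hqinv g)
         map_one' := by ext y; rfl
         map_mul' := by intro g h; ext y; rfl }, fun g y => rfl⟩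
    obtain ⟨r₂, hr₂⟩ : ∃ r₂ : Q →* Equiv.Perm {y // ¬ q y},
        ∀ g : Q, ∀ y : {y // ¬ q y}, ((r₂ g y : {y // ¬ q y}) : Ω) = (g : Equiv.Perm Ω) y :=
      ⟨{ toFun := fun g => (g : Equiv.Perm Ω).subtypePerm (fun y => not_congr (hqinv g y))
         map_one' := by ext y; rfl
         map_mul' := by intro g h; ext y; rfl }, fun g y => rfl⟩
    have hab : Nat.card {y // q y} + Nat.card {y // ¬ q y} = N := by
      rw [← hcard, ← Nat.card_sum]
      exact Nat.card_congr (Equiv.sumCompl q)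
    have hqcard : Nat.card {y // q y} = Nat.card (MulAction.orbit Q ω) :=
      Nat.card_congr (Equiv.subtypeEquivRight hqdef)
    have hωq : q ω := (hqdef ω).mpr (MulAction.mem_orbit_self ω)
    have ha1 : 1 ≤ Nat.card {y // q y} := by
      haveI : Nonempty {y // q y} := ⟨⟨ω, hωq⟩⟩
      exact Nat.card_pos
    have h1 : derivedSeries ↥r₁.range k = ⊥ := by
      apply ih (Nat.card {y // q y}) (by omega) {y // q y} rfl k r₁.range
        (hQ.of_surjective r₁.rangeRestrict r₁.rangeRestrict_surjective)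
      intro u
      calc Nat.card (MulAction.orbit r₁.range u) ≤ Nat.card {y // q y} :=
            Nat.card_le_card_of_injective
              (fun x : MulAction.orbit r₁.range u => (x : {y // q y})) Subtype.val_injective
        _ = Nat.card (MulAction.orbit Q ω) := hqcard
        _ < p ^ (k + 1) := horb ω
    have h2 : derivedSeries ↥r₂.range k = ⊥ := by
      apply ih (Nat.card {y // ¬ q y}) (by omega) {y // ¬ q y} rfl k r₂.range
        (hQ.of_surjective r₂.rangeRestrict r₂.rangeRestrict_surjective)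
      intro u
      refine lt_of_le_of_lt ?_ (horb (u : Ω))
      have hmem : ∀ x : MulAction.orbit r₂.range u,
          ((x : {y // ¬ q y}) : Ω) ∈ MulAction.orbit Q (u : Ω) := by
        rintro ⟨x, hx⟩
        obtain ⟨⟨σ, ⟨g, rfl⟩⟩, hσ⟩ := MulAction.mem_orbit_iff.mp hx
        refine MulAction.mem_orbit_iff.mpr ⟨g, ?_⟩
        have e := congrArg Subtype.val hσ
        rw [← e]
        show (g : Equiv.Perm Ω) (u : Ω) = ((r₂ g u : {y // ¬ q y}) : Ω)
        rw [hr₂]
      exact Nat.card_le_card_of_injective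
        (fun x : MulAction.orbit r₂.range u =>
          (⟨((x : {y // ¬ q y}) : Ω), hmem x⟩ : MulAction.orbit Q (u : Ω)))
        (by
          intro x y hxy
          apply Subtype.ext; apply Subtype.ext
          exact congrArg (fun z : MulAction.orbit Q (u : Ω) => (z : Ω)) hxy)
    rw [eq_bot_iff]
    intro x hx
    have e1 : r₁.rangeRestrict x ∈ derivedSeries ↥r₁.range k :=
      map_derivedSeries_le_derivedSeries r₁.rangeRestrict k (Subgroup.mem_map_of_mem _ hx)
    have e2 : r₂.rangeRestrict x ∈ derivedSeries ↥r₂.range k :=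
      map_derivedSeries_le_derivedSeries r₂.rangeRestrict k (Subgroup.mem_map_of_mem _ hx)
    rw [h1, Subgroup.mem_bot] at e1
    rw [h2, Subgroup.mem_bot] at e2
    have e1' : r₁ x = 1 := congrArg Subtype.val e1
    have e2' : r₂ x = 1 := congrArg Subtype.val e2
    rw [Subgroup.mem_bot]
    apply Subtype.ext; apply Equiv.ext; intro y
    by_cases hy : q y
    · have e := congrArg (fun σ : Equiv.Perm {y // q y} => ((σ ⟨y, hy⟩ : {y // q y}) : Ω)) e1'
      simp only [hr₁] at e
      exact e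
    · have e := congrArg (fun σ : Equiv.Perm {y // ¬ q y} => ((σ ⟨y, hy⟩ : {y // ¬ q y}) : Ω)) e2'
      simp only [hr₂] at e
      exact e
  intro k Q hQ horb
  by_cases htr : ∃ ω : Ω, Nat.card (MulAction.orbit Q ω) < N
  · obtain ⟨ω, hω⟩ := htr
    exact hintr k Q hQ horb ω hω
  rcases isEmpty_or_nonempty Ω with hE | ⟨⟨ω⟩⟩
  · rw [eq_bot_iff]; intro x _
    rw [Subgroup.mem_bot]
    apply Subtype.ext; apply Equiv.ext; intro y; exact isEmptyElim y
  have hNle : N ≤ Nat.card (MulAction.orbit Q ω) := by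
    by_contra hcon; exact htr ⟨ω, by omega⟩
  have horbN : Nat.card (MulAction.orbit Q ω) = N := by
    apply le_antisymm _ hNle
    rw [← hcard]
    exact Nat.card_le_card_of_injective (fun x : MulAction.orbit Q ω => (x : Ω))
      Subtype.val_injective
  have htrans : ∀ y : Ω, y ∈ MulAction.orbit Q ω := by
    have hbij : Function.Bijective (fun x : MulAction.orbit Q ω => (x : Ω)) :=
      Function.Injective.bijective_of_nat_card_le Subtype.val_injective (by rw [hcard, horbN])
    intro y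
    obtain ⟨x, hx⟩ := hbij.2 y
    rw [← hx]; exact x.2
  obtain ⟨j, hj⟩ := hQ.card_orbit ω
  rw [horbN] at hj
  have hjk : j ≤ k := by
    have h3 := horb ω
    rw [horbN, hj] at h3
    exact Nat.lt_succ_iff.mp ((Nat.pow_lt_pow_iff_right hp.one_lt).mp h3)
  rcases Nat.eq_zero_or_pos j with hj0 | hj0
  · rw [hj0, pow_zero] at hj
    rw [eq_bot_iff]; intro x _
    rw [Subgroup.mem_bot]
    apply Subtype.ext; apply Equiv.ext; intro y
    have hsub : Subsingleton Ω := (Nat.card_eq_one_iff_unique.mp (hcard.trans hj)).1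
    exact Subsingleton.elim _ _
  obtain ⟨St, hSt⟩ : ∃ St : Subgroup Q, St = MulAction.stabilizer Q ω := ⟨_, rfl⟩
  have hStidx : St.index = p ^ j := by
    rw [hSt, MulAction.index_stabilizer, ← Nat.card_coe_set_eq, horbN, hj]
  obtain ⟨e, he⟩ := IsPGroup.iff_card.mp hQ
  obtain ⟨s, hs⟩ := IsPGroup.iff_card.mp (hQ.to_subgroup St)
  have hes : e = s + j := by
    have h3 := Subgroup.card_mul_index St
    rw [hs, hStidx, he, ← pow_add] at h3
    exact (Nat.pow_right_injective hp.two_le h3).symm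
  obtain ⟨M₀, hM₀card, hStM⟩ := Sylow.exists_subgroup_card_pow_prime_le p (n := s) (m := e - 1)
    (by rw [he]; exact pow_dvd_pow p (by omega)) St hs (by omega)
  have hMidx : M₀.index = p := by
    have h3 := Subgroup.card_mul_index M₀
    rw [hM₀card, he] at h3
    have h2 : p ^ e = p ^ (e - 1) * p := by rw [← pow_succ]; congr 1; omega
    rw [h2] at h3
    exact Nat.eq_of_mul_eq_mul_left (pow_pos hp.pos _) h3
  haveI hMn : M₀.Normal := by
    apply Subgroup.normal_of_index_eq_minFac_card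
    rw [hMidx, he, hp.pow_minFac (by omega)]
  have hcomm : commutator Q ≤ M₀ := by
    have hcardq : Nat.card (Q ⧸ M₀) = p := by rw [← Subgroup.index_eq_card]; exact hMidx
    haveI : IsCyclic (Q ⧸ M₀) := isCyclic_of_prime_card hcardq
    letI : CommGroup (Q ⧸ M₀) := IsCyclic.commGroup
    have h3 := Abelianization.commutator_subset_ker (QuotientGroup.mk' M₀)
    rwa [QuotientGroup.ker_mk'] at h3
  obtain ⟨M', hM'⟩ : ∃ M' : Subgroup (Equiv.Perm Ω), M' = M₀.map Q.subtype := ⟨_, rfl⟩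
  have hM'p : IsPGroup p M' := by rw [hM']; exact hQ.to_le (Subgroup.map_subtype_le M₀)
  have hM'mem : ∀ σ : Equiv.Perm Ω, σ ∈ M' ↔ ∃ m : Q, m ∈ M₀ ∧ (m : Equiv.Perm Ω) = σ := by
    intro σ; rw [hM']; rfl
  have horbM : Nat.card (MulAction.orbit M' ω) = p ^ (j - 1) := by
    have e1 : St.subgroupOf M₀ = MulAction.stabilizer ↥M₀ ω := by
      ext x
      rw [Subgroup.mem_subgroupOf, hSt, MulAction.mem_stabilizer_iff,
        MulAction.mem_stabilizer_iff]
      rfl
    have e2 : MulAction.orbit ↥M₀ ω = MulAction.orbit M' ω := by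
      ext x
      constructor
      · rintro ⟨m, rfl⟩
        exact ⟨⟨(m : Q), (hM'mem _).mpr ⟨m, m.2, rfl⟩⟩, rfl⟩
      · rintro ⟨⟨σ, hσ⟩, rfl⟩
        obtain ⟨m, hm, rfl⟩ := (hM'mem σ).mp hσ
        exact ⟨⟨m, hm⟩, rfl⟩
    have h3 : St.relIndex M₀ * M₀.index = St.index := Subgroup.relIndex_mul_index hStM
    rw [hMidx, hStidx] at h3
    have h4 : St.relIndex M₀ = p ^ (j - 1) := by
      have h5 : p ^ j = p ^ (j - 1) * p := by rw [← pow_succ]; congr 1; omega
      rw [h5] at h3
      exact Nat.eq_of_mul_eq_mul_right hp.pos h3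
    rw [← e2, Nat.card_coe_set_eq, ← MulAction.index_stabilizer, ← e1]
    exact h4
  have horbM' : ∀ y : Ω, Nat.card (MulAction.orbit M' y) ≤ p ^ (j - 1) := by
    intro y
    obtain ⟨g, hg⟩ := MulAction.mem_orbit_iff.mp (htrans y)
    rw [← horbM]
    have hmem : ∀ x : MulAction.orbit M' y,
        (g⁻¹ : Q) • (x : Ω) ∈ MulAction.orbit M' ω := by
      rintro ⟨x, hx⟩
      obtain ⟨⟨σ, hσ⟩, hσx⟩ := MulAction.mem_orbit_iff.mp hx
      obtain ⟨m, hm, rfl⟩ := (hM'mem σ).mp hσ
      refine MulAction.mem_orbit_iff.mpr ⟨⟨((g⁻¹ * m * g : Q) : Equiv.Perm Ω),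
        (hM'mem _).mpr ⟨g⁻¹ * m * g, ?_, rfl⟩⟩, ?_⟩
      · have h3 := hMn.conj_mem m hm g⁻¹
        simpa using h3
      · show ((g⁻¹ * m * g : Q) : Equiv.Perm Ω) ω = (g⁻¹ : Q) • x
        rw [← hσx, ← hg]
        rfl
    exact Nat.card_le_card_of_injective
      (fun x : MulAction.orbit M' y =>
        (⟨(g⁻¹ : Q) • (x : Ω), hmem x⟩ : MulAction.orbit M' ω))
      (by
        intro x1 x2 h12
        apply Subtype.ext
        have h3 := congrArg (fun z : MulAction.orbit M' ω => (z : Ω)) h12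
        exact MulAction.injective (g⁻¹ : Q) h3)
  have hk1 : 1 ≤ k := by omega
  have hlast : derivedSeries ↥M' (k - 1) = ⊥ := by
    apply hintr (k - 1) M' hM'p _ ω
    · rw [horbM, hj]; exact Nat.pow_lt_pow_right hp.one_lt (by omega)
    · intro y
      calc Nat.card (MulAction.orbit M' y) ≤ p ^ (j - 1) := horbM' y
        _ < p ^ (k - 1 + 1) := Nat.pow_lt_pow_right hp.one_lt (by omega)
  have hfin := sd_step Q M₀ hcomm (k - 1) (by rw [← hM']; exact hlast)
  rwa [show k - 1 + 1 = k by omega] at hfin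

end Cfsg.Agent.Lib.Helper21
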