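import Mathlib

namespace Cfsg.Agent.Lib.Helper21

open scoped commutatorElement

/-- `σ` preserves the fibres of `ZMod p × Ω → ZMod p` and acts as `w` on the fibre over `0`. -/
def sdFP {p : ℕ} {Ω : Type} (σ : Equiv.Perm (ZMod p × Ω)) (w : Equiv.Perm Ω) : Prop :=
  (∀ i x, (σ (i, x)).1 = i) ∧ (∀ x, σ (0, x) = (0, w x))

lemma sdFP_one {p : ℕ} {Ω : Type} : sdFP (1 : Equiv.Perm (ZMod p × Ω)) (1 : Equiv.Perm Ω) :=
  ⟨fun _ _ => rfl, fun _ => rfl⟩

lemma sdFP_mul {p : ℕ} {Ω : Type} {σ σ' : Equiv.Perm (ZMod p × Ω)} {u v : Equiv.Perm Ω}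
    (h : sdFP σ u) (h' : sdFP σ' v) : sdFP (σ * σ') (u * v) := by
  constructor
  · intro i x
    have e1 : σ' (i, x) = (i, (σ' (i, x)).2) := Prod.ext (h'.1 i x) rfl
    show (σ (σ' (i, x))).1 = i
    rw [e1]; exact h.1 i _
  · intro x
    show σ (σ' (0, x)) = (0, u (v x))
    rw [h'.2 x, h.2 (v x)]

lemma sdFP_inv {p : ℕ} {Ω : Type} {σ : Equiv.Perm (ZMod p × Ω)} {u : Equiv.Perm Ω}
    (h : sdFP σ u) : sdFP σ⁻¹ u⁻¹ := by
  constructor
  · intro i x
    have e1 := h.1 (σ⁻¹ (i, x)).1 (σ⁻¹ (i, x)).2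
    have e2 : σ ((σ⁻¹ (i, x)).1, (σ⁻¹ (i, x)).2) = (i, x) := by simp
    rw [e2] at e1
    exact e1.symm
  · intro x
    rw [Equiv.Perm.inv_eq_iff_eq, h.2 (u⁻¹ x)]
    simp

lemma sdFP_comm {p : ℕ} {Ω : Type} {σ σ' : Equiv.Perm (ZMod p × Ω)} {u v : Equiv.Perm Ω}
    (h : sdFP σ u) (h' : sdFP σ' v) : sdFP ⁅σ, σ'⁆ ⁅u, v⁆ := by
  rw [commutatorElement_def, commutatorElement_def]
  exact sdFP_mul (sdFP_mul (sdFP_mul h h') (sdFP_inv h)) (sdFP_inv h')

/-- one wreath step: from a `p`-group on `Ω` build a `p`-group on `ZMod p × Ω` whose derived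
series is one step longer. -/
theorem sd_wreath_step (p : ℕ) [Fact p.Prime] (Ω : Type) [Finite Ω] [Nonempty Ω]
    (Q : Subgroup (Equiv.Perm Ω)) (hQ : IsPGroup p Q) :
    ∃ Q' : Subgroup (Equiv.Perm (ZMod p × Ω)), IsPGroup p Q' ∧ derivedSeries ↥Q' 0 ≠ ⊥ ∧
      ∀ j, derivedSeries ↥Q j ≠ ⊥ → derivedSeries ↥Q' (j + 1) ≠ ⊥ := by
  classical
  have hp : p.Prime := Fact.out
  haveI : NeZero p := ⟨hp.ne_zero⟩
  obtain ⟨τ, hτ⟩ : ∃ τ : Equiv.Perm (ZMod p × Ω), ∀ i x, τ (i, x) = (i + 1, x) :=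
    ⟨Equiv.prodCongr (Equiv.addRight (1 : ZMod p)) (Equiv.refl Ω), fun i x => rfl⟩
  have hτi : ∀ i x, τ⁻¹ (i, x) = (i - 1, x) := by
    intro i x
    rw [Equiv.Perm.inv_eq_iff_eq, hτ]
    simp
  obtain ⟨β, hβ⟩ : ∃ β : (ZMod p → Q) →* Equiv.Perm (ZMod p × Ω),
      ∀ f i x, β f (i, x) = (i, ((f i : Q) : Equiv.Perm Ω) x) :=
    ⟨{ toFun := fun f => Equiv.prodShear (Equiv.refl _) (fun i => ((f i : Q) : Equiv.Perm Ω))
       map_one' := Equiv.ext (fun ⟨i, x⟩ => rfl)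
       map_mul' := fun f g => Equiv.ext (fun ⟨i, x⟩ => rfl) }, fun f i x => rfl⟩
  have hβi : ∀ f i x, (β f)⁻¹ (i, x) = (i, ((f i : Q) : Equiv.Perm Ω)⁻¹ x) := by
    intro f i x
    rw [Equiv.Perm.inv_eq_iff_eq, hβ]
    simp
  have hconj1 : ∀ f, τ * β f * τ⁻¹ = β (fun i => f (i - 1)) := by
    intro f
    apply Equiv.ext
    rintro ⟨i, x⟩
    show τ (β f (τ⁻¹ (i, x))) = β (fun i => f (i - 1)) (i, x)
    rw [hτi, hβ, hτ, hβ]
    simp
  have hconj2 : ∀ f, τ⁻¹ * β f * τ = β (fun i => f (i + 1)) := by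
    intro f
    apply Equiv.ext
    rintro ⟨i, x⟩
    show τ⁻¹ (β f (τ (i, x))) = β (fun i => f (i + 1)) (i, x)
    rw [hτ, hβ, hτi, hβ]
    simp
  obtain ⟨e, he⟩ := IsPGroup.iff_card.mp hQ
  have hB : IsPGroup p β.range := by
    have hpi : IsPGroup p (ZMod p → Q) := by
      intro f
      refine ⟨e, ?_⟩
      funext i
      rw [Pi.pow_apply, ← he]
      exact pow_card_eq_one'
    exact hpi.of_surjective β.rangeRestrict β.rangeRestrict_surjective
  have hτpow : ∀ (m : ℕ) i x, (τ ^ m) (i, x) = (i + (m : ZMod p), x) := by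
    intro m
    induction m with
    | zero => intro i x; simp
    | succ m ihm =>
      intro i x
      rw [pow_succ]
      show (τ ^ m) (τ (i, x)) = _
      rw [hτ, ihm, Nat.cast_succ]
      congr 1
      ring
  have hτp : τ ^ p = 1 := by
    apply Equiv.ext
    rintro ⟨i, x⟩
    rw [hτpow]
    simp
  have hT : IsPGroup p (Subgroup.zpowers τ) := by
    have hdvd : orderOf τ ∣ p := orderOf_dvd_of_pow_eq_one hτp
    rcases (Nat.dvd_prime hp).mp hdvd with h1 | h1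
    · exact IsPGroup.of_card (n := 0) (by rw [Nat.card_zpowers, h1, pow_zero])
    · exact IsPGroup.of_card (n := 1) (by rw [Nat.card_zpowers, h1, pow_one])
  have hnorm : Subgroup.zpowers τ ≤ Subgroup.normalizer (β.range : Set (Equiv.Perm (ZMod p × Ω))) := by
    rw [Subgroup.zpowers_le, Subgroup.mem_normalizer_iff]
    intro h
    constructor
    · rintro ⟨f, rfl⟩
      exact ⟨_, (hconj1 f).symm⟩
    · rintro ⟨f, hf⟩
      refine ⟨fun i => f (i + 1), ?_⟩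
      rw [← hconj2, hf]
      group
  obtain ⟨Q', hQ'⟩ : ∃ Q' : Subgroup (Equiv.Perm (ZMod p × Ω)),
      Q' = Subgroup.zpowers τ ⊔ β.range := ⟨_, rfl⟩
  have hQ'p : IsPGroup p Q' := by
    rw [hQ']; exact IsPGroup.to_sup_of_normal_right' hT hB hnorm
  have hτQ : τ ∈ Q' := by
    rw [hQ']; exact le_sup_left (a := Subgroup.zpowers τ) (Subgroup.mem_zpowers τ)
  have hβQ : ∀ f, β f ∈ Q' := by
    intro f; rw [hQ']; exact le_sup_right (b := β.range) ⟨f, rfl⟩
  have h01 : (1 : ZMod p) ≠ 0 := by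
    haveI : Fact (1 < p) := ⟨hp.one_lt⟩
    exact one_ne_zero
  refine ⟨Q', hQ'p, ?_, ?_⟩
  · intro hbot
    obtain ⟨x₀⟩ := (inferInstance : Nonempty Ω)
    have h1 : (⟨τ, hτQ⟩ : Q') ∈ derivedSeries ↥Q' 0 := by
      rw [derivedSeries_zero]; exact Subgroup.mem_top _
    rw [hbot, Subgroup.mem_bot] at h1
    have h2 : τ = 1 := congrArg Subtype.val h1
    have h3 := hτ 0 x₀
    rw [h2] at h3
    have h4 : (0 : ZMod p) = 0 + 1 := congrArg Prod.fst h3
    rw [zero_add] at h4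
    exact h01 h4.symm
  · have key : ∀ j, ∀ w : Q, w ∈ derivedSeries ↥Q j →
        ∃ σ : Q', σ ∈ derivedSeries ↥Q' (j + 1) ∧ sdFP (σ : Equiv.Perm (ZMod p × Ω))
          (w : Equiv.Perm Ω) := by
      intro j
      induction j with
      | zero =>
        intro w _
        refine ⟨⁅(⟨β (Pi.mulSingle 0 w), hβQ _⟩ : Q'), (⟨τ, hτQ⟩ : Q')⁆, ?_, ?_⟩
        · rw [derivedSeries_one]
          exact Subgroup.commutator_mem_commutator (Subgroup.mem_top _) (Subgroup.mem_top _)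
        · show sdFP (β (Pi.mulSingle 0 w) * τ * (β (Pi.mulSingle 0 w))⁻¹ * τ⁻¹) (w : Equiv.Perm Ω)
          constructor
          · intro i x
            show (β (Pi.mulSingle 0 w) (τ ((β (Pi.mulSingle 0 w))⁻¹ (τ⁻¹ (i, x))))).1 = i
            rw [hτi, hβi, hτ, hβ]
            simp
          · intro x
            show β (Pi.mulSingle 0 w) (τ ((β (Pi.mulSingle 0 w))⁻¹ (τ⁻¹ (0, x)))) = (0, _)
            rw [hτi, hβi, hτ, hβ]
            simp
      | succ j ihj =>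
        intro w hw
        have hw' : w ∈ ⁅derivedSeries ↥Q j, derivedSeries ↥Q j⁆ := hw
        rw [Subgroup.commutator_def] at hw'
        refine Subgroup.closure_induction
          (p := fun (w : Q) _ => ∃ σ : Q', σ ∈ derivedSeries ↥Q' (j + 1 + 1) ∧
            sdFP (σ : Equiv.Perm (ZMod p × Ω)) (w : Equiv.Perm Ω)) ?_ ?_ ?_ ?_ hw'
        · intro w hw
          obtain ⟨u, hu, v, hv, rfl⟩ := hw
          obtain ⟨σu, hσu, hFu⟩ := ihj u hu
          obtain ⟨σv, hσv, hFv⟩ := ihj v hv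
          refine ⟨⁅σu, σv⁆, ?_, ?_⟩
          · exact Subgroup.commutator_mem_commutator hσu hσv
          · exact sdFP_comm hFu hFv
        · exact ⟨1, Subgroup.one_mem _, sdFP_one⟩
        · intro a b _ _ iha ihb
          obtain ⟨σa, hσa, hFa⟩ := iha
          obtain ⟨σb, hσb, hFb⟩ := ihb
          exact ⟨σa * σb, Subgroup.mul_mem _ hσa hσb, sdFP_mul hFa hFb⟩
        · intro a _ iha
          obtain ⟨σa, hσa, hFa⟩ := iha
          exact ⟨σa⁻¹, Subgroup.inv_mem _ hσa, sdFP_inv hFa⟩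
    intro j hj hbot
    obtain ⟨⟨w, hw⟩, hw1⟩ := (Subgroup.ne_bot_iff_exists_ne_one).mp hj
    obtain ⟨σ, hσ, hF⟩ := key j w hw
    rw [hbot, Subgroup.mem_bot] at hσ
    apply hw1
    apply Subtype.ext
    apply Subtype.ext
    apply Equiv.ext
    intro x
    have h6 := hF.2 x
    rw [hσ] at h6
    have h7 : x = (w : Equiv.Perm Ω) x := congrArg Prod.snd h6
    exact h7.symm

/-- iterated wreath products: a `p`-group of degree `p ^ k` and derived length at least `k`. -/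
theorem sd_exists (p : ℕ) [Fact p.Prime] : ∀ k : ℕ, ∃ (Ω : Type) (_ : Fintype Ω)
    (Q : Subgroup (Equiv.Perm Ω)), Fintype.card Ω = p ^ k ∧ IsPGroup p Q ∧
      ∀ j, j < k → derivedSeries ↥Q j ≠ ⊥ := by
  have hp : p.Prime := Fact.out
  haveI : NeZero p := ⟨hp.ne_zero⟩
  intro k
  induction k with
  | zero =>
    exact ⟨Unit, inferInstance, ⊥, by simp, IsPGroup.of_bot, fun j hj => absurd hj (Nat.not_lt_zero j)⟩
  | succ k ih =>
    obtain ⟨Ω, hΩ, Q, hcard, hQ, hder⟩ := ih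
    haveI : Nonempty Ω := by
      rw [← Fintype.card_pos_iff, hcard]; exact pow_pos hp.pos k
    obtain ⟨Q', hQ'p, h0, hstep⟩ := sd_wreath_step p Ω Q hQ
    refine ⟨ZMod p × Ω, inferInstance, Q', ?_, hQ'p, ?_⟩
    · rw [Fintype.card_prod, ZMod.card, hcard, pow_succ, mul_comm]
    · intro j hj
      rcases Nat.eq_zero_or_pos j with hj0 | hj0
      · rw [hj0]; exact h0
      · obtain ⟨j', rfl⟩ : ∃ j', j = j' + 1 := ⟨j - 1, by omega⟩
        exact hstep j' (hder j' (by omega))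

/-- lower bound for the derived length of a Sylow `p`-subgroup of the symmetric group. -/
theorem sd_lower (p : ℕ) [Fact p.Prime] (n k : ℕ) (hk : p ^ k ≤ n)
    (P : Sylow p (Equiv.Perm (Fin n))) (j : ℕ) (hj : j < k) :
    derivedSeries ↥(P : Subgroup (Equiv.Perm (Fin n))) j ≠ ⊥ := by
  classical
  obtain ⟨Ω, hΩ, Q, hcard, hQ, hder⟩ := sd_exists p k
  have hle : Fintype.card Ω ≤ Fintype.card (Fin n) := by
    rw [hcard, Fintype.card_fin]; exact hk
  obtain ⟨ι⟩ := Function.Embedding.nonempty_of_card_le hle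
  obtain ⟨φ, hφ⟩ : ∃ φ : Equiv.Perm Ω →* Equiv.Perm (Fin n), Function.Injective φ :=
    ⟨Equiv.Perm.extendDomainHom ι.toEquivRange, Equiv.Perm.extendDomainHom_injective _⟩
  have tr : ∀ {A B : Type} [Group A] [Group B] (f : A →* B), Function.Injective f →
      derivedSeries A j ≠ ⊥ → derivedSeries B j ≠ ⊥ := by
    intro A B _ _ f hf hA hB
    apply hA
    have h1 := map_derivedSeries_le_derivedSeries f j
    rw [hB, le_bot_iff, Subgroup.map_eq_bot_iff_of_injective _ hf] at h1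
    exact h1
  have h1 : derivedSeries ↥(Q.map φ) j ≠ ⊥ :=
    tr ((Q.equivMapOfInjective φ hφ).toMonoidHom) (MulEquiv.injective _) (hder j hj)
  obtain ⟨P₁, hP₁⟩ := (hQ.map φ).exists_le_sylow
  have h2 : derivedSeries ↥(P₁ : Subgroup (Equiv.Perm (Fin n))) j ≠ ⊥ :=
    tr (Subgroup.inclusion hP₁) (Subgroup.inclusion_injective hP₁) h1
  obtain ⟨g, hg⟩ := MulAction.exists_smul_eq (Equiv.Perm (Fin n)) P₁ P
  have h3 := tr ((Sylow.equivSMul P₁ g).toMonoidHom) (MulEquiv.injective _) h2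
  subst hg
  exact h3

end Cfsg.Agent.Lib.Helper21
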