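import Mathlib
import Cfsg.Agent.S3745
import Cfsg.Agent.Lib.Helper21.ThreePrimes
import Cfsg.Agent.Lib.Helper21.CoprimeHall
import Cfsg.Agent.Lib.Helper1.SZ

/-! A solvable group has no three primes that are pairwise non-adjacent in the prime graph. -/

set_option autoImplicit false

namespace Cfsg.Agent.Lib.Helper21

universe u

variable {G : Type u} [Group G]

/-- A Hall subgroup for the primes in `ρ` of the solvable subgroup `S`, together with a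
nontrivial normal `p₁`-subgroup of it, `p₁ ∈ ρ`. -/
theorem hall_step [Finite G] (S : Subgroup G) [Group.IsSolvable S] (ρ : Finset ℕ)
    (hρ : ∀ a ∈ ρ, a.Prime ∧ a ∣ Nat.card S) (hne : ρ.Nonempty) :
    ∃ H : Subgroup G, H ≤ S ∧ (∀ a ∈ ρ, a ∣ Nat.card H) ∧ ∃ p₁ ∈ ρ, ∃ N₁ : Subgroup G,
      N₁ ≤ H ∧ IsPGroup p₁ N₁ ∧ N₁ ≠ ⊥ ∧ H ≤ Subgroup.normalizer (N₁ : Set G) := by
  obtain ⟨m, n, hmn, hm, hn⟩ :=
    Cfsg.Agent.S3745.exists_pi_decomp (↑ρ : Set ℕ) (Nat.card S) Nat.card_pos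
  have hcop : m.Coprime n := Nat.coprime_of_dvd (fun p hp h1 h2 => hn p hp (hm p hp h1) h2)
  obtain ⟨H, hHS, hHc⟩ := exists_hall_sub S m n hmn hcop
  have hdiv : ∀ a ∈ ρ, a ∣ Nat.card H := by
    intro a ha
    obtain ⟨hap, had⟩ := hρ a ha
    rw [hmn] at had
    rw [hHc]
    rcases (Nat.Prime.dvd_mul hap).mp had with h | h
    · exact h
    · exact absurd h (hn a hap (Finset.mem_coe.mpr ha))
  haveI : Group.IsSolvable H := Helper1.isSolvable_of_le hHS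
  haveI : Nontrivial H := by
    obtain ⟨a, ha⟩ := hne
    have h1 := hdiv a ha
    have h2 := (hρ a ha).1.two_le
    have h3 : 0 < Nat.card H := Nat.card_pos
    have h4 : a ≤ Nat.card H := Nat.le_of_dvd h3 h1
    exact Finite.one_lt_card_iff_nontrivial.mp (by omega)
  obtain ⟨p₁, hp₁, N', hN'n, hN'ne, hN'p⟩ := Helper1.exists_normal_pgroup H
  haveI : Fact p₁.Prime := ⟨hp₁⟩
  have hp₁ρ : p₁ ∈ ρ := by
    obtain ⟨k, hk⟩ := IsPGroup.iff_card.mp hN'p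
    have hk0 : k ≠ 0 := by
      rintro rfl
      rw [pow_zero] at hk
      exact hN'ne (Subgroup.card_eq_one.mp hk)
    have h1 : p₁ ∣ Nat.card N' := by rw [hk]; exact dvd_pow_self p₁ hk0
    have h2 : p₁ ∣ m := by rw [← hHc]; exact h1.trans (Subgroup.card_subgroup_dvd_card N')
    exact Finset.mem_coe.mp (hm p₁ hp₁ h2)
  refine ⟨H, hHS, hdiv, p₁, hp₁ρ, N'.map H.subtype, Subgroup.map_subtype_le N', hN'p.map _, ?_, ?_⟩
  · rw [Ne, Subgroup.map_eq_bot_iff_of_injective _ H.subtype_injective]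
    exact hN'ne
  · have h1 := Subgroup.le_normalizer_map (H := N') H.subtype
    rw [Subgroup.normalizer_eq_top, ← MonoidHom.range_eq_map, Subgroup.range_subtype] at h1
    exact h1

/-- A solvable subgroup whose order is divisible by three primes of `ρ` contains commuting
elements witnessing an edge of the prime graph between two of the primes of `ρ`. -/
theorem solvable_three_primes [Finite G] (S : Subgroup G) [Group.IsSolvable S] (ρ : Finset ℕ)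
    (hρ : ∀ a ∈ ρ, a.Prime ∧ a ∣ Nat.card S) (h3 : 3 ≤ ρ.card) :
    ∃ a ∈ ρ, ∃ b ∈ ρ, a ≠ b ∧ ∃ x : G, orderOf x = a * b := by
  classical
  have hne : ρ.Nonempty := Finset.card_pos.mp (by omega)
  obtain ⟨H₁, hH₁S, hdiv₁, p₁, hp₁, N₁, hN₁H, hN₁p, hN₁ne, hH₁N⟩ := hall_step S ρ hρ hne
  haveI : Group.IsSolvable H₁ := Helper1.isSolvable_of_le hH₁S
  have hc2 : 2 ≤ (ρ.erase p₁).card := by rw [Finset.card_erase_of_mem hp₁]; omega
  have hne₂ : (ρ.erase p₁).Nonempty := Finset.card_pos.mp (by omega)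
  obtain ⟨H₂, hH₂H, hdiv₂, q₂, hq₂, N₂, hN₂H, hN₂q, hN₂ne, hH₂N⟩ := hall_step H₁ (ρ.erase p₁)
    (fun a ha => ⟨(hρ a (Finset.mem_of_mem_erase ha)).1, hdiv₁ a (Finset.mem_of_mem_erase ha)⟩)
    hne₂
  have hne₃ : ((ρ.erase p₁).erase q₂).Nonempty := by
    apply Finset.card_pos.mp
    rw [Finset.card_erase_of_mem hq₂]; omega
  obtain ⟨r₂, hr₂⟩ := hne₃
  have hr₂' : r₂ ∈ ρ.erase p₁ := Finset.mem_of_mem_erase hr₂
  have hq₂ρ : q₂ ∈ ρ := Finset.mem_of_mem_erase hq₂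
  have hr₂ρ : r₂ ∈ ρ := Finset.mem_of_mem_erase hr₂'
  have hq₂p₁ : q₂ ≠ p₁ := Finset.ne_of_mem_erase hq₂
  have hr₂p₁ : r₂ ≠ p₁ := Finset.ne_of_mem_erase hr₂'
  have hr₂q₂ : r₂ ≠ q₂ := Finset.ne_of_mem_erase hr₂
  haveI : Fact p₁.Prime := ⟨(hρ p₁ hp₁).1⟩
  haveI : Fact q₂.Prime := ⟨(hρ q₂ hq₂ρ).1⟩
  haveI : Fact r₂.Prime := ⟨(hρ r₂ hr₂ρ).1⟩
  obtain ⟨x, hx⟩ := exists_prime_orderOf_dvd_card' r₂ (hdiv₂ r₂ hr₂')
  have hzo : orderOf (x : G) = r₂ := by rw [Subgroup.orderOf_coe]; exact hx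
  rcases three_primes_config p₁ q₂ r₂ hq₂p₁.symm hr₂p₁.symm hr₂q₂.symm N₁ N₂ hN₁p hN₁ne hN₂q
    hN₂ne ((hN₂H.trans hH₂H).trans hH₁N) (x : G) hzo (hH₁N (hH₂H x.2)) (hH₂N x.2) with h | h | h
  · exact ⟨p₁, hp₁, q₂, hq₂ρ, hq₂p₁.symm, h⟩
  · exact ⟨p₁, hp₁, r₂, hr₂ρ, hr₂p₁.symm, h⟩
  · exact ⟨q₂, hq₂ρ, r₂, hr₂ρ, hr₂q₂.symm, h⟩

end Cfsg.Agent.Lib.Helper21
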