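import Mathlib

/-!
# Lemmas for two-generated `p`-groups, central `p`-elements of perfect groups, and a trace argument

* `exists_zpowers_sup_eq_top`: in a finite group whose Frattini quotient has order `p ^ 2`, a subgroup
  not inside the Frattini subgroup has a cyclic supplement.
* `comm_of_two_normal`: two normal subgroups with trivial intersection, neither inside the Frattini
  subgroup, force the group to be commutative.
* `central_pelement_eq_one`: a central `p`-element of a perfect finite group lying in an abelian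
  subgroup of index prime to `p` is trivial (transfer).
* `exists_central_of_trace`: averaging over the cosets of a subgroup of index prime to `p`.
-/

set_option autoImplicit false
set_option linter.style.haveILetI false

namespace Cfsg.Agent.Lib.Helper21

theorem exists_zpowers_sup_eq_top {Q : Type*} [Group Q] [Finite Q] {p : ℕ} [Fact p.Prime]
    (hidx : (frattini Q).index = p ^ 2) (D : Subgroup Q) (hD : ¬ D ≤ frattini Q) :
    ∃ u : Q, D ⊔ Subgroup.zpowers u = ⊤ := by
  have hp : p.Prime := Fact.out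
  by_cases htop : D ⊔ frattini Q = ⊤
  · refine ⟨1, ?_⟩
    rw [Subgroup.zpowers_one_eq_bot, sup_bot_eq]
    exact frattini_nongenerating htop
  · have h1 := Subgroup.relIndex_mul_index (le_sup_right : frattini Q ≤ D ⊔ frattini Q)
    rw [hidx] at h1
    have hdvd : (D ⊔ frattini Q).index ∣ p ^ 2 := Dvd.intro_left _ h1
    obtain ⟨k, hk, hk'⟩ := (Nat.dvd_prime_pow hp).mp hdvd
    have hk0 : k ≠ 0 := by
      rintro rfl
      rw [pow_zero] at hk'
      exact htop (Subgroup.index_eq_one.mp hk')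
    have hk2 : k ≠ 2 := by
      rintro rfl
      rw [hk'] at h1
      have h2 : (frattini Q).relIndex (D ⊔ frattini Q) = 1 := by
        have hpos : 0 < p ^ 2 := pow_pos hp.pos 2
        exact Nat.eq_of_mul_eq_mul_right hpos (by rw [h1, one_mul])
      exact hD (le_sup_left.trans (Subgroup.relIndex_eq_one.mp h2))
    have hk1 : k = 1 := by omega
    subst hk1
    rw [pow_one] at hk'
    obtain ⟨u, hu⟩ : ∃ u, u ∉ D ⊔ frattini Q := by
      by_contra hall
      push Not at hall
      exact htop (eq_top_iff.mpr fun x _ => hall x)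
    refine ⟨u, ?_⟩
    apply frattini_nongenerating
    have h3 : D ⊔ frattini Q ≤ D ⊔ Subgroup.zpowers u ⊔ frattini Q :=
      sup_le (le_sup_left.trans le_sup_left) le_sup_right
    have h4 := Subgroup.relIndex_mul_index h3
    rw [hk'] at h4
    have hdvd2 : (D ⊔ Subgroup.zpowers u ⊔ frattini Q).index ∣ p := Dvd.intro_left _ h4
    rcases (Nat.dvd_prime hp).mp hdvd2 with h5 | h5
    · exact Subgroup.index_eq_one.mp h5
    · exfalso
      rw [h5] at h4
      have h6 : (D ⊔ frattini Q).relIndex (D ⊔ Subgroup.zpowers u ⊔ frattini Q) = 1 :=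
        Nat.eq_of_mul_eq_mul_right hp.pos (by rw [h4, one_mul])
      apply hu
      apply Subgroup.relIndex_eq_one.mp h6
      exact Subgroup.mem_sup_left (Subgroup.mem_sup_right (Subgroup.mem_zpowers u))

/-- a normal subgroup with a cyclic supplement contains all commutators -/
theorem commutator_mem_of_sup_zpowers {Q : Type*} [Group Q] (D : Subgroup Q) [D.Normal] (u : Q)
    (h : D ⊔ Subgroup.zpowers u = ⊤) (a b : Q) : a * b * a⁻¹ * b⁻¹ ∈ D := by
  have key : ∀ x : Q, ∃ k : ℤ, (QuotientGroup.mk' D) x = (QuotientGroup.mk' D) u ^ k := by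
    intro x
    have hx : x ∈ ((D ⊔ Subgroup.zpowers u : Subgroup Q) : Set Q) := by
      rw [h]; exact Subgroup.mem_top x
    rw [Subgroup.normal_mul] at hx
    obtain ⟨d, hd, w, hw, rfl⟩ := Set.mem_mul.mp hx
    obtain ⟨k, rfl⟩ := Subgroup.mem_zpowers_iff.mp hw
    refine ⟨k, ?_⟩
    have hd1 : (QuotientGroup.mk' D) d = 1 := (QuotientGroup.eq_one_iff d).mpr hd
    rw [map_mul, map_zpow, hd1, one_mul]
  obtain ⟨i, hi⟩ := key a
  obtain ⟨j, hj⟩ := key b
  rw [← QuotientGroup.eq_one_iff]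
  have e : ((a * b * a⁻¹ * b⁻¹ : Q) : Q ⧸ D) =
      (QuotientGroup.mk' D) a * (QuotientGroup.mk' D) b * ((QuotientGroup.mk' D) a)⁻¹ *
        ((QuotientGroup.mk' D) b)⁻¹ := rfl
  rw [e, hi, hj, ← zpow_add, ← zpow_neg, ← zpow_add, ← zpow_neg, ← zpow_add]
  have : i + j + -i + -j = 0 := by ring
  rw [this, zpow_zero]

theorem comm_of_two_normal {Q : Type*} [Group Q] [Finite Q] {p : ℕ} [Fact p.Prime]
    (hidx : (frattini Q).index = p ^ 2) (D₁ D₂ : Subgroup Q) [D₁.Normal] [D₂.Normal]
    (h1 : ¬ D₁ ≤ frattini Q) (h2 : ¬ D₂ ≤ frattini Q) (hinf : D₁ ⊓ D₂ = ⊥) :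
    ∀ a b : Q, a * b = b * a := by
  obtain ⟨u₁, hu₁⟩ := exists_zpowers_sup_eq_top hidx D₁ h1
  obtain ⟨u₂, hu₂⟩ := exists_zpowers_sup_eq_top hidx D₂ h2
  intro a b
  have hmem : a * b * a⁻¹ * b⁻¹ ∈ D₁ ⊓ D₂ :=
    ⟨commutator_mem_of_sup_zpowers D₁ u₁ hu₁ a b, commutator_mem_of_sup_zpowers D₂ u₂ hu₂ a b⟩
  rw [hinf, Subgroup.mem_bot] at hmem
  have := congrArg (fun t => t * b * a) hmem
  simpa [mul_assoc] using this

open scoped IsMulCommutative in
/-- **Transfer.** A central `p`-element of a perfect finite group that lies in an abelian subgroup of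
index prime to `p` is trivial. -/
theorem central_pelement_eq_one {E : Type*} [Group E] [Finite E] {p : ℕ} [Fact p.Prime]
    (hperf : commutator E = ⊤) (S : Subgroup E) [IsMulCommutative S]
    (hS : ¬ p ∣ S.index) (z : E) (hzc : z ∈ Subgroup.center E)
    (k : ℕ) (hzk : z ^ p ^ k = 1) : z = 1 := by
  have hp : p.Prime := Fact.out
  have key : ∀ (k : ℕ) (g₀ : E), g₀⁻¹ * z ^ k * g₀ ∈ S → g₀⁻¹ * z ^ k * g₀ = z ^ k := by
    intro k g₀ _
    have := Subgroup.mem_center_iff.mp (Subgroup.pow_mem _ hzc k) g₀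
    rw [mul_assoc, ← this, inv_mul_cancel_left]
  have h1 := MonoidHom.transfer_eq_pow (MonoidHom.id S) z key
  have h2 : MonoidHom.transfer (MonoidHom.id S) z = 1 := by
    have : z ∈ (MonoidHom.transfer (MonoidHom.id S)).ker :=
      Abelianization.commutator_subset_ker _ (hperf ▸ Subgroup.mem_top z)
    exact this
  rw [h2] at h1
  have h3 : z ^ S.index = 1 := (congrArg Subtype.val h1).symm
  have hcop : Nat.Coprime S.index (p ^ k) :=
    Nat.Coprime.pow_right k ((Nat.Prime.coprime_iff_not_dvd hp).mpr hS).symm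
  have h4 : orderOf z ∣ Nat.gcd S.index (p ^ k) :=
    Nat.dvd_gcd (orderOf_dvd_of_pow_eq_one h3) (orderOf_dvd_of_pow_eq_one hzk)
  rw [Nat.Coprime.gcd_eq_one hcop] at h4
  exact orderOf_eq_one_iff.mp (Nat.dvd_one.mp h4)

open scoped IsMulCommutative in
/-- **Trace.** `F` an abelian normal subgroup, `N ≤ F`... : if `z ∈ F ∖ N` is a `p`-element fixed by a
subgroup `Q` of index prime to `p` and every conjugate of `z` is congruent to `z` modulo the normal
subgroup `N`, then `F` contains a nontrivial central element. -/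
theorem exists_central_of_trace {Γ : Type*} [Group Γ] [Finite Γ] {p : ℕ} [Fact p.Prime]
    (Q F N : Subgroup Γ) [hFn : F.Normal] [N.Normal] (hQ : ¬ p ∣ Q.index)
    (hF : ∀ a ∈ F, ∀ b ∈ F, a * b = b * a)
    (z : Γ) (hzF : z ∈ F) (hzN : z ∉ N) (hzQ : ∀ h ∈ Q, h * z * h⁻¹ = z)
    (hzΓ : ∀ g : Γ, g * z * g⁻¹ * z⁻¹ ∈ N) (k : ℕ) (hzk : z ^ p ^ k = 1) :
    ∃ t ∈ F, t ≠ 1 ∧ ∀ g : Γ, g * t * g⁻¹ = t := by
  classical
  have hp : p.Prime := Fact.out
  haveI : IsMulCommutative ↥F := ⟨⟨fun a b => Subtype.ext (hF a a.2 b b.2)⟩⟩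
  letI : Fintype (Γ ⧸ Q) := Fintype.ofFinite _
  let f : Γ ⧸ Q → ↥F := Quotient.lift
    (fun g : Γ => (⟨g * z * g⁻¹, hFn.conj_mem z hzF g⟩ : ↥F))
    (by
      intro a b hab
      have hab' : a⁻¹ * b ∈ Q := QuotientGroup.leftRel_apply.mp hab
      apply Subtype.ext
      show a * z * a⁻¹ = b * z * b⁻¹
      have h1 := hzQ _ hab'
      have e : b * z * b⁻¹ = a * ((a⁻¹ * b) * z * (a⁻¹ * b)⁻¹) * a⁻¹ := by group
      rw [e, h1])
  refine ⟨((∏ q : Γ ⧸ Q, f q : ↥F) : Γ), (∏ q : Γ ⧸ Q, f q : ↥F).2, ?_, ?_⟩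
  · intro h1
    have h2 : (∏ q : Γ ⧸ Q, f q : ↥F) = 1 := Subtype.ext h1
    have h3 : (∏ q : Γ ⧸ Q, (f q * (⟨z, hzF⟩ : ↥F)⁻¹)) ∈ N.subgroupOf F := by
      apply Subgroup.prod_mem
      intro q _
      induction q using QuotientGroup.induction_on with
      | H g =>
        rw [Subgroup.mem_subgroupOf]
        exact hzΓ g
    rw [Finset.prod_mul_distrib, h2, one_mul, Finset.prod_const, Finset.card_univ,
      Subgroup.mem_subgroupOf] at h3
    have h4 : z ^ Q.index ∈ N := by
      have h5 : (z⁻¹) ^ Fintype.card (Γ ⧸ Q) ∈ N := h3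
      rw [Subgroup.index_eq_card, Nat.card_eq_fintype_card]
      rw [inv_pow] at h5
      exact (Subgroup.inv_mem_iff N).mp h5
    have hcop : Nat.Coprime Q.index (orderOf z) := by
      have h6 : orderOf z ∣ p ^ k := orderOf_dvd_of_pow_eq_one hzk
      exact Nat.Coprime.coprime_dvd_right h6
        (Nat.Coprime.pow_right k ((Nat.Prime.coprime_iff_not_dvd hp).mpr hQ).symm)
    obtain ⟨m, hm⟩ := exists_pow_eq_self_of_coprime hcop
    apply hzN
    rw [← hm]
    exact Subgroup.pow_mem N h4 m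
  · intro g
    have h1 : (MulAut.conjNormal g : MulAut ↥F) (∏ q : Γ ⧸ Q, f q) = ∏ q : Γ ⧸ Q, f q := by
      rw [map_prod]
      have h2 : ∀ q : Γ ⧸ Q, (MulAut.conjNormal g : MulAut ↥F) (f q) = f (g • q) := by
        intro q
        induction q using QuotientGroup.induction_on with
        | H a =>
          apply Subtype.ext
          show g * (a * z * a⁻¹) * g⁻¹ = (g * a) * z * (g * a)⁻¹
          group
      simp_rw [h2]
      exact Equiv.prod_comp (MulAction.toPerm g) f
    exact congrArg Subtype.val h1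

end Cfsg.Agent.Lib.Helper21
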